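import Cfsg.Agent.H2.G24Tab
import Cfsg.Agent.H2.Zorn
import Cfsg.Agent.H6.PrimeGraph

set_option autoImplicit false

namespace Cfsg.Agent.H2

open Matrix Cfsg.Lie

section transfer
variable {F F' : Type*} [Field F] [Field F']

theorem xMat_map (D : ChevalleyDatum) (f : F →+* F') (r : Fin D.nroots) (t : F) :
    (D.xMat F r t).map f = D.xMat F' r (f t) := by
  ext i j
  rcases i with i | i <;> rcases j with j | j <;>
    simp only [ChevalleyDatum.xMat, Matrix.map_apply, Matrix.of_apply] <;>
    (try split_ifs) <;>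
    simp [map_list_sum, List.map_map, Function.comp_def]

/-- Chevalley groups over isomorphic fields are isomorphic. -/
theorem chevGroup_congr (D : ChevalleyDatum) (e : F ≃+* F') :
    Nonempty (D.group F ≃* D.group F') := by
  let φ : GL D.Idx F →* GL D.Idx F' := Matrix.GeneralLinearGroup.map (e : F →+* F')
  have hφ : Function.Injective φ := by
    intro a b h
    ext i j
    exact e.injective (congrArg (fun g : GL D.Idx F' => g.1 i j) h)
  have h : (D.group F).map φ = D.group F' := by
    rw [ChevalleyDatum.group, MonoidHom.map_closure, ChevalleyDatum.group]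
    congr 1
    ext g
    constructor
    · rintro ⟨g, ⟨r, t, hg⟩, rfl⟩
      refine ⟨r, e t, ?_⟩
      change g.1.map (e : F →+* F') = _
      rw [hg, xMat_map]; rfl
    · rintro ⟨r, t, hg⟩
      refine ⟨Matrix.GeneralLinearGroup.map (e.symm : F' →+* F) g, ⟨r, e.symm t, ?_⟩, ?_⟩
      · change g.1.map (e.symm : F' →+* F) = _
        rw [hg, xMat_map]; rfl
      · ext i j
        exact e.apply_symm_apply _
  exact ⟨((D.group F).equivMapOfInjective φ hφ).trans (MulEquiv.subgroupCongr h)⟩

end transfer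

namespace G24

open Zorn

theorem h2 : (2 : GF4) = 0 := by decide +kernel

theorem rho_add (v w : I14 → GF4) : rho (v + w) = rho v + rho w := by
  ext i j; fin_cases i <;> fin_cases j <;> simp [rho] <;> ring

theorem rho_smul (c : GF4) (v : I14 → GF4) : rho (c • v) = c • rho v := by
  ext i j; fin_cases i <;> fin_cases j <;> simp [rho] <;> ring

/-- `rho` as a linear map -/
def rhoL : (I14 → GF4) →ₗ[GF4] Matrix (Fin 8) (Fin 8) GF4 where
  toFun := rho
  map_add' := rho_add
  map_smul' := rho_smul

theorem rho_inj : Function.Injective rho := by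
  intro v w hvw
  have f := fun i j => congrFun (congrFun hvw i) j
  have a0 := f 3 3; have a1 := f 1 1; have b0 := f 3 2; have b1 := f 3 1; have b2 := f 3 0
  have b3 := f 5 0; have b4 := f 4 0; have b5 := f 1 2; have b6 := f 2 1; have b7 := f 1 0
  have b8 := f 2 0; have b9 := f 6 0; have b10 := f 1 3; have b11 := f 2 3
  ext i
  rcases i with i | i <;> fin_cases i
  exacts [a0, a1, b0, b1, b2, b3, b4, b5, b6, b7, b8, b9, b10, b11]

theorem rel' (r : Fin chevG2.nroots) (t : GF4) (v : I14 → GF4) :
    Y r t * rho v = rho (X r t *ᵥ v) * Y r t := by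
  have : (LinearMap.mulLeft GF4 (Y r t)) ∘ₗ rhoL =
      (LinearMap.mulRight GF4 (Y r t)) ∘ₗ rhoL ∘ₗ (X r t).mulVecLin := by
    apply (Pi.basisFun GF4 I14).ext
    intro j
    simp only [Pi.basisFun_apply, LinearMap.comp_apply, LinearMap.mulLeft_apply,
      LinearMap.mulRight_apply, Matrix.mulVecLin_apply, Matrix.mulVec_single_one]
    exact rel r t j
  exact LinearMap.congr_fun this v

theorem Y_sq : ∀ r t, Y r t * Y r t = 1 := by decide +kernel

theorem Y_mul : ∀ r t i j, Y r t *ᵥ zornMul (Pi.single i 1) (Pi.single j 1) =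
    zornMul (fun k => Y r t k i) (fun k => Y r t k j) := by decide +kernel

theorem Y_mul' (r : Fin chevG2.nroots) (t : GF4) (x y : Fin 8 → GF4) :
    Y r t *ᵥ zornMul x y = zornMul (Y r t *ᵥ x) (Y r t *ᵥ y) := by
  have : (zm (F := GF4)).compr₂ (Y r t).mulVecLin =
      (zm (F := GF4)).compl₁₂ (Y r t).mulVecLin (Y r t).mulVecLin := by
    apply (Pi.basisFun GF4 (Fin 8)).ext
    intro i
    apply (Pi.basisFun GF4 (Fin 8)).ext
    intro j
    simp only [Pi.basisFun_apply, LinearMap.compr₂_apply, LinearMap.compl₁₂_apply,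
      Matrix.mulVecLin_apply, Matrix.mulVec_single_one, zm_apply]
    exact Y_mul r t i j
  exact LinearMap.congr_fun (LinearMap.congr_fun this x) y

theorem X_sq (r : Fin chevG2.nroots) (t : GF4) : X r t * X r t = 1 := by
  apply Matrix.ext_of_mulVec_single
  intro i
  apply rho_inj
  rw [← Matrix.mulVec_mulVec, ← mul_one (rho (X r t *ᵥ _)), ← Y_sq r t, ← mul_assoc, ← rel',
    mul_assoc, ← rel', ← mul_assoc, Y_sq, one_mul, Matrix.one_mulVec]

/-- The group of compatible pairs. -/
def K : Subgroup (GL (Fin 8) GF4 × GL I14 GF4) where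
  carrier := {p | p.1 ∈ Lie.G2 GF4 ∧ p.2 ∈ chevG2.group GF4 ∧
    ∀ v, p.1.1 * rho v = rho (p.2.1 *ᵥ v) * p.1.1}
  mul_mem' {a b} ha hb := ⟨mul_mem ha.1 hb.1, mul_mem ha.2.1 hb.2.1, fun v => by
    change a.1.1 * b.1.1 * rho v = rho ((a.2.1 * b.2.1) *ᵥ v) * (a.1.1 * b.1.1)
    rw [mul_assoc, hb.2.2, ← mul_assoc, ha.2.2, ← Matrix.mulVec_mulVec, mul_assoc]⟩
  one_mem' := ⟨one_mem _, one_mem _, fun v => by simp⟩
  inv_mem' {a} ha := ⟨inv_mem ha.1, inv_mem ha.2.1, fun v => by
    have := ha.2.2 ((a.2⁻¹).1 *ᵥ v)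
    rw [Matrix.mulVec_mulVec, Units.mul_inv, Matrix.one_mulVec] at this
    change (a.1⁻¹).1 * rho v = rho ((a.2⁻¹).1 *ᵥ v) * (a.1⁻¹).1
    rw [Units.inv_mul_eq_iff_eq_mul, ← mul_assoc, this, Units.mul_inv_cancel_right]⟩

/-- generators -/
def gen (r : Fin chevG2.nroots) (t : GF4) : K :=
  ⟨(⟨Y r t, Y r t, Y_sq r t, Y_sq r t⟩, ⟨X r t, X r t, X_sq r t, X_sq r t⟩),
    Y_mul' r t, Subgroup.subset_closure ⟨r, t, (xMat_eq r t).symm⟩, rel' r t⟩

/-- the action on the octonions -/
def lin (k : K) : (Fin 8 → GF4) →ₗ[GF4] (Fin 8 → GF4) := k.1.1.1.mulVecLin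

theorem lin_mul (a b : K) : lin (a * b) = lin a * lin b := Matrix.mulVecLin_mul _ _

theorem lin_one : lin 1 = 1 := Matrix.mulVecLin_one

theorem lin_pow (a : K) (n : ℕ) : lin (a ^ n) = lin a ^ n := by
  induction n with
  | zero => exact lin_one
  | succ n ih => rw [pow_succ, pow_succ, lin_mul, ih]

theorem lin_aut (k : K) : IsAut (lin k) where
  inj x y h := by
    have := congrArg (lin k⁻¹) h
    rwa [← Module.End.mul_apply, ← Module.End.mul_apply, ← lin_mul, inv_mul_cancel, lin_one] at this
  mul := k.2.1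

theorem eq_one_of_fst (k : K) (h : k.1.1.1 = 1) : k = 1 := by
  apply Subtype.ext
  apply Prod.ext (Units.ext h)
  apply Units.ext
  apply Matrix.ext_of_mulVec_single
  intro i
  apply rho_inj
  have := k.2.2.2 (Pi.single i 1)
  rw [h, one_mul, mul_one] at this
  rw [← this]
  exact congrArg rho (Matrix.one_mulVec _).symm

/-- basis derivations -/
abbrev rb (j : I14) : Matrix (Fin 8) (Fin 8) GF4 := rho (Pi.single j 1)
/-- basis vectors -/
abbrev bv (j : Fin 8) : Fin 8 → GF4 := Pi.single j 1

theorem eq_one_of_snd (k : K) (h : k.1.2 = 1) : k = 1 := by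
  apply eq_one_of_fst
  have hc : ∀ j x, lin k (rb j *ᵥ x) = rb j *ᵥ lin k x := by
    intro j x
    have := k.2.2.2 (Pi.single j 1)
    rw [h, Units.val_one, Matrix.one_mulVec] at this
    change k.1.1.1 *ᵥ _ = _ *ᵥ (k.1.1.1 *ᵥ x)
    rw [Matrix.mulVec_mulVec, Matrix.mulVec_mulVec, this]
  have e1 : ∀ x : Fin 8 → GF4, rb (e 5) *ᵥ (rb (e 11) *ᵥ x) = x 3 • bv 1 := by
    intro x
    have : rb (e 5) * rb (e 11) = Matrix.single 1 3 1 := by decide +kernel
    rw [Matrix.mulVec_mulVec, this, Matrix.single_mulVec]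
    ext i; by_cases hi : i = 1 <;> simp [hi, Function.update_apply]
  set c := lin k (bv 3) 3
  have f1 : lin k (bv 1) = c • bv 1 := by
    have := e1 (lin k (bv 3))
    rw [← hc, ← hc, e1] at this
    simpa using this
  have step : ∀ j (x : Fin 8 → GF4), lin k x = c • x → lin k (rb j *ᵥ x) = c • (rb j *ᵥ x) := by
    intro j x hx
    rw [hc, hx, Matrix.mulVec_smul]
  have g0 : rb (e 4) *ᵥ bv 1 = one8 := by decide +kernel
  have g2 : rb (e 6) *ᵥ bv 1 = bv 2 := by decide +kernel
  have g3 : rb (e 1) *ᵥ bv 1 = bv 3 := by decide +kernel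
  have g5 : rb (e 2) *ᵥ bv 1 = bv 5 := by decide +kernel
  have g6 : rb (e 8) *ᵥ bv 1 = bv 6 := by decide +kernel
  have g4 : rb (e 2) *ᵥ bv 2 = bv 4 := by decide +kernel
  have m0 : zm (bv 1) (bv 4) = bv 0 := by decide +kernel
  have m7 : zm (bv 4) (bv 1) = bv 7 := by decide +kernel
  have hc1 : c = 1 := by
    have := step (e 4) _ f1
    rw [g0, (lin_aut k).map_one] at this
    exact (smul_left_injective GF4 one8_ne (this.symm.trans (one_smul _ _).symm))
  have f2 := step (e 6) _ f1
  have f3 := step (e 1) _ f1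
  have f5 := step (e 2) _ f1
  have f6 := step (e 8) _ f1
  rw [g2] at f2; rw [g3] at f3; rw [g5] at f5; rw [g6] at f6
  have f4 := step (e 2) _ f2
  rw [g4] at f4
  rw [hc1, one_smul] at f1 f2 f3 f4 f5 f6
  have f0 : lin k (bv 0) = bv 0 := by rw [← m0, (lin_aut k).mul, f1, f4]
  have f7 : lin k (bv 7) = bv 7 := by rw [← m7, (lin_aut k).mul, f1, f4]
  apply Matrix.ext_of_mulVec_single
  intro i
  rw [Matrix.one_mulVec]
  fin_cases i
  exacts [f0, f1, f2, f3, f4, f5, f6, f7]

/-- second projection -/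
def snd : K →* chevG2.group GF4 where
  toFun k := ⟨k.1.2, k.2.2.1⟩
  map_one' := rfl
  map_mul' _ _ := rfl

theorem snd_bij : Function.Bijective snd := by
  constructor
  · rw [injective_iff_map_eq_one]
    intro k hk
    exact eq_one_of_snd k (congrArg Subtype.val hk)
  · rintro ⟨g, hg⟩
    induction hg using Subgroup.closure_induction with
    | mem x hx =>
      obtain ⟨r, t, hx⟩ := hx
      exact ⟨gen r t, Subtype.ext (Units.ext ((xMat_eq r t).symm.trans hx.symm))⟩
    | one => exact ⟨1, rfl⟩
    | mul x y _ _ hx hy =>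
      obtain ⟨a, ha⟩ := hx
      obtain ⟨b, hb⟩ := hy
      exact ⟨a * b, by rw [map_mul, ha, hb]; rfl⟩
    | inv x _ hx =>
      obtain ⟨a, ha⟩ := hx
      exact ⟨a⁻¹, by rw [map_inv, ha]; rfl⟩

/-- projection killing the identity -/
def pr (x : Fin 8 → GF4) : Fin 8 → GF4 := x - x 0 • one8

/-- the 6-dimensional module -/
def V : AddSubgroup (Fin 8 → GF4) where
  carrier := {x | x 0 = 0 ∧ tr x = 0}
  add_mem' {a b} ha hb := ⟨by simp [ha.1, hb.1], by rw [map_add, ha.2, hb.2, add_zero]⟩
  zero_mem' := ⟨rfl, map_zero _⟩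
  neg_mem' {a} ha := ⟨by simp [ha.1], by rw [map_neg, ha.2, neg_zero]⟩

theorem tr_one : tr (one8 : Fin 8 → GF4) = 0 := by decide +kernel

theorem pr_mem {x : Fin 8 → GF4} (hx : tr x = 0) : pr x ∈ V :=
  ⟨by simp [pr, one8], by rw [pr, map_sub, map_smul, hx, tr_one]; simp⟩

theorem pr_sub (x : Fin 8 → GF4) (c : GF4) : pr (x - c • one8) = pr x := by
  simp only [pr, Pi.sub_apply, Pi.smul_apply, smul_eq_mul]
  have : (one8 : Fin 8 → GF4) 0 = 1 := rfl
  rw [this]; module

instance instAct : DistribMulAction K V where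
  smul k x := ⟨pr (lin k x), pr_mem (((lin_aut k).tr_nm _).1.trans x.2.2)⟩
  one_smul x := Subtype.ext (by
    change pr (lin 1 x) = x
    rw [lin_one, Module.End.one_apply, pr, x.2.1]; simp)
  mul_smul a b x := Subtype.ext (by
    change pr (lin (a * b) x) = pr (lin a (pr (lin b x)))
    rw [lin_mul, Module.End.mul_apply]
    conv_rhs => rw [pr.eq_1 (lin b x), map_sub, map_smul, (lin_aut a).map_one, pr_sub])
  smul_zero k := Subtype.ext (by
    change pr (lin k 0) = 0
    simp [pr])
  smul_add k x y := Subtype.ext (by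
    change pr (lin k (x + y)) = pr (lin k x) + pr (lin k y)
    simp only [pr, map_add, Pi.add_apply]; module)

theorem fpf (k : K) (hk : (orderOf k).Prime) (h7 : 7 ≤ orderOf k) (w : V) (hw : k • w = w) :
    w = 0 := by
  by_contra h0
  have h1 : lin k w.1 - lin k w.1 0 • one8 = w.1 := congrArg Subtype.val hw
  rw [sub_eq_iff_eq_add] at h1
  have h3 : lin k w 0 = 0 := by
    have := ((lin_aut k).tr_nm w).2
    rw [h1, nm_add_one, w.2.2] at this
    simpa using this
  rw [h3, zero_smul, add_zero] at h1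
  have h4 : ∀ x : GF4, x + (x ^ 2) ^ 2 = 0 := by decide +kernel
  have h5 := (lin_aut k).eq_one_of_fix (v := w.1 + (nm w.1) ^ 2 • one8)
    (by rw [Nat.card_eq_fintype_card, GF4.card]) h2 hk h7
    (by rw [← lin_pow, pow_orderOf_eq_one, lin_one]) ?_
    (by rw [map_add, map_smul, w.2.2, tr_one]; simp)
    (by rw [nm_add_one, w.2.2, mul_zero, add_zero, h4])
    (by rw [map_add, map_smul, (lin_aut k).map_one, h1])
  · have : k = 1 := eq_one_of_fst k (by
      apply Matrix.ext_of_mulVec_single
      intro i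
      rw [Matrix.one_mulVec]
      exact LinearMap.congr_fun h5 _)
    rw [this, orderOf_one] at h7
    omega
  · intro h
    have h6 := congrFun h 0
    have : (one8 : Fin 8 → GF4) 0 = 1 := rfl
    simp only [Pi.add_apply, w.2.1, Pi.smul_apply, this, smul_eq_mul, mul_one, zero_add,
      Pi.zero_apply] at h6
    rw [h6, zero_smul, add_zero] at h
    exact h0 (Subtype.ext h)

theorem orderOf_eq (k : K) : orderOf k = orderOf k.1.1.1 := by
  let φ : K →* Matrix (Fin 8) (Fin 8) GF4 :=
    (Units.coeHom _).comp ((MonoidHom.fst _ _).comp K.subtype)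
  exact (orderOf_injective φ ((injective_iff_map_eq_one φ).2 eq_one_of_fst) k).symm

/-- an element of order 6 -/
def k6 : K := gen ⟨11, by decide⟩ (GF4.mk 3) * gen ⟨1, by decide⟩ (GF4.mk 3) *
  gen ⟨7, by decide⟩ (GF4.mk 1)
/-- an element of order 10 -/
def k10 : K := gen ⟨1, by decide⟩ (GF4.mk 2) * gen ⟨2, by decide⟩ (GF4.mk 2) *
  gen ⟨10, by decide⟩ (GF4.mk 2)

theorem orderOf_k6 : orderOf k6 = 6 := by
  have a1 : k6.1.1.1 = dec8 86400404114261780539717252825615761665 := by decide +kernel
  have a2 : dec8 86400404114261780539717252825615761665 * dec8 86400404114261780539717252825615761665 = dec8 149123090357279899764313685862793883697 := by decide +kernel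
  have a3 : dec8 149123090357279899764313685862793883697 * dec8 86400404114261780539717252825615761665 = dec8 74463313646447033505241468385028503556 := by decide +kernel
  have a6 : dec8 74463313646447033505241468385028503556 * dec8 74463313646447033505241468385028503556 = 1 := by decide +kernel
  rw [orderOf_eq, a1]
  have b2 : dec8 86400404114261780539717252825615761665 ^ 2 = dec8 149123090357279899764313685862793883697 := by rw [sq, a2]
  have b3 : dec8 86400404114261780539717252825615761665 ^ 3 = dec8 74463313646447033505241468385028503556 := by rw [pow_succ, b2, a3]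
  apply orderOf_eq_of_pow_and_pow_div_prime (by norm_num)
  · rw [show 6 = 3 * 2 from rfl, pow_mul, b3, sq, a6]
  · intro p hp hd
    have : p ∈ Nat.primeFactors 6 := Nat.mem_primeFactors.2 ⟨hp, hd, by norm_num⟩
    have e : Nat.primeFactors 6 = {2, 3} := by decide +kernel
    rw [e] at this
    simp only [Finset.mem_insert, Finset.mem_singleton] at this
    rcases this with rfl | rfl
    · rw [show 6 / 2 = 3 from rfl, b3]; decide +kernel
    · rw [show 6 / 3 = 2 from rfl, b2]; decide +kernel

theorem orderOf_k10 : orderOf k10 = 10 := by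
  have a1 : k10.1.1.1 = dec8 131593936667559423514302101814987989761 := by decide +kernel
  have a2 : dec8 131593936667559423514302101814987989761 * dec8 131593936667559423514302101814987989761 = dec8 107751217562743911887934795417612128529 := by decide +kernel
  have a4 : dec8 107751217562743911887934795417612128529 * dec8 107751217562743911887934795417612128529 = dec8 127772734556041880607833593467385880609 := by decide +kernel
  have a5 : dec8 127772734556041880607833593467385880609 * dec8 131593936667559423514302101814987989761 = dec8 85237069789792831106252994089842901025 := by decide +kernel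
  have a6 : dec8 85237069789792831106252994089842901025 * dec8 85237069789792831106252994089842901025 = 1 := by decide +kernel
  rw [orderOf_eq, a1]
  have b2 : dec8 131593936667559423514302101814987989761 ^ 2 = dec8 107751217562743911887934795417612128529 := by rw [sq, a2]
  have b5 : dec8 131593936667559423514302101814987989761 ^ 5 = dec8 85237069789792831106252994089842901025 := by
    rw [show 5 = 2 * 2 + 1 from rfl, pow_succ, pow_mul, b2, sq, a4, a5]
  apply orderOf_eq_of_pow_and_pow_div_prime (by norm_num)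
  · rw [show 10 = 5 * 2 from rfl, pow_mul, b5, sq, a6]
  · intro p hp hd
    have : p ∈ Nat.primeFactors 10 := Nat.mem_primeFactors.2 ⟨hp, hd, by norm_num⟩
    have e : Nat.primeFactors 10 = {2, 5} := by decide +kernel
    rw [e] at this
    simp only [Finset.mem_insert, Finset.mem_singleton] at this
    rcases this with rfl | rfl
    · rw [show 10 / 2 = 5 from rfl, b5]; decide +kernel
    · rw [show 10 / 5 = 2 from rfl, b2]; decide +kernel

instance instNontrivialV : Nontrivial V :=
  ⟨⟨⟨bv 1, by decide +kernel, by decide +kernel⟩, 0,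
    fun h => absurd (congrFun (congrArg Subtype.val h) 1) (by decide +kernel)⟩⟩

theorem main {L : Type*} [Group L] (e : L ≃* K) (N : ℕ) :
    ∃ (H : Type) (_ : Group H) (_ : Finite H), N < Nat.card H ∧
      ((∀ p : ℕ, p.Prime → (p ∣ Nat.card L ↔ p ∣ Nat.card H)) ∧
      (∀ p q : ℕ, p.Prime → q.Prime → p ≠ q →
        ((∃ g : L, orderOf g = p * q) ↔ (∃ g : H, orderOf g = p * q)))) := by
  have : Finite L := Finite.of_equiv _ e.symm.toEquiv
  have hs := H6.spec_eq_of_mulEquiv e
  refine H6.primeGraph_large_of_aff (V := V) (K := K) (r := 2) (by norm_num)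
    (fun v => Subtype.ext ?_) ⟨k6 ^ 3, by rw [orderOf_pow, orderOf_k6]; rfl⟩ ?_
    (fun p _ => by rw [hs]) (fun p q _ _ _ => by rw [hs]) N
  · change 2 • v.1 = 0
    rw [← Nat.cast_smul_eq_nsmul GF4, Nat.cast_ofNat, h2, zero_smul]
  intro k hk hk2
  by_cases h7 : 7 ≤ orderOf k
  · exact Or.inr (fpf k hk h7)
  · left
    have := hk.two_le
    have h4 : orderOf k ≠ 4 := fun h => by rw [h] at hk; norm_num at hk
    have h6 : orderOf k ≠ 6 := fun h => by rw [h] at hk; norm_num at hk
    obtain h | h : orderOf k = 3 ∨ orderOf k = 5 := by omega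
    · rw [h]; exact ⟨k6, orderOf_k6⟩
    · rw [h]; exact ⟨k10, orderOf_k10⟩

end G24

theorem g24_equiv {F : Type*} [Field F] [Fintype F] (hF : Fintype.card F = 4) :
    Nonempty (chevG2.group F ≃* G24.K) := by
  obtain ⟨e⟩ := chevGroup_congr chevG2 (FiniteField.ringEquivOfCardEq (hF.trans GF4.card.symm))
  exact ⟨e.trans (MulEquiv.ofBijective G24.snd G24.snd_bij).symm⟩

end Cfsg.Agent.H2
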