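import Cfsg.Agent.H2.L3k
import Cfsg.Agent.H2.L3m

/-!
# Identification of `M₂₂`
-/

set_option autoImplicit false

namespace Cfsg.Agent.H2.L3

open Matrix Equiv Cfsg.Spor Cfsg.Agent.H4 Cfsg.Agent.H4.Golay Cfsg.Agent.H6
open scoped Pointwise

instance instCharPF4L3 : CharP F4 2 := CharTwo.of_one_ne_zero_of_two_eq_zero (by decide) (by decide)

namespace Ext

variable {G Ω : Type*} [Group G] [MulAction G Ω] (E : Ext G Ω F4 1)

theorem eq_iff' (v w : Vec F4) : E.ι v = E.ι w ↔ kap v = kap w := by rw [E.eq_iff, kap_eq_iff]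

/-- The points as points of the Golay code. -/
noncomputable def β : Ω ≃ {p : GolayPt // p ≠ none ∧ p ≠ some 0} where
  toFun y := ⟨kap (Function.surjInv E.surj y), kap_ne _⟩
  invFun p := E.ι (kinv p)
  left_inv y := by
    show E.ι _ = _
    conv_rhs => rw [← Function.surjInv_eq E.surj y]
    rw [E.eq_iff', kap_kinv _ (kap_ne _).1 (kap_ne _).2]
  right_inv p := Subtype.ext (by
    show kap _ = _
    rw [← kap_kinv p p.2.1 p.2.2, ← E.eq_iff', Function.surjInv_eq E.surj])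

theorem β_ι (v : Vec F4) : (E.β (E.ι v)).1 = kap v := by
  show kap _ = _
  rw [← E.eq_iff', Function.surjInv_eq E.surj]

/-- The action on the 24 points. -/
noncomputable def θ : G →* Perm GolayPt :=
  (Perm.extendDomainHom E.β).comp (MulAction.toPermHom G Ω)

theorem θ_β (g : G) (y : Ω) : E.θ g (E.β y) = E.β (g • y) := Perm.extendDomain_apply_image _ _ _

theorem θ_none (g : G) : E.θ g none = none := Perm.extendDomain_apply_not_subtype _ _ (by simp)

theorem θ_zero (g : G) : E.θ g (some 0) = some 0 := Perm.extendDomain_apply_not_subtype _ _ (by simp)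

theorem θ_kap {g : SL F4} {s : G} (h : ∀ v, E.ι (g • v) = s • E.ι v) (v : Vec F4) :
    E.θ s (kap v) = kap (g • v) := by rw [← E.β_ι, E.θ_β, ← h, E.β_ι]

theorem θ_mem (g : SL F4) : ∀ s : G, (∀ v, E.ι (g • v) = s • E.ι v) → E.θ s ∈ M24 := by
  induction g using H8.SL_transvection_induction with
  | ht i j hij a =>
    intro s hs
    have e : ⇑(E.θ s) = mv i j a := by
      funext p
      by_cases h : p = none ∨ p = some 0
      · rw [mv, if_pos h]
        rcases h with rfl | rfl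
        exacts [E.θ_none s, E.θ_zero s]
      rw [mv, if_neg h]
      push Not at h
      conv_lhs => rw [← kap_kinv p h.1 h.2, E.θ_kap hs]
      congr 1
      funext k
      rw [smul_eq, SpecialLinearGroup.transvection_coe, add_mulVec, one_mulVec, single_mulVec_eq]
      by_cases hk : k = i
      · simp [hk]
      · simp [hk]
    rw [← M24.inv_mem_iff]
    refine mem_M24_of fun r hr => mem_code_of fun r' hr' => ?_
    rw [inv_inv, e]
    exact mv_chk i j hij a r hr r' hr'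
  | hmul A B hA hB =>
    intro s hs
    obtain ⟨s1, h1⟩ := E.equi A
    obtain ⟨s2, h2⟩ := E.equi B
    have : E.θ s = E.θ s1 * E.θ s2 := by
      ext1 p
      by_cases h0 : p = none
      · rw [h0, Perm.mul_apply, E.θ_none, E.θ_none, E.θ_none]
      by_cases h0' : p = some 0
      · rw [h0', Perm.mul_apply, E.θ_zero, E.θ_zero, E.θ_zero]
      rw [← kap_kinv p h0 h0', Perm.mul_apply, E.θ_kap hs, E.θ_kap h2, E.θ_kap h1, mul_smul]
    rw [this]
    exact M24.mul_mem (hA s1 h1) (hB s2 h2)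

open Classical in
/-- The word of a block. -/
noncomputable def ind (B : Set Ω) (p : GolayPt) : ZMod 2 :=
  if p = none ∨ p = some 0 ∨ ∃ y ∈ B, (E.β y).1 = p then 1 else 0

theorem ind_eq {S : Set (Vec F4)} {x : GolayPt → ZMod 2} (h0 : x none = 1) (h1 : x (some 0) = 1)
    (h : ∀ v, v ∈ S ↔ x (kap v) = 1) : E.ind (E.ι '' S) = x := by
  funext p
  by_cases p0 : p = none
  · simp [ind, p0, h0]
  by_cases p1 : p = some 0
  · simp [ind, p1, h1]
  have k : ∀ a : ZMod 2, a ≠ 1 → 0 = a := by decide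
  unfold ind
  split_ifs with hp
  · obtain ⟨_, ⟨v, hv, rfl⟩, rfl⟩ := (hp.resolve_left p0).resolve_left p1
    rw [E.β_ι, (h v).mp hv]
  · refine k _ fun hx => hp (Or.inr (Or.inr ⟨_, ⟨kinv p, ?_, rfl⟩, ?_⟩))
    · rwa [h, kap_kinv p p0 p1]
    · rw [E.β_ι, kap_kinv p p0 p1]

theorem ind_smul (g : G) (B : Set Ω) : E.ind (g⁻¹ • B) = E.ind B ∘ E.θ g := by
  funext p
  by_cases p0 : p = none
  · simp [ind, p0, E.θ_none]
  by_cases p1 : p = some 0
  · simp [ind, p1, E.θ_zero]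
  obtain ⟨y, rfl⟩ : ∃ y, (E.β y).1 = p := ⟨E.β.symm ⟨p, p0, p1⟩, by simp⟩
  rw [Function.comp_apply, E.θ_β]
  unfold ind
  congr 1
  simp only [(E.β y).2, (E.β (g • y)).2, false_or,
    Subtype.coe_inj, EmbeddingLike.apply_eq_iff_eq, exists_eq_right,
    Set.mem_inv_smul_set_iff]

theorem ind_line (f : Vec F4) : E.ind (E.ι '' {v | f ⬝ᵥ v = 0}) = lineW f :=
  E.ind_eq (by simp [lineW]) (by simp [lineW]) fun v => (lineW_kap f v).symm

theorem ind_oval : E.ind (E.ι '' Hc 1) = word 10881097 :=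
  E.ind_eq (by decide +kernel) (by decide +kernel) oval_iff

theorem ind_mem {B : Set Ω} (h : E.Blk B) : E.ind B ∈ golayCode := by
  rcases E.all B h with ⟨f, hf, rfl⟩ | ⟨g, rfl⟩
  · rw [E.ind_line]; exact (lineW_mem hf).1
  obtain ⟨s, hs⟩ := E.equi g
  have : E.ι '' (g • Hc 1) = s⁻¹⁻¹ • E.ι '' Hc 1 := by
    rw [inv_inv]
    ext p
    constructor
    · rintro ⟨_, ⟨v, hv, rfl⟩, rfl⟩
      exact ⟨_, ⟨v, hv, rfl⟩, (hs v).symm⟩
    · rintro ⟨_, ⟨v, hv, rfl⟩, rfl⟩
      exact ⟨_, ⟨v, hv, rfl⟩, hs v⟩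
  rw [this, E.ind_smul, E.ind_oval, map_inv]
  exact comp_mem (M24.inv_mem (E.θ_mem g s hs)) oval_mem

theorem mem_or (g : G) : E.θ g ∈ M24 ∨ swap none (some 0) * E.θ g ∈ M24 := by
  refine mem_M24_or (E.θ_none g) (E.θ_zero g) fun b hb hn => ?_
  obtain ⟨B, hB, e⟩ : ∃ B, E.Blk B ∧ E.ind B = word b := by
    rcases base_cases b hb hn with rfl | ⟨x, y, z, h, e⟩
    · exact ⟨_, E.oval, E.ind_oval⟩
    · exact ⟨_, E.line ![x, y, z] (vec_ne_zero.mpr h), by rw [E.ind_line, e]⟩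
  rw [← e, ← map_inv, ← E.ind_smul, ← E.ind_smul]
  exact ⟨E.ind_mem (E.smul _ _ hB), E.ind_mem (E.smul _ _ hB)⟩

theorem mem_iff (g : G) : g ∈ M22.comap E.θ ↔ E.θ g ∈ M24 :=
  ⟨fun h => h.1.1, fun h => ⟨⟨h, E.θ_none g⟩, E.θ_zero g⟩⟩

theorem index_dvd : (M22.comap E.θ).index ∣ 2 := by
  rw [Subgroup.index_dvd_two_iff]
  by_cases h : ∀ g, E.θ g ∈ M24
  · exact ⟨1, fun b => Or.inr ((E.mem_iff b).mpr (h b))⟩
  push Not at h
  obtain ⟨a, ha⟩ := h
  refine ⟨a, fun b => ?_⟩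
  rw [E.mem_iff, E.mem_iff]
  refine (E.mem_or b).symm.imp_left fun hb => ?_
  have := M24.mul_mem hb ((E.mem_or a).resolve_left ha)
  rwa [mul_assoc, ← mul_assoc (E.θ b), mul_swap_eq_swap_mul, E.θ_none, E.θ_zero, ← mul_assoc,
    ← mul_assoc, Equiv.swap_mul_self, one_mul, ← map_mul] at this

theorem exists_real (g : SL F4) : ∃ s ∈ M22.comap E.θ, ∀ v, E.θ s (kap v) = kap (g • v) := by
  obtain ⟨s, hs⟩ := E.equi g
  exact ⟨s, (E.mem_iff s).mpr (E.θ_mem g s hs), E.θ_kap hs⟩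

theorem kap_par {v w : Vec F4} (hw : w ≠ 0) (h : Par v w) : kap w = kap v :=
  (kap_eq_iff _ _).mpr ⟨h.symm hw, h⟩

theorem m22_kap {m : Perm GolayPt} (hm : m ∈ M22) (v : Vec F4) : ∃ w, m (kap v) = kap w := by
  refine ⟨_, (kap_kinv _ (fun h => (kap_ne v).1 ?_) fun h => (kap_ne v).2 ?_).symm⟩
  · exact m.injective (h.trans hm.1.2.symm)
  · exact m.injective (h.trans hm.2.symm)

theorem step3 {m : Perm GolayPt} (hm : m ∈ M22) (h : m (kap 0) = kap 0) (h0 : m (kap e0) = kap e0)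
    (h1 : m (kap e1) = kap e1) (h2 : m (kap e2) = kap e2) : m ∈ (M22.comap E.θ).map E.θ := by
  have hn : m none = none := hm.1.2
  have hz : m (some 0) = some 0 := hm.2
  have e := eq_of_five (comp_mem hm.1.1 oval_mem) oval_mem
    (by rw [card_comp, card_support_word]; decide +kernel)
    (by rw [card_support_word]; decide +kernel) {none, some 0, kap e0, kap e1, kap e2}
    (by decide +kernel) (by
      simp only [Finset.mem_insert, Finset.mem_singleton, Function.comp_apply, forall_eq_or_imp,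
        forall_eq, hn, hz, h0, h1, h2]
      decide +kernel) (by decide +kernel)
  obtain ⟨w, hw⟩ := m22_kap hm ![1, 1, 1]
  have := congrFun e (kap ![1, 1, 1])
  rw [Function.comp_apply, hw, show word 10881097 (kap ![1, 1, 1]) = 1 by decide +kernel,
    ← oval_iff] at this
  have d : w 0 * w 1 * w 2 = 1 := by
    refine this.resolve_right ?_
    rintro ⟨w0, k | k | k⟩ <;> rw [kap_par w0 k] at hw
    · exact absurd (m.injective (hw.trans h0.symm)) (by decide +kernel)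
    · exact absurd (m.injective (hw.trans h1.symm)) (by decide +kernel)
    · exact absurd (m.injective (hw.trans h2.symm)) (by decide +kernel)
  obtain ⟨s, hs, k⟩ := E.exists_real (dg _ _ _ d)
  refine ⟨s, hs, ?_⟩
  rw [eq_comm, ← inv_mul_eq_one, ← inv_eq_one, _root_.mul_inv_rev, inv_inv]
  refine eq_one_of_seven (M24.mul_mem (M24.inv_mem hs.1.1) hm.1.1) fun q hq => ?_
  have : q = none ∨ q = some 0 ∨ q = kap 0 ∨ q = kap e0 ∨ q = kap e1 ∨ q = kap e2 ∨
      q = kap ![1, 1, 1] := by revert q; decide +kernel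
  rw [Perm.mul_apply, Perm.inv_eq_iff_eq]
  rcases this with rfl | rfl | rfl | rfl | rfl | rfl | rfl
  · rw [hn, E.θ_none]
  · rw [hz, E.θ_zero]
  · rw [h, k, smul_zero]
  · rw [h0, k, kap_par (v := e0) (smul_ne_zero' _ e0_ne) ⟨w 0, by rw [dg_smul]; apply vec_ext <;> simp⟩]
  · rw [h1, k, kap_par (v := e1) (smul_ne_zero' _ e1_ne) ⟨w 1, by rw [dg_smul]; apply vec_ext <;> simp⟩]
  · rw [h2, k, kap_par (v := e2) (smul_ne_zero' _ e2_ne) ⟨w 2, by rw [dg_smul]; apply vec_ext <;> simp⟩]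
  · rw [hw, k, dg_smul]
    congr 1
    apply vec_ext <;> simp

theorem red {m : Perm GolayPt} {s : G} (hs : s ∈ M22.comap E.θ)
    (h : (E.θ s)⁻¹ * m ∈ (M22.comap E.θ).map E.θ) : m ∈ (M22.comap E.θ).map E.θ := by
  simpa using Subgroup.mul_mem _ (Subgroup.mem_map_of_mem E.θ hs) h

theorem step2 {m : Perm GolayPt} (hm : m ∈ M22) (h : m (kap 0) = kap 0) :
    m ∈ (M22.comap E.θ).map E.θ := by
  have hn : m none = none := hm.1.2
  have hz : m (some 0) = some 0 := hm.2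
  obtain ⟨u, h0⟩ := m22_kap hm e0
  obtain ⟨v, h1⟩ := m22_kap hm e1
  obtain ⟨w, h2⟩ := m22_kap hm e2
  obtain ⟨g, a, ha, rfl, rfl, k⟩ := exists_tri (u := u) (v := v) (w := w) fun f f0 f1 f2 => by
    by_contra hf
    have e := eq_of_five (comp_mem hm.1.1 (lineW_mem hf).1) (lineW_mem e2_ne).1
      (by rw [card_comp, (lineW_mem hf).2]) (lineW_mem e2_ne).2
      {none, some 0, kap 0, kap e0, kap e1} (by decide +kernel) (by
        simp only [Finset.mem_insert, Finset.mem_singleton, Function.comp_apply, forall_eq_or_imp,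
          forall_eq, hn, hz, h0, h1, h, lineW_kap, f0, f1, dotProduct_zero, and_true]
        simp [lineW]) (by decide +kernel)
    have := congrFun e (kap e2)
    rw [Function.comp_apply, h2, (lineW_kap _ _).mpr f2] at this
    revert this
    decide +kernel
  obtain ⟨s, hs, k'⟩ := E.exists_real g
  refine E.red hs (E.step3 (M22.mul_mem (M22.inv_mem hs) hm) ?_ ?_ ?_ ?_) <;>
    rw [Perm.mul_apply, Perm.inv_eq_iff_eq, k']
  · rw [h, smul_zero]
  · exact h0
  · exact h1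
  · rw [h2, kap_par (smul_ne_zero' _ e2_ne) ⟨a, k⟩]

theorem le_map (two : ∀ x y x' y' : Ω, x ≠ y → x' ≠ y' → ∃ g : G, g • x = x' ∧ g • y = y') :
    M22 ≤ (M22.comap E.θ).map E.θ := by
  intro m hm
  obtain ⟨w, hw⟩ := m22_kap hm 0
  by_cases h : kap w = kap 0
  · exact E.step2 hm (hw.trans h)
  have hN : (M22.comap E.θ).Normal := by
    rcases (Nat.dvd_prime Nat.prime_two).mp E.index_dvd with h | h
    · rw [Subgroup.index_eq_one.mp h]; infer_instance
    · exact Subgroup.normal_of_index_eq_two h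
  obtain ⟨k, -, hk⟩ := exists_pair (u := (e1 : Vec F4)) (v := e0) e1_ne (by
    rintro ⟨a, ha⟩
    simpa using congrFun ha 0)
  obtain ⟨s, hs⟩ := E.equi k
  obtain ⟨g, g1, g2⟩ := two (E.ι e1) (E.ι e0) (E.ι 0) (E.ι w)
    (by rw [Ne, E.eq_iff']; decide +kernel) (by rw [Ne, E.eq_iff']; exact Ne.symm h)
  refine E.red (hN.conj_mem s ((E.mem_iff s).mpr (E.θ_mem k s hs)) g)
    (E.step2 (M22.mul_mem (M22.inv_mem (hN.conj_mem s ((E.mem_iff s).mpr (E.θ_mem k s hs)) g)) hm) ?_)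
  rw [Perm.mul_apply, Perm.inv_eq_iff_eq, hw, ← E.β_ι, ← E.β_ι, E.θ_β, ← g1, ← g2, mul_smul,
    mul_smul, inv_smul_smul, ← hs, hk]

include E in
theorem main (two : ∀ x y x' y' : Ω, x ≠ y → x' ≠ y' → ∃ g : G, g • x = x' ∧ g • y = y')
    (faith : ∀ g : G, (∀ x : Ω, g • x = x) → g = 1) :
    IsoM22 G ∨ ∃ H : Subgroup G, H.index = 2 ∧ IsoM22 H := by
  have inj : Function.Injective E.θ := by
    rw [injective_iff_map_eq_one]
    intro g hg
    refine faith g fun y => E.β.injective (Subtype.ext ?_)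
    rw [← E.θ_β, hg, Perm.one_apply]
  have iso : IsoM22 (M22.comap E.θ) := by
    refine ⟨MulEquiv.ofBijective (E.θ.subgroupComap M22) ⟨fun a b h => ?_, fun m => ?_⟩⟩
    · exact Subtype.ext (inj (congrArg Subtype.val h))
    · obtain ⟨s, hs, e⟩ := E.le_map two m.2
      exact ⟨⟨s, hs⟩, Subtype.ext e⟩
  rcases (Nat.dvd_prime Nat.prime_two).mp E.index_dvd with h | h
  · rw [Subgroup.index_eq_one.mp h] at iso
    obtain ⟨e⟩ := iso
    exact Or.inl ⟨Subgroup.topEquiv.symm.trans e⟩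
  · exact Or.inr ⟨_, h, iso⟩

end Ext

end Cfsg.Agent.H2.L3
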