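import Cfsg.Agent.H2.L3j
import Cfsg.Agent.H2.L3p

/-!
# Doubly transitive groups of even degree with a normal `PSL₃(2^n)` in the point stabilizer
-/

set_option autoImplicit false

namespace Cfsg.Agent.H2.L3

open Matrix MulAction

theorem Hy.core {G Ω : Type*} [Group G] [MulAction G Ω] {F : Type} [Field F] (H : Hy G Ω F)
    [CharP F 2] [Finite Ω] [Finite F] [Finite G] :
    (∀ x y : Ω, x ≠ H.a → y ≠ H.a → ∃ g ∈ H.N H.a, g • x = y) ∧
    (((∀ c : F, c ^ 3 = 1 → c = 1) ∧ ∃ E : Subgroup G, E.Normal ∧ Nat.card E = Nat.card F ^ 3 ∧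
      (∀ x y : Ω, ∃ r ∈ E, r • x = y) ∧ ∀ x : Ω, ∀ r ∈ E, r • x = x → r = 1) ∨
      (Nat.card F + 2 ∣ 12 ∧ (∃ t : F, t ≠ 0 ∧ t ≠ 1) ∧
        Nat.card Ω = Nat.card F ^ 2 + Nat.card F + 2 ∧ Nonempty (Ext G Ω F 1))) := by
  obtain ⟨ψ, h⟩ := H.exists_full H.a
  have tr : ∀ η : Vec F → Ω, Function.Surjective η → η 0 = H.a → (∀ g v, η (g • v) = ψ g • η v) →
      ∀ x y : Ω, x ≠ H.a → y ≠ H.a → ∃ g ∈ H.N H.a, g • x = y := by
    intro η h1 h2 h3 x y hx hy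
    obtain ⟨v, rfl⟩ := h1 x
    obtain ⟨w, rfl⟩ := h1 y
    obtain ⟨g, rfl⟩ := exists_smul_eq (u := v) (v := w) (by rintro rfl; exact hx h2)
      (by rintro rfl; exact hy h2)
    exact ⟨_, h.1.mem' g, (h3 g v).symm⟩
  by_cases hc : ∃ (c : Ω) (v : Vec F), Ov ψ c v ∧ ∀ g, ψ g • c = c → g • v = v
  · obtain ⟨c, v, o, hs⟩ := hc
    obtain ⟨η, A⟩ := h.exists_aff o hs
    exact ⟨tr η η.surjective A.zero A.equi, Or.inl A.main⟩
  · push Not at hc
    obtain ⟨k, ht⟩ := h.k1 hc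
    obtain ⟨ι, P⟩ := h.exists_prj k
    exact ⟨tr ι P.surj P.zero P.equi, Or.inr ⟨P.dvd, ht, P.card, P.exists_ext⟩⟩

theorem aux {G Ω : Type*} [Group G] [Finite G] [Fintype Ω] [MulAction G Ω] [FaithfulSMul G Ω]
    (h2 : MulAction.IsMultiplyPretransitive G Ω 2) (hev : Even (Fintype.card Ω)) (a : Ω)
    (N : Subgroup G) (hNle : N ≤ MulAction.stabilizer G a)
    (hNnormal : ∀ g ∈ MulAction.stabilizer G a, ∀ x ∈ N, g * x * g⁻¹ ∈ N) (n : ℕ) (hn : 1 ≤ n)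
    (F : Type) [Field F] [Fintype F] (hF : Fintype.card F = 2 ^ n)
    (e : N ≃* Matrix.ProjectiveSpecialLinearGroup (Fin 3) F) :
    (∀ x y : Ω, x ≠ a → y ≠ a → ∃ g ∈ N, g • x = y) ∧
    ((Odd n ∧ ∃ E : Subgroup G, E.Normal ∧ Nat.card E = (2 ^ n) ^ 3 ∧
      (∀ x y : Ω, ∃ r ∈ E, r • x = y) ∧ ∀ x : Ω, ∀ r ∈ E, r • x = x → r = 1) ∨
     (Fintype.card Ω = 22 ∧ n = 2 ∧ Nonempty (Ext G Ω F 1))) := by
  have : CharP F 2 := by
    have := Fact.mk Nat.prime_two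
    exact charP_of_card_eq_prime_pow hF
  let H : Hy G Ω F :=
    { a := a
      ψ := N.subtype.comp (e.symm.toMonoidHom.comp (QuotientGroup.mk' _))
      two := fun x y x' y' h h' => is_two_pretransitive_iff.mp h2 h h'
      faith := fun g h => FaithfulSMul.eq_of_smul_eq_smul (α := Ω) fun x => by rw [h, one_smul]
      even := by rwa [Nat.card_eq_fintype_card]
      ker := fun g => by simp
      fix := fun g => hNle (e.symm _).2
      norm := fun g hg h => by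
        obtain ⟨h', k⟩ := QuotientGroup.mk'_surjective _
          (e ⟨_, hNnormal g hg _ (e.symm (QuotientGroup.mk' _ h)).2⟩)
        refine ⟨h', ?_⟩
        show _ = ((e.symm (QuotientGroup.mk' _ h') : N) : G)
        rw [k, e.symm_apply_apply]
        rfl }
  obtain ⟨h1, h3⟩ := H.core
  have q : Nat.card F = 2 ^ n := by rw [Nat.card_eq_fintype_card, hF]
  rw [q] at h3
  refine ⟨fun x y hx hy => ?_, h3.imp (fun h => ⟨?_, h.2⟩) fun ⟨k1, ⟨t, t0, t1⟩, k3, k4⟩ => ?_⟩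
  · obtain ⟨g, hg, k⟩ := h1 x y hx hy
    obtain ⟨s, rfl⟩ := (Hy.chart_a.mem g).mp hg
    exact ⟨_, (e.symm _).2, k⟩
  · by_contra ho
    obtain ⟨m, rfl⟩ := Nat.not_odd_iff_even.mp ho
    have := Fact.mk Nat.prime_three
    obtain ⟨c, hc⟩ := exists_prime_orderOf_dvd_card' (G := Fˣ) 3 (by
      rw [Nat.card_units, q, ← two_mul, pow_mul]
      exact Nat.sub_one_dvd_pow_sub_one 4 m)
    have := h.1 c (by rw [← Units.val_pow_eq_pow_val, ← hc, pow_orderOf_eq_one, Units.val_one])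
    rw [Units.val_eq_one.mp this, orderOf_one] at hc
    omega
  · have n2 : n = 2 := by
      have h1 := Nat.le_of_dvd (by norm_num) k1
      have h3 : n < 4 := by
        by_contra h
        have := Nat.pow_le_pow_right (show 0 < 2 by norm_num) (Nat.le_of_not_lt h)
        omega
      have h4 : n ≠ 1 := by
        rintro rfl
        obtain ⟨y, -, hy⟩ := (Nat.card_eq_two_iff' (0 : F)).mp q
        exact t1 ((hy t t0).trans (hy 1 one_ne_zero).symm)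
      interval_cases n <;> simp_all
    subst n2
    exact ⟨by rw [← Nat.card_eq_fintype_card, k3]; rfl, rfl, k4⟩

theorem main {G Ω : Type*} [Group G] [Finite G] [Fintype Ω] [MulAction G Ω] [FaithfulSMul G Ω]
    (h2 : MulAction.IsMultiplyPretransitive G Ω 2) (hev : Even (Fintype.card Ω)) (a : Ω)
    (N : Subgroup G) (hNle : N ≤ MulAction.stabilizer G a)
    (hNnormal : ∀ g ∈ MulAction.stabilizer G a, ∀ x ∈ N, g * x * g⁻¹ ∈ N) (n : ℕ) (hn : 1 ≤ n)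
    (hN : ∃ (F : Type) (_ : Field F) (_ : Fintype F), Fintype.card F = 2 ^ n ∧
      Nonempty (↥N ≃* Matrix.ProjectiveSpecialLinearGroup (Fin 3) F)) :
    (∀ x y : Ω, x ≠ a → y ≠ a → ∃ g ∈ N, g • x = y) ∧
    ((Odd n ∧ ∃ E : Subgroup G, E.Normal ∧ Nat.card E = (2 ^ n) ^ 3 ∧
      (∀ x y : Ω, ∃ r ∈ E, r • x = y) ∧ ∀ x : Ω, ∀ r ∈ E, r • x = x → r = 1) ∨
     (Fintype.card Ω = 22 ∧ n = 2 ∧
      (Cfsg.Spor.IsoM22 G ∨ ∃ H : Subgroup G, H.index = 2 ∧ Cfsg.Spor.IsoM22 ↥H))) := by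
  obtain ⟨F, _, _, hF, ⟨e⟩⟩ := hN
  by_cases h : n = 2
  · subst h
    obtain ⟨h1, h3⟩ := aux h2 hev a N hNle hNnormal 2 hn H6.F4 H6.card_F4
      (e.trans (H6.pslCongr (FiniteField.ringEquivOfCardEq (hF.trans H6.card_F4.symm))))
    exact ⟨h1, h3.imp_right fun ⟨k1, k2, ⟨E⟩⟩ => ⟨k1, k2, E.main
      (fun x y x' y' h h' => is_two_pretransitive_iff.mp h2 h h')
      fun g h => FaithfulSMul.eq_of_smul_eq_smul (α := Ω) fun x => by rw [h, one_smul]⟩⟩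
  · obtain ⟨h1, h3⟩ := aux h2 hev a N hNle hNnormal n hn F hF e
    exact ⟨h1, h3.imp_right fun k => absurd k.2.1 h⟩

end Cfsg.Agent.H2.L3
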