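import Cfsg.Agent.H2.L3a

/-!
# Overgroups of the unitriangular group in `SL₃` in characteristic two
-/

set_option autoImplicit false

namespace Cfsg.Agent.H2.L3

open Matrix

variable {F : Type} [Field F]

/-- Reversal of coordinates. -/
def rv (x : Vec F) : Vec F := ![x 2, x 1, x 0]

@[simp] theorem rv_0 (x : Vec F) : rv x 0 = x 2 := rfl
@[simp] theorem rv_1 (x : Vec F) : rv x 1 = x 1 := rfl
@[simp] theorem rv_2 (x : Vec F) : rv x 2 = x 0 := rfl

theorem rv_rv (x : Vec F) : rv (rv x) = x := vec_ext rfl rfl rfl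

theorem rv_dot (f x : Vec F) : rv f ⬝ᵥ rv x = x ⬝ᵥ f := by
  rw [dot3, dot3]; simp; ring

/-- The graph automorphism. -/
def dual : SL F →* SL F where
  toFun g := ⟨((g⁻¹).1ᵀ).submatrix Fin.revPerm Fin.revPerm, by
    rw [det_submatrix_equiv_self, det_transpose]; exact (g⁻¹).2⟩
  map_one' := by
    apply Subtype.ext
    simp
  map_mul' g h := by
    apply Subtype.ext
    show _ = _ * _
    rw [submatrix_mul_equiv, ← transpose_mul, _root_.mul_inv_rev]
    rfl

theorem dual_apply (g : SL F) (i j : Fin 3) : (dual g).1 i j = (g⁻¹).1 j.rev i.rev := rfl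

theorem dual_dual (g : SL F) : dual (dual g) = g := by
  ext i j
  show (dual (dual g)).1 i j = _
  rw [dual_apply, ← map_inv, dual_apply, inv_inv, Fin.rev_rev, Fin.rev_rev]

theorem dual_smul (g : SL F) (f : Vec F) : dual g • rv f = rv (cv g f) := by
  have h : ∀ i, cv g f i = f 0 * (g⁻¹).1 0 i + f 1 * (g⁻¹).1 1 i + f 2 * (g⁻¹).1 2 i := by
    intro i
    simp only [cv, vecMul, dotProduct, Fin.sum_univ_three, transpose_apply]
  apply vec_ext <;> rw [smul_apply, dual_apply, dual_apply, dual_apply] <;> simp only [rv_0, rv_1,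
    rv_2, h] <;> simp <;> ring

theorem dual_center {g : SL F} (h : g ∈ Subgroup.center (SL F)) :
    dual g ∈ Subgroup.center (SL F) := by
  rw [Subgroup.mem_center_iff] at h ⊢
  intro k
  rw [← dual_dual k, ← map_mul, ← map_mul, h]

theorem blk_det (h : SpecialLinearGroup (Fin 2) F) : h.1 0 0 * h.1 1 1 - h.1 0 1 * h.1 1 0 = 1 := by
  rw [← det_fin_two]; exact h.2

/-- Block embedding. -/
def blk (h : SpecialLinearGroup (Fin 2) F) : SL F :=
  mk3 1 0 0 0 (h.1 0 0) (h.1 0 1) 0 (h.1 1 0) (h.1 1 1) (by linear_combination blk_det h)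

theorem blk_mul (h k : SpecialLinearGroup (Fin 2) F) : blk (h * k) = blk h * blk k := by
  have e : ∀ i j, (h * k).1 i j = h.1 i 0 * k.1 0 j + h.1 i 1 * k.1 1 j := by
    intro i j
    show (h.1 * k.1) i j = _
    simp [mul_apply, Fin.sum_univ_two]
  ext i j
  rw [show ∀ g : SL F, g i j = g.1 i j from fun _ => rfl,
    show ∀ g : SL F, g i j = g.1 i j from fun _ => rfl, mul_apply3]
  fin_cases i <;> fin_cases j <;> simp [blk, -SpecialLinearGroup.coe_mul, e]

/-- The stabilizer of a vector is generated by transvections. -/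
theorem fix_induction {P : SL F → Prop} {v : Vec F} (hv : v ≠ 0)
    (ht : ∀ u f, f ⬝ᵥ u = 0 → f ⬝ᵥ v = 0 → P (tv u f)) (hm : ∀ g h, P g → P h → P (g * h))
    {g : SL F} (hg : g • v = v) : P g := by
  obtain ⟨k, rfl⟩ := exists_one hv
  have key : ∀ g : SL F, g • (e0 : Vec F) = e0 → P (k * g * k⁻¹) := by
    have hm' : ∀ g h, P (k * g * k⁻¹) → P (k * h * k⁻¹) → P (k * (g * h) * k⁻¹) := by
      intro g h h1 h2
      have := hm _ _ h1 h2
      rwa [show k * g * k⁻¹ * (k * h * k⁻¹) = k * (g * h) * k⁻¹ by group] at this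
    have ht' : ∀ u f, f ⬝ᵥ u = 0 → f ⬝ᵥ e0 = 0 → P (k * tv u f * k⁻¹) := by
      intro u f h1 h2
      rw [conj_tv k h1]
      exact ht _ _ (by rw [cv_dot_smul, h1]) (by rw [cv_dot_smul, h2])
    have hb : ∀ h, P (k * blk h * k⁻¹) := by
      intro h
      induction h using SL2.transvection_induction with
      | htransvec i j hij c =>
        fin_cases i <;> fin_cases j
        · exact absurd rfl hij
        · have : blk (SpecialLinearGroup.transvection hij c) = tv e1 (c • e2) := by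
            apply sl_ext
            intro x
            rw [tv_smul (by rw [dot3]; simp), blk, mk3_smul, dot3]
            apply vec_ext <;> simp [SpecialLinearGroup.transvection, transvection]
          rw [this]
          exact ht' _ _ (by rw [dot3]; simp) (by rw [dot3]; simp)
        · have : blk (SpecialLinearGroup.transvection hij c) = tv e2 (c • e1) := by
            apply sl_ext
            intro x
            rw [tv_smul (by rw [dot3]; simp), blk, mk3_smul, dot3]
            apply vec_ext <;> simp [SpecialLinearGroup.transvection, transvection, add_comm]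
          rw [this]
          exact ht' _ _ (by rw [dot3]; simp) (by rw [dot3]; simp)
        · exact absurd rfl hij
      | hmul A B hA hB => rw [blk_mul]; exact hm' _ _ hA hB
    intro g hg
    have g0 : g.1 0 0 = 1 := by rw [← smul_e0, hg]; rfl
    have g1 : g.1 1 0 = 0 := by rw [← smul_e0, hg]; rfl
    have g2 : g.1 2 0 = 0 := by rw [← smul_e0, hg]; rfl
    have hd := det3 g
    rw [g0, g1, g2] at hd
    have : g = blk ⟨!![g.1 1 1, g.1 1 2; g.1 2 1, g.1 2 2], by
        rw [det_fin_two]; simp; linear_combination hd⟩ * uu (g.1 0 1) 0 (g.1 0 2) := by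
      ext i j
      rw [show ∀ g : SL F, g i j = g.1 i j from fun _ => rfl,
        show ∀ g : SL F, g i j = g.1 i j from fun _ => rfl, mul_apply3]
      fin_cases i <;> fin_cases j <;> simp [blk, uu, g0, g1, g2]
    rw [this]
    refine hm' _ _ (hb _) ?_
    rw [uu_eq_tv1]
    exact ht' _ _ (by rw [dot3]; simp) (by rw [dot3]; simp)
  have := key (k⁻¹ * g * k) (by rw [mul_smul, mul_smul, hg, inv_smul_smul])
  rwa [show k * (k⁻¹ * g * k) * k⁻¹ = g by group] at this

theorem tv_induction {P : SL F → Prop} (ht : ∀ u f, f ⬝ᵥ u = 0 → P (tv u f))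
    (hm : ∀ g h, P g → P h → P (g * h)) (g : SL F) : P g := by
  induction g using H8.SL_transvection_induction with
  | ht i j hij a =>
    have : SpecialLinearGroup.transvection hij a = tv (Pi.single i 1) (Pi.single j a) := by
      apply sl_ext
      intro x
      rw [tv_smul (by simp [hij.symm]), smul_eq, SpecialLinearGroup.transvection_coe, add_mulVec,
        one_mulVec, single_mulVec_eq]
      simp [Pi.single_smul']
    rw [this]
    exact ht _ _ (by simp [hij.symm])
  | hmul A B hA hB => exact hm _ _ hA hB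

/-- `X` lies between the vector stabilizer and the point stabilizer. -/
def PX (X : Subgroup (SL F)) (v : Vec F) : Prop :=
  (∀ u f, f ⬝ᵥ u = 0 → f ⬝ᵥ v = 0 → tv u f ∈ X) ∧ ∀ g ∈ X, Par v (g • v)

theorem plane_of_not_par {X : Subgroup (SL F)} (hU : ∀ a b c, uu a b c ∈ X) (hX : X ≠ ⊤)
    {g : SL F} (hg : g ∈ X) (hg' : ¬ Par e0 (g • (e0 : Vec F))) :
    (∀ u f, f ⬝ᵥ u = 0 → u 2 = 0 → tv u f ∈ X) ∧ ∀ g ∈ X, ∀ u : Vec F, u 2 = 0 → (g • u) 2 = 0 := by
  let P : Vec F → Prop := fun p => ∀ f, f ⬝ᵥ p = 0 → tv p f ∈ X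
  have P0 : P e0 := fun f hf => by rw [tv_e0 hf]; exact hU _ _ _
  have Pg : ∀ k ∈ X, ∀ p, P p → P (k • p) := by
    intro k hk p hp f hf
    rw [← cv_cv_inv k f] at hf ⊢
    rw [cv_dot_smul] at hf
    rw [← conj_tv k hf]
    exact X.mul_mem (X.mul_mem hk (hp _ hf)) (X.inv_mem hk)
  have Pc : ∀ (c : F) p, P p → P (c • p) := by
    intro c p hp f hf
    by_cases hc : c = 0
    · rw [hc, zero_smul, tv_zero_left]; exact X.one_mem
    have hf' : f ⬝ᵥ p = 0 := by simpa [hc] using hf
    rw [tv_smul_left c hf']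
    exact hp _ (by simp [hf'])
  have Pl : ∀ p w, p ≠ 0 → ¬ Par p w → P p → P w → ∀ a b : F, P (a • p + b • w) := by
    intro p w hp hpw h1 h2 a b
    by_cases hb : b = 0
    · rw [hb, zero_smul, add_zero]; exact Pc _ _ h1
    obtain ⟨f, f1, f2⟩ := exists_form hp hpw (a / b)
    have := Pc b _ (Pg _ (h1 f f1) _ h2)
    rw [tv_smul f1, f2, smul_add, smul_smul, mul_div_cancel₀ _ hb, add_comm] at this
    exact this
  have P2 : ∀ p, P p → p 2 = 0 := by
    intro p hp
    by_contra h2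
    have a1 : ∀ x : Vec F, x 2 ≠ 0 → P x := by
      intro x hx
      have := Pc (x 2 / p 2) _ (Pg _ (hU 0 (x 1 / x 2 - p 1 / p 2) (x 0 / x 2 - p 0 / p 2)) _ hp)
      rw [uu_smul] at this
      convert this using 1
      apply vec_ext <;> simp <;> field_simp <;> ring
    have a2 : ∀ x : Vec F, P x := by
      intro x
      by_cases hx : x 2 = 0
      · by_cases hx0 : x = 0
        · intro f _; rw [hx0, tv_zero_left]; exact X.one_mem
        have := Pl e2 (x + e2) e2_ne (by
          rintro ⟨c, hc⟩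
          have c0 := congrFun hc 0
          have c1 := congrFun hc 1
          simp at c0 c1
          exact hx0 (vec_ext c0 c1 hx)) (a1 _ (by simp)) (a1 _ (by simp [hx])) (-1) 1
        simpa using this
      · exact a1 x hx
    exact hX (eq_top_iff.mpr fun k _ =>
      tv_induction (P := fun k => k ∈ X) (fun u f h => a2 u f h) (fun _ _ => X.mul_mem) k)
  have Pw := Pg g hg _ P0
  have w2 := P2 _ Pw
  have w1 : (g • (e0 : Vec F)) 1 ≠ 0 := fun h => hg' (par_e0.mpr ⟨h, w2⟩)
  have P3 : ∀ u : Vec F, u 2 = 0 → P u := by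
    intro u hu
    have := Pl _ _ e0_ne hg' P0 Pw (u 0 - u 1 / (g • (e0 : Vec F)) 1 * (g • (e0 : Vec F)) 0)
      (u 1 / (g • (e0 : Vec F)) 1)
    convert this using 1
    apply vec_ext <;> simp [hu, w2]
    field_simp
  exact ⟨fun u f h hu => P3 u hu f h, fun k hk u hu => P2 _ (Pg k hk _ (P3 u hu))⟩

section char2

variable [CharP F 2]

theorem tv_inv (u f : Vec F) : (tv u f)⁻¹ = tv u f := inv_eq_of_mul_eq_one_right (tv_sq u f)

theorem dual_tv {u f : Vec F} (h : f ⬝ᵥ u = 0) : dual (tv u f) = tv (rv f) (rv u) := by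
  apply sl_ext
  intro x
  rw [← rv_rv x, dual_smul, tv_smul (by rw [rv_dot, h]), rv_dot]
  have : cv (tv u f) (rv x) = rv x + (rv x ⬝ᵥ u) • f := by
    apply eq_of_dot
    intro y
    rw [cv_dot, tv_inv, tv_smul h, dotProduct_add, add_dotProduct, dotProduct_smul,
      smul_dotProduct, smul_eq_mul, smul_eq_mul, mul_comm]
  rw [this]
  apply vec_ext <;> simp

theorem dual_uu (a b c : F) : dual (uu a b c) = uu b a (c + a * b) := by
  ext i j
  show (dual (uu a b c)).1 i j = _
  rw [dual_apply, uu_inv]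
  fin_cases i <;> fin_cases j <;> simp [uu]

theorem px_of_not_par {X : Subgroup (SL F)} (hU : ∀ a b c, uu a b c ∈ X) (hX : X ≠ ⊤)
    {g : SL F} (hg : g ∈ X) (hg' : ¬ Par e0 (g • (e0 : Vec F))) : PX (X.comap dual) e0 := by
  obtain ⟨h1, h2⟩ := plane_of_not_par hU hX hg hg'
  refine ⟨fun u f hu hf => ?_, fun k hk => ?_⟩
  · rw [Subgroup.mem_comap, dual_tv hu]
    refine h1 _ _ (by rw [rv_dot, hu]) ?_
    rw [dot3] at hf
    simpa using hf
  · have hk' : (dual k)⁻¹ ∈ X := X.inv_mem hk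
    have a0 := h2 _ hk' e0 rfl
    have a1 := h2 _ hk' e1 rfl
    rw [smul_e0, ← map_inv, dual_apply, inv_inv] at a0
    rw [smul_e1, ← map_inv, dual_apply, inv_inv] at a1
    rw [par_e0, smul_e0, smul_e0]
    exact ⟨a1, a0⟩

theorem trichotomy {X : Subgroup (SL F)} (hU : ∀ a b c, uu a b c ∈ X) (hX : X ≠ ⊤) :
    (∀ g ∈ X, Upper g) ∨ PX X e0 ∨ PX (X.comap dual) e0 := by
  by_cases h1 : ∃ g ∈ X, ¬ Par e0 (g • (e0 : Vec F))
  · obtain ⟨g, hg, hg'⟩ := h1
    exact Or.inr (Or.inr (px_of_not_par hU hX hg hg'))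
  have e : (X.comap dual).comap dual = X := by
    ext g; simp [dual_dual]
  by_cases h2 : ∃ g ∈ X.comap dual, ¬ Par e0 (g • (e0 : Vec F))
  · obtain ⟨g, hg, hg'⟩ := h2
    refine Or.inr (Or.inl ?_)
    rw [← e]
    refine px_of_not_par (fun a b c => ?_) (fun h => hX ?_) hg hg'
    · rw [Subgroup.mem_comap, dual_uu]; exact hU _ _ _
    · rw [← e, h, Subgroup.comap_top]
  push Not at h1 h2
  refine Or.inl fun g hg => ?_
  have a := par_e0.mp (h1 g hg)
  have b := par_e0.mp (h2 (dual g⁻¹) (by rw [Subgroup.mem_comap, dual_dual]; exact X.inv_mem hg))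
  rw [smul_e0, smul_e0] at a b
  rw [dual_apply, inv_inv] at b
  exact ⟨a.1, a.2, b.1⟩

/-- The unitriangular group. -/
def UU (F : Type) [Field F] [CharP F 2] : Subgroup (SL F) where
  carrier := {g | ∃ a b c, g = uu a b c}
  one_mem' := ⟨0, 0, 0, uu_zero.symm⟩
  mul_mem' := by
    rintro _ _ ⟨a, b, c, rfl⟩ ⟨a', b', c', rfl⟩
    exact ⟨_, _, _, uu_mul ..⟩
  inv_mem' := by
    rintro _ ⟨a, b, c, rfl⟩
    exact ⟨_, _, _, uu_inv ..⟩

theorem exists_conj_uu [Finite F] {X : Subgroup (SL F)} (hX : Odd X.index) :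
    ∃ h : SL F, ∀ a b c, h⁻¹ * uu a b c * h ∈ X := by
  haveI : Fact (Nat.Prime 2) := ⟨Nat.prime_two⟩
  have hU : IsPGroup 2 (UU F) := by
    rintro ⟨_, a, b, c, rfl⟩
    exact ⟨2, Subtype.ext (uu_four a b c)⟩
  obtain ⟨P, hP⟩ := hU.exists_le_sylow
  obtain ⟨Q⟩ : Nonempty (Sylow 2 X) := inferInstance
  have hQ : ¬ 2 ∣ ((Q : Subgroup X).map X.subtype).index := by
    rw [Subgroup.index_map_subtype]
    intro h
    rcases (Nat.Prime.dvd_mul Nat.prime_two).mp h with h | h
    · exact Q.not_dvd_index h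
    · exact (Nat.not_even_iff_odd.mpr hX) (even_iff_two_dvd.mpr h)
  let Q' : Sylow 2 (SL F) := (Q.isPGroup'.map X.subtype).toSylow hQ
  obtain ⟨h, hh⟩ := MulAction.exists_smul_eq (SL F) Q' P
  refine ⟨h, fun a b c => ?_⟩
  have : uu a b c ∈ (P : Subgroup (SL F)) := hP ⟨a, b, c, rfl⟩
  rw [← hh, Sylow.coe_subgroup_smul, Subgroup.mem_pointwise_smul_iff_inv_smul_mem] at this
  obtain ⟨x, -, hx⟩ := (this : _ ∈ (Q : Subgroup X).map X.subtype)
  have e : (x : SL F) = h⁻¹ * uu a b c * h := by simpa using hx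
  rw [← e]
  exact x.2

end char2

end Cfsg.Agent.H2.L3
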