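import Cfsg.Agent.H2.L3c

/-!
# Point types and automorphisms acting trivially on `U / Z(U)`
-/

set_option autoImplicit false

namespace Cfsg.Agent.H2.L3

open Matrix MulAction

section

variable {F : Type} [Field F]

theorem tv_par {u f w : Vec F} (hu : u ≠ 0) (h : f ⬝ᵥ u = 0) (hp : Par w (tv u f • w)) :
    f ⬝ᵥ w = 0 := by
  by_contra h'
  obtain ⟨c, hc⟩ := hp
  rw [tv_smul h] at hc
  have := congrArg (f ⬝ᵥ ·) hc
  simp only [dotProduct_add, dotProduct_smul, h, smul_eq_mul, mul_zero, add_zero] at this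
  have c1 : c = 1 := mul_right_cancel₀ h' (this.symm.trans (one_mul _).symm)
  rw [c1, one_smul, add_eq_left, smul_eq_zero] at hc
  exact hc.elim h' hu

theorem par_of_tv_eq {v w f f' : Vec F} (hf : f ≠ 0) (h : f ⬝ᵥ v = 0) (h' : f' ⬝ᵥ w = 0)
    (e : tv v f = tv w f') : Par w v := by
  obtain ⟨x, hx⟩ := exists_dot_eq hf 1
  have := tv_smul h x
  rw [e, tv_smul h', hx, one_smul, add_right_inj] at this
  exact ⟨_, this.symm⟩

theorem exists_form_ne (v : Vec F) : ∃ f : Vec F, f ≠ 0 ∧ f ⬝ᵥ v = 0 := by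
  obtain ⟨f, h1, h2, -⟩ := exists_form_two v v
  exact ⟨f, h1, h2⟩

variable {G Ω : Type*} [Group G] [MulAction G Ω]

/-- The stabilizer of a point in a chart. -/
def Xs (ψ : SL F →* G) (c : Ω) : Subgroup (SL F) := (stabilizer G c).comap ψ

theorem mem_Xs {ψ : SL F →* G} {c : Ω} {g : SL F} : g ∈ Xs ψ c ↔ ψ g • c = c := Iff.rfl

/-- `c` is fixed by the unitriangular group. -/
def FixU (ψ : SL F →* G) (c : Ω) : Prop := ∀ a b d, ψ (uu a b d) • c = c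

/-- Borel type. -/
def TypB (ψ : SL F →* G) (c : Ω) : Prop := FixU ψ c ∧ ∀ g, ψ g • c = c → Upper g

/-- The point `c` lies over the vector `v`. -/
def Ov (ψ : SL F →* G) (c : Ω) (v : Vec F) : Prop := v ≠ 0 ∧ PX (Xs ψ c) v

/-- Elations with centre `v`. -/
def Vv (ψ : SL F →* G) (v : Vec F) : Set G := {s | ∃ f, f ⬝ᵥ v = 0 ∧ s = ψ (tv v f)}

theorem Vv_smul (ψ : SL F →* G) {c : F} (hc : c ≠ 0) (v : Vec F) : Vv ψ (c • v) = Vv ψ v := by
  ext s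
  constructor
  · rintro ⟨f, hf, rfl⟩
    have hf' : f ⬝ᵥ v = 0 := by simpa [hc] using hf
    exact ⟨c • f, by simp [hf'], by rw [tv_smul_left c hf']⟩
  · rintro ⟨f, hf, rfl⟩
    refine ⟨c⁻¹ • f, by simp [hf], ?_⟩
    rw [tv_smul_left c (by simp [hf]), smul_smul, mul_inv_cancel₀ hc, one_smul]

theorem Par.Vv_eq (ψ : SL F →* G) {v w : Vec F} (h : Par v w) (hw : w ≠ 0) :
    Vv ψ w = Vv ψ v := by
  obtain ⟨c, rfl⟩ := h
  exact Vv_smul ψ (by rintro rfl; simp at hw) v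

theorem conj_mem_Vv (ψ : SL F →* G) (g : SL F) (v : Vec F) (s : G) :
    ψ g * s * (ψ g)⁻¹ ∈ Vv ψ (g • v) ↔ s ∈ Vv ψ v := by
  constructor
  · rintro ⟨f, hf, e⟩
    rw [← cv_cv_inv g f] at hf e
    rw [cv_dot_smul] at hf
    rw [← conj_tv g hf, map_mul, map_mul, map_inv] at e
    exact ⟨_, hf, by simpa using e⟩
  · rintro ⟨f, hf, rfl⟩
    exact ⟨cv g f, by rw [cv_dot_smul, hf], by rw [← conj_tv g hf, map_mul, map_mul, map_inv]⟩

theorem mem_Vv_e0 {ψ : SL F →* G} {s : G} : s ∈ Vv ψ e0 ↔ ∃ a c, s = ψ (uu a 0 c) := by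
  constructor
  · rintro ⟨f, hf, rfl⟩
    exact ⟨_, _, by rw [tv_e0 hf]⟩
  · rintro ⟨a, c, rfl⟩
    exact ⟨![0, a, c], by rw [dot3]; simp, by rw [uu_eq_tv1]⟩

/-- `y` maps the point `v` to the point `w`. -/
def Rel (ψ : SL F →* G) (y : G) (v w : Vec F) : Prop :=
  v ≠ 0 ∧ w ≠ 0 ∧ ∀ s, s ∈ Vv ψ v ↔ y * s * y⁻¹ ∈ Vv ψ w

theorem Rel.equi {ψ : SL F →* G} {y : G} {v w : Vec F} (h : Rel ψ y v w) {g g' : SL F}
    (e : y * ψ g * y⁻¹ = ψ g') : Rel ψ y (g • v) (g' • w) := by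
  refine ⟨smul_ne_zero' _ h.1, smul_ne_zero' _ h.2.1, fun s => ?_⟩
  obtain ⟨t, rfl⟩ : ∃ t, s = ψ g * t * (ψ g)⁻¹ := ⟨(ψ g)⁻¹ * s * ψ g, by group⟩
  rw [conj_mem_Vv, h.2.2, ← conj_mem_Vv ψ g', ← e]
  congr! 1
  group

theorem Rel.left {ψ : SL F →* G} {y : G} {v w v' : Vec F} (h : Rel ψ y v w) (hp : Par v v')
    (hv : v' ≠ 0) : Rel ψ y v' w := ⟨hv, h.2.1, by rw [hp.Vv_eq ψ hv]; exact h.2.2⟩

theorem Rel.right {ψ : SL F →* G} {y : G} {v w w' : Vec F} (h : Rel ψ y v w) (hp : Par w w')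
    (hw : w' ≠ 0) : Rel ψ y v w' := ⟨h.1, hw, by rw [hp.Vv_eq ψ hw]; exact h.2.2⟩

theorem Rel.shift {ψ : SL F →* G} {y : G} {v w : Vec F} (h : Rel ψ y v w) (k : SL F) :
    Rel ψ (ψ k * y) v (k • w) := by
  refine ⟨h.1, smul_ne_zero' _ h.2.1, fun s => ?_⟩
  rw [h.2.2, ← conj_mem_Vv ψ k]
  congr! 1
  group

theorem Ov.smul {ψ : SL F →* G} {c : Ω} {v : Vec F} (h : Ov ψ c v) (g : SL F) :
    Ov ψ (ψ g • c) (g • v) := by
  refine ⟨smul_ne_zero' _ h.1, fun u f h1 h2 => ?_, fun k hk => ?_⟩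
  · obtain ⟨u, rfl⟩ : ∃ u', u = g • u' := ⟨g⁻¹ • u, by simp⟩
    rw [← cv_cv_inv g f] at h1 h2 ⊢
    rw [cv_dot_smul] at h1 h2
    rw [← conj_tv g h1, mem_Xs, map_mul, map_mul, map_inv, mul_smul, mul_smul, inv_smul_smul,
      mem_Xs.mp (h.2.1 _ _ h1 h2)]
  · have := h.2.2 (g⁻¹ * k * g) (by
      rw [mem_Xs, map_mul, map_mul, mul_smul, mul_smul, mem_Xs.mp hk, map_inv, inv_smul_smul])
    have := this.smul g
    rwa [mul_smul, mul_smul, smul_inv_smul] at this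

theorem Ov.par {ψ : SL F →* G} {c : Ω} {v v' : Vec F} (h : Ov ψ c v) (hp : Par v v')
    (hv : v' ≠ 0) : Ov ψ c v' := by
  obtain ⟨a, rfl⟩ := hp
  have ha : a ≠ 0 := by rintro rfl; simp at hv
  refine ⟨hv, fun u f h1 h2 => h.2.1 u f h1 (by simpa [ha] using h2), fun k hk => ?_⟩
  obtain ⟨b, hb⟩ := h.2.2 k hk
  exact ⟨b, by rw [smul_smul', hb, smul_comm]⟩

theorem Ov.tv_fix {ψ : SL F →* G} {c : Ω} {v : Vec F} (h : Ov ψ c v) {u f : Vec F}
    (h1 : f ⬝ᵥ u = 0) (h2 : f ⬝ᵥ v = 0) : ψ (tv u f) • c = c := h.2.1 u f h1 h2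

theorem Ov.dot_eq {ψ : SL F →* G} {c : Ω} {v : Vec F} (h : Ov ψ c v) {u f : Vec F} (hu : u ≠ 0)
    (h1 : f ⬝ᵥ u = 0) (h2 : ψ (tv u f) • c = c) : f ⬝ᵥ v = 0 := tv_par hu h1 (h.2.2 _ h2)

theorem Ov.fix {ψ : SL F →* G} {c : Ω} {v : Vec F} (h : Ov ψ c v) {g : SL F} (hg : g • v = v) :
    ψ g • c = c :=
  fix_induction (P := fun g => g ∈ Xs ψ c) h.1 h.2.1 (fun _ _ => Subgroup.mul_mem _) hg

theorem Ov.unique {ψ : SL F →* G} {c : Ω} {v v' : Vec F} (h : Ov ψ c v) (h' : Ov ψ c v') :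
    Par v v' := by
  by_contra hp
  obtain ⟨f, f1, f2⟩ := exists_form h.1 hp 1
  have := h'.dot_eq h.1 f1 (h.tv_fix f1 f1)
  exact one_ne_zero (f2.symm.trans this)

theorem Ov.conj {ψ : SL F →* G} {c : Ω} {v : Vec F} (h : Ov ψ c v) (g : G) :
    Ov ((MulAut.conj g).toMonoidHom.comp ψ) (g • c) v := by
  have : Xs ((MulAut.conj g).toMonoidHom.comp ψ) (g • c) = Xs ψ c := by
    ext k
    simp [mem_Xs, mul_smul]
  rw [Ov, this]
  exact h

end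

namespace Hy

variable {G Ω : Type*} [Group G] [MulAction G Ω] {F : Type} [Field F] {H : Hy G Ω F}
  [CharP F 2] {x : Ω} {ψ : SL F →* G}

theorem Chart.par_of_Vv (C : H.Chart x ψ) {v w : Vec F} (h : Vv ψ v ⊆ Vv ψ w) : Par w v := by
  obtain ⟨f, f1, f2⟩ := exists_form_ne v
  obtain ⟨f', f3, e⟩ := h ⟨f, f2, rfl⟩
  exact par_of_tv_eq f1 f2 f3 (C.tv_inj e)

theorem Chart.rel_right (C : H.Chart x ψ) {y : G} {v w w' : Vec F} (h : Rel ψ y v w)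
    (h' : Rel ψ y v w') : Par w w' := by
  refine C.par_of_Vv fun s hs => ?_
  obtain ⟨t, rfl⟩ : ∃ t, s = y * t * y⁻¹ := ⟨y⁻¹ * s * y, by group⟩
  rw [← h.2.2, h'.2.2]
  exact hs

theorem Chart.rel_left (C : H.Chart x ψ) {y : G} {v w v' : Vec F} (h : Rel ψ y v w)
    (h' : Rel ψ y v' w) : Par v v' :=
  C.par_of_Vv fun s hs => by rw [h.2.2, ← h'.2.2]; exact hs

theorem Chart.rel_par (C : H.Chart x ψ) {y : G} {v w : Vec F} (h : Rel ψ y v w) {g g' : SL F}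
    (e : y * ψ g * y⁻¹ = ψ g') (hp : Par v (g • v)) : Par w (g' • w) :=
  C.rel_right (h.left hp (smul_ne_zero' _ h.1)) (h.equi e)

theorem Chart.rel_total (C : H.Chart x ψ) {y : G} (hy : y • x = x) {w : Vec F}
    (h : Rel ψ y e0 w) {v : Vec F} (hv : v ≠ 0) : ∃ w, Rel ψ y v w := by
  obtain ⟨g, rfl⟩ := exists_one hv
  obtain ⟨g', e⟩ := C.norm hy g
  exact ⟨_, h.equi e⟩

theorem Chart.cent_of_rel (C : H.Chart x ψ) {y : G} (hy : y • x = x)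
    (h : ∀ v, v ≠ 0 → Rel ψ y v v) : H.Cent x y := by
  intro s hs
  obtain ⟨g, rfl⟩ := (C.mem _).mp hs
  obtain ⟨g', e⟩ := C.norm hy g
  have : g⁻¹ * g' ∈ Subgroup.center (SL F) := by
    refine mem_center_of_par fun v => ?_
    by_cases hv : v = 0
    · rw [hv, smul_zero]; exact Par.refl _
    have := (C.rel_right (h _ (smul_ne_zero' g hv)) ((h v hv).equi e)).smul g⁻¹
    rwa [inv_smul_smul, ← mul_smul] at this
  rw [← C.ker, map_mul, map_inv, ← e, inv_mul_eq_one, eq_mul_inv_iff_mul_eq] at this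
  exact this.symm

/-- `y` acts trivially on `U / Z(U)`. -/
def TrivU (ψ : SL F →* G) (y : G) : Prop :=
  ∀ a b c, ∃ d, y * ψ (uu a b c) * y⁻¹ = ψ (uu a b d)

omit [CharP F 2] in
theorem TrivU.inv {y : G} (h : TrivU ψ y) [CharP F 2] : TrivU ψ y⁻¹ := by
  intro a b c
  have hz : ∀ c, y * ψ (uu 0 0 c) * y⁻¹ = ψ (uu 0 0 c) := by
    intro c
    obtain ⟨d, e⟩ := h 1 0 0
    obtain ⟨d', e'⟩ := h 0 c 0
    have k : ∀ d d' : F, uu 0 0 c = uu 1 0 d * uu 0 c d' * (uu 1 0 d)⁻¹ * (uu 0 c d')⁻¹ := by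
      intro d d'
      rw [uu_conj, uu_inv, uu_mul]
      congr 1 <;> grind
    conv_lhs => rw [k 0 0]
    conv_rhs => rw [k d d']
    simp only [map_mul, map_inv, ← e, ← e']
    group
  obtain ⟨d, e⟩ := h a b c
  refine ⟨c + (c + d), ?_⟩
  have e1 : uu a b c = uu a b d * uu 0 0 (c + d) := by rw [uu_mul]; congr 1 <;> grind
  have e2 : uu a b (c + (c + d)) = uu a b c * uu 0 0 (c + d) := by rw [uu_mul]; congr 1 <;> grind
  rw [e2, map_mul]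
  conv_lhs => rw [e1, map_mul, ← e, ← hz]
  group

theorem TrivU.centZ {y : G} (h : TrivU ψ y) (c : F) :
    y * ψ (uu 0 0 c) * y⁻¹ = ψ (uu 0 0 c) := by
  obtain ⟨d, e⟩ := h 1 0 0
  obtain ⟨d', e'⟩ := h 0 c 0
  have k : ∀ d d' : F, uu 0 0 c = uu 1 0 d * uu 0 c d' * (uu 1 0 d)⁻¹ * (uu 0 c d')⁻¹ := by
    intro d d'
    rw [uu_conj, uu_inv, uu_mul]
    congr 1 <;> grind
  conv_lhs => rw [k 0 0]
  conv_rhs => rw [k d d']
  simp only [map_mul, map_inv, ← e, ← e']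
  group

theorem TrivU.shift {y : G} (h : TrivU ψ y) (a b c : F) : TrivU ψ (ψ (uu a b c) * y) := by
  intro a' b' c'
  obtain ⟨d, e⟩ := h a' b' c'
  refine ⟨d + a * b' + a' * b, ?_⟩
  rw [← uu_conj a b c a' b' d, map_mul, map_mul, map_inv, ← e]
  group

theorem TrivU.rel0 {y : G} (h : TrivU ψ y) : Rel ψ y e0 e0 := by
  refine ⟨e0_ne, e0_ne, fun s => ?_⟩
  rw [mem_Vv_e0, mem_Vv_e0]
  constructor
  · rintro ⟨a, c, rfl⟩
    obtain ⟨d, e⟩ := h a 0 c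
    exact ⟨a, d, e⟩
  · rintro ⟨a, c, e⟩
    obtain ⟨d, e'⟩ := h.inv a 0 c
    exact ⟨a, d, by rw [← e', ← e]; group⟩

theorem TrivU.plane {y : G} (h : TrivU ψ y) (h1 : Rel ψ y e1 e1) {v : Vec F} (hv : v ≠ 0)
    (h2 : v 2 = 0) : Rel ψ y v v := by
  by_cases h3 : v 1 = 0
  · have := par_e0.mpr ⟨h3, h2⟩
    exact (h.rel0.left this hv).right this hv
  obtain ⟨d, e⟩ := h (v 0 / v 1) 0 0
  have := h1.equi e
  rw [uu_smul, uu_smul] at this
  have hp : Par ![v 0 / v 1, 1, 0] v :=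
    ⟨v 1, vec_ext (by simp; field_simp) (by simp) (by simp [h2])⟩
  simp only [e1_0, e1_1, e1_2, mul_one, mul_zero, add_zero, zero_add] at this
  exact (this.left hp hv).right hp hv

variable [Finite Ω]

theorem Chart.aut3 (C : H.Chart x ψ) {y : G} (hy : y • x = x) (h : TrivU ψ y)
    (h1 : Rel ψ y e1 e1) (h2 : Rel ψ y e2 e2) : H.Cent x y := by
  have t0 : (e0 : Vec F) ⬝ᵥ e1 = 0 := by rw [dot3]; simp
  have hW : ∀ b, y * ψ (uu 0 b 0) * y⁻¹ = ψ (uu 0 b 0) := by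
    intro b
    obtain ⟨d, e⟩ := h 0 b 0
    obtain ⟨u, f, hu, hf, huf, e'⟩ := C.exists_tv' (conj_mem' (C.mem' (tv e1 e0)) hy) (by
      rw [show y * ψ (tv e1 e0) * y⁻¹ * (y * ψ (tv e1 e0) * y⁻¹) =
        y * ψ (tv e1 e0 * tv e1 e0) * y⁻¹ by rw [map_mul]; group, tv_sq]; simp) (by
      intro h
      have : ψ (tv e1 e0) = ψ (tv 0 0) := by
        rw [tv_zero_left, map_one]; simpa [mul_inv_eq_iff_eq_mul] using h
      have := C.tv_inj this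
      rw [tv_zero_left] at this
      exact (tv_eq_one t0 this).elim e1_ne e0_ne)
    have a1 := tv_par hu huf (C.rel_par h1 e' (by
      rw [tv_smul t0, t0, zero_smul, add_zero]; exact Par.refl _))
    have a2 := tv_par hu huf (C.rel_par h2 e' (by
      rw [tv_smul t0, dot3]; simpa using Par.refl _))
    have a3 := tv_par hu huf (C.rel_par (h2.equi e) e' (by
      rw [tv_smul t0, dot3, uu_smul]; simpa using Par.refl _))
    rw [uu_smul] at a3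
    rw [dot3] at a1 a2 a3
    simp at a1 a2
    simp [a1, a2] at a3
    rcases a3 with a3 | a3
    · exact absurd (vec_ext a3 a1 a2) hf
    · rw [e, a3]
  refine C.cent_of_rel hy fun v hv => ?_
  by_cases h3 : v 2 = 0
  · exact h.plane h1 hv h3
  have e : y * ψ (uu 0 (v 1 / v 2) (v 0 / v 2)) * y⁻¹ = ψ (uu 0 (v 1 / v 2) (v 0 / v 2)) := by
    have : uu 0 (v 1 / v 2) (v 0 / v 2) = uu 0 (v 1 / v 2) 0 * uu 0 0 (v 0 / v 2) := by
      rw [uu_mul]; simp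
    rw [this, map_mul]
    conv_rhs => rw [← hW, ← h.centZ]
    group
  have := h2.equi e
  have hp : Par (uu 0 (v 1 / v 2) (v 0 / v 2) • e2) v := by
    rw [uu_smul]
    exact ⟨v 2, vec_ext (by simp; field_simp) (by simp; field_simp) (by simp)⟩
  exact (this.left hp hv).right hp hv

theorem Chart.aut2 (C : H.Chart x ψ) {y : G} (hy : y • x = x) (h : TrivU ψ y)
    (h1 : Rel ψ y e1 e1) : ∃ b c, H.Cent x (ψ (uu 0 b c) * y) := by
  obtain ⟨w, hw⟩ := C.rel_total hy h.rel0 (v := e2) e2_ne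
  have w2 : w 2 ≠ 0 := by
    intro h2
    obtain ⟨c, hc⟩ := C.rel_left (h.plane h1 hw.2.1 h2) hw
    have := congrFun hc 2
    simp [h2] at this
  refine ⟨w 1 / w 2, w 0 / w 2, C.aut3 ?_ (h.shift _ _ _) ?_ ?_⟩
  · rw [mul_smul, hy, fix_of_mem (C.mem' _)]
  · have := h1.shift (uu 0 (w 1 / w 2) (w 0 / w 2))
    rw [uu_smul] at this
    convert this using 1
    exact vec_ext (by simp) (by simp) (by simp)
  · refine (hw.shift _).right ?_ e2_ne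
    rw [uu_smul]
    refine ⟨(w 2)⁻¹, vec_ext ?_ ?_ ?_⟩ <;> simp [w2, add_self]

/-- Automorphisms acting trivially on `U / Z(U)` are inner. -/
theorem Chart.aut (C : H.Chart x ψ) {y : G} (hy : y • x = x) (h : TrivU ψ y) :
    ∃ a b c k, H.Cent x k ∧ y = ψ (uu a b c) * k := by
  obtain ⟨w, hw⟩ := C.rel_total hy h.rel0 (v := e1) e1_ne
  have w2 : w 2 = 0 := by
    obtain ⟨d, e⟩ := h 0 0 1
    obtain ⟨d', e'⟩ := h 0 1 0
    rw [h.centZ] at e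
    obtain ⟨a, ha⟩ := C.rel_par hw (h.centZ 1) (by rw [uu_smul]; exact ⟨1, by
      apply vec_ext <;> simp⟩)
    obtain ⟨b, hb⟩ := C.rel_par hw e' (by rw [uu_smul]; exact ⟨1, by
      apply vec_ext <;> simp⟩)
    rw [uu_smul] at ha hb
    have a0 := congrFun ha 0
    have a2 := congrFun ha 2
    simp at a0 a2
    by_contra h2
    have : a = 1 := mul_right_cancel₀ h2 (a2.symm.trans (one_mul _).symm)
    rw [this] at a0
    exact h2 (by simpa using a0)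
  have w1 : w 1 ≠ 0 := by
    intro h1
    have hp := par_e0.mpr ⟨h1, w2⟩
    have := par_e0.mp (C.rel_left (h.rel0.right hp hw.2.1) hw)
    simp at this
  obtain ⟨b, c, hc⟩ := C.aut2 (y := ψ (uu (w 0 / w 1) 0 0) * y)
    (by rw [mul_smul, hy, fix_of_mem (C.mem' _)]) (h.shift _ _ _) (by
      refine (hw.shift _).right ?_ e1_ne
      rw [uu_smul]
      refine ⟨(w 1)⁻¹, vec_ext ?_ ?_ ?_⟩ <;> simp [w2, w1, add_self])
  rw [← mul_assoc, ← map_mul, uu_mul] at hc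
  generalize (0 + w 0 / w 1) = A, b + 0 = B, c + 0 + 0 * 0 = D at hc
  exact ⟨A, B, D + A * B, _, hc, by rw [← uu_inv, map_inv, inv_mul_cancel_left]⟩

theorem Chart.Xs_ne (C : H.Chart x ψ) {c : Ω} (hc : c ≠ x) : Xs ψ c ≠ ⊤ := by
  intro h
  obtain ⟨s, hs, h'⟩ := H.exists_move hc
  obtain ⟨g, rfl⟩ := (C.mem _).mp hs
  exact h' (mem_Xs.mp (h ▸ Subgroup.mem_top g))

theorem Chart.trich (C : H.Chart x ψ) {c : Ω} (hc : c ≠ x) (h : FixU ψ c) :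
    TypB ψ c ∨ Ov ψ c e0 ∨ Ov (ψ.comp L3.dual) c e0 := by
  rcases trichotomy (X := Xs ψ c) h (C.Xs_ne hc) with h' | h' | h'
  · exact Or.inl ⟨h, h'⟩
  · exact Or.inr (Or.inl ⟨e0_ne, h'⟩)
  · exact Or.inr (Or.inr ⟨e0_ne, h'⟩)

omit [CharP F 2] in
theorem Chart.index_Xs (C : H.Chart x ψ) (c : Ω) :
    (Xs ψ c).index = (orbit (H.N x) c).ncard := by
  letI : MulAction (SL F) Ω := MulAction.compHom Ω ψ
  have e : Xs ψ c = stabilizer (SL F) c := rfl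
  rw [e, index_stabilizer]
  congr 1
  ext y
  constructor
  · rintro ⟨g, rfl⟩
    exact ⟨⟨ψ g, C.mem' g⟩, rfl⟩
  · rintro ⟨⟨s, hs⟩, rfl⟩
    obtain ⟨g, rfl⟩ := (C.mem _).mp hs
    exact ⟨g, rfl⟩

theorem Chart.exists_fixU [Finite F] (C : H.Chart x ψ) {c : Ω} (hc : c ≠ x) :
    ∃ h, FixU ψ (ψ h • c) := by
  obtain ⟨h, hh⟩ := exists_conj_uu (X := Xs ψ c) (by rw [C.index_Xs]; exact odd_orbit hc)
  refine ⟨h, fun a b d => ?_⟩
  have := mem_Xs.mp (hh a b d)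
  rwa [map_mul, map_mul, mul_smul, mul_smul, map_inv, inv_smul_eq_iff] at this

end Hy

end Cfsg.Agent.H2.L3
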