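import Cfsg.Agent.H2.L3c
import Mathlib.GroupTheory.Transfer

/-!
# No doubly transitive group of degree 22 with two-point stabilizer of order dividing 16
-/

set_option autoImplicit false

namespace Cfsg.Agent.H2.L3

open MulAction

variable {G Ω : Type*} [Group G] [MulAction G Ω]

theorem card_two_trans [Finite G] [Finite Ω]
    (two : ∀ x y x' y' : Ω, x ≠ y → x' ≠ y' → ∃ g : G, g • x = x' ∧ g • y = y') {x b : Ω}
    (hb : b ≠ x) : Nat.card (stabilizer G x) = (Nat.card Ω - 1) *
      Nat.card (stabilizer G x ⊓ stabilizer G b : Subgroup G) ∧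
      Nat.card G = Nat.card Ω * Nat.card (stabilizer G x) := by
  constructor
  · have h1 : orbit (stabilizer G x) b = Set.univ \ {x} := by
      ext y
      simp only [Set.mem_diff, Set.mem_univ, Set.mem_singleton_iff, true_and]
      constructor
      · rintro ⟨g, rfl⟩ h
        exact hb (MulAction.injective (g : G) (h.trans g.2.symm))
      · intro h
        obtain ⟨g, g1, g2⟩ := two x b x y hb.symm (Ne.symm h)
        exact ⟨⟨g, g1⟩, g2⟩
    have h2 := index_stabilizer (stabilizer G x) b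
    rw [h1, Set.ncard_diff_singleton_of_mem (Set.mem_univ _), Set.ncard_univ] at h2
    rw [← h2, ← (stabilizer (stabilizer G x) b).index_mul_card]
    congr 1
    refine Nat.card_congr ⟨fun g => ⟨g.1.1, g.1.2, g.2⟩, fun g => ⟨⟨g.1, g.2.1⟩, g.2.2⟩,
      fun _ => rfl, fun _ => rfl⟩
  · have : IsPretransitive G Ω := ⟨fun y z => by
      obtain ⟨y', hy⟩ : ∃ y', y' ≠ y := by
        by_cases h : y = x
        · exact ⟨b, h ▸ hb⟩
        · exact ⟨x, Ne.symm h⟩
      obtain ⟨z', hz⟩ : ∃ z', z' ≠ z := by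
        by_cases h : z = x
        · exact ⟨b, h ▸ hb⟩
        · exact ⟨x, Ne.symm h⟩
      obtain ⟨g, h, -⟩ := two y y' z z' hy.symm hz.symm
      exact ⟨g, h⟩⟩
    rw [← index_stabilizer_of_transitive G x, Subgroup.index_mul_card]

theorem no_22 [Finite G] [Finite Ω] (hΩ : Nat.card Ω = 22)
    (two : ∀ x y x' y' : Ω, x ≠ y → x' ≠ y' → ∃ g : G, g • x = x' ∧ g • y = y')
    (faith : ∀ g : G, (∀ x : Ω, g • x = x) → g = 1) {x b : Ω} (hb : b ≠ x)
    (hK : Nat.card (stabilizer G x ⊓ stabilizer G b : Subgroup G) ∣ 16) : False := by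
  obtain ⟨c1, c2⟩ := card_two_trans two hb
  rw [hΩ] at c1 c2
  generalize hm : Nat.card (stabilizer G x ⊓ stabilizer G b : Subgroup G) = m at c1 hK
  have hm' : m = 1 ∨ m = 2 ∨ m = 4 ∨ m = 8 ∨ m = 16 := by
    have := Nat.le_of_dvd (by norm_num) hK
    interval_cases m <;> omega
  have f11 : Fact (Nat.Prime 11) := ⟨by norm_num⟩
  have ne : ∀ y : Ω, ∃ y', y' ≠ y := fun y => by
    by_cases h : y = x
    · exact ⟨b, h ▸ hb⟩
    · exact ⟨x, Ne.symm h⟩
  have nofix : ∀ g : G, orderOf g = 11 → ∀ y : Ω, g • y ≠ y := by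
    intro g hg y h
    obtain ⟨y', hy⟩ := ne y
    obtain ⟨k, rfl, -⟩ := two x b y y' hb.symm hy.symm
    have := Subgroup.orderOf_dvd_natCard (stabilizer G x) (x := k⁻¹ * g * k)
      (by rw [mem_stabilizer_iff, mul_smul, mul_smul, h, inv_smul_smul])
    have e : orderOf (k⁻¹ * g * k) = orderOf g := by
      simpa using (MulAut.conj k⁻¹).orderOf_eq g
    rw [e, hg, c1] at this
    omega
  obtain ⟨P⟩ : Nonempty (Sylow 11 G) := inferInstance
  have hP : Nat.card P = 11 := by
    rw [P.card_eq_multiplicity, c2, c1]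
    rcases hm' with rfl | rfl | rfl | rfl | rfl <;> decide +kernel
  have nd : ∀ p, p = 3 ∨ p = 7 → ¬ p ∣ Nat.card (Subgroup.normalizer (P : Set G)) := by
    intro p hp hd
    have pp : p.Prime := by rcases hp with rfl | rfl <;> norm_num
    have := Fact.mk pp
    obtain ⟨⟨t, ht⟩, ho⟩ := exists_prime_orderOf_dvd_card' p hd
    rw [Subgroup.orderOf_mk] at ho
    have tp : t ^ p = 1 := by rw [← ho, pow_orderOf_eq_one]
    have h1 := ncard_modEq pp tp (S := (Set.univ : Set Ω)) (fun _ _ => Set.mem_univ _)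
    obtain ⟨y, -, hy⟩ : {y : Ω | y ∈ Set.univ ∧ t • y = y}.Nonempty := by
      rw [Set.nonempty_iff_ne_empty]
      intro h
      rw [h, Set.ncard_empty, Set.ncard_univ, hΩ] at h1
      rcases hp with rfl | rfl <;> exact absurd h1 (by decide)
    have h2 := ncard_modEq (x := ConjAct.toConjAct t) pp (by rw [← map_pow, tp, map_one])
      (S := (P : Set G) \ {1}) (fun g hg => ⟨by
        rw [ConjAct.toConjAct_smul]
        exact (Subgroup.mem_normalizer_iff.mp ht g).mp hg.1, by
        rw [ConjAct.toConjAct_smul]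
        simpa using hg.2⟩)
    obtain ⟨g, ⟨hg, g1⟩, hc⟩ : {g : G | g ∈ (P : Set G) \ {1} ∧ ConjAct.toConjAct t • g = g}.Nonempty := by
      rw [Set.nonempty_iff_ne_empty]
      intro h
      rw [h, Set.ncard_empty, Set.ncard_diff_singleton_of_mem (s := (P : Set G)) (P : Subgroup G).one_mem,
        ← Nat.card_coe_set_eq] at h2
      erw [hP] at h2
      rcases hp with rfl | rfl <;> exact absurd h2 (by decide)
    rw [ConjAct.toConjAct_smul, mul_inv_eq_iff_eq_mul] at hc
    have og : orderOf g = 11 := by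
      have := Subgroup.orderOf_dvd_natCard (P : Subgroup G) hg
      rw [hP] at this
      exact ((Nat.dvd_prime f11.1).mp this).resolve_left fun h => g1 (orderOf_eq_one_iff.mp h)
    obtain ⟨k, k1, k2⟩ := two x b y (g • y) hb.symm (nofix g og y).symm
    have := Subgroup.orderOf_dvd_natCard (stabilizer G x ⊓ stabilizer G b) (x := k⁻¹ * t * k)
      (Subgroup.mem_inf.mpr ⟨by
      rw [mem_stabilizer_iff, mul_smul, mul_smul, k1, hy, ← k1, inv_smul_smul], by
      rw [mem_stabilizer_iff, mul_smul, mul_smul, k2, ← mul_smul t, hc, mul_smul,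
        hy, ← k2, inv_smul_smul]⟩)
    have e : orderOf (k⁻¹ * t * k) = orderOf t := by
      simpa using (MulAut.conj k⁻¹).orderOf_eq t
    rw [e, ho, hm] at this
    have := this.trans hK
    rcases hp with rfl | rfl <;> exact absurd this (by decide)
  have n1 := card_sylow_modEq_one 11 G
  rw [P.card_eq_index_normalizer] at n1
  have n2 := (Subgroup.normalizer (P : Set G)).index_mul_card
  obtain ⟨r, hr⟩ := Subgroup.card_dvd_of_le (Subgroup.le_normalizer (H := (P : Subgroup G)))
  have hr : Nat.card (Subgroup.normalizer (P : Set G)) = 11 * r := hr.trans (by rw [hP])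
  have n3 := nd 3 (Or.inl rfl)
  have n7 := nd 7 (Or.inr rfl)
  rw [hr] at n2 n3 n7
  rw [c2, c1] at n2
  generalize (Subgroup.normalizer (P : Set G)).index = n at n1 n2
  have r32 : r ∣ 32 := by
    have h1 : r ∣ 21 * 32 := by
      obtain ⟨j, hj⟩ := hK
      exact ⟨n * j, by nlinarith⟩
    refine Nat.Coprime.dvd_of_dvd_mul_left ?_ h1
    rw [show 21 = 3 * 7 by rfl, Nat.coprime_mul_iff_right]
    exact ⟨((Nat.Prime.coprime_iff_not_dvd (by norm_num)).mpr fun h => n3 (h.mul_left _)).symm,
      ((Nat.Prime.coprime_iff_not_dvd (by norm_num)).mpr fun h => n7 (h.mul_left _)).symm⟩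
  have r1 : r = 1 := by
    have := Nat.le_of_dvd (by norm_num) r32
    unfold Nat.ModEq at n1
    interval_cases r <;> omega
  have hN : Subgroup.normalizer (P : Set G) = P :=
    (Subgroup.eq_of_le_of_card_ge Subgroup.le_normalizer (by rw [hP]; exact (hr.trans (by
      rw [r1])).le)).symm
  have hC : Subgroup.normalizer (P : Set G) ≤ Subgroup.centralizer (P : Set G) := by
    rw [hN]
    have := isCyclic_of_prime_card hP
    intro g hg h hh
    obtain ⟨⟨s, hs⟩, e⟩ := this.exists_generator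
    obtain ⟨i, hi⟩ := e ⟨g, hg⟩
    obtain ⟨j, hj⟩ := e ⟨h, hh⟩
    have hi : s ^ i = g := congrArg Subtype.val hi
    have hj : s ^ j = h := congrArg Subtype.val hj
    rw [← hi, ← hj]
    exact (Commute.zpow_zpow_self s j i).eq
  have k1 := MonoidHom.not_dvd_card_ker_transferSylow P hC
  have k2 := (MonoidHom.ker_transferSylow_isComplement' P hC).card_mul
  have kn : (MonoidHom.transferSylow P hC).ker.Normal := inferInstance
  generalize (MonoidHom.transferSylow P hC).ker = K at k1 k2 kn
  obtain ⟨k, hk, k3⟩ : ∃ k ∈ K, k ≠ 1 := by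
    by_contra h
    push Not at h
    rw [(Subgroup.eq_bot_iff_forall K).mpr h, Subgroup.card_bot, hP, c2, c1] at k2
    omega
  obtain ⟨y, hy⟩ : ∃ y : Ω, k • y ≠ y := by
    by_contra h
    push Not at h
    exact k3 (faith k h)
  have : IsPretransitive K Ω := ⟨fun z w => by
    by_cases h : z = w
    · exact ⟨1, by rw [one_smul, h]⟩
    obtain ⟨g, g1, g2⟩ := two y (k • y) z w hy.symm h
    exact ⟨⟨_, kn.conj_mem k hk g⟩, by
      show (g * k * g⁻¹) • z = w
      rw [← g1, ← g2, mul_smul, mul_smul, inv_smul_smul]⟩⟩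
  have := (stabilizer K x).index_dvd_card
  rw [index_stabilizer_of_transitive, hΩ] at this
  exact k1 (dvd_trans (by norm_num) this)

end Cfsg.Agent.H2.L3
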