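import Cfsg.Agent.H2.L3e
import Cfsg.Agent.H2.L3n22
import Mathlib.LinearAlgebra.Matrix.GeneralLinearGroup.Card

/-!
# The Borel case is impossible
-/

set_option autoImplicit false

namespace Cfsg.Agent.H2.L3

open Matrix MulAction

theorem three_pt {G : Type*} [Group G] {A B W u z z1 z2 z3 : G} (hA : Commute z A)
    (hB : Commute z B) (hW : Commute z W) (hz : z * z = 1) (h1 : z1 = 1 ∨ z1 = z)
    (h2 : z2 = 1 ∨ z2 = z) (h3 : z3 = 1 ∨ z3 = z) (hWA : W * A * W⁻¹ = A * u * z1)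
    (hWB : W * B * W⁻¹ = B * u * z2) (hAB : A * B * (A * B) = u * z3)
    (hBu : B * u * B⁻¹ = u * z) (hWu : W * u * W⁻¹ = u * z) (hu : u * u = z) : z = 1 := by
  have cu : Commute z u := by rw [← hu]; exact (Commute.refl u).mul_left (Commute.refl u)
  have c : ∀ {y g : G}, y = 1 ∨ y = z → Commute z g → Commute y g := by
    rintro y g (rfl | rfl) h
    · exact Commute.one_left _
    · exact h
  have s : ∀ {y : G}, y = 1 ∨ y = z → y * y = 1 := by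
    rintro y (rfl | rfl)
    · exact one_mul _
    · exact hz
  have e1 : u * B * u = B := by
    have : u * B = B * u * z := by
      rw [mul_inv_eq_iff_eq_mul.mp hBu, mul_assoc (u * z), ← hB.eq, mul_assoc, ← mul_assoc z z, hz,
        one_mul]
    rw [this, mul_assoc, cu.eq, mul_assoc, ← mul_assoc u, hu, hz, mul_one]
  have e2 : W * (A * B) * W⁻¹ = A * B * (z1 * z2) := by
    rw [show W * (A * B) * W⁻¹ = W * A * W⁻¹ * (W * B * W⁻¹) by group, hWA, hWB, mul_assoc (A * u),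
      ← mul_assoc z1, (c h1 (hB.mul_right cu)).eq]
    conv_rhs => rw [← e1]
    group
  have c12 : Commute (z1 * z2) (A * B) :=
    (c h1 (hA.mul_right hB)).mul_left (c h2 (hA.mul_right hB))
  have e3 : W * (A * B * (A * B)) * W⁻¹ = A * B * (A * B) := by
    rw [show W * (A * B * (A * B)) * W⁻¹ = W * (A * B) * W⁻¹ * (W * (A * B) * W⁻¹) by group, e2,
      mul_assoc (A * B), ← mul_assoc (z1 * z2), c12.eq, mul_assoc (A * B) (z1 * z2), mul_assoc z1,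
      ← mul_assoc z2, (c h2 (c h1 (Commute.refl z)).symm).eq, mul_assoc z1, s h2, mul_one, s h1,
      mul_one]
  rw [hAB, show W * (u * z3) * W⁻¹ = W * u * (z3 * W⁻¹) by group, (c h3 hW).inv_right.eq,
    ← mul_assoc, hWu] at e3
  simpa using e3

theorem card_SL_two {F : Type} [Field F] [Finite F] (h : Nat.card F = 2) :
    Nat.card (SL F) = 168 := by
  have := Fintype.ofFinite F
  have h1 : Nat.card (SL F) = Nat.card (GL (Fin 3) F) := by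
    refine Nat.card_eq_of_bijective SpecialLinearGroup.toGL
      ⟨SpecialLinearGroup.toGL_injective, fun g => ⟨⟨g, ?_⟩, Units.ext rfl⟩⟩
    have : Nat.card Fˣ = 1 := by rw [Nat.card_units, h]
    have := (Nat.card_eq_one_iff_unique.mp this).1
    exact congrArg Units.val (Subsingleton.elim (GeneralLinearGroup.det g) 1)
  rw [h1, card_GL_field, ← Nat.card_eq_fintype_card, h]
  simp [Fin.prod_univ_three]

theorem card_two_of {F : Type} [Field F] (hq : ∀ t : F, t = 0 ∨ t = 1) : Nat.card F = 2 := by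
  rw [Nat.card_eq_two_iff]
  exact ⟨0, 1, zero_ne_one, Set.eq_univ_of_forall fun t => by simpa using hq t⟩

theorem card_UU {F : Type} [Field F] [CharP F 2] : Nat.card (UU F) = Nat.card F ^ 3 := by
  rw [show Nat.card F ^ 3 = Nat.card (F × F × F) by simp [pow_succ, mul_assoc]]
  refine (Nat.card_eq_of_bijective (fun p => ⟨uu p.1 p.2.1 p.2.2, _, _, _, rfl⟩) ⟨?_, ?_⟩).symm
  · rintro ⟨a, b, c⟩ ⟨a', b', c'⟩ h
    obtain ⟨rfl, rfl, rfl⟩ := uu_inj (congrArg Subtype.val h)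
    rfl
  · rintro ⟨_, a, b, c, rfl⟩
    exact ⟨(a, b, c), rfl⟩

/-- A Weyl element. -/
def w2 (F : Type) [Field F] [CharP F 2] : SL F := mk3 1 0 0 0 0 1 0 1 0 (by grind)

theorem w2_smul {F : Type} [Field F] [CharP F 2] (x : Vec F) : w2 F • x = ![x 0, x 2, x 1] := by
  rw [w2, mk3_smul]; simp

theorem w2_inv {F : Type} [Field F] [CharP F 2] : (w2 F)⁻¹ = w2 F := by
  refine inv_eq_of_mul_eq_one_left (sl_ext fun x => ?_)
  rw [mul_smul, w2_smul, w2_smul, one_smul]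
  exact vec_ext rfl rfl rfl

namespace Hy

variable {G Ω : Type*} [Group G] [MulAction G Ω] {F : Type} [Field F] (H : Hy G Ω F)

/-- Involutions of `N x` fixing `c` lie in `N c`. -/
def Sym : Prop := ∀ x c, c ≠ x → H.J x c ⊆ H.N c

/-- The opposite situation. -/
def Qp : Prop := ∀ x c, c ≠ x → ∀ s ∈ H.J x c, s ∈ H.N c → s ∈ H.Zs x c

variable {H}

theorem Sym.mem (hS : H.Sym) {x c : Ω} {s : G} (h1 : s ∈ H.N x) (h2 : s * s = 1)
    (h3 : s • c = c) : s ∈ H.N c := by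
  by_cases h : c = x
  · rwa [h]
  · exact hS x c h ⟨h1, h2, h3⟩

variable [CharP F 2] [Finite Ω] [Finite F] {x c : Ω} {ψ : SL F →* G}

theorem Bor.sym_or (hB : H.Bor) : H.Sym ∨ H.Qp := by
  by_cases hS : H.Sym
  · exact Or.inl hS
  right
  simp only [Sym, not_forall, Set.not_subset] at hS
  obtain ⟨c, x, hc, y, hy, hn⟩ := hS
  obtain ⟨ψ, C, T⟩ := hB.exists_typB hc.symm
  obtain ⟨χ, D, T'⟩ := hB.exists_typB hc
  obtain ⟨α, hα, h⟩ := (hB.b3 hc.symm C T hy).resolve_left hn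
  intro x' c' hc'
  refine H.pair_ind (P := fun x c => ∀ s ∈ H.J x c, s ∈ H.N c → s ∈ H.Zs x c)
    (fun g x c h s hs hs' => by
      obtain ⟨s, rfl⟩ := exists_conj_eq g s
      exact (conj_Zs g).mpr (h s ((conj_J g).mp hs) ((conj_mem_iff g).mp hs'))) hc
    (fun s hs hs' => ?_) hc'
  obtain ⟨a, b, d, hab, e⟩ := C.mem_J T ⟨hs', hs.2.1, fix_of_mem hs.1⟩
  obtain ⟨a1, b1, d1, -, e1⟩ := D.mem_J T' hs
  obtain ⟨a2, b2, d2, -, e2⟩ := D.mem_J T' hy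
  obtain ⟨t, ht⟩ := (C.mem_Zs T).mp (hB.b2 hc ▸ (D.mem_Zs T').mpr ⟨a2 * b1 + a1 * b2, rfl⟩)
  obtain ⟨d', e'⟩ := h a b d
  have : y * s * y⁻¹ = s * ψ (uu 0 0 t) := by
    rw [← ht, e1, e2, ← map_inv, ← map_mul, ← map_mul, ← map_mul, uu_conj, uu_mul]
    congr 2 <;> grind
  rw [e, e', ← map_mul, uu_mul] at this
  have := C.uu_inj this
  rw [← hB.b2 hc.symm, C.mem_Zs T]
  exact ⟨d, by rw [e]; congr 2 <;> grind⟩

theorem Bor.q_two (hB : H.Bor) (hQ : H.Qp) (t : F) : t = 0 ∨ t = 1 := by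
  by_contra ht
  push Not at ht
  obtain ⟨c, hc⟩ := H.exists_ne' H.a
  obtain ⟨ψ, C, T⟩ := hB.exists_typB hc
  obtain ⟨χ, D, T'⟩ := hB.exists_typB hc.symm
  have k : ∀ t ≠ 0, ∃ α ≠ 0, SW ψ (χ (uu t 0 0)) α := by
    intro t ht
    have hy := D.uu_mem_J T'.1 (a := t) (b := 0) (by simp) 0
    refine (hB.b3 hc C T hy).resolve_left fun h => ?_
    obtain ⟨d, e⟩ := (D.mem_Zs T').mp (hQ _ _ hc.symm _ hy h)
    exact ht (D.uu_inj e).1
  obtain ⟨α, -, h1⟩ := k 1 one_ne_zero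
  obtain ⟨β, -, h2⟩ := k t ht.1
  obtain ⟨γ, hγ, h3⟩ := k (1 + t) (by grind)
  obtain ⟨d, e⟩ := h2 1 0 0
  obtain ⟨d', e'⟩ := h1 (0 / β) (β * 1) d
  obtain ⟨d'', e''⟩ := h3 1 0 0
  rw [show uu (1 + t) 0 0 = uu 1 0 0 * uu t 0 0 by rw [uu_mul]; simp, map_mul] at e''
  have : ψ (uu (β * 1 / α) (α * (0 / β)) d') = ψ (uu (0 / γ) (γ * 1) d'') := by
    rw [← e', ← e'', ← e]; group
  have := (C.uu_inj this).2.1
  simp [hγ.symm] at this

theorem Bor.fix_of_comm (hB : H.Bor) (hc : c ≠ x) {z s : G} (hz : z ∈ H.Zs x c) (z1 : z ≠ 1)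
    (hs : s ∈ H.N x) (s2 : s * s = 1) (h : Commute s z) : s • c = c := by
  obtain ⟨ψ, C, T⟩ := hB.exists_typB hc
  obtain ⟨d, rfl⟩ := (C.mem_Zs T).mp hz
  obtain ⟨g, g2, rfl⟩ := C.lift2 hs s2
  have hd : d ≠ 0 := by rintro rfl; exact z1 (by rw [uu_zero, map_one])
  rw [(upper_of_commute hd (C.comm_of (by rw [uu_sq]; simp [uu_zero]) h)).eq_uu (four_of_sq g2)]
  exact T.1 ..

theorem Bor.sw1 (hB : H.Bor) (hq : ∀ t : F, t = 0 ∨ t = 1) (hc : c ≠ x) (C : H.Chart x ψ)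
    (T : TypB ψ c) {y : G} (hy : y ∈ H.J c x) (hn : y ∉ H.N x) :
    ∃ d, y * ψ (uu 1 0 0) * y⁻¹ = ψ (uu 0 1 d) := by
  obtain ⟨α, hα, h⟩ := (hB.b3 hc C T hy).resolve_left hn
  obtain rfl := (hq α).resolve_left hα
  simpa using h 1 0 0

theorem Bor.side (hB : H.Bor) (hQ : H.Qp) (hc : c ≠ x) (C : H.Chart x ψ) (T : TypB ψ c)
    {χ : SL F →* G} (D : H.Chart c χ) (T' : TypB χ x) :
    (∃ d, χ (uu 1 0 0) * ψ (uu 1 0 0) * (χ (uu 1 0 0))⁻¹ = ψ (uu 0 1 d)) ∧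
      (∃ d, ψ (uu 1 1 0) = χ (uu 1 1 d)) ∧ ψ (uu 0 0 1) = χ (uu 0 0 1) := by
  have hq := hB.q_two hQ
  have hy := D.uu_mem_J T'.1 (a := 1) (b := 0) (by simp) 0
  obtain ⟨d, e⟩ := hB.sw1 hq hc C T hy fun h => by
    obtain ⟨d, e⟩ := (D.mem_Zs T').mp (hQ _ _ hc.symm _ hy h)
    exact one_ne_zero (D.uu_inj e).1
  have hu : ψ (uu 1 1 0) ∈ H.N c := by
    have : uu 1 1 0 = uu 1 0 0 * (uu 0 1 d)⁻¹ * uu 0 0 (d + 1) := by
      rw [uu_inv, uu_mul, uu_mul]; congr 1 <;> grind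
    rw [this, map_mul, map_mul, map_inv, ← e]
    refine (H.N c).mul_mem ?_ (hB.b1 hc ((C.mem_Zs T).mpr ⟨_, rfl⟩))
    rw [show ψ (uu 1 0 0) * (χ (uu 1 0 0) * ψ (uu 1 0 0) * (χ (uu 1 0 0))⁻¹)⁻¹ =
      ψ (uu 1 0 0) * χ (uu 1 0 0) * (ψ (uu 1 0 0))⁻¹ * (χ (uu 1 0 0))⁻¹ by group]
    exact (H.N c).mul_mem (conj_mem' hy.1 (T.1 ..)) ((H.N c).inv_mem hy.1)
  obtain ⟨a, b, d', e'⟩ := D.mem_S T' hu (by rw [← map_pow, uu_four, map_one])
    (fix_of_mem (C.mem' _))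
  have e2 : ψ (uu 0 0 1) = χ (uu 0 0 (a * b)) := by
    rw [← uu_sq a b d', map_mul, ← e', ← map_mul, uu_sq, one_mul]
  have hab : a * b ≠ 0 := by
    intro h
    rw [h, uu_zero, map_one] at e2
    exact one_ne_zero (C.uu_eq_one e2).2.2
  obtain rfl := (hq a).resolve_left (left_ne_zero_of_mul hab)
  obtain rfl := (hq b).resolve_left (right_ne_zero_of_mul hab)
  exact ⟨⟨d, e⟩, ⟨d', e'⟩, by rw [e2, one_mul]⟩

theorem Bor.k_one (hB : H.Bor) (hQ : H.Qp) (C : H.Chart x ψ) (hc : c ≠ x) (T : FixU ψ c) {w : Ω}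
    (hw : w ≠ x) (Tw : FixU ψ w) : w = c := by
  by_contra hn
  have hq := hB.q_two hQ
  obtain ⟨χ, D, T'⟩ := hB.exists_typB hc.symm
  obtain ⟨ω, E, T''⟩ := hB.exists_typB hw.symm
  obtain ⟨⟨d1, e1⟩, ⟨d2, e2⟩, e3⟩ := hB.side hQ hc C (hB.typB C hc T) D T'
  obtain ⟨⟨d1', e1'⟩, ⟨d2', e2'⟩, e3'⟩ := hB.side hQ hw C (hB.typB C hw Tw) E T''
  have z1 : ψ (uu 0 0 1) ≠ 1 := fun h => one_ne_zero (C.uu_eq_one h).2.2
  have z2 : ψ (uu 0 0 1) * ψ (uu 0 0 1) = 1 := (C.uu_mem_J T (by simp) 1).2.1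
  have zc : ψ (uu 0 0 1) ∈ H.Zs c w :=
    hQ _ _ hn _ ⟨e3 ▸ D.mem' _, z2, Tw ..⟩ (e3' ▸ E.mem' _)
  have zw : ψ (uu 0 0 1) ∈ H.Zs w c := hB.b2 hn ▸ zc
  have f1 : FixU χ w := by
    intro a b d
    have k : ∀ a b d, a * b = 0 → χ (uu a b d) • w = w := fun a b d h =>
      hB.fix_of_comm hn zc z1 (D.mem' _) (D.uu_mem_J T'.1 h d).2.1
        (by rw [e3, D.comm_uu]; simp)
    rw [show uu a b d = uu 0 b d * uu a 0 0 by rw [uu_mul]; simp, map_mul, mul_smul,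
      k _ _ _ (by simp), k _ _ _ (by simp)]
  have k : ∀ a b d, a * b = 0 → ω (uu a b d) ∈ H.J w c := fun a b d h =>
    ⟨E.mem' _, (E.uu_mem_J T''.1 h d).2.1, hB.fix_of_comm (Ne.symm hn) zw z1 (E.mem' _)
      (E.uu_mem_J T''.1 h d).2.1 (by rw [e3', E.comm_uu]; simp)⟩
  obtain ⟨d3, e4⟩ := hB.sw1 hq hn D (hB.typB D hn f1) (k 1 0 0 (by simp)) fun h => by
    have := (hQ _ _ (Ne.symm hn) _ (k 1 0 0 (by simp)) h).2 _ (k 0 1 0 (by simp))
    rw [E.comm_uu] at this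
    simp at this
  have zz : ∀ t : F, ψ (uu 0 0 t) = 1 ∨ ψ (uu 0 0 t) = ψ (uu 0 0 1) := fun t =>
    (hq t).imp (fun h => by rw [h, uu_zero, map_one]) fun h => by rw [h]
  have zz' : ∀ t : F, χ (uu 0 0 t) = 1 ∨ χ (uu 0 0 t) = ψ (uu 0 0 1) := fun t =>
    (hq t).imp (fun h => by rw [h, uu_zero, map_one]) fun h => by rw [h, e3]
  refine z1 (three_pt (A := ψ (uu 1 0 0)) (B := χ (uu 1 0 0)) (W := ω (uu 1 0 0))
    (u := ψ (uu 1 1 0)) (C.comm_uu.mpr (by simp)) (by rw [e3, D.comm_uu]; simp)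
    (by rw [e3', E.comm_uu]; simp) z2 (zz (d1' + 1)) (zz' (d3 + d2 + 1)) (zz (d1 + 1)) ?_ ?_ ?_ ?_ ?_
    ?_)
  · rw [e1', ← map_mul, ← map_mul, uu_mul, uu_mul]
    congr 2 <;> grind
  · rw [e4, e2, ← map_mul, ← map_mul, uu_mul, uu_mul]
    congr 2 <;> grind
  · have : χ (uu 1 0 0) = (χ (uu 1 0 0))⁻¹ := by rw [← map_inv, uu_inv]; simp
    rw [mul_assoc, ← mul_assoc (χ _)]
    conv_lhs => enter [2, 2]; rw [this]
    rw [e1, ← map_mul, ← map_mul, uu_mul, uu_mul]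
    congr 2 <;> grind
  · rw [e2, e3, ← map_inv, ← map_mul, ← map_mul, ← map_mul, uu_conj, uu_mul]
    congr 2 <;> grind
  · rw [e2', e3', ← map_inv, ← map_mul, ← map_mul, ← map_mul, uu_conj, uu_mul]
    congr 2 <;> grind
  · rw [← map_mul, uu_sq, one_mul]

end Hy

end Cfsg.Agent.H2.L3
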