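import Cfsg.Agent.H2.L3f

/-!
# The Borel case is impossible, conclusion
-/

set_option autoImplicit false

namespace Cfsg.Agent.H2.L3

open Matrix MulAction

namespace Hy

variable {G Ω : Type*} [Group G] [MulAction G Ω] {F : Type} [Field F] {H : Hy G Ω F}

/-- First maximal elementary abelian subgroup. -/
def E1 (ψ : SL F →* G) : Set G := {s | ∃ a d, s = ψ (uu a 0 d)}

/-- Second maximal elementary abelian subgroup. -/
def E2 (ψ : SL F →* G) : Set G := {s | ∃ b d, s = ψ (uu 0 b d)}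

variable (H) in
/-- Maximal elementary abelian subgroups of `N x`. -/
def MaxAt (x : Ω) (Y : Set G) : Prop := ∃ χ, H.Chart x χ ∧ Y = E1 χ

variable [CharP F 2] {x c : Ω} {ψ : SL F →* G} {Y Y' : Set G}

theorem E1_dual (ψ : SL F →* G) : E1 (ψ.comp L3.dual) = E2 ψ := by
  ext s
  simp [E1, E2, dual_uu]

theorem fixU_dual (h : FixU ψ c) : FixU (ψ.comp L3.dual) c := fun a b d => by
  rw [MonoidHom.comp_apply, dual_uu]; exact h ..

theorem fixU_of (h1 : ∀ s ∈ E1 ψ, s • c = c) (h2 : ∀ s ∈ E2 ψ, s • c = c) : FixU ψ c := by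
  intro a b d
  rw [show uu a b d = uu 0 b d * uu a 0 0 by rw [uu_mul]; simp, map_mul, mul_smul,
    h1 _ ⟨_, _, rfl⟩, h2 _ ⟨_, _, rfl⟩]

theorem Chart.max1 (C : H.Chart x ψ) : H.MaxAt x (E1 ψ) := ⟨ψ, C, rfl⟩

theorem Chart.max2 (C : H.Chart x ψ) : H.MaxAt x (E2 ψ) := ⟨_, C.dual, (E1_dual ψ).symm⟩

theorem Chart.mem_C (C : H.Chart x ψ) {s : G} (hs : s ∈ H.N x) (s2 : s * s = 1)
    (h : Commute s (ψ (uu 0 0 1))) : ∃ a b d, a * b = 0 ∧ s = ψ (uu a b d) := by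
  obtain ⟨g, g2, rfl⟩ := C.lift2 hs s2
  have := (upper_of_commute one_ne_zero (C.comm_of (by rw [uu_sq]; simp [uu_zero]) h)).eq_uu
    (four_of_sq g2)
  refine ⟨_, _, _, ?_, congrArg ψ this⟩
  rw [this, uu_sq, ← uu_zero] at g2
  exact (L3.uu_inj g2).2.2

theorem MaxAt.mem (h : H.MaxAt x Y) {s : G} (hs : s ∈ Y) : s ∈ H.N x ∧ s * s = 1 := by
  obtain ⟨χ, D, rfl⟩ := h
  obtain ⟨a, d, rfl⟩ := hs
  exact ⟨D.mem' _, by rw [← map_mul, uu_sq, mul_zero, uu_zero, map_one]⟩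

theorem MaxAt.comm (h : H.MaxAt x Y) {s t : G} (hs : s ∈ Y) (ht : t ∈ Y) : Commute s t := by
  obtain ⟨χ, D, rfl⟩ := h
  obtain ⟨a, d, rfl⟩ := hs
  obtain ⟨a', d', rfl⟩ := ht
  exact D.comm_uu.mpr (by simp)

theorem MaxAt.eq_of_sub (h : H.MaxAt x Y) (h' : H.MaxAt c Y') (hN : ∀ s ∈ Y', s ∈ H.N x)
    (hs : Y ⊆ Y') : Y = Y' := by
  refine hs.antisymm fun s hs' => ?_
  obtain ⟨χ, D, rfl⟩ := h
  obtain ⟨a, b, d, -, rfl⟩ := D.mem_C (hN s hs') (h'.mem hs').2 (h'.comm hs' (hs ⟨0, 1, rfl⟩))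
  have := D.comm_uu.mp (h'.comm hs' (hs ⟨1, 0, rfl⟩))
  simp only [mul_zero, one_mul] at this
  exact ⟨a, d, by rw [← this]⟩

theorem Chart.sub_or (C : H.Chart x ψ) (h : H.MaxAt c Y)
    (h' : ∀ s ∈ Y, ∃ a b d, a * b = 0 ∧ s = ψ (uu a b d)) : Y ⊆ E1 ψ ∨ Y ⊆ E2 ψ := by
  by_contra hn
  simp only [not_or, Set.not_subset] at hn
  obtain ⟨⟨s, hs, h1⟩, t, ht, h2⟩ := hn
  obtain ⟨a, b, d, e, rfl⟩ := h' s hs
  obtain ⟨a', b', d', e', rfl⟩ := h' t ht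
  have k := C.comm_uu.mp (h.comm hs ht)
  have k1 : b ≠ 0 := by rintro rfl; exact h1 ⟨_, _, rfl⟩
  have k2 : a' ≠ 0 := by rintro rfl; exact h2 ⟨_, _, rfl⟩
  grind

theorem Chart.max_eq (C : H.Chart x ψ) (h : H.MaxAt x Y) (hz : ψ (uu 0 0 1) ∈ Y) :
    Y = E1 ψ ∨ Y = E2 ψ :=
  (C.sub_or h fun _ hs => C.mem_C (h.mem hs).1 (h.mem hs).2 (h.comm hs hz)).imp
    (h.eq_of_sub C.max1 fun _ hs => (C.max1.mem hs).1)
    (h.eq_of_sub C.max2 fun _ hs => (C.max2.mem hs).1)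

variable [Finite Ω] [Finite F]

theorem Bor.max_move (hB : H.Bor) (hS : H.Sym) (h : H.MaxAt x Y) (hc : c ≠ x)
    (hf : ∀ s ∈ Y, s • c = c) : H.MaxAt c Y := by
  obtain ⟨χ, D, T⟩ := hB.exists_typB hc.symm
  rcases D.sub_or h fun s hs => D.mem_J T ⟨hS.mem (h.mem hs).1 (h.mem hs).2 (hf s hs),
    (h.mem hs).2, fix_of_mem (h.mem hs).1⟩ with k | k
  · rw [h.eq_of_sub D.max1 ?_ k]
    · exact D.max1
    · rintro _ ⟨a, d, rfl⟩
      exact hS _ _ hc.symm (D.uu_mem_J T.1 (by simp) _)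
  · rw [h.eq_of_sub D.max2 ?_ k]
    · exact D.max2
    · rintro _ ⟨a, d, rfl⟩
      exact hS _ _ hc.symm (D.uu_mem_J T.1 (by simp) _)

theorem Bor.exists_max (hB : H.Bor) (hc : c ≠ x) {z : G} (hz : z ∈ H.J x c) :
    ∃ Y, H.MaxAt x Y ∧ z ∈ Y ∧ ∀ s ∈ Y, s • c = c := by
  obtain ⟨χ, D, T⟩ := hB.exists_typB hc
  obtain ⟨a, b, d, h, rfl⟩ := D.mem_J T hz
  rcases mul_eq_zero.mp h with rfl | rfl
  · exact ⟨_, D.max2, ⟨_, _, rfl⟩, by rintro _ ⟨a, d, rfl⟩; exact T.1 ..⟩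
  · exact ⟨_, D.max1, ⟨_, _, rfl⟩, by rintro _ ⟨a, d, rfl⟩; exact T.1 ..⟩

theorem Chart.exists_FU (C : H.Chart x ψ) : ∃ c, c ≠ x ∧ FixU ψ c := by
  obtain ⟨c, hc⟩ := H.exists_ne' x
  obtain ⟨h, hh⟩ := C.exists_fixU hc
  exact ⟨_, smul_ne (fix_of_mem (C.mem' _)) hc, hh⟩

theorem Bor.card_FU (hB : H.Bor) (C : H.Chart x ψ) {x' : Ω} {χ : SL F →* G} (D : H.Chart x' χ) :
    {y : Ω | FixU ψ y}.ncard = {y : Ω | FixU χ y}.ncard := by
  have k : ∀ {x c : Ω} {ψ : SL F →* G}, H.Chart x ψ → c ≠ x → FixU ψ c →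
      {y : Ω | FixU ψ y} = {y | ∀ s ∈ H.J x c, s • y = y} := by
    intro x c ψ C hc T
    ext y
    constructor
    · intro h s hs
      obtain ⟨a, b, d, -, rfl⟩ := C.mem_J (hB.typB C hc T) hs
      exact h ..
    · intro h
      refine fixU_of ?_ ?_ <;> rintro _ ⟨a, d, rfl⟩ <;> exact h _ (C.uu_mem_J T (by simp) _)
  obtain ⟨c, hc, T⟩ := C.exists_FU
  obtain ⟨c', hc', T'⟩ := D.exists_FU
  rw [k C hc T, k D hc' T']
  obtain ⟨g, rfl, rfl⟩ := H.two x c x' c' hc.symm hc'.symm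
  refine Set.ncard_congr (fun y _ => g • y) (fun y hy s hs => ?_)
    (fun y z _ _ h => MulAction.injective _ h) (fun y hy => ⟨g⁻¹ • y, fun s hs => ?_, by simp⟩)
  · obtain ⟨s, rfl⟩ := exists_conj_eq g s
    exact (smul_conj g).mpr (hy s ((conj_J g).mp hs))
  · rw [← smul_conj g, smul_inv_smul]
    exact hy _ ((conj_J g).mpr hs)

omit [Finite F] in
theorem Bor.a1 (hB : H.Bor) (C : H.Chart x ψ) (hc : c ≠ x) (T : FixU ψ c) (t : F) :
    (∀ s ∈ E1 ψ, s • ψ (uu 0 t 0 * w2 F) • c = ψ (uu 0 t 0 * w2 F) • c) ∧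
      ¬ FixU ψ (ψ (uu 0 t 0 * w2 F) • c) := by
  constructor
  · rintro _ ⟨a, d, rfl⟩
    have : uu a 0 d * (uu 0 t 0 * w2 F) = uu 0 t 0 * w2 F * uu (d + a * t) 0 a := by
      refine sl_ext fun v => ?_
      simp only [mul_smul, uu_smul, w2_smul]
      apply vec_ext <;> simp <;> grind
    rw [← mul_smul, ← map_mul, this, map_mul, mul_smul, T]
  · intro h
    have := (hB.typB C hc T).2 ((uu 0 t 0 * w2 F)⁻¹ * uu 0 1 0 * (uu 0 t 0 * w2 F)) (by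
      rw [map_mul, map_mul, mul_smul, mul_smul, h, map_inv, inv_smul_smul])
    have := this.2.2
    rw [← smul_e1, _root_.mul_inv_rev, w2_inv, uu_inv] at this
    simp [mul_smul, uu_smul, w2_smul] at this
    grind

theorem Bor.k_one' (hB : H.Bor) (hS : H.Sym) (C : H.Chart x ψ) :
    (∀ t : F, t = 0 ∨ t = 1) ∧ {y : Ω | y ≠ x ∧ FixU ψ y}.ncard = 1 := by
  obtain ⟨b, hb, T⟩ := C.exists_FU
  have xU : FixU ψ x := fun _ _ _ => fix_of_mem (C.mem' _)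
  obtain ⟨e, e2, e1⟩ : ∃ e : Ω, (∀ s ∈ E2 ψ, s • e = e) ∧ ¬ FixU ψ e := by
    obtain ⟨h1, h2⟩ := hB.a1 C.dual hb (fixU_dual T) 0
    rw [E1_dual] at h1
    exact ⟨_, h1, fun h => h2 (fixU_dual h)⟩
  have ex : e ≠ x := by rintro rfl; exact e1 xU
  have z2 : ψ (uu 0 0 1) * ψ (uu 0 0 1) = 1 := (C.uu_mem_J T (by simp) 1).2.1
  have z1 : ψ (uu 0 0 1) ≠ 1 := fun h => one_ne_zero (C.uu_eq_one h).2.2
  have m2 := hB.max_move hS C.max2 ex e2
  have ze : ψ (uu 0 0 1) ∈ H.N e := (m2.mem ⟨0, 1, rfl⟩).1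
  obtain ⟨Y, mY, zY, hY⟩ : ∃ Y, H.MaxAt e Y ∧ ψ (uu 0 0 1) ∈ Y ∧
      ∀ Y', H.MaxAt e Y' → ψ (uu 0 0 1) ∈ Y' → Y' = E2 ψ ∨ Y' = Y := by
    obtain ⟨χ, D, hz⟩ := exists_root ze z2 z1
    rcases D.max_eq m2 ⟨0, 1, hz.symm⟩ with k | k
    · exact ⟨_, D.max2, ⟨0, 1, hz⟩, fun Y' h h' => k ▸ D.max_eq h (hz ▸ h')⟩
    · exact ⟨_, D.max1, ⟨0, 1, hz⟩, fun Y' h h' => k ▸ (D.max_eq h (hz ▸ h')).symm⟩
  have fY : ∀ c : Ω, (∀ s ∈ E1 ψ, s • c = c) → ¬ FixU ψ c → c ≠ e ∧ ∀ s ∈ Y, s • c = c := by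
    intro c c1 c2
    have ce : c ≠ e := by rintro rfl; exact c2 (fixU_of c1 e2)
    obtain ⟨Y', m, z, f⟩ := hB.exists_max ce ⟨ze, z2, c1 _ ⟨0, 1, rfl⟩⟩
    rcases hY Y' m z with rfl | rfl
    · exact absurd (fixU_of c1 f) c2
    · exact ⟨ce, f⟩
  obtain ⟨c1, c2⟩ := hB.a1 C hb T 0
  generalize ψ (uu 0 0 0 * w2 F) • b = c at c1 c2
  have cx : c ≠ x := by rintro rfl; exact c2 xU
  have n1 := hB.max_move hS C.max1 cx c1
  have n2 := hB.max_move hS mY (fY c c1 c2).1 (fY c c1 c2).2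
  have n12 : E1 ψ ≠ Y := fun h => e1 (fixU_of (fun s hs => fix_of_mem (mY.mem (h ▸ hs)).1) e2)
  obtain ⟨χ, D, hz⟩ := exists_root (n1.mem ⟨0, 1, rfl⟩).1 z2 z1
  have key : ∀ c : Ω, (∀ s ∈ E1 ψ, s • c = c) → ¬ FixU ψ c → FixU χ c := by
    intro c c1 c2
    have c3 := (fY c c1 c2).2
    rcases D.max_eq n1 ⟨0, 1, hz.symm⟩ with k | k <;> rcases D.max_eq n2 (hz ▸ zY) with k' | k'
    · exact absurd (k.trans k'.symm) n12
    · exact fixU_of (k ▸ c1) (k' ▸ c3)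
    · exact fixU_of (k' ▸ c3) (k ▸ c1)
    · exact absurd (k.trans k'.symm) n12
  have le : Nat.card ({y : Ω | y ≠ x ∧ FixU ψ y} × F) ≤ Nat.card {y : Ω | FixU χ y} := by
    refine Nat.card_le_card_of_injective (fun p => ⟨ψ (uu 0 p.2 0 * w2 F) • p.1.1,
      key _ (hB.a1 C p.1.2.1 p.1.2.2 _).1 (hB.a1 C p.1.2.1 p.1.2.2 _).2⟩) ?_
    rintro ⟨⟨y, hy, Ty⟩, t⟩ ⟨⟨y', hy', Ty'⟩, t'⟩ h
    have h : ψ (uu 0 t 0 * w2 F) • y = ψ (uu 0 t' 0 * w2 F) • y' := congrArg Subtype.val h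
    have : t = t' := by
      have := (hB.typB C hy' Ty').2 ((uu 0 t' 0 * w2 F)⁻¹ * ((uu 0 t 0 * w2 F) * uu 0 1 0 *
        (uu 0 t 0 * w2 F)⁻¹) * (uu 0 t' 0 * w2 F)) (by
          rw [map_mul, map_mul, mul_smul, mul_smul, ← h, map_mul, map_mul, map_inv,
            map_inv, (smul_conj _).mpr (Ty ..), inv_smul_eq_iff, h])
      have := this.2.2
      rw [← smul_e1, _root_.mul_inv_rev, _root_.mul_inv_rev, w2_inv, uu_inv, uu_inv] at this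
      simp [mul_smul, uu_smul, w2_smul] at this
      grind
    subst this
    obtain rfl := MulAction.injective _ h
    rfl
  have e : {y : Ω | FixU ψ y}.ncard = {y : Ω | y ≠ x ∧ FixU ψ y}.ncard + 1 := by
    rw [← Set.ncard_diff_singleton_add_one (s := {y : Ω | FixU ψ y}) xU]
    congr 2
    ext y
    simp [and_comm]
  rw [Nat.card_prod, Nat.card_coe_set_eq, Nat.card_coe_set_eq, ← hB.card_FU C D, e] at le
  have p1 : 0 < {y : Ω | y ≠ x ∧ FixU ψ y}.ncard := (Set.ncard_pos).mpr ⟨b, hb, T⟩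
  have p2 : 1 < Nat.card F := Finite.one_lt_card
  generalize {y : Ω | y ≠ x ∧ FixU ψ y}.ncard = k at le p1
  refine ⟨fun t => ?_, by nlinarith⟩
  have : Nat.card F = 2 := by nlinarith
  obtain ⟨y, -, hy⟩ := (Nat.card_eq_two_iff' (0 : F)).mp this
  by_cases h : t = 0
  · exact Or.inl h
  · exact Or.inr ((hy t h).trans (hy 1 one_ne_zero).symm)

theorem not_bor [Finite G] : ¬ H.Bor := by
  intro hB
  obtain ⟨b, hb⟩ := H.exists_ne' H.a
  obtain ⟨ψ, C, T⟩ := hB.exists_typB hb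
  generalize H.a = x at hb C
  obtain ⟨hq, hk⟩ : (∀ t : F, t = 0 ∨ t = 1) ∧ ∀ w, w ≠ x → FixU ψ w → w = b := by
    rcases hB.sym_or with h | h
    · obtain ⟨h1, h2⟩ := hB.k_one' h C
      obtain ⟨y, hy⟩ := Set.ncard_eq_one.mp h2
      refine ⟨h1, fun w h1 h2 => ?_⟩
      have k1 : w ∈ ({y} : Set Ω) := hy ▸ ⟨h1, h2⟩
      have k2 : b ∈ ({y} : Set Ω) := hy ▸ ⟨hb, T.1⟩
      exact k1.trans k2.symm
    · exact ⟨hB.q_two h, fun w h1 h2 => hB.k_one h C hb T.1 h1 h2⟩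
  have tr : ∀ c, c ≠ x → ∃ h, ψ h • b = c := by
    intro c hc
    obtain ⟨h, hh⟩ := C.exists_fixU hc
    exact ⟨h⁻¹, by rw [map_inv, inv_smul_eq_iff, hk _ (smul_ne (fix_of_mem (C.mem' _)) hc) hh]⟩
  have q2 := card_two_of hq
  have hX : Xs ψ b = UU F := by
    ext g
    constructor
    · intro h
      have u := T.2 g h
      have d := det3 g
      rw [u.1, u.2.1, u.2.2] at d
      have d0 : g.1 0 0 = 1 := (hq _).resolve_left fun h => by simp [h] at d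
      have d1 : g.1 1 1 = 1 := (hq _).resolve_left fun h => by simp [h] at d
      have d2 : g.1 2 2 = 1 := (hq _).resolve_left fun h => by simp [h] at d
      refine ⟨g.1 0 1, g.1 1 2, g.1 0 2, sl_ext fun v => ?_⟩
      rw [uu_smul]
      apply vec_ext <;> simp [smul_apply, u.1, u.2.1, u.2.2, d0, d1, d2]
    · rintro ⟨a, b, d, rfl⟩
      exact T.1 ..
  have hΩ : Nat.card Ω = 22 := by
    have h1 := C.index_Xs b
    have h2 := (UU F).index_mul_card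
    rw [card_UU, card_SL_two q2, q2, ← hX, h1] at h2
    have : orbit (H.N x) b = Set.univ \ {x} := by
      ext y
      simp only [Set.mem_diff, Set.mem_univ, Set.mem_singleton_iff, true_and]
      constructor
      · rintro ⟨g, rfl⟩
        exact smul_ne (s := g.1) (fix_of_mem g.2) hb
      · intro h
        obtain ⟨g, rfl⟩ := tr y h
        exact ⟨⟨_, C.mem' g⟩, rfl⟩
    rw [this, Set.ncard_diff_singleton_of_mem (Set.mem_univ _), Set.ncard_univ] at h2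
    omega
  refine no_22 hΩ H.two H.faith hb ?_
  have act : ∀ y ∈ stabilizer G x ⊓ stabilizer G b, NS ψ y 1 ∨ SW ψ y 1 := by
    intro y hy
    obtain ⟨α, hα, h⟩ := C.act T hy.1 hy.2 (fun d => by
      rcases hq d with rfl | rfl
      · simp [uu_zero]
      obtain ⟨d', e⟩ := (C.mem_Zs T).mp (conj_Zs' hy.1 hy.2 ((C.mem_Zs T).mpr ⟨1, rfl⟩))
      rcases hq d' with rfl | rfl
      · rw [uu_zero, map_one, conj_eq_one_iff] at e
        exact absurd (C.uu_eq_one e).2.2 one_ne_zero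
      · exact e)
    rwa [(hq α).resolve_left hα] at h
  have ns : ∀ y ∈ stabilizer G x ⊓ stabilizer G b, NS ψ y 1 → y ∈ (UU F).map ψ := by
    intro y hy h
    obtain ⟨a1, b1, d1, k, hk, rfl⟩ := C.aut hy.1 (fun a b d => by simpa using h a b d)
    have : k = 1 := by
      refine H.faith _ fun c => ?_
      by_cases hc : c = x
      · rw [hc, hk.fix]
      obtain ⟨g, rfl⟩ := tr c hc
      have h2 : (ψ (uu a1 b1 d1) * k) • b = b := hy.2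
      rw [← hk _ (C.mem' _), mul_smul, T.1] at h2
      rw [← mul_smul, hk _ (C.mem' _), mul_smul, h2]
    exact ⟨_, ⟨_, _, _, rfl⟩, by rw [this, mul_one]⟩
  have le : (UU F).map ψ ≤ stabilizer G x ⊓ stabilizer G b := by
    rintro _ ⟨_, ⟨a1, b1, d1, rfl⟩, rfl⟩
    exact ⟨fix_of_mem (C.mem' _), T.1 ..⟩
  have i2 : ((UU F).map ψ).relIndex (stabilizer G x ⊓ stabilizer G b) ∣ 2 := by
    rw [Subgroup.relIndex_dvd_two_iff]
    by_cases h : ∃ y ∈ stabilizer G x ⊓ stabilizer G b, SW ψ y 1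
    · obtain ⟨y, hy, h⟩ := h
      refine ⟨y, hy, fun y' hy' => ?_⟩
      rcases act y' hy' with h' | h'
      · exact Or.inr (ns _ hy' h')
      refine Or.inl (ns _ (Subgroup.mul_mem _ hy' hy) fun a1 b1 d1 => ?_)
      obtain ⟨d2, e⟩ := h a1 b1 d1
      obtain ⟨d3, e'⟩ := h' (b1 / 1) (1 * a1) d2
      refine ⟨d3, ?_⟩
      rw [show y' * y * ψ (uu a1 b1 d1) * (y' * y)⁻¹ = y' * (y * ψ (uu a1 b1 d1) * y⁻¹) * y'⁻¹ by
        group, e, e']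
      simp
    · push Not at h
      exact ⟨1, Subgroup.one_mem _, fun y hy => Or.inr (ns y hy ((act y hy).resolve_right (h y hy)))⟩
  have i3 := Subgroup.card_map_dvd (UU F) ψ
  rw [card_UU, q2] at i3
  rw [← (((UU F).map ψ).subgroupOf (stabilizer G x ⊓ stabilizer G b)).index_mul_card,
    Nat.card_congr (Subgroup.subgroupOfEquivOfLe le).toEquiv]
  exact Nat.mul_dvd_mul i2 i3

end Hy

end Cfsg.Agent.H2.L3
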