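import Cfsg.Agent.H2.L3g

/-!
# The parabolic case: symmetry of `V` and `J`
-/

set_option autoImplicit false

namespace Cfsg.Agent.H2.L3

open Matrix MulAction

section

variable {F : Type} [Field F]

theorem exists_ker_not_par {g v : Vec F} (hg : g ≠ 0) (hv : v ≠ 0) :
    ∃ x, g ⬝ᵥ x = 0 ∧ ¬ Par v x := by
  obtain ⟨u, u0, u1⟩ := exists_form_ne g
  obtain ⟨k, rfl, rfl⟩ := exists_flag u0 hg (by rw [dotProduct_comm, u1])
  by_contra h
  push Not at h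
  have h1 := h (k • e0) (by rw [cv_dot_smul, dot3]; simp)
  have h2 := h (k • e1) (by rw [cv_dot_smul, dot3]; simp)
  have := (par_smul_iff k).mp ((h1.symm u0).trans h2)
  simp [par_e0] at this

/-- Diagonal matrices. -/
def dg (a b c : F) (h : a * b * c = 1) : SL F := mk3 a 0 0 0 b 0 0 0 c (by linear_combination h)

theorem dg_smul (a b c : F) (h : a * b * c = 1) (x : Vec F) :
    dg a b c h • x = ![a * x 0, b * x 1, c * x 2] := by
  rw [dg, mk3_smul]; simp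

theorem exists_std [Finite F] [CharP F 2] {u f : Vec F} (hu : ¬ Par e0 u) (hf : f ≠ 0)
    (h1 : f ⬝ᵥ u = 0) (h2 : f ⬝ᵥ e0 = 0) :
    ∃ g : SL F, g • (e0 : Vec F) = e0 ∧ tv u f = g * uu 0 1 0 * g⁻¹ := by
  obtain ⟨g, g0, rfl⟩ := exists_pair e0_ne hu
  rw [← cv_cv_inv g f] at h1 h2 hf ⊢
  generalize cv g⁻¹ f = f at h1 h2 hf
  rw [← g0] at h2
  rw [cv_dot_smul] at h1 h2
  have f0 : f 0 = 0 := by simpa [dot3] using h2
  have f1 : f 1 = 0 := by simpa [dot3] using h1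
  have f2 : f 2 ≠ 0 := fun h => hf (by
    rw [show f = 0 from vec_ext f0 f1 h]; exact eq_of_dot fun x => by simp [cv_dot])
  obtain ⟨m, hm⟩ := FiniteField.isSquare_of_char_two (ringChar.eq F 2) (f 2)
  have m0 : m ≠ 0 := by rintro rfl; exact f2 (by simpa using hm)
  refine ⟨g * dg 1 m m⁻¹ (by field_simp), ?_, ?_⟩
  · rw [mul_smul, dg_smul]
    conv_rhs => rw [← g0]
    congr 1
    apply vec_ext <;> simp
  · have : tv e1 f * dg 1 m m⁻¹ (by field_simp) = dg 1 m m⁻¹ (by field_simp) * uu 0 1 0 := by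
      refine sl_ext fun x => ?_
      rw [mul_smul, mul_smul, tv_smul h1, uu_smul, dg_smul, dg_smul, dot3]
      apply vec_ext <;> simp [f0, f1, hm]
      field_simp
    rw [← conj_tv g h1, mul_assoc g (dg ..), ← this]
    group

variable {G Ω : Type*} [Group G] [MulAction G Ω]

theorem Ov.cj {ψ : SL F →* G} {c : Ω} {v : Vec F} {g : SL F} (h : Ov ψ c (g • v)) :
    Ov (Hy.cj ψ g) c v := by
  have := (h.smul g⁻¹).conj (ψ g)
  rw [inv_smul_smul, map_inv, smul_inv_smul] at this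
  convert this using 1
  ext k
  simp [Hy.cj_apply]

theorem Ov.of_cj {ψ : SL F →* G} {c : Ω} {v : Vec F} {g : SL F} (h : Ov (Hy.cj ψ g) c v) :
    Ov ψ c (g • v) := by
  have := Ov.cj (g := g⁻¹) (v := g • v) (by rwa [inv_smul_smul])
  convert this using 1
  ext k
  simp [Hy.cj_apply, mul_assoc]

end

namespace Hy

variable {G Ω : Type*} [Group G] [MulAction G Ω] {F : Type} [Field F] {H : Hy G Ω F}
  [CharP F 2] {x c : Ω} {ψ : SL F →* G}

variable (H) in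
/-- Charts in which every point lies over a vector. -/
def Full (x : Ω) (ψ : SL F →* G) : Prop := H.Chart x ψ ∧ ∀ c, c ≠ x → ∃ v, Ov ψ c v

omit [CharP F 2] in
theorem Full.cj (h : H.Full x ψ) (g : SL F) : H.Full x (cj ψ g) :=
  ⟨h.1.cj g, fun c hc => by
    obtain ⟨v, hv⟩ := h.2 c hc
    exact ⟨g⁻¹ • v, Ov.cj (by rwa [smul_inv_smul])⟩⟩

omit [CharP F 2] in
theorem Full.conj (h : H.Full x ψ) (g : G) : H.Full (g • x) ((MulAut.conj g).toMonoidHom.comp ψ) :=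
  ⟨h.1.conj g, fun c hc => by
    obtain ⟨v, hv⟩ := h.2 (g⁻¹ • c) (by rwa [Ne, inv_smul_eq_iff])
    exact ⟨v, by simpa using hv.conj g⟩⟩

theorem Chart.not_dual (C : H.Chart x ψ) {v w : Vec F} (hv : v ≠ 0) (hw : w ≠ 0) :
    ¬ Vv ψ v ⊆ Vv (ψ.comp L3.dual) w := by
  intro h
  obtain ⟨p, p1, p2⟩ := exists_ker_not_par (g := rv w) (fun h => hw (by
    rw [← rv_rv w, h]; exact vec_ext rfl rfl rfl)) hv
  obtain ⟨f, f1, f2⟩ := exists_form hv p2 1
  obtain ⟨f', f3, e⟩ := h ⟨f, f1, rfl⟩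
  rw [MonoidHom.comp_apply, dual_tv f3] at e
  have := congrArg (· • p) (C.tv_inj e)
  simp only [tv_smul f1, f2, one_smul] at this
  rw [tv_smul (by rw [rv_dot, dotProduct_comm, dotProduct_comm, f3]), p1, zero_smul, add_right_inj] at this
  exact hv this

theorem Chart.swap (C : H.Chart x ψ) {g : G} (hg : g • x = x) {c0 : Ω} {v0 v1 v v' : Vec F}
    (h0 : Ov ψ c0 v0) (h1 : Ov (ψ.comp L3.dual) (g • c0) v1) (h : Ov ψ c v) :
    ¬ Ov ψ (g • c) v' := by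
  intro h'
  obtain ⟨k, rfl⟩ := exists_smul_eq h0.1 h.1
  obtain ⟨k', e⟩ := C.dual.norm hg (L3.dual k)
  rw [MonoidHom.comp_apply, dual_dual] at e
  refine C.not_dual h'.1 (smul_ne_zero' k' h1.1) fun s hs => ?_
  obtain ⟨t, rfl⟩ := exists_conj_eq g s
  rw [← C.Vs_eq h', ← hg, conj_Vs, C.Vs_eq h] at hs
  obtain ⟨r, rfl⟩ := exists_conj_eq (ψ k) t
  rw [conj_mem_Vv, ← C.Vs_eq h0, ← conj_Vs g, hg, C.dual.Vs_eq h1, ← conj_mem_Vv _ k', ← e] at hs
  convert hs using 1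
  group

theorem conj_comm {y : G} {a b d a' b' d' a2 b2 d2 a2' b2' d2' : F}
    (e : y * ψ (uu a b d) * y⁻¹ = ψ (uu a' b' d'))
    (e' : y * ψ (uu a2 b2 d2) * y⁻¹ = ψ (uu a2' b2' d2')) :
    y * ψ (uu 0 0 (a * b2 + a2 * b)) * y⁻¹ = ψ (uu 0 0 (a' * b2' + a2' * b')) := by
  have k : ∀ a b d a2 b2 d2 : F, uu 0 0 (a * b2 + a2 * b) =
      uu a b d * uu a2 b2 d2 * (uu a b d)⁻¹ * (uu a2 b2 d2)⁻¹ := by
    intros
    rw [uu_conj, uu_inv, uu_mul]
    congr 1 <;> grind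
  rw [k _ _ d _ _ d2, k _ _ d' _ _ d2']
  simp only [map_mul, map_inv, ← e, ← e']
  group

theorem Chart.mem_Vv_of_comm (C : H.Chart x ψ) {w : Vec F} (h : Ov ψ c w) {y : G}
    (hy : y ∈ H.J x c) (hc : ∀ s ∈ Vv ψ w, Commute y s) : y ∈ Vv ψ w := by
  obtain ⟨u, f, h1, h2, rfl⟩ := C.ov_mem_J h hy
  by_cases hp : Par w u
  · obtain ⟨a, rfl⟩ := hp
    exact ⟨a • f, by simp [h2], by rw [tv_smul_left a h2]⟩
  by_cases hf : f = 0
  · exact ⟨0, by simp, by rw [hf, tv_zero_right, tv_zero_right]⟩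
  obtain ⟨f', g1, g2⟩ := exists_form h.1 hp 1
  obtain ⟨p, hp⟩ := exists_dot_eq hf 1
  have := congrArg (· • p) (C.comm_of (tv_sq ..) (hc _ ⟨f', g1, rfl⟩)).eq
  simp only [mul_smul, tv_smul h1, tv_smul g1, dotProduct_add, dotProduct_smul, h2, hp, g2,
    smul_eq_mul, mul_zero, add_zero, one_smul, add_smul] at this
  refine absurd ?_ h.1
  linear_combination (exp := 1) -this

variable [Finite Ω] [Finite F] [Finite G]

theorem Chart.ov_or (C : H.Chart x ψ) (hc : c ≠ x) :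
    (∃ v, Ov ψ c v) ∨ ∃ v, Ov (ψ.comp L3.dual) c v := by
  obtain ⟨h, hh⟩ := C.exists_fixU hc
  have hc' := smul_ne (fix_of_mem (C.mem' h)) hc
  rcases C.trich hc' hh with k | k | k
  · exact absurd (fun _ _ h => bor_inv hc' h (C.bor k)) (Hy.not_bor (H := H))
  · exact Or.inl ⟨_, by simpa using k.smul h⁻¹⟩
  · exact Or.inr ⟨_, by simpa [dual_dual] using k.smul (L3.dual h⁻¹)⟩

variable (H) in
theorem exists_full (x : Ω) : ∃ ψ, H.Full x ψ := by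
  obtain ⟨ψ, C⟩ := H.exists_chart x
  by_contra hn
  push Not at hn
  have n1 := hn ψ
  have n2 := hn (ψ.comp L3.dual)
  simp only [Full, not_and, not_forall] at n1 n2
  obtain ⟨c1, h1, n1⟩ := n1 C
  obtain ⟨c0, h0, n0⟩ := n2 C.dual
  obtain ⟨v1, k1⟩ := (C.ov_or h1).resolve_left n1
  obtain ⟨v0, k0⟩ := (C.ov_or h0).resolve_right n0
  obtain ⟨g, g1, rfl⟩ := H.two x c0 x c1 h0.symm h1.symm
  have dd : (ψ.comp L3.dual).comp L3.dual = ψ := by ext; simp [dual_dual]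
  have g2 : g⁻¹ • x = x := by rw [inv_smul_eq_iff, g1]
  have e : {c : Ω | c ≠ x ∧ ∃ v, Ov ψ c v}.ncard =
      {c : Ω | c ≠ x ∧ ∃ v, Ov (ψ.comp L3.dual) c v}.ncard := by
    refine Set.ncard_congr (fun y _ => g • y) ?_ (fun y z _ _ h => MulAction.injective _ h) ?_
    · rintro y ⟨hy, v, hv⟩
      exact ⟨smul_ne g1 hy, (C.ov_or (smul_ne g1 hy)).resolve_left fun ⟨_, h⟩ =>
        C.swap g1 k0 k1 hv h⟩
    · rintro y ⟨hy, v, hv⟩
      refine ⟨g⁻¹ • y, ⟨smul_ne g2 hy, (C.ov_or (smul_ne g2 hy)).resolve_right fun ⟨_, h⟩ =>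
        C.dual.swap g2 k1 (v1 := v0) (by rwa [dd, inv_smul_smul]) hv h⟩, smul_inv_smul _ _⟩
  have o := H.card_compl_odd x
  have : {y : Ω | y ≠ x} = {c : Ω | c ≠ x ∧ ∃ v, Ov ψ c v} ∪
      {c : Ω | c ≠ x ∧ ∃ v, Ov (ψ.comp L3.dual) c v} := by
    ext y
    exact ⟨fun h => (C.ov_or h).imp (fun k => ⟨h, k⟩) fun k => ⟨h, k⟩, fun h => h.elim And.left And.left⟩
  rw [this, Set.ncard_union_eq, e, ← two_mul] at o
  · exact Nat.not_even_iff_odd.mpr o (even_two_mul _)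
  · rw [Set.disjoint_left]
    rintro y ⟨-, v, hv⟩ ⟨-, w, hw⟩
    exact C.not_dual hv.1 hw.1 (by rw [← C.Vs_eq hv, ← C.dual.Vs_eq hw])

theorem exists_ov (hc : c ≠ x) {v : Vec F} (hv : v ≠ 0) : ∃ ψ, H.Full x ψ ∧ Ov ψ c v := by
  obtain ⟨ψ, h⟩ := H.exists_full x
  obtain ⟨w, hw⟩ := h.2 c hc
  obtain ⟨g, rfl⟩ := exists_smul_eq hv hw.1
  exact ⟨_, h.cj g, hw.cj⟩

omit [Finite Ω] [Finite F] [Finite G] in
theorem fixU_of_ov (h : Ov ψ c e0) : FixU ψ c := fun a b d =>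
  h.fix (by rw [uu_smul]; apply vec_ext <;> simp)

theorem Vs_sub_N (hc : c ≠ x) : H.Vs x c ⊆ H.N c := by
  have inv : ∀ {x c x' c' : Ω}, c ≠ x → c' ≠ x' → (∃ s ∈ H.Vs x c, s ≠ 1 ∧ s ∈ H.N c) →
      ∃ s ∈ H.Vs x' c', s ≠ 1 ∧ s ∈ H.N c' := by
    intro x c x' c' hc hc' h
    refine H.pair_ind (P := fun x c => ∃ s ∈ H.Vs x c, s ≠ 1 ∧ s ∈ H.N c) ?_ hc h hc'
    rintro g x c ⟨s, h1, h2, h3⟩
    exact ⟨_, (conj_Vs g).mpr h1, by simpa using h2, conj_mem h3 g⟩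
  obtain ⟨ψ, h, o⟩ := H.exists_ov hc e0_ne
  have C := h.1
  by_cases hn : ∃ s ∈ H.Vs x c, s ≠ 1 ∧ s ∈ H.N c
  · obtain ⟨s, h1, h2, h3⟩ := hn
    rw [C.Vs_eq o] at h1 ⊢
    obtain ⟨f, hf, rfl⟩ := h1
    rintro _ ⟨f', hf', rfl⟩
    by_cases f0 : f' = 0
    · rw [f0, tv_zero_right, map_one]; exact (H.N c).one_mem
    obtain ⟨g, g1, rfl⟩ := exists_flag e0_ne (by rintro rfl; exact h2 (by rw [tv_zero_right, map_one])) hf
    obtain ⟨g', g1', rfl⟩ := exists_flag e0_ne f0 hf'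
    have t : (e2 : Vec F) ⬝ᵥ e0 = 0 := by rw [dot3]; simp
    have := conj_mem' h3 (o.fix (g := g' * g⁻¹) (by rw [mul_smul, inv_smul_eq_iff.mpr g1.symm, g1']))
    rw [← map_inv, ← map_mul, ← map_mul] at this
    have k1 := conj_tv g t
    have k2 := conj_tv g' t
    rw [g1] at k1
    rw [g1'] at k2
    rw [← k1] at this
    rw [← k2, SetLike.mem_coe]
    convert this using 2
    group
  exfalso
  have triv : ∀ {x' c' : Ω}, c' ≠ x' → ∀ s ∈ H.Vs x' c', s ∈ H.N c' → s = 1 := by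
    intro x' c' hc' s h1 h2
    by_contra h3
    exact hn (inv hc' hc ⟨s, h1, h3, h2⟩)
  have cent : ∀ y ∈ H.Vs c x, H.Cent x y := by
    intro y hy
    have : TrivU ψ y := by
      intro a b d
      refine ⟨d, ?_⟩
      have := triv hc.symm (y * (ψ (uu a b d) * y * (ψ (uu a b d))⁻¹)) ?_ ?_
      · have := eq_inv_of_mul_eq_one_right this
        rw [inv_eq_of_mul_eq_one_left hy.1.2.1, mul_inv_eq_iff_eq_mul] at this
        rw [← this, mul_inv_cancel_right]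
      · have k := conj_Vs' (fixU_of_ov o a b d) (fix_of_mem (C.mem' _)) hy
        obtain ⟨χ, h', o'⟩ := H.exists_ov hc.symm e0_ne
        rw [h'.1.Vs_eq o', mem_Vv_e0] at k hy ⊢
        obtain ⟨a1, c1, e1⟩ := k
        obtain ⟨a2, c2, e2⟩ := hy
        rw [e1, e2, ← map_mul, uu_mul]
        exact ⟨a2 + a1, c2 + c1, by simp⟩
      · rw [← mul_assoc, ← mul_assoc]
        refine (H.N x).mul_mem ?_ ((H.N x).inv_mem (C.mem' _))
        have := conj_mem' (C.mem' (uu a b d)) hy.1.2.2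
        rwa [inv_eq_of_mul_eq_one_left hy.1.2.1] at this
    rcases C.aut' hy.1 this with ⟨a, b, d, rfl⟩ | k
    · rw [triv hc.symm _ hy (C.mem' _)]
      exact fun s _ => by simp
    · exact k
  obtain ⟨n, hn, hne⟩ := H.exists_move hc
  obtain ⟨χ, h', o'⟩ := H.exists_ov hc.symm e0_ne
  obtain ⟨w, hw⟩ := h'.2 _ hne
  have mv : ∀ y ∈ H.Vs c x, y ∈ H.N (n • c) := by
    intro y hy
    have := conj_mem hy.1.1 n
    rwa [← cent y hy n hn, mul_inv_cancel_right] at this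
  rw [h'.1.Vs_eq o'] at mv
  have hp : Par e0 w := by
    by_contra hp
    obtain ⟨f, f1, f2⟩ := exists_form e0_ne hp 1
    exact one_ne_zero (f2.symm.trans (hw.dot_eq e0_ne f1 (fix_of_mem (mv _ ⟨f, f1, rfl⟩))))
  have z : χ (uu 0 0 1) ∈ Vv χ e0 := mem_Vv_e0.mpr ⟨0, 1, rfl⟩
  have := triv hne _ (by rwa [h'.1.Vs_eq hw, hp.Vv_eq χ hw.1]) (mv _ z)
  exact one_ne_zero (h'.1.uu_eq_one this).2.2

theorem Vs_symm (hc : c ≠ x) : H.Vs x c = H.Vs c x := by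
  have k : ∀ {x c : Ω}, c ≠ x → H.Vs x c ⊆ H.Vs c x := by
    intro x c hc s hs
    refine ⟨⟨Vs_sub_N hc hs, hs.1.2.1, fix_of_mem hs.1.1⟩, fun t ht => ?_⟩
    have := conj_Vs' ht.2.2 (fix_of_mem ht.1) hs
    obtain ⟨ψ, h, o⟩ := H.exists_ov hc e0_ne
    rw [h.1.Vs_eq o, mem_Vv_e0] at this hs
    obtain ⟨a, d, e⟩ := this
    obtain ⟨a', d', rfl⟩ := hs
    rw [e, h.1.comm_uu]
    simp
  exact (k hc).antisymm (k hc.symm)

variable (H) in
theorem sym : H.Sym := by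
  intro c x hc y hy
  by_cases hn : ∃ s ∈ H.J x c, s ∉ H.Vs x c ∧ s ∈ H.N c
  · refine H.pair_ind (P := fun x c => H.J x c ⊆ H.N c) (fun g x c h s hs => ?_) hc.symm ?_ hc hy
    · obtain ⟨s, rfl⟩ := exists_conj_eq g s
      exact conj_mem (h ((conj_J g).mp hs)) g
    obtain ⟨s, h1, h2, h3⟩ := hn
    obtain ⟨ψ, h, o⟩ := H.exists_ov hc.symm e0_ne
    have k : ∀ s ∈ H.J x c, s ∉ H.Vs x c → ∃ g : SL F, g • (e0 : Vec F) = e0 ∧
        s = ψ g * ψ (uu 0 1 0) * (ψ g)⁻¹ := by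
      intro s h1 h2
      rw [h.1.Vs_eq o] at h2
      obtain ⟨u, f, k1, k2, rfl⟩ := h.1.ov_mem_J o h1
      obtain ⟨g, g1, g2⟩ := exists_std (u := u) (f := f) (by
        rintro ⟨a, rfl⟩
        exact h2 ⟨a • f, by simp [k2], by rw [tv_smul_left a k2]⟩) (by
        rintro rfl
        exact h2 ⟨0, by simp, by rw [tv_zero_right, tv_zero_right]⟩) k1 k2
      exact ⟨g, g1, by rw [g2, map_mul, map_mul, map_inv]⟩
    intro t ht
    by_cases h' : t ∈ H.Vs x c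
    · exact Vs_sub_N hc.symm h'
    obtain ⟨g, g1, rfl⟩ := k s h1 h2
    obtain ⟨g', g1', rfl⟩ := k t ht h'
    refine conj_mem' ?_ (o.fix g1')
    rw [← conj_mem_iff (ψ g), o.fix g1]
    exact h3
  push Not at hn
  obtain ⟨χ, h', o'⟩ := H.exists_ov hc e0_ne
  by_cases hy' : y ∈ H.Vs c x
  · exact Vs_sub_N hc hy'
  obtain ⟨z, z1, z2, z3⟩ : ∃ z ∈ H.Vs x c, z ≠ 1 ∧ Commute y z := by
    obtain ⟨u, f, k1, k2, rfl⟩ := h'.1.ov_mem_J o' hy
    rw [h'.1.Vs_eq o'] at hy'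
    rw [Vs_symm hc.symm, h'.1.Vs_eq o']
    refine ⟨_, ⟨f, k2, rfl⟩, fun h => ?_, ?_⟩
    · have := h'.1.tv_inj (h.trans (by rw [tv_zero_left, map_one] : χ (tv 0 0) = 1).symm)
      rw [tv_zero_left] at this
      rcases tv_eq_one k2 this with h | rfl
      · exact e0_ne h
      · exact hy' ⟨0, by simp, by rw [tv_zero_right, tv_zero_right]⟩
    · refine Commute.map (sl_ext fun p => ?_) χ
      simp only [mul_smul, tv_smul k1, tv_smul k2, dotProduct_add, dotProduct_smul, k1, k2,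
        smul_eq_mul, mul_zero, add_zero]
      abel
  obtain ⟨ψ, C, o, rfl⟩ : ∃ ψ, H.Chart x ψ ∧ Ov ψ c e0 ∧ z = ψ (uu 0 0 1) := by
    obtain ⟨ψ, h, o⟩ := H.exists_ov hc.symm e0_ne
    rw [h.1.Vs_eq o] at z1
    obtain ⟨f, hf, rfl⟩ := z1
    obtain ⟨g, g1, rfl⟩ := exists_flag e0_ne
      (by rintro rfl; exact z2 (by rw [tv_zero_right, map_one])) hf
    refine ⟨_, h.1.cj g, Ov.cj (by rwa [g1]), ?_⟩
    have t : (e2 : Vec F) ⬝ᵥ e0 = 0 := by rw [dot3]; simp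
    rw [cj_apply, show uu 0 0 1 = tv e0 (e2 : Vec F) by rw [tv_e0 t]; simp, conj_tv g t, g1]
  have y1 : y • c = c := fix_of_mem hy.1
  have y2 : y⁻¹ = y := inv_eq_of_mul_eq_one_left hy.2.1
  have hz : y * ψ (uu 0 0 1) * y⁻¹ = ψ (uu 0 0 1) := by rw [z3.eq, mul_inv_cancel_right]
  have hV : ∀ a d, ∃ a' d', y * ψ (uu a 0 d) * y⁻¹ = ψ (uu a' 0 d') := by
    intro a d
    rw [← mem_Vv_e0, ← C.Vs_eq o]
    exact conj_Vs' hy.2.2 y1 (by rw [C.Vs_eq o, mem_Vv_e0]; exact ⟨a, d, rfl⟩)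
  have hW : ∀ b, ∃ d', y * ψ (uu 0 b 0) * y⁻¹ = ψ (uu 0 b d') := by
    intro b
    by_cases hb : b = 0
    · exact ⟨0, by simp [hb, uu_zero]⟩
    have m := C.uu_mem_J (fixU_of_ov o) (a := 0) (b := b) (by simp) 0
    have m' := conj_J' hy.2.2 y1 m
    obtain ⟨a', b', d', e1, e⟩ := C.mem_C m'.1 m'.2.1 (by
      rw [← hz, comm_conj, C.comm_uu]; simp)
    have b0 : b' ≠ 0 := by
      rintro rfl
      obtain ⟨a2, d2, e2⟩ := hV a' d'
      rw [← e, y2, ← mul_assoc, ← mul_assoc, hy.2.1, one_mul, mul_assoc, hy.2.1, mul_one] at e2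
      exact hb (C.uu_inj e2).2.1
    obtain rfl : a' = 0 := (mul_eq_zero.mp e1).resolve_right b0
    refine ⟨d', ?_⟩
    by_contra hne
    refine hn _ (C.uu_mem_J (fixU_of_ov o) (a := 0) (b := b' + b) (by simp) d') ?_ ?_
    · rw [C.Vs_eq o, mem_Vv_e0]
      rintro ⟨a2, d2, e2⟩
      have := (C.uu_inj e2).2.1
      exact hne (by rw [e]; congr 2; grind)
    · rw [show uu 0 (b' + b) d' = uu 0 b' d' * (uu 0 b 0)⁻¹ by rw [uu_inv, uu_mul]; simp, map_mul,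
        ← e, map_inv, mul_assoc, mul_assoc, ← mul_assoc (ψ _)]
      exact (H.N c).mul_mem hy.1 (conj_mem' ((H.N c).inv_mem hy.1) m.2.2)
  obtain ⟨a1, d1, e1⟩ := hV 1 0
  obtain ⟨d2, e2⟩ := hW 1
  obtain rfl : 1 = a1 := by
    have := conj_comm e1 e2
    simp only [mul_one, mul_zero, add_zero, hz] at this
    exact (C.uu_inj this).2.2
  have hZ : ∀ d, y * ψ (uu 0 0 d) * y⁻¹ = ψ (uu 0 0 d) := by
    intro d
    obtain ⟨d', e⟩ := hW d
    simpa using conj_comm e1 e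
  have : TrivU ψ y := by
    intro a b d
    obtain ⟨a', d', e⟩ := hV a 0
    obtain rfl : a = a' := by
      have := conj_comm e e2
      simp only [mul_one, mul_zero, add_zero, hZ] at this
      exact (C.uu_inj this).2.2
    obtain ⟨d'', e'⟩ := hW b
    refine ⟨d + d'' + d', ?_⟩
    rw [show uu a b d = uu 0 0 d * uu 0 b 0 * uu a 0 0 by rw [uu_mul, uu_mul]; simp,
      show uu a b (d + d'' + d') = uu 0 0 d * uu 0 b d'' * uu a 0 d' by rw [uu_mul, uu_mul]; simp]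
    simp only [map_mul, ← e, ← e']
    conv_rhs => rw [← hZ]
    group
  rcases C.aut' hy this with ⟨a, b, d, rfl⟩ | k
  · exact C.mem' _
  refine absurd ?_ hy'
  rw [h'.1.Vs_eq o']
  refine h'.1.mem_Vv_of_comm o' hy fun s hs => k s ?_
  rw [← h'.1.Vs_eq o'] at hs
  exact Vs_sub_N hc hs

end Hy

end Cfsg.Agent.H2.L3
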