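import Cfsg.Agent.H2.L3h
import Mathlib.Data.Fintype.CardEmbedding

/-!
# Lines and planes
-/

set_option autoImplicit false

namespace Cfsg.Agent.H2.L3

open Matrix MulAction

theorem card_le_of_npar {F : Type} [Field F] [Finite F] {ι : Type*} {f : Vec F} (hf : f ≠ 0)
    (v : ι → Vec F) (h0 : ∀ i, v i ≠ 0) (h1 : ∀ i, f ⬝ᵥ v i = 0)
    (h2 : ∀ i j, Par (v i) (v j) → i = j) : Nat.card ι ≤ Nat.card F + 1 := by
  classical
  obtain ⟨u, u0, u1⟩ := exists_form_ne f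
  obtain ⟨g, -, rfl⟩ := exists_flag u0 hf (by rw [dotProduct_comm, u1])
  have k : ∀ i, (g⁻¹ • v i) 2 = 0 := fun i => by
    have := h1 i
    rw [cv_dot, dot3] at this
    simpa using this
  have k0 : ∀ i, g⁻¹ • v i ≠ 0 := fun i => smul_ne_zero' _ (h0 i)
  have k2 : ∀ i j, Par (g⁻¹ • v i) (g⁻¹ • v j) → i = j := fun i j h =>
    h2 i j ((par_smul_iff _).mp h)
  generalize hw : (fun i => g⁻¹ • v i) = w
  replace hw : ∀ i, g⁻¹ • v i = w i := fun i => congrFun hw i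
  simp only [hw] at k k0 k2
  rw [← Finite.card_option]
  refine Nat.card_le_card_of_injective
    (fun i => if w i 1 = 0 then none else some (w i 0 / w i 1)) fun i j h => k2 i j ?_
  dsimp only at h
  split_ifs at h with a b
  · exact ((par_e0.mpr ⟨a, k i⟩).symm (k0 i)).trans (par_e0.mpr ⟨b, k j⟩)
  · have h := Option.some.inj h
    refine ⟨w j 1 / w i 1, vec_ext ?_ ?_ ?_⟩
    · simp only [Pi.smul_apply, smul_eq_mul]
      field_simp at h ⊢
      linear_combination -h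
    · simp only [Pi.smul_apply, smul_eq_mul]
      field_simp
    · simp [k]

theorem cyc_eq {A : Type*} [Group A] [Finite A] [IsCyclic A] {K K' : Subgroup A}
    (h : K.index = K'.index) : K = K' := by
  classical
  have := Fintype.ofFinite A
  have c : Nat.card K = Nat.card K' := by
    have h1 := K.index_mul_card
    rw [h, ← K'.index_mul_card] at h1
    exact Nat.eq_of_mul_eq_mul_left (Nat.pos_of_ne_zero K'.index_ne_zero_of_finite) h1
  have k : ∀ K : Subgroup A, (K : Set A) = {a | a ^ Nat.card K = 1} := by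
    intro K
    refine Set.eq_of_subset_of_ncard_le (fun a ha => ?_) ?_
    · exact orderOf_dvd_iff_pow_eq_one.mp (K.orderOf_dvd_natCard ha)
    · have := IsCyclic.card_pow_eq_one_le (α := A) (Nat.card_pos (α := K))
      rw [Set.ncard_eq_toFinset_card', Set.toFinset_setOf]
      exact this
  apply SetLike.coe_injective
  rw [k, k, c]

/-- A one-dimensional torus. -/
def tor (F : Type) [Field F] : Fˣ →* SL F where
  toFun μ := dg μ (μ⁻¹ : Fˣ) 1 (by simp)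
  map_one' := sl_ext fun x => by rw [dg_smul]; apply vec_ext <;> simp
  map_mul' a b := sl_ext fun x => by
    rw [mul_smul, dg_smul, dg_smul, dg_smul]; apply vec_ext <;> simp <;> ring

theorem tor_e0 {F : Type} [Field F] (μ : Fˣ) : tor F μ • (e0 : Vec F) = (μ : F) • e0 := by
  show dg _ _ _ (by simp) • _ = _
  rw [dg_smul]; apply vec_ext <;> simp

namespace Hy

variable {G Ω : Type*} [Group G] [MulAction G Ω] {F : Type} [Field F] {H : Hy G Ω F}

variable (H) in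
/-- The line through two points. -/
def L (x c : Ω) : Set Ω := {y | ∀ s ∈ H.Vs x c, s • y = y}

variable {x c y z : Ω} {ψ : SL F →* G}

theorem conj_L (g : G) : g • y ∈ H.L (g • x) (g • c) ↔ y ∈ H.L x c := by
  constructor
  · intro h s hs
    exact (smul_conj g).mp (h _ ((conj_Vs g).mpr hs))
  · intro h s hs
    obtain ⟨s, rfl⟩ := exists_conj_eq g s
    exact (smul_conj g).mpr (h s ((conj_Vs g).mp hs))

theorem right_mem_L : c ∈ H.L x c := fun _ hs => hs.1.2.2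

theorem ncard_L {x' c' : Ω} (hc : c ≠ x) (hc' : c' ≠ x') :
    (H.L x c).ncard = (H.L x' c').ncard := by
  obtain ⟨g, rfl, rfl⟩ := H.two x c x' c' hc.symm hc'.symm
  exact Set.ncard_congr (fun y _ => g • y) (fun y hy => (conj_L g).mpr hy)
    (fun y z _ _ h => MulAction.injective _ h)
    (fun y hy => ⟨g⁻¹ • y, by rwa [← conj_L g, smul_inv_smul], by simp⟩)

variable [Finite Ω]

theorem left_mem_L : x ∈ H.L x c := fun _ hs => fix_of_mem hs.1.1

theorem Chart.ne_of_ov (C : H.Chart x ψ) {v : Vec F} (h : Ov ψ c v) : c ≠ x := by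
  rintro rfl
  obtain ⟨u, hu⟩ := exists_not_par h.1
  obtain ⟨g, rfl⟩ := exists_smul_eq h.1 (v := u) (by rintro rfl; exact hu ⟨0, by simp⟩)
  exact hu (h.2.2 g (fix_of_mem (C.mem' g)))

theorem Full.exists_pt (h : H.Full x ψ) {v : Vec F} (hv : v ≠ 0) : ∃ c : Ω, Ov ψ c v := by
  obtain ⟨b, hb⟩ := H.exists_ne' x
  obtain ⟨w, hw⟩ := h.2 b hb
  obtain ⟨g, rfl⟩ := exists_smul_eq hw.1 hv
  exact ⟨_, hw.smul g⟩

variable [CharP F 2]

omit [Finite Ω] in
theorem Chart.mem_L (C : H.Chart x ψ) {v w : Vec F} (h : Ov ψ c v) (h' : Ov ψ y w) :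
    y ∈ H.L x c ↔ Par v w := by
  rw [L, C.Vs_eq h]
  constructor
  · intro k
    by_contra hp
    obtain ⟨f, f1, f2⟩ := exists_form h.1 hp 1
    exact one_ne_zero (f2.symm.trans (h'.dot_eq h.1 f1 (k _ ⟨f, f1, rfl⟩)))
  · rintro ⟨a, rfl⟩ _ ⟨f, f1, rfl⟩
    exact h'.tv_fix f1 (by simp [f1])

variable [Finite F] [Finite G]

theorem L_symm (hc : c ≠ x) : H.L x c = H.L c x := by rw [L, Vs_symm hc, L]

theorem L_eq_left (hc : c ≠ x) (hy : y ∈ H.L x c) (h : y ≠ x) : H.L x y = H.L x c := by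
  obtain ⟨ψ, f, o⟩ := H.exists_ov hc e0_ne
  obtain ⟨w, hw⟩ := f.2 y h
  rw [L, L, f.1.Vs_eq o, f.1.Vs_eq hw, ((f.1.mem_L o hw).mp hy).Vv_eq ψ hw.1]

theorem L_eq (hc : c ≠ x) (hy : y ∈ H.L x c) (hz : z ∈ H.L x c) (h : z ≠ y) :
    H.L y z = H.L x c := by
  by_cases hx : y = x
  · subst hx; exact L_eq_left hc hz h
  rw [← L_eq_left hc hy hx, L_symm hx] at hz ⊢
  exact L_eq_left (Ne.symm hx) hz h

theorem fix_L {w : G} (h1 : w ∈ H.N x) (h2 : w * w = 1) (hy : w • y = y) (hz : w • z = z)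
    (h : z ≠ y) {p : Ω} (hp : p ∈ H.L y z) : w • p = p := by
  by_cases hp' : p = y
  · rwa [hp']
  obtain ⟨ψ, f, o⟩ := H.exists_ov h e0_ne
  obtain ⟨v, hv⟩ := f.2 p hp'
  obtain ⟨u, f', k1, k2, rfl⟩ := f.1.ov_mem_J o ⟨H.sym.mem h1 h2 hy, h2, hz⟩
  obtain ⟨a, rfl⟩ := (f.1.mem_L o hv).mp hp
  exact hv.tv_fix k1 (by simp [k2])

theorem even_L (hc : c ≠ x) : Even (H.L x c).ncard := by
  rw [← Set.ncard_diff_singleton_add_one (left_mem_L (x := x) (c := c)), Nat.even_add_one,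
    Nat.not_even_iff_odd]
  refine Odd.of_dvd_nat (H.card_compl_odd x) (dvd_ncard_of_fibers _ (fun y => H.L x y)
    fun b hb => dvd_of_eq ?_)
  have : {y | y ∈ {y : Ω | y ≠ x} ∧ H.L x y = H.L x b} = H.L x b \ {x} := by
    ext y
    constructor
    · rintro ⟨h1, h2⟩
      exact ⟨h2 ▸ right_mem_L, h1⟩
    · rintro ⟨h1, h2⟩
      exact ⟨h2, L_eq_left hb h1 h2⟩
  rw [this, Set.ncard_diff_singleton_of_mem left_mem_L, Set.ncard_diff_singleton_of_mem left_mem_L,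
    ncard_L hc hb]

theorem card_le_of_fix {ι : Type*} {w : G} (h1 : w ∈ H.N x) (h2 : w * w = 1) (h3 : w ≠ 1)
    (p : ι → Ω) (p1 : ∀ i, p i ≠ x) (p2 : ∀ i, w • p i = p i)
    (p3 : ∀ i j, p j ∈ H.L x (p i) → i = j) : Nat.card ι ≤ Nat.card F + 1 := by
  obtain ⟨ψ, h⟩ := H.exists_full x
  obtain ⟨u, f, u0, f0, k, rfl⟩ := h.1.exists_tv' h1 h2 h3
  choose v hv using fun i => h.2 _ (p1 i)
  exact card_le_of_npar f0 v (fun i => (hv i).1) (fun i => (hv i).dot_eq u0 k (p2 i))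
    fun i j hp => p3 i j ((h.1.mem_L (hv i) (hv j)).mpr hp)

omit [Finite Ω] [Finite F] [Finite G] in
theorem z_fix {v : Vec F} (h : Ov ψ c v) : ψ (uu 0 0 1) • c = c ↔ v 2 = 0 := by
  have t : (![0, 0, 1] : Vec F) ⬝ᵥ e0 = 0 := by rw [dot3]; simp
  rw [uu_eq_tv1]
  constructor
  · intro k
    have := h.dot_eq e0_ne t k
    rw [dot3] at this
    simpa using this
  · intro k
    exact h.tv_fix t (by rw [dot3]; simpa using k)

theorem Full.not_mem_L (h : H.Full x ψ) {v w : Vec F} (hy : Ov ψ y v) (hz : Ov ψ z w)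
    (hp : ¬ Par v w) : z ≠ y ∧ x ∉ H.L y z := by
  have hn : z ≠ y := by rintro rfl; exact hp (hy.unique hz)
  refine ⟨hn, fun k => hp ((h.1.mem_L hy hz).mp ?_)⟩
  rw [L_eq hn k left_mem_L (h.1.ne_of_ov hy)]
  exact right_mem_L

theorem ncard_L_le (hc : c ≠ x) : (H.L x c).ncard ≤ Nat.card F + 1 := by
  obtain ⟨ψ, h⟩ := H.exists_full x
  obtain ⟨y, hy⟩ := h.exists_pt e0_ne
  obtain ⟨z, hz⟩ := h.exists_pt e1_ne
  obtain ⟨h1, h2⟩ := h.not_mem_L hy hz (by simp [par_e0])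
  have z2 : ψ (uu 0 0 1) * ψ (uu 0 0 1) = 1 := by rw [← map_mul, uu_sq]; simp [uu_zero]
  rw [ncard_L hc h1, ← Nat.card_coe_set_eq]
  refine card_le_of_fix (h.1.mem' (uu 0 0 1)) z2 (fun k => one_ne_zero (h.1.uu_eq_one k).2.2)
    Subtype.val (fun p k => h2 (k ▸ p.2)) (fun p => fix_L (h.1.mem' _) z2
      ((z_fix hy).mpr (by simp)) ((z_fix hz).mpr (by simp)) h1 p.2) fun p r k => ?_
  by_contra hn
  have hn : r.1 ≠ p.1 := fun e => hn (Subtype.ext e).symm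
  apply h2
  rw [← L_eq h1 p.2 r.2 hn, L_eq (fun k : p.1 = x => h2 (k ▸ p.2)) right_mem_L k hn]
  exact left_mem_L

omit [Finite Ω] [Finite F] [Finite G] [CharP F 2] in
theorem smul_eq_tor (h : Ov ψ c e0) {g : SL F} {μ : Fˣ} (e : g • (e0 : Vec F) = (μ : F) • e0) :
    ψ g • c = ψ (tor F μ) • c := by
  rw [← inv_smul_eq_iff, ← map_inv, ← mul_smul, ← map_mul]
  exact h.fix (by rw [mul_smul, e, inv_smul_eq_iff, tor_e0])

theorem semi {s : G} (hs : s ∈ H.N x) (hc : c ≠ x) (h : s • c = c) (hy : y ∈ H.L x c) :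
    s • y = y := by
  by_cases hx : y = x
  · rw [hx, fix_of_mem hs]
  obtain ⟨ψ, f, o⟩ := H.exists_ov hc e0_ne
  obtain ⟨w, hw⟩ := f.2 y hx
  have o' : Ov ψ y e0 := hw.par (((f.1.mem_L o hw).mp hy).symm hw.1) e0_ne
  letI : MulAction Fˣ Ω := MulAction.compHom Ω (ψ.comp (tor F))
  have k : ∀ g : SL F, Par e0 (g • (e0 : Vec F)) → ∃ μ : Fˣ, g • (e0 : Vec F) = (μ : F) • e0 := by
    rintro g ⟨a, ha⟩
    exact ⟨Units.mk0 a (by rintro rfl; exact smul_ne_zero' g e0_ne (by simpa using ha)), ha⟩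
  have orb : ∀ c, Ov ψ c e0 → orbit Fˣ c = {y | y ∈ H.L x c ∧ ∃ s ∈ H.N x, s • c = y} := by
    intro c o
    ext p
    constructor
    · rintro ⟨μ, rfl⟩
      exact ⟨(f.1.mem_L o (o.smul (tor F μ))).mpr ⟨μ, tor_e0 μ⟩, _, f.1.mem' (tor F μ), rfl⟩
    · rintro ⟨h1, s, hs, rfl⟩
      obtain ⟨g, rfl⟩ := (f.1.mem s).mp hs
      obtain ⟨μ, e⟩ := k g ((f.1.mem_L o (o.smul g)).mp h1)
      exact ⟨μ, (smul_eq_tor o e).symm⟩
  have e : stabilizer Fˣ c = stabilizer Fˣ y := by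
    apply cyc_eq
    rw [index_stabilizer, index_stabilizer, orb c o, orb y o']
    obtain ⟨g, g1, rfl⟩ := H.two x c x y hc.symm (Ne.symm hx)
    refine Set.ncard_congr (fun y _ => g • y) ?_ (fun y z _ _ h => MulAction.injective _ h) ?_
    · rintro _ ⟨h1, s, hs, rfl⟩
      refine ⟨?_, _, conj_mem' hs g1, by simp [mul_smul]⟩
      rw [← conj_L g, g1] at h1
      exact h1
    · rintro _ ⟨h1, s, hs, rfl⟩
      refine ⟨g⁻¹ • s • g • c, ⟨?_, _, conj_mem' hs (g := g⁻¹) (by rw [inv_smul_eq_iff, g1]),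
        by simp [mul_smul]⟩, by simp⟩
      rwa [← conj_L g, g1, smul_inv_smul]
  obtain ⟨g, rfl⟩ := (f.1.mem s).mp hs
  obtain ⟨μ, hμ⟩ := k g (o.2.2 g h)
  rw [smul_eq_tor o hμ] at h
  rw [smul_eq_tor o' hμ]
  have : μ ∈ stabilizer Fˣ c := h
  rw [e] at this
  exact this

variable (H) in
/-- All lines have two points. -/
def K1 : Prop := ∀ x c y, c ≠ x → y ∈ H.L x c → y = x ∨ y = c

theorem k1_of_card (hc : c ≠ x) (h : (H.L x c).ncard = 2) : H.K1 := by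
  intro x' c' y hc' hy
  rw [ncard_L hc hc'] at h
  have : ({x', c'} : Set Ω) = H.L x' c' := Set.eq_of_subset_of_ncard_le (by
    rintro _ (rfl | rfl)
    · exact left_mem_L
    · exact right_mem_L) (by rw [h, Set.ncard_pair hc'.symm])
  rwa [← this] at hy

theorem Full.k1 (h : H.Full x ψ) (hn : ∀ (c : Ω) v, Ov ψ c v → ∃ g, ψ g • c = c ∧ g • v ≠ v) :
    H.K1 ∧ ∃ t : F, t ≠ 0 ∧ t ≠ 1 := by
  obtain ⟨y, hy⟩ := h.exists_pt e0_ne
  obtain ⟨z, hz⟩ := h.exists_pt e1_ne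
  obtain ⟨h1, h2⟩ := h.not_mem_L hy hz (by simp [par_e0])
  obtain ⟨g, g1, g2⟩ := hn z e1 hz
  obtain ⟨a, ha⟩ := hz.2.2 g g1
  have a0 : a ≠ 0 := by rintro rfl; exact smul_ne_zero' g e1_ne (by simpa using ha)
  have a1 : a ≠ 1 := by rintro rfl; exact g2 (by simpa using ha)
  refine ⟨k1_of_card h1 ?_, a, a0, a1⟩
  have t1 : ψ (dg 1 a a⁻¹ (by field_simp)) • z = z := by
    conv_rhs => rw [← g1]
    rw [← inv_smul_eq_iff, ← map_inv, ← mul_smul, ← map_mul]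
    refine hz.fix ?_
    rw [mul_smul, inv_smul_eq_iff, ha, dg_smul]
    apply vec_ext <;> simp
  have t2 : ψ (dg 1 a a⁻¹ (by field_simp)) ∈ H.N y := by
    refine fix_induction (P := fun g => ψ g ∈ H.N y) e0_ne (fun u f k1 k2 => ?_)
      (fun g g' k k' => by rw [map_mul]; exact (H.N y).mul_mem k k') ?_
    · exact H.sym _ _ (h.1.ne_of_ov hy) (h.1.tv_mem_J hy k1 k2)
    · rw [dg_smul]; apply vec_ext <;> simp
  rw [← Set.ncard_pair h1.symm]
  congr 1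
  refine Set.Subset.antisymm (fun p hp => ?_) (by
    rintro _ (rfl | rfl)
    · exact left_mem_L
    · exact right_mem_L)
  by_contra hn
  simp only [Set.mem_insert_iff, Set.mem_singleton_iff, not_or] at hn
  obtain ⟨v, hv⟩ := h.2 p fun k => h2 (k ▸ hp)
  have v2 : v 2 = 0 := (z_fix hv).mp (fix_L (h.1.mem' _) (by rw [← map_mul, uu_sq]; simp [uu_zero])
    ((z_fix hy).mpr (by simp)) ((z_fix hz).mpr (by simp)) h1 hp)
  obtain ⟨b, hb⟩ := hv.2.2 _ (semi t2 h1 t1 hp)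
  rw [dg_smul] at hb
  have b0 := congrFun hb 0
  have b1 := congrFun hb 1
  simp only [one_mul, cons_val_zero, Pi.smul_apply, smul_eq_mul, cons_val_one] at b0 b1
  apply h2
  by_cases v1 : v 1 = 0
  · rw [← L_eq_left h1 hp hn.1, L_eq (h.1.ne_of_ov hy) right_mem_L
      ((h.1.mem_L hy hv).mpr (par_e0.mpr ⟨v1, v2⟩)) hn.1]
    exact left_mem_L
  · rw [← L_eq h1 right_mem_L hp hn.2, L_eq (h.1.ne_of_ov hz) right_mem_L
      ((h.1.mem_L hz hv).mpr ⟨v 1, vec_ext (by simp; grind) (by simp) (by simp [v2])⟩) hn.2]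
    exact left_mem_L

variable (H) in
/-- The block through three points. -/
def Bl (x y z : Ω) : Set Ω := {p | ∀ w ∈ H.J x y, w • z = z → w • p = p}

theorem Bl_eq (hy : y ≠ x) (hz : z ∉ H.L x y) {w : G} (hw : w ∈ H.J x y) (w1 : w ≠ 1)
    (h : w • z = z) : H.Bl x y z = {p | w • p = p} := by
  ext p
  refine ⟨fun k => k w hw h, fun k w' hw' h' => ?_⟩
  by_cases hp : p = x
  · rw [hp, fix_of_mem hw'.1]
  obtain ⟨ψ, f, o⟩ := H.exists_ov hy e0_ne
  obtain ⟨v, hv⟩ := f.2 z fun k => hz (k ▸ left_mem_L)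
  obtain ⟨r, hr⟩ := f.2 p hp
  obtain ⟨u, g, u0, g0, k1, rfl⟩ := f.1.exists_tv' hw.1 hw.2.1 w1
  by_cases w1' : w' = 1
  · rw [w1', one_smul]
  obtain ⟨u', g', u0', -, k1', rfl⟩ := f.1.exists_tv' hw'.1 hw'.2.1 w1'
  obtain ⟨a, rfl⟩ := par_of_forms e0_ne (fun k => hz ((f.1.mem_L o hv).mpr k)) g0
    (o.dot_eq u0 k1 hw.2.2) (hv.dot_eq u0 k1 h) (o.dot_eq u0' k1' hw'.2.2) (hv.dot_eq u0' k1' h')
  exact hr.tv_fix k1' (by simp [hr.dot_eq u0 k1 k])

theorem exists_blk (hy : y ≠ x) (z : Ω) : ∃ w ∈ H.J x y, w ≠ 1 ∧ w • z = z := by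
  obtain ⟨ψ, f, o⟩ := H.exists_ov hy e0_ne
  obtain ⟨g, g0, g1, g2⟩ : ∃ g : Vec F, g ≠ 0 ∧ g ⬝ᵥ e0 = 0 ∧ ψ (tv e0 g) • z = z := by
    by_cases hz : z = x
    · obtain ⟨g, g0, g1⟩ := exists_form_ne (e0 : Vec F)
      exact ⟨g, g0, g1, hz ▸ fix_of_mem (f.1.mem' _)⟩
    obtain ⟨v, hv⟩ := f.2 z hz
    obtain ⟨g, g0, g1, g2⟩ := exists_form_two e0 v
    exact ⟨g, g0, g1, hv.tv_fix g1 g2⟩
  refine ⟨_, f.1.tv_mem_J o g1 g1, fun k => ?_, g2⟩
  have := f.1.tv_inj (k.trans (by rw [tv_zero_left, map_one] : ψ (tv 0 0) = 1).symm)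
  rw [tv_zero_left] at this
  exact (tv_eq_one g1 this).elim e0_ne g0

end Hy

end Cfsg.Agent.H2.L3
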