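import Cfsg.Agent.H2.L3i

/-!
# The affine case
-/

set_option autoImplicit false

namespace Cfsg.Agent.H2.L3

open Matrix MulAction

set_option synthInstance.maxSize 100000 in
set_option synthInstance.maxHeartbeats 400000 in
theorem f2_fact : ∀ a b c d f : Fin 3 → ZMod 2, a ≠ b → a ≠ c → a ≠ d → b ≠ c → b ≠ d → c ≠ d →
    (f ≠ 0 ∧ f ⬝ᵥ a = 0 ∧ f ⬝ᵥ b = 0 ∧ f ⬝ᵥ c = 0 ∧ f ⬝ᵥ d = 0) ∨
    (a ≠ 0 ∧ b ≠ 0 ∧ c ≠ 0 ∧ d ≠ 0 ∧ a + b ≠ c ∧ a + b ≠ d ∧ a + c ≠ d ∧ b + c ≠ d) →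
    d = a + b + c := by
  have : ∀ a0 a1 a2 b0 b1 b2 c0 c1 c2 d0 d1 d2 f0 f1 f2 : ZMod 2,
      ¬ (a0 = b0 ∧ a1 = b1 ∧ a2 = b2) → ¬ (a0 = c0 ∧ a1 = c1 ∧ a2 = c2) →
      ¬ (a0 = d0 ∧ a1 = d1 ∧ a2 = d2) → ¬ (b0 = c0 ∧ b1 = c1 ∧ b2 = c2) →
      ¬ (b0 = d0 ∧ b1 = d1 ∧ b2 = d2) → ¬ (c0 = d0 ∧ c1 = d1 ∧ c2 = d2) →
      (¬ (f0 = 0 ∧ f1 = 0 ∧ f2 = 0) ∧ f0 * a0 + f1 * a1 + f2 * a2 = 0 ∧
        f0 * b0 + f1 * b1 + f2 * b2 = 0 ∧ f0 * c0 + f1 * c1 + f2 * c2 = 0 ∧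
        f0 * d0 + f1 * d1 + f2 * d2 = 0) ∨
      (¬ (a0 = 0 ∧ a1 = 0 ∧ a2 = 0) ∧ ¬ (b0 = 0 ∧ b1 = 0 ∧ b2 = 0) ∧
        ¬ (c0 = 0 ∧ c1 = 0 ∧ c2 = 0) ∧ ¬ (d0 = 0 ∧ d1 = 0 ∧ d2 = 0) ∧
        ¬ (a0 + b0 = c0 ∧ a1 + b1 = c1 ∧ a2 + b2 = c2) ∧
        ¬ (a0 + b0 = d0 ∧ a1 + b1 = d1 ∧ a2 + b2 = d2) ∧
        ¬ (a0 + c0 = d0 ∧ a1 + c1 = d1 ∧ a2 + c2 = d2) ∧
        ¬ (b0 + c0 = d0 ∧ b1 + c1 = d1 ∧ b2 + c2 = d2)) →
      d0 = a0 + b0 + c0 ∧ d1 = a1 + b1 + c1 ∧ d2 = a2 + b2 + c2 := by decide +kernel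
  intro a b c d f
  simpa only [ne_eq, funext_iff, Fin.forall_fin_succ, IsEmpty.forall_iff, and_true, dotProduct,
    Fin.sum_univ_three, Pi.add_apply, Pi.zero_apply, Fin.succ_zero_eq_one, Fin.succ_one_eq_two]
    using this (a 0) (a 1) (a 2) (b 0) (b 1) (b 2) (c 0) (c 1) (c 2) (d 0) (d 1) (d 2) (f 0)
      (f 1) (f 2)

theorem f2_fact' {F : Type} [Field F] [Finite F] (hq : Nat.card F = 2) {a b c d f : Vec F}
    (h1 : a ≠ b) (h2 : a ≠ c) (h3 : a ≠ d) (h4 : b ≠ c) (h5 : b ≠ d) (h6 : c ≠ d)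
    (h : (f ≠ 0 ∧ f ⬝ᵥ a = 0 ∧ f ⬝ᵥ b = 0 ∧ f ⬝ᵥ c = 0 ∧ f ⬝ᵥ d = 0) ∨
    (a ≠ 0 ∧ b ≠ 0 ∧ c ≠ 0 ∧ d ≠ 0 ∧ a + b ≠ c ∧ a + b ≠ d ∧ a + c ≠ d ∧ b + c ≠ d)) :
    d = a + b + c := by
  have := Fintype.ofFinite F
  let φ := (ZMod.ringEquivOfPrime F Nat.prime_two (by rw [← Nat.card_eq_fintype_card, hq])).symm
  let T : Vec F →+ (Fin 3 → ZMod 2) := AddMonoidHom.compLeft (φ : F →+* ZMod 2).toAddMonoidHom _
  have i : Function.Injective T := φ.injective.comp_left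
  have k : ∀ u v : Vec F, T u ⬝ᵥ T v = 0 ↔ u ⬝ᵥ v = 0 := fun u v => by
    rw [← map_eq_zero_iff (φ : F →+* ZMod 2) φ.injective, RingHom.map_dotProduct]; rfl
  apply i
  rw [map_add, map_add]
  refine f2_fact _ _ _ _ (T f) (i.ne h1) (i.ne h2) (i.ne h3) (i.ne h4) (i.ne h5) (i.ne h6) ?_
  simpa only [k, ← map_add, ne_eq, i.eq_iff, map_eq_zero_iff T i] using h

namespace Hy

variable {G Ω : Type*} [Group G] [MulAction G Ω] {F : Type} [Field F] {H : Hy G Ω F}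

variable (H) in
/-- Affine coordinates. -/
structure Aff (x : Ω) (ψ : SL F →* G) (η : Vec F ≃ Ω) : Prop where
  full : H.Full x ψ
  zero : η 0 = x
  equi : ∀ g v, η (g • v) = ψ g • η v
  ov : ∀ v, v ≠ 0 → Ov ψ (η v) v
  card : ∀ y c, c ≠ y → (H.L y c).ncard = Nat.card F

variable [CharP F 2] [Finite Ω] [Finite F] [Finite G] {x c : Ω} {ψ : SL F →* G}

theorem Full.exists_aff (h : H.Full x ψ) {v : Vec F} (o : Ov ψ c v)
    (hs : ∀ g, ψ g • c = c → g • v = v) : ∃ η, H.Aff x ψ η := by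
  classical
  obtain ⟨η, η0, key⟩ : ∃ η : Vec F → Ω, η 0 = x ∧ ∀ g, η (g • v) = ψ g • c := by
    refine ⟨fun w => if hw : w = 0 then x else ψ (exists_smul_eq o.1 hw).choose • c, by simp,
      fun g => ?_⟩
    have := smul_ne_zero' g o.1
    simp only [this, dite_false]
    rw [← inv_smul_eq_iff, ← map_inv, ← mul_smul, ← map_mul, eq_comm, o.fix]
    rw [mul_smul, inv_smul_eq_iff, (exists_smul_eq o.1 this).choose_spec]
  have ov : ∀ w, w ≠ 0 → Ov ψ (η w) w := by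
    intro w hw
    obtain ⟨g, rfl⟩ := exists_smul_eq o.1 hw
    rw [key]
    exact o.smul g
  have inj : Function.Injective η := by
    intro w w' e
    by_cases hw : w = 0
    · by_contra hn
      exact h.1.ne_of_ov (ov w' fun k => hn (hw.trans k.symm)) (by rw [← e, hw, η0])
    by_cases hw' : w' = 0
    · exact absurd (by rw [e, hw', η0]) (h.1.ne_of_ov (ov w hw))
    obtain ⟨g, rfl⟩ := exists_smul_eq o.1 hw
    obtain ⟨g', rfl⟩ := exists_smul_eq o.1 hw'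
    rw [key, key, ← inv_smul_eq_iff, ← map_inv, ← mul_smul, ← map_mul] at e
    have := hs _ e
    rwa [mul_smul, inv_smul_eq_iff] at this
  have sub : ∀ w, w ≠ 0 → Set.range (fun t : F => η (t • w)) ⊆ H.L x (η w) := by
    rintro w hw _ ⟨t, rfl⟩
    by_cases ht : t = 0
    · simp only [ht, zero_smul, η0]; exact left_mem_L
    · exact (h.1.mem_L (ov w hw) (ov _ (smul_ne_zero ht hw))).mpr ⟨t, rfl⟩
  have cr : ∀ w : Vec F, w ≠ 0 → (Set.range (fun t : F => η (t • w))).ncard = Nat.card F :=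
    fun w hw => Set.ncard_range_of_injective fun a b e => smul_left_injective F hw (inj e)
  have card : ∀ y c, c ≠ y → (H.L y c).ncard = Nat.card F := by
    intro y c hc
    have n := h.1.ne_of_ov (ov _ e0_ne)
    have h1 := Set.ncard_le_ncard (sub _ e0_ne)
    have h2 := H.even_L hc
    have h3 := H.ncard_L_le hc
    have := Fintype.ofFinite F
    have h4 := FiniteField.even_card_of_char_two (ringChar.eq F 2)
    rw [cr _ e0_ne, ncard_L n hc] at h1
    rw [← Nat.card_eq_fintype_card] at h4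
    rw [Nat.even_iff] at h2
    omega
  refine ⟨Equiv.ofBijective η ⟨inj, fun y => ?_⟩, h, η0, fun g w => ?_, ov, card⟩
  · by_cases hy : y = x
    · exact ⟨0, η0.trans hy.symm⟩
    obtain ⟨w, hw⟩ := h.2 y hy
    have := (h.1.mem_L (ov w hw.1) hw).mpr (Par.refl _)
    rw [← Set.eq_of_subset_of_ncard_le (sub w hw.1)
      (by rw [cr w hw.1, card _ _ (h.1.ne_of_ov (ov w hw.1))])] at this
    obtain ⟨t, rfl⟩ := this
    exact ⟨_, rfl⟩
  · show η _ = _ • η _
    by_cases hw : w = 0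
    · rw [hw, smul_zero, η0, fix_of_mem (h.1.mem' _)]
    obtain ⟨k, rfl⟩ := exists_smul_eq o.1 hw
    rw [← mul_smul, key, key, map_mul, mul_smul]

variable {η : Vec F ≃ Ω}

omit [Finite F] [Finite G] in
theorem Aff.mem_L0 (A : H.Aff x ψ η) {d p : Vec F} (hd : d ≠ 0) : η p ∈ H.L x (η d) ↔ Par d p := by
  by_cases hp : p = 0
  · rw [hp, A.zero]
    exact ⟨fun _ => ⟨0, by simp⟩, fun _ => left_mem_L⟩
  · exact A.full.1.mem_L (A.ov d hd) (A.ov p hp)

omit [Finite F] [Finite G] [Finite Ω] [CharP F 2] in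
theorem Aff.ne (A : H.Aff x ψ η) {d : Vec F} (hd : d ≠ 0) : η d ≠ x := by
  rw [← A.zero]; exact η.injective.ne hd

omit [Finite F] [Finite G] [Finite Ω] [CharP F 2] in
theorem Aff.tv_fix (A : H.Aff x ψ η) {u f p : Vec F} (hu : u ≠ 0) (h : f ⬝ᵥ u = 0) :
    ψ (tv u f) • η p = η p ↔ f ⬝ᵥ p = 0 := by
  rw [← A.equi, η.injective.eq_iff, tv_smul h, add_eq_left, smul_eq_zero, or_iff_left hu]

theorem Aff.miss (A : H.Aff x ψ η) {u d : Vec F} (hd : d ≠ 0) (hp : ¬ Par d u) (μ : F) :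
    η (μ • d) ∉ H.L (η u) (η (u + d)) := by
  intro hm
  have C := A.full.1
  have ne : η (u + d) ≠ η u := η.injective.ne (by simpa using hd)
  obtain ⟨f, f0, f1, f2⟩ := exists_form_two d u
  obtain ⟨g, g1, g2⟩ := exists_form hd hp 1
  have e1 : ψ (tv d g) • η u = η (u + d) := by rw [← A.equi, tv_smul g1, g2, one_smul]
  have s2 : ψ (tv d g) * ψ (tv d g) = 1 := by rw [← map_mul, tv_sq, map_one]
  have e2 : ψ (tv d g) • η (u + d) = η u := by rw [← e1, ← mul_smul, s2, one_smul]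
  have h := ncard_modEq Nat.prime_two (x := ψ (tv d g)) (by rw [pow_two, s2])
    (S := H.L (η u) (η (u + d))) (fun y hy => by
      rw [← conj_L (ψ (tv d g)), e1, e2, ← L_symm ne] at hy; exact hy)
  have : {y | y ∈ H.L (η u) (η (u + d)) ∧ ψ (tv d g) • y = y} = {η (μ • d)} := by
    ext y
    obtain ⟨p, rfl⟩ := η.surjective y
    constructor
    · rintro ⟨h1, h2⟩
      by_contra hn
      rw [A.tv_fix hd g1] at h2
      have h3 := (A.tv_fix hd f1).mp (fix_L (C.mem' _) (by rw [← map_mul, tv_sq, map_one])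
        ((A.tv_fix hd f1).mpr f2) ((A.tv_fix hd f1).mpr (by simp [f1, f2])) ne h1)
      obtain ⟨a, b, rfl⟩ := exists_comb hd hp f0 f1 f2 h3
      have b0 : b = 0 := by simpa [g1, g2] using h2
      apply hp
      rw [← A.mem_L0 hd, ← L_eq (A.ne hd) ((A.mem_L0 hd).mpr ⟨μ, rfl⟩)
        ((A.mem_L0 hd).mpr ⟨a, by simp [b0]⟩) hn, L_eq ne hm h1 hn]
      exact left_mem_L
    · rintro h
      rw [h]
      exact ⟨hm, (A.tv_fix hd g1).mpr (by simp [g1])⟩
  rw [this, Set.ncard_singleton] at h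
  have := Nat.even_iff.mp (H.even_L ne)
  unfold Nat.ModEq at h
  omega

theorem Aff.line_sub (A : H.Aff x ψ η) {u d : Vec F} (hd : d ≠ 0) (t : F) :
    η (u + t • d) ∈ H.L (η u) (η (u + d)) := by
  have ne : η (u + d) ≠ η u := η.injective.ne (by simpa using hd)
  by_cases hp : Par d u
  · obtain ⟨a, rfl⟩ := hp
    rw [L_eq (A.ne hd) ((A.mem_L0 hd).mpr ⟨a, rfl⟩) ((A.mem_L0 hd).mpr ⟨a + 1, by
      rw [add_smul, one_smul]⟩) ne, A.mem_L0 hd]
    exact ⟨a + t, by rw [add_smul]⟩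
  by_cases ht : t = 0
  · simp only [ht, zero_smul, add_zero]; exact left_mem_L
  by_contra hn
  have C := A.full.1
  have td := smul_ne_zero ht hd
  have ne' : η (u + t • d) ≠ η u := η.injective.ne (by simpa using td)
  obtain ⟨f, f0, f1, f2⟩ := exists_form_two d u
  have s2 : ψ (tv d f) * ψ (tv d f) = 1 := by rw [← map_mul, tv_sq, map_one]
  have m1 := A.miss hd hp
  have m2 : ∀ μ : F, η (μ • d) ∉ H.L (η u) (η (u + t • d)) := fun μ => by
    have := A.miss (u := u) td (fun ⟨a, ha⟩ => hp ⟨a * t, by rw [ha, smul_smul]⟩) (μ / t)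
    rwa [smul_smul, div_mul_cancel₀ _ ht] at this
  have n0 : ∀ μ : F, η (μ • d) ≠ η u := fun μ k => m1 μ (k ▸ left_mem_L)
  have sy : ∀ {p r : Ω}, p ≠ η u → r ≠ η u → r ∈ H.L (η u) p → p ∈ H.L (η u) r := fun h1 h2 h3 => by
    rw [L_eq_left h1 h3 h2]; exact right_mem_L
  have := card_le_of_fix (ι := Option (Option F))
    (H.sym.mem (C.mem' _) s2 ((A.tv_fix hd f1).mpr f2)) s2 (fun k => by
      have := C.tv_inj (k.trans (by rw [tv_zero_left, map_one] : ψ (tv 0 0) = 1).symm)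
      rw [tv_zero_left] at this
      exact (tv_eq_one f1 this).elim hd f0)
    (fun i => i.elim (η (u + d)) fun j => j.elim (η (u + t • d)) fun μ => η (μ • d))
    (by rintro (_ | _ | μ); exacts [ne, ne', n0 μ])
    (by rintro (_ | _ | μ) <;> exact (A.tv_fix hd f1).mpr (by simp [f1, f2])) (by
      rintro (_ | _ | μ) (_ | _ | ν) k
      · rfl
      · exact absurd k hn
      · exact absurd k (m1 ν)
      · exact absurd (sy ne' ne k) hn
      · rfl
      · exact absurd k (m2 ν)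
      · exact absurd (sy (n0 μ) ne k) (m1 μ)
      · exact absurd (sy (n0 μ) ne' k) (m2 μ)
      · by_contra hn
        have hn : η (ν • d) ≠ η (μ • d) := fun e =>
          hn (by rw [smul_left_injective F hd (η.injective e)])
        apply hp
        have k : η (ν • d) ∈ H.L (η u) (η (μ • d)) := k
        rw [← A.mem_L0 hd, ← L_eq (A.ne hd) ((A.mem_L0 hd).mpr ⟨μ, rfl⟩)
          ((A.mem_L0 hd).mpr ⟨ν, rfl⟩) hn, L_eq (n0 μ) right_mem_L k hn]
        exact left_mem_L)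
  rw [Finite.card_option, Finite.card_option] at this
  omega

theorem Aff.mem_L (A : H.Aff x ψ η) {u w p : Vec F} (h : w ≠ u) :
    η p ∈ H.L (η u) (η w) ↔ ∃ t : F, p = u + t • (u + w) := by
  have hd : u + w ≠ 0 := fun k => h (by rw [← add_zero u, ← k, ← add_assoc, vadd_self, zero_add])
  have e : u + (u + w) = w := by rw [← add_assoc, vadd_self, zero_add]
  have : Set.range (fun t : F => η (u + t • (u + w))) = H.L (η u) (η w) := by
    refine Set.eq_of_subset_of_ncard_le ?_ ?_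
    · rintro _ ⟨t, rfl⟩
      have := A.line_sub (u := u) hd t
      rwa [e] at this
    · rw [A.card _ _ (η.injective.ne h), Set.ncard_range_of_injective fun a b e =>
        smul_left_injective F hd (add_left_cancel (η.injective e))]
  rw [← this]
  exact ⟨fun ⟨t, e⟩ => ⟨t, (η.injective e).symm⟩, fun ⟨t, e⟩ => ⟨t, by rw [e]⟩⟩

/-- The action in coordinates. -/
def act (η : Vec F ≃ Ω) (g : G) (v : Vec F) : Vec F := η.symm (g • η v)

omit [CharP F 2] [Finite Ω] [Finite F] [Finite G]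

theorem eta_act (η : Vec F ≃ Ω) (g : G) (v : Vec F) : η (act η g v) = g • η v := by simp [act]

theorem act_mul (η : Vec F ≃ Ω) (g h : G) (v : Vec F) : act η (g * h) v = act η g (act η h v) := by
  simp [act, mul_smul]

theorem act_one (η : Vec F ≃ Ω) (v : Vec F) : act η (1 : G) v = v := by simp [act]

theorem act_inv (η : Vec F ≃ Ω) (g : G) (v : Vec F) : act η g (act η g⁻¹ v) = v := by simp [act]

theorem act_inv' (η : Vec F ≃ Ω) (g : G) (v : Vec F) : act η g⁻¹ (act η g v) = v := by simp [act]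

theorem act_inj (η : Vec F ≃ Ω) (g : G) : Function.Injective (act η g) :=
  fun v w h => by rw [← act_inv' η g v, h, act_inv']

theorem Aff.act_ψ (A : H.Aff x ψ η) (g : SL F) (v : Vec F) : act η (ψ g) v = g • v := by
  rw [act, ← A.equi, η.symm_apply_apply]

variable [CharP F 2] [Finite Ω] [Finite F] [Finite G]

theorem Aff.line (A : H.Aff x ψ η) (g : G) (u w : Vec F) (t : F) :
    ∃ s : F, act η g (u + t • (u + w)) = act η g u + s • (act η g u + act η g w) := by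
  by_cases h : w = u
  · exact ⟨0, by rw [h, vadd_self, smul_zero, add_zero, zero_smul, add_zero]⟩
  rw [← A.mem_L ((act_inj η g).ne h), eta_act, eta_act, eta_act, conj_L, A.mem_L h]
  exact ⟨t, rfl⟩

theorem Aff.line' (A : H.Aff x ψ η) (g : G) (u w : Vec F) (s : F) :
    ∃ t : F, act η g (u + t • (u + w)) = act η g u + s • (act η g u + act η g w) := by
  obtain ⟨t, ht⟩ := A.line g⁻¹ (act η g u) (act η g w) s
  rw [act_inv', act_inv'] at ht
  exact ⟨t, by rw [← ht, act_inv]⟩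

theorem Aff.add_big (A : H.Aff x ψ η) (g : G) {l : F} (l0 : l ≠ 0) (l1 : l ≠ 1) {u w : Vec F}
    (hw : w ≠ 0) (h : ¬ Par w u) :
    ∃ β : F, act η g (u + w) = act η g u + β • (act η g 0 + act η g w) := by
  obtain ⟨σ, h1⟩ := A.line g 0 u l
  obtain ⟨τ, h2⟩ := A.line g 0 w (l / (l + 1))
  obtain ⟨s, h3⟩ := A.line g (0 + l • (0 + u)) (0 + (l / (l + 1)) • (0 + w)) ((l + 1) / l)
  have l2 : l + 1 ≠ 0 := by grind
  rw [h1, h2, show 0 + l • (0 + u) + ((l + 1) / l) • (0 + l • (0 + u) + (0 + (l / (l + 1)) • (0 + w)))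
    = u + w by ext i; simp; field_simp; grind] at h3
  by_cases ha : σ + s * σ = 1
  · exact ⟨s * τ, by rw [h3]; ext i; simp; grind⟩
  exfalso
  have ha' : 1 + (σ + s * σ) ≠ 0 := by grind
  obtain ⟨t, h4⟩ := A.line' g u (u + w) (1 + (σ + s * σ))⁻¹
  obtain ⟨t', h5⟩ := A.line' g 0 w (s * τ / (1 + (σ + s * σ)))
  have : u + t • (u + (u + w)) = 0 + t' • (0 + w) := by
    apply act_inj η g
    rw [h4, h5, h3]
    ext i
    simp
    field_simp
    grind
  refine h ⟨t + t', ?_⟩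
  ext i
  have := congrFun this i
  simp at this ⊢
  grind

theorem Aff.add_npar (A : H.Aff x ψ η) (g : G) {u w : Vec F} (hu : u ≠ 0) (h : ¬ Par u w) :
    act η g (u + w) = act η g 0 + act η g u + act η g w := by
  have hw : w ≠ 0 := by rintro rfl; exact h ⟨0, by simp⟩
  have h' : ¬ Par w u := fun k => h (k.symm hu)
  by_cases hq : ∃ l : F, l ≠ 0 ∧ l ≠ 1
  · obtain ⟨l, l0, l1⟩ := hq
    obtain ⟨β, h1⟩ := A.add_big g l0 l1 hw h'
    obtain ⟨α, h2⟩ := A.add_big g l0 l1 hu h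
    by_cases hb : β = 1
    · rw [h1, hb, one_smul]; abel
    exfalso
    have hb' : 1 + β ≠ 0 := by grind
    obtain ⟨t, h3⟩ := A.line' g 0 u ((1 + α) / (1 + β))
    refine h ⟨t, ?_⟩
    rw [← zero_add (t • u), ← zero_add u]
    apply act_inj η g
    rw [add_comm w, h1] at h2
    rw [h3]
    ext i
    have := congrFun h2 i
    simp at this ⊢
    field_simp
    grind
  push Not at hq
  have q2 := card_two_of fun t : F => (em (t = 0)).imp_right (hq t)
  have C := A.full.1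
  obtain ⟨y, hy⟩ := H.exists_ne' x
  have k1 := k1_of_card hy ((A.card _ _ hy).trans q2)
  obtain ⟨f, f0, f1, f2⟩ := exists_form_two u w
  have w1 : ∀ {u f : Vec F}, u ≠ 0 → f ≠ 0 → f ⬝ᵥ u = 0 → ψ (tv u f) ≠ 1 := fun hu f0 f1 k => by
    have := C.tv_inj (k.trans (by rw [tv_zero_left, map_one] : ψ (tv 0 0) = 1).symm)
    rw [tv_zero_left] at this
    exact (tv_eq_one f1 this).elim hu f0
  have s0 := conj_mem (C.mem' (tv u f)) g
  have s1 : g * ψ (tv u f) * g⁻¹ ≠ 1 := by simpa using w1 hu f0 f1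
  have s2 : g * ψ (tv u f) * g⁻¹ * (g * ψ (tv u f) * g⁻¹) = 1 := by
    rw [sq_conj, ← map_mul, tv_sq, map_one]
  have fx : ∀ p, f ⬝ᵥ p = 0 → (g * ψ (tv u f) * g⁻¹) • η (act η g p) = η (act η g p) :=
    fun p hp => by rw [eta_act, smul_conj, A.tv_fix hu f1, hp]
  generalize g * ψ (tv u f) * g⁻¹ = s at s0 s1 s2 fx
  have x0 := fx 0 (by simp)
  have x1 := fx u f1
  have x2 := fx w f2
  have x3 := fx (u + w) (by simp [f1, f2])
  have n1 := (act_inj η g).ne hu.symm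
  have n2 := (act_inj η g).ne hw.symm
  have n3 := (act_inj η g).ne (a₁ := 0) (a₂ := u + w) fun k => h ⟨1, by
    rw [one_smul, ← add_zero u, k, ← add_assoc, vadd_self, zero_add]⟩
  have n4 := (act_inj η g).ne (a₁ := u) (a₂ := w) fun k => h ⟨1, by rw [one_smul, k]⟩
  have n5 := (act_inj η g).ne (a₁ := u) (a₂ := u + w) (by simpa using hw)
  have n6 := (act_inj η g).ne (a₁ := w) (a₂ := u + w) (by simpa using hu)
  by_cases hx : s • x = x
  · obtain ⟨u', f', u0, f0', k, rfl⟩ := C.exists_tv' (H.sym.mem s0 s2 hx) s2 s1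
    rw [A.tv_fix u0 k] at x0 x1 x2 x3
    exact f2_fact' q2 n1 n2 n3 n4 n5 n6 (Or.inl ⟨f0', x0, x1, x2, x3⟩)
  have z : ∀ {p}, s • η p = η p → p ≠ 0 := by
    rintro _ k rfl
    exact hx (by rwa [A.zero] at k)
  have z' : ∀ {p r v}, s • η p = η p → s • η r = η r → s • η v = η v → p ≠ r → p ≠ v → r ≠ v →
      p + r ≠ v := by
    rintro p r _ h1 h2 h3 n1 n2 n3 rfl
    obtain ⟨f', g0, g1, g2⟩ := exists_form_two p r
    have nl : η (p + r) ∉ H.L (η p) (η r) := fun k =>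
      (k1 _ _ _ (η.injective.ne n1.symm) k).elim (η.injective.ne n2.symm) (η.injective.ne n3.symm)
    have t2 : ψ (tv p f') * ψ (tv p f') = 1 := by rw [← map_mul, tv_sq, map_one]
    have e1 := Bl_eq (η.injective.ne n1.symm) nl ⟨H.sym.mem s0 s2 h1, s2, h2⟩ s1 h3
    have e2 := Bl_eq (η.injective.ne n1.symm) nl ⟨H.sym.mem (C.mem' _) t2
      ((A.tv_fix (z h1) g1).mpr g1), t2, (A.tv_fix (z h1) g1).mpr g2⟩ (w1 (z h1) g0 g1)
      ((A.tv_fix (z h1) g1).mpr (by simp [g1, g2]))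
    have : x ∈ {p | ψ (tv _ f') • p = p} := fix_of_mem (C.mem' (tv p f'))
    rw [← e2, e1] at this
    exact hx this
  exact f2_fact' (f := 0) q2 n1 n2 n3 n4 n5 n6 (Or.inr ⟨z x0, z x1, z x2, z x3,
    z' x0 x1 x2 n1 n2 n4, z' x0 x1 x3 n1 n3 n5, z' x0 x2 x3 n2 n3 n6, z' x1 x2 x3 n4 n5 n6⟩)

theorem Aff.add (A : H.Aff x ψ η) (g : G) (u w : Vec F) :
    act η g (u + w) = act η g 0 + act η g u + act η g w := by
  by_cases hu : u = 0
  · rw [hu, zero_add, vadd_self, zero_add]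
  by_cases h : Par u w
  swap
  · exact A.add_npar g hu h
  by_cases huw : u + w = 0
  · have : w = u := by rw [← add_zero u, ← huw, ← add_assoc, vadd_self, zero_add]
    rw [huw, this, add_assoc, vadd_self, add_zero]
  by_cases hw : w = 0
  · rw [hw, add_zero, add_right_comm, vadd_self, zero_add]
  obtain ⟨z, hz⟩ := exists_not_par hu
  obtain ⟨a, rfl⟩ := h
  have h1 := A.add_npar g huw (w := z) fun ⟨b, hb⟩ => hz ⟨b + b * a, by rw [hb]; module⟩
  have h2 := A.add_npar g hu (w := a • u + z) fun ⟨b, hb⟩ => hz ⟨b - a, by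
    rw [sub_smul, ← hb]; abel⟩
  have h3 := A.add_npar g hw (w := z) fun ⟨b, hb⟩ => hz ⟨b * a, by rw [hb, smul_smul]⟩
  rw [add_assoc u, h2, h3] at h1
  ext i
  have := congrFun h1 i
  simp only [Pi.add_apply] at this ⊢
  grind

theorem Aff.exists_transl (A : H.Aff x ψ η) (d : Vec F) : ∃ t : G, ∀ v, act η t v = v + d := by
  by_cases hd : d = 0
  · exact ⟨1, fun v => by rw [act_one, hd, add_zero]⟩
  suffices ∃ d' : Vec F, d' ≠ 0 ∧ ∃ t : G, ∀ v, act η t v = v + d' by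
    obtain ⟨d', h, t, ht⟩ := this
    obtain ⟨g, rfl⟩ := exists_smul_eq h hd
    exact ⟨ψ g * t * ψ g⁻¹, fun v => by
      rw [act_mul, act_mul, A.act_ψ, ht, A.act_ψ, smul_add, smul_inv_smul]⟩
  clear hd d
  obtain ⟨h, hh⟩ := H.trans (η e0) (η 0)
  have r0 : act η h⁻¹ 0 = e0 := by rw [act, ← hh, inv_smul_smul, η.symm_apply_apply]
  have t : (e0 : Vec F) ⬝ᵥ e1 = 0 := by rw [dot3]; simp
  choose σ hσ using A.line h 0 e1
  simp only [zero_add] at hσ
  obtain ⟨d, hd⟩ : ∃ d, d = act η h 0 + act η h e1 := ⟨_, rfl⟩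
  rw [← hd] at hσ
  have d0 : d ≠ 0 := fun k => e1_ne (act_inj η h (by
    rw [k, eq_comm, add_eq_zero_iff_neg_eq] at hd
    rw [← hd, neg_eq_iff_add_eq_zero, vadd_self]))
  obtain ⟨φ, hφ⟩ : ∃ φ : Vec F → F, ∀ v, φ v = σ (e0 ⬝ᵥ act η h⁻¹ v) := ⟨_, fun _ => rfl⟩
  have e : ∀ v, act η (h * ψ (tv e1 e0) * h⁻¹) v = v + φ v • d := fun v => by
    rw [act_mul, act_mul, A.act_ψ, tv_smul t, A.add, act_inv, hσ, hφ]
    ext i
    simp only [Pi.add_apply]
    grind
  generalize h * ψ (tv e1 e0) * h⁻¹ = w at e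
  have c0 : φ 0 ≠ 0 := by
    intro k
    have := hσ 1
    rw [hφ, r0, dot3] at k
    simp only [e0_0, e0_1, e0_2, mul_one, mul_zero, add_zero] at k
    rw [k, zero_smul, add_zero, one_smul] at this
    exact e1_ne (act_inj η h this)
  have p0 : ∀ μ : F, φ (μ • d) = φ 0 := by
    intro μ
    obtain ⟨s, hs⟩ := A.line' h 0 e1 μ
    simp only [zero_add] at hs
    have := A.add h⁻¹ (act η h 0) (act η h (s • e1))
    rw [act_inv', act_inv', hs, ← add_assoc, vadd_self, zero_add, ← hd] at this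
    rw [hφ, hφ, this]
    simp [t]
  have ad : ∀ u v, φ (u + v) = φ 0 + φ u + φ v := by
    intro u v
    have := A.add w u v
    rw [e, e, e, e] at this
    apply smul_left_injective F d0
    ext i
    have := congrFun this i
    simp only [Pi.add_apply, Pi.smul_apply, smul_eq_mul, Pi.zero_apply] at this ⊢
    grind
  have sm : ∀ (a : F) v, φ (a • v) = φ 0 + a * (φ 0 + φ v) := by
    intro a v
    by_cases hp : Par d v
    · obtain ⟨μ, rfl⟩ := hp
      rw [smul_smul, p0, p0, add_self, mul_zero, add_zero]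
    obtain ⟨s, hs⟩ := A.line w 0 v a
    rw [e, e, e] at hs
    simp only [zero_add] at hs
    have : s = a := by
      by_contra hn
      have hn : a + s ≠ 0 := by grind
      refine hp ⟨(φ (a • v) + φ 0 + s * (φ 0 + φ v)) / (a + s), ?_⟩
      ext i
      have := congrFun hs i
      simp only [Pi.add_apply, Pi.smul_apply, smul_eq_mul] at this ⊢
      field_simp
      grind
    apply smul_left_injective F d0
    ext i
    have := congrFun hs i
    simp only [Pi.add_apply, Pi.smul_apply, smul_eq_mul] at this ⊢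
    grind
  obtain ⟨f, hf⟩ : ∃ f : Vec F, ∀ v, f ⬝ᵥ v = φ 0 + φ v := by
    refine ⟨![φ 0 + φ e0, φ 0 + φ e1, φ 0 + φ e2], fun v => ?_⟩
    conv_rhs => rw [show v = v 0 • e0 + v 1 • e1 + v 2 • e2 by apply vec_ext <;> simp]
    rw [ad, ad, sm, sm, sm, dot3]
    simp
    grind
  have fd : f ⬝ᵥ d = 0 := by
    rw [hf]
    have := p0 1
    rw [one_smul] at this
    rw [this, add_self]
  refine ⟨φ 0 • d, smul_ne_zero c0 d0, ψ (tv d f) * w, fun v => ?_⟩
  rw [act_mul, e, A.act_ψ, tv_smul fd, dotProduct_add, dotProduct_smul, fd, hf]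
  ext i
  simp only [Pi.add_apply, Pi.smul_apply, smul_eq_mul]
  grind

theorem Aff.main (A : H.Aff x ψ η) : (∀ c : F, c ^ 3 = 1 → c = 1) ∧
    ∃ E : Subgroup G, E.Normal ∧ Nat.card E = Nat.card F ^ 3 ∧ (∀ x y : Ω, ∃ r ∈ E, r • x = y) ∧
      ∀ x : Ω, ∀ r ∈ E, r • x = x → r = 1 := by
  constructor
  · intro c hc
    have := A.act_ψ (sc c hc) e0
    rw [(A.full.1.ker _).mpr (sc_mem c hc), act_one, sc_smul] at this
    simpa using (congrFun this 0).symm
  let E : Subgroup G :=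
    { carrier := {t | ∃ d, ∀ v, act η t v = v + d}
      one_mem' := ⟨0, fun v => by rw [act_one, add_zero]⟩
      mul_mem' := by
        rintro s t ⟨d, hd⟩ ⟨d', hd'⟩
        exact ⟨d' + d, fun v => by rw [act_mul, hd, hd', add_assoc]⟩
      inv_mem' := by
        rintro s ⟨d, hd⟩
        refine ⟨d, fun v => act_inj η s ?_⟩
        rw [act_inv, hd, add_assoc, vadd_self, add_zero] }
  have uq : ∀ {s t : G}, (∀ v, act η s v = act η t v) → s = t := fun {s t} h => by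
    rw [← inv_mul_eq_one]
    refine H.faith _ fun y => ?_
    obtain ⟨v, rfl⟩ := η.surjective y
    rw [mul_smul, inv_smul_eq_iff, ← eta_act, ← eta_act, h]
  refine ⟨E, ⟨?_⟩, ?_, fun y z => ?_, ?_⟩
  · rintro t ⟨d, hd⟩ g
    refine ⟨act η g 0 + act η g d, fun v => ?_⟩
    rw [act_mul, act_mul, hd, A.add, act_inv]
    abel
  · choose t ht using A.exists_transl
    rw [show Nat.card F ^ 3 = Nat.card (Vec F) by simp [Nat.card_fun]]
    refine (Nat.card_eq_of_bijective (fun d => ⟨t d, d, ht d⟩) ⟨fun d d' h => ?_, ?_⟩).symm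
    · have h : t d = t d' := congrArg Subtype.val h
      have := ht d 0
      rw [h, ht] at this
      simpa using this.symm
    · rintro ⟨s, d, hd⟩
      exact ⟨d, Subtype.ext (uq fun v => by rw [ht, hd])⟩
  · obtain ⟨v, rfl⟩ := η.surjective y
    obtain ⟨w, rfl⟩ := η.surjective z
    obtain ⟨t, ht⟩ := A.exists_transl (v + w)
    exact ⟨t, ⟨_, ht⟩, by rw [← eta_act, ht, ← add_assoc, vadd_self, zero_add]⟩
  · rintro y r ⟨d, hd⟩ h
    obtain ⟨v, rfl⟩ := η.surjective y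
    rw [← eta_act, hd, η.injective.eq_iff, add_eq_left] at h
    exact uq fun v => by rw [hd, h, add_zero, act_one]

end Hy

end Cfsg.Agent.H2.L3
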