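import Cfsg.Agent.H2.L3i

/-!
# The case of lines with two points: an extension of the projective plane
-/

set_option autoImplicit false

namespace Cfsg.Agent.H2.L3

open Matrix MulAction
open scoped Pointwise

/-- A hyperoval through the triangle of reference. -/
def Hc {F : Type} [Field F] (c : F) : Set (Vec F) :=
  {v | v 0 * v 1 * v 2 = c ∨ (v ≠ 0 ∧ (Par e0 v ∨ Par e1 v ∨ Par e2 v))}

theorem exists_tri {F : Type} [Field F] {u v w : Vec F}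
    (h : ∀ f : Vec F, f ⬝ᵥ u = 0 → f ⬝ᵥ v = 0 → f ⬝ᵥ w = 0 → f = 0) :
    ∃ (g : SL F) (a : F), a ≠ 0 ∧ g • e0 = u ∧ g • e1 = v ∧ g • e2 = a • w := by
  classical
  have hd : (u ⨯₃ v) ⬝ᵥ w ≠ 0 := by
    intro k
    have := h _ (by rw [dotProduct_comm, dot_self_cross]) (by rw [dotProduct_comm, dot_cross_self]) k
    obtain ⟨f, f0, f1, f2⟩ := exists_form_two (if u = 0 then v else u) w
    by_cases hu : u = 0
    · rw [if_pos hu] at f1
      exact f0 (h f (by simp [hu]) f1 f2)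
    rw [if_neg hu] at f1
    by_cases hp : Par u v
    · obtain ⟨a, rfl⟩ := hp
      exact f0 (h f f1 (by simp [f1]) f2)
    · exact cross_ne_zero hu hp this
  obtain ⟨g, h⟩ := exists_cols (u := u) (v := v) (w := ((u ⨯₃ v) ⬝ᵥ w)⁻¹ • w)
    (by rw [dotProduct_smul, smul_eq_mul, inv_mul_cancel₀ hd])
  exact ⟨g, _, inv_ne_zero hd, h⟩

/-- Data for the identification of `M₂₂`. -/
structure Ext (G Ω : Type*) [Group G] [MulAction G Ω] (F : Type) [Field F] (c : F) where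
  ι : Vec F → Ω
  Blk : Set Ω → Prop
  equi : ∀ g : SL F, ∃ s : G, ∀ v, ι (g • v) = s • ι v
  surj : Function.Surjective ι
  eq_iff : ∀ v w, ι v = ι w ↔ Par v w ∧ Par w v
  smul : ∀ (g : G) B, Blk B → Blk (g • B)
  line : ∀ f : Vec F, f ≠ 0 → Blk (ι '' {v | f ⬝ᵥ v = 0})
  oval : Blk (ι '' Hc c)
  all : ∀ B, Blk B → (∃ f : Vec F, f ≠ 0 ∧ B = ι '' {v | f ⬝ᵥ v = 0}) ∨ ∃ g : SL F, B = ι '' (g • Hc c)

/-- Scaling the last coordinate. -/
def dl {F : Type} [Field F] (c : F) (v : Vec F) : Vec F := ![v 0, v 1, c * v 2]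

theorem dl_dl {F : Type} [Field F] {c : F} (hc : c ≠ 0) (v : Vec F) : dl c (dl c⁻¹ v) = v := by
  apply vec_ext <;> simp [dl, hc]

theorem dl_dl' {F : Type} [Field F] {c : F} (hc : c ≠ 0) (v : Vec F) : dl c⁻¹ (dl c v) = v := by
  apply vec_ext <;> simp [dl, hc]

theorem dl_smul {F : Type} [Field F] (c a : F) (v : Vec F) : dl c (a • v) = a • dl c v := by
  apply vec_ext <;> simp [dl]; ring

theorem dl_par {F : Type} [Field F] {c : F} (hc : c ≠ 0) {v w : Vec F} :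
    Par (dl c v) (dl c w) ↔ Par v w := by
  constructor
  · rintro ⟨a, h⟩
    exact ⟨a, by rw [← dl_dl' hc w, h, dl_smul, dl_dl' hc]⟩
  · rintro ⟨a, rfl⟩
    exact ⟨a, dl_smul ..⟩

theorem dl_dot {F : Type} [Field F] (c : F) (f v : Vec F) : f ⬝ᵥ dl c v = dl c f ⬝ᵥ v := by
  rw [dot3, dot3]; simp [dl]; ring

theorem dl_ne {F : Type} [Field F] {c : F} (hc : c ≠ 0) {v : Vec F} : dl c v ≠ 0 ↔ v ≠ 0 := by
  rw [vec_ne_zero, vec_ne_zero]
  simp [dl, hc]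

theorem exists_dl {F : Type} [Field F] {c : F} (hc : c ≠ 0) (g : SL F) :
    ∃ g' : SL F, ∀ v, dl c (g • v) = g' • dl c v := by
  refine ⟨mk3 (g.1 0 0) (g.1 0 1) (g.1 0 2 / c) (g.1 1 0) (g.1 1 1) (g.1 1 2 / c) (c * g.1 2 0)
    (c * g.1 2 1) (g.1 2 2) (by have := det3 g; field_simp; linear_combination this), fun v => ?_⟩
  rw [mk3_smul]
  apply vec_ext <;> simp [dl, smul_apply] <;> field_simp

theorem dl_Hc {F : Type} [Field F] {c : F} (hc : c ≠ 0) {v : Vec F} :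
    dl c v ∈ Hc c ↔ v ∈ Hc (1 : F) := by
  have h0 : Par e0 (dl c v) ↔ Par e0 v := by
    rw [← dl_par hc (v := e0) (w := v)]; congr! 1; apply vec_ext <;> simp [dl]
  have h1 : Par e1 (dl c v) ↔ Par e1 v := by
    rw [← dl_par hc (v := e1) (w := v)]; congr! 1; apply vec_ext <;> simp [dl]
  have h2 : Par e2 (dl c v) ↔ Par e2 v := by
    rw [← dl_par hc (v := e2) (w := v)]
    have : Par e2 (dl c e2) := ⟨c, by apply vec_ext <;> simp [dl]⟩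
    exact ⟨fun h => (this.symm ((dl_ne hc).mpr e2_ne)).trans h, this.trans⟩
  simp only [Hc, Set.mem_setOf_eq, h0, h1, h2, dl_ne hc]
  refine or_congr_left ?_
  simp only [dl, cons_val_zero, cons_val_one, cons_val]
  constructor
  · intro h
    apply mul_left_cancel₀ hc
    linear_combination h
  · intro h
    linear_combination c * h

/-- Change of coordinates. -/
def Ext.norm {G Ω : Type*} [Group G] [MulAction G Ω] {F : Type} [Field F] {c : F} (hc : c ≠ 0)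
    (E : Ext G Ω F c) : Ext G Ω F 1 where
  ι v := E.ι (dl c v)
  Blk := E.Blk
  equi g := by
    obtain ⟨g', h⟩ := exists_dl hc g
    obtain ⟨s, hs⟩ := E.equi g'
    exact ⟨s, fun v => by rw [h, hs]⟩
  surj y := by
    obtain ⟨v, rfl⟩ := E.surj y
    exact ⟨dl c⁻¹ v, congrArg E.ι (dl_dl hc v)⟩
  eq_iff v w := by rw [E.eq_iff, dl_par hc, dl_par hc]
  smul := E.smul
  line f hf := by
    convert E.line (dl c⁻¹ f) ((dl_ne (inv_ne_zero hc)).mpr hf) using 1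
    ext y
    constructor
    · rintro ⟨v, hv, rfl⟩
      exact ⟨_, by rwa [Set.mem_setOf_eq, dl_dot, dl_dl hc], rfl⟩
    · rintro ⟨v, hv, rfl⟩
      exact ⟨dl c⁻¹ v, by rwa [Set.mem_setOf_eq, dl_dot], congrArg E.ι (dl_dl hc v)⟩
  oval := by
    convert E.oval using 1
    ext y
    constructor
    · rintro ⟨v, hv, rfl⟩
      exact ⟨_, (dl_Hc hc).mpr hv, rfl⟩
    · rintro ⟨v, hv, rfl⟩
      exact ⟨dl c⁻¹ v, by rwa [← dl_Hc hc, dl_dl hc], congrArg E.ι (dl_dl hc v)⟩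
  all B hB := by
    rcases E.all B hB with ⟨f, hf, rfl⟩ | ⟨g, rfl⟩
    · refine Or.inl ⟨dl c f, (dl_ne hc).mpr hf, ?_⟩
      ext y
      constructor
      · rintro ⟨v, hv, rfl⟩
        exact ⟨dl c⁻¹ v, by rwa [Set.mem_setOf_eq, dl_dot, dl_dl' hc], congrArg E.ι (dl_dl hc v)⟩
      · rintro ⟨v, hv, rfl⟩
        exact ⟨_, by rwa [Set.mem_setOf_eq, dl_dot], rfl⟩
    · obtain ⟨g', h⟩ := exists_dl (inv_ne_zero hc) g
      refine Or.inr ⟨g', ?_⟩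
      ext y
      constructor
      · rintro ⟨_, ⟨v, hv, rfl⟩, rfl⟩
        exact ⟨_, ⟨dl c⁻¹ v, by rwa [← dl_Hc hc, dl_dl hc], rfl⟩, by
          dsimp only; rw [← h, dl_dl hc]⟩
      · rintro ⟨_, ⟨v, hv, rfl⟩, rfl⟩
        exact ⟨_, ⟨dl c v, (dl_Hc hc).mpr hv, rfl⟩, by
          dsimp only; rw [← dl_dl' hc v, ← h, dl_dl hc, dl_dl hc]⟩

namespace Hy

variable {G Ω : Type*} [Group G] [MulAction G Ω] {F : Type} [Field F] {H : Hy G Ω F}

variable (H) in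
/-- Projective coordinates. -/
structure Prj (x : Ω) (ψ : SL F →* G) (ι : Vec F → Ω) : Prop where
  k1 : H.K1
  full : H.Full x ψ
  zero : ι 0 = x
  ov : ∀ v, v ≠ 0 → Ov ψ (ι v) v

theorem conj_Bl (g : G) {x y z p : Ω} :
    g • p ∈ H.Bl (g • x) (g • y) (g • z) ↔ p ∈ H.Bl x y z := by
  constructor
  · intro h s hs hz
    exact (smul_conj g).mp (h _ ((conj_J g).mpr hs) ((smul_conj g).mpr hz))
  · intro h s hs hz
    obtain ⟨s, rfl⟩ := exists_conj_eq g s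
    exact (smul_conj g).mpr (h s ((conj_J g).mp hs) ((smul_conj g).mp hz))

theorem smul_Bl (g : G) {x y z : Ω} : g • H.Bl x y z = H.Bl (g • x) (g • y) (g • z) := by
  ext p
  rw [Set.mem_smul_set_iff_inv_smul_mem, ← conj_Bl g, smul_inv_smul]

variable [CharP F 2] [Finite Ω] [Finite F] [Finite G] {x c : Ω} {ψ : SL F →* G} {ι : Vec F → Ω}

omit [CharP F 2] [Finite F] [Finite G] in
theorem Full.exists_prj (h : H.Full x ψ) (k : H.K1) : ∃ ι, H.Prj x ψ ι := by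
  classical
  exact ⟨fun v => if hv : v = 0 then x else (h.exists_pt hv).choose, k, h, by simp,
    fun v hv => by simpa [hv] using (h.exists_pt hv).choose_spec⟩

omit [Finite F] [Finite G]

theorem Prj.uniq (P : H.Prj x ψ ι) {v : Vec F} (h : Ov ψ c v) : c = ι v :=
  (P.k1 _ _ _ (P.full.1.ne_of_ov (P.ov v h.1))
    ((P.full.1.mem_L (P.ov v h.1) h).mpr (Par.refl _))).resolve_left (P.full.1.ne_of_ov h)

theorem Prj.equi (P : H.Prj x ψ ι) (g : SL F) (v : Vec F) : ι (g • v) = ψ g • ι v := by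
  by_cases hv : v = 0
  · rw [hv, smul_zero, P.zero, fix_of_mem (P.full.1.mem' _)]
  · exact (P.uniq ((P.ov v hv).smul g)).symm

theorem Prj.surj (P : H.Prj x ψ ι) : Function.Surjective ι := by
  intro y
  by_cases hy : y = x
  · exact ⟨0, P.zero.trans hy.symm⟩
  · obtain ⟨v, hv⟩ := P.full.2 y hy
    exact ⟨v, (P.uniq hv).symm⟩

omit [CharP F 2] in
theorem Prj.ne (P : H.Prj x ψ ι) {v : Vec F} (hv : v ≠ 0) : ι v ≠ x := P.full.1.ne_of_ov (P.ov v hv)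

theorem Prj.eq_iff (P : H.Prj x ψ ι) (v w : Vec F) : ι v = ι w ↔ Par v w ∧ Par w v := by
  constructor
  · intro h
    by_cases hv : v = 0
    · by_cases hw : w = 0
      · rw [hv, hw]; exact ⟨Par.refl _, Par.refl _⟩
      · exact absurd (by rw [← h, hv, P.zero]) (P.ne hw)
    by_cases hw : w = 0
    · exact absurd (by rw [h, hw, P.zero]) (P.ne hv)
    have := (P.ov v hv).unique (h ▸ P.ov w hw)
    exact ⟨this, this.symm hw⟩
  · rintro ⟨h, a, rfl⟩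
    by_cases hw : a • w = 0
    · obtain ⟨b, hb⟩ := h
      rw [hw, hb, hw, smul_zero]
    · exact (P.uniq ((P.ov w (by rintro rfl; simp at hw)).par ⟨a, rfl⟩ hw)).symm

theorem Prj.eq_of_par (P : H.Prj x ψ ι) {v w : Vec F} (hw : w ≠ 0) (h : Par v w) : ι v = ι w :=
  (P.eq_iff v w).mpr ⟨h, h.symm hw⟩

theorem Prj.fix_tv (P : H.Prj x ψ ι) {u f : Vec F} (hu : u ≠ 0) (h : f ⬝ᵥ u = 0) :
    {p : Ω | ψ (tv u f) • p = p} = ι '' {v | f ⬝ᵥ v = 0} := by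
  ext p
  obtain ⟨v, rfl⟩ := P.surj p
  constructor
  · intro k
    by_cases hv : v = 0
    · exact ⟨v, by simp [hv], rfl⟩
    · exact ⟨v, (P.ov v hv).dot_eq hu h k, rfl⟩
  · rintro ⟨w, hw, e⟩
    show _ • _ = _
    rw [← e, ← P.equi, tv_smul h, hw, zero_smul, add_zero]

theorem Prj.card_line (P : H.Prj x ψ ι) [Finite F] :
    (ι '' {v | v 2 = 0}).ncard = Nat.card F + 2 := by
  have : ι '' {v | v 2 = 0} = Set.range fun i : Option (Option F) =>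
      ι (i.elim 0 fun j => j.elim e0 fun a => ![a, 1, 0]) := by
    ext y
    constructor
    · rintro ⟨v, hv, rfl⟩
      have hv : v 2 = 0 := hv
      by_cases h0 : v = 0
      · exact ⟨none, by rw [h0]; rfl⟩
      by_cases h1 : v 1 = 0
      · exact ⟨some none, P.eq_of_par h0 (par_e0.mpr ⟨h1, hv⟩)⟩
      · exact ⟨some (some (v 0 / v 1)), P.eq_of_par h0
          ⟨v 1, vec_ext (by simp; field_simp) (by simp) (by simp [hv])⟩⟩
    · rintro ⟨_ | _ | a, rfl⟩ <;> exact ⟨_, by simp, rfl⟩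
  rw [this, Set.ncard_range_of_injective, Finite.card_option, Finite.card_option]
  rintro (_ | _ | a) (_ | _ | b) h <;> obtain ⟨⟨s, h1⟩, t, h2⟩ := (P.eq_iff _ _).mp h <;>
    simp [funext_iff, Fin.forall_fin_succ] at h1 h2 ⊢ <;> grind

theorem Prj.card (P : H.Prj x ψ ι) [Finite F] :
    Nat.card Ω = Nat.card F ^ 2 + Nat.card F + 2 := by
  have : (ι '' {v | v 2 = 0})ᶜ = Set.range fun p : F × F => ι ![p.1, p.2, 1] := by
    ext y
    obtain ⟨v, rfl⟩ := P.surj y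
    constructor
    · intro h
      have h2 : v 2 ≠ 0 := fun k => h ⟨v, k, rfl⟩
      exact ⟨(v 0 / v 2, v 1 / v 2), P.eq_of_par (fun k => h2 (by simp [k]))
        ⟨v 2, vec_ext (by simp; field_simp) (by simp; field_simp) (by simp)⟩⟩
    · rintro ⟨⟨a, b⟩, h⟩ ⟨w, hw, e⟩
      have hw : w 2 = 0 := hw
      obtain ⟨s, hs⟩ := ((P.eq_iff _ _).mp (e.trans h.symm)).1
      simpa [hw] using congrFun hs 2
  rw [← Set.ncard_add_ncard_compl (ι '' {v | v 2 = 0}), this, P.card_line,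
    Set.ncard_range_of_injective, Nat.card_prod]
  · ring
  rintro ⟨a, b⟩ ⟨a', b'⟩ h
  obtain ⟨⟨s, h1⟩, -⟩ := (P.eq_iff _ _).mp h
  simp [funext_iff, Fin.forall_fin_succ] at h1 ⊢
  grind

variable [Finite F] [Finite G]

theorem K1.Bl_eq (k : H.K1) {x y z : Ω} (h1 : y ≠ x) (h2 : z ≠ x) (h3 : z ≠ y) {w : G} {p : Ω}
    (w0 : w ∈ H.N p) (w2 : w * w = 1) (w1 : w ≠ 1) (hx : w • x = x) (hy : w • y = y)
    (hz : w • z = z) : H.Bl x y z = {p : Ω | w • p = p} :=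
  Hy.Bl_eq h1 (fun h => (k _ _ _ h1 h).elim h2 h3) ⟨H.sym.mem w0 w2 hx, w2, hy⟩ w1 hz

theorem K1.Bl_eq' (k : H.K1) {x y z x' y' z' : Ω} (h1 : y ≠ x) (h2 : z ≠ x) (h3 : z ≠ y)
    (h1' : y' ≠ x') (h2' : z' ≠ x') (h3' : z' ≠ y') (hx : x' ∈ H.Bl x y z) (hy : y' ∈ H.Bl x y z)
    (hz : z' ∈ H.Bl x y z) : H.Bl x' y' z' = H.Bl x y z := by
  obtain ⟨w, hw, w1, h⟩ := H.exists_blk h1 z
  rw [k.Bl_eq h1 h2 h3 hw.1 hw.2.1 w1 (fix_of_mem hw.1) hw.2.2 h] at hx hy hz ⊢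
  exact k.Bl_eq h1' h2' h3' hw.1 hw.2.1 w1 hx hy hz

omit [CharP F 2] [Finite F] [Finite G] in
theorem mem_Bl {x y z : Ω} : x ∈ H.Bl x y z ∧ y ∈ H.Bl x y z ∧ z ∈ H.Bl x y z :=
  ⟨fun _ h _ => fix_of_mem h.1, fun _ h _ => h.2.2, fun _ _ h => h⟩

omit [Finite F] [Finite G] [Finite Ω] in
theorem Chart.tv_ne (C : H.Chart x ψ) {u f : Vec F} (hu : u ≠ 0) (hf : f ≠ 0) (h : f ⬝ᵥ u = 0) :
    ψ (tv u f) ≠ 1 := fun k => by
  have := C.tv_inj (k.trans (by rw [tv_zero_left, map_one] : ψ (tv 0 0) = 1).symm)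
  rw [tv_zero_left] at this
  exact (tv_eq_one h this).elim hu hf

theorem Prj.Bl_line (P : H.Prj x ψ ι) {u v w f : Vec F} (h1 : ι v ≠ ι u) (h2 : ι w ≠ ι u)
    (h3 : ι w ≠ ι v) (hf : f ≠ 0) (f1 : f ⬝ᵥ u = 0) (f2 : f ⬝ᵥ v = 0) (f3 : f ⬝ᵥ w = 0) :
    H.Bl (ι u) (ι v) (ι w) = ι '' {v | f ⬝ᵥ v = 0} := by
  obtain ⟨t, t0, t1⟩ := exists_form_ne f
  rw [dotProduct_comm] at t1
  have k : ∀ v, f ⬝ᵥ v = 0 → ψ (tv t f) • ι v = ι v := fun v hv => by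
    rw [← P.equi, tv_smul t1, hv, zero_smul, add_zero]
  rw [← P.fix_tv t0 t1]
  exact P.k1.Bl_eq h1 h2 h3 (P.full.1.mem' _) (by rw [← map_mul, tv_sq, map_one])
    (P.full.1.tv_ne t0 hf t1) (k _ f1) (k _ f2) (k _ f3)

theorem Prj.card_Bl (P : H.Prj x ψ ι) {p y z : Ω} (h1 : y ≠ p) (h2 : z ≠ p) (h3 : z ≠ y) :
    (H.Bl p y z).ncard = Nat.card F + 2 := by
  obtain ⟨w, hw, w1, h⟩ := H.exists_blk h1 z
  have t : (e2 : Vec F) ⬝ᵥ e0 = 0 := by rw [dot3]; simp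
  obtain ⟨g, rfl⟩ := exists_conj (P.full.1.mem' (tv e0 e2)) (by rw [← map_mul, tv_sq, map_one])
    (P.full.1.tv_ne e0_ne e2_ne t) hw.1 hw.2.1 w1
  rw [P.k1.Bl_eq h1 h2 h3 hw.1 hw.2.1 w1 (fix_of_mem hw.1) hw.2.2 h, ncard_fix_conj,
    P.fix_tv e0_ne t, ← P.card_line]
  simp [dot3]

theorem Prj.dvd (P : H.Prj x ψ ι) : Nat.card F + 2 ∣ 12 := by
  classical
  have := Fintype.ofFinite Ω
  have n01 : (1 : Fin 3) ≠ 0 := by decide
  have n02 : (2 : Fin 3) ≠ 0 := by decide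
  have n12 : (2 : Fin 3) ≠ 1 := by decide
  have h := dvd_ncard_of_fibers (d := (Nat.card F + 2).descFactorial 3) (Set.univ : Set (Fin 3 ↪ Ω))
    (fun e => H.Bl (e 0) (e 1) (e 2)) fun b _ => dvd_of_eq (by
      have : {e | e ∈ (Set.univ : Set (Fin 3 ↪ Ω)) ∧ H.Bl (e 0) (e 1) (e 2) = H.Bl (b 0) (b 1) (b 2)} =
          {e | ∀ i, e i ∈ H.Bl (b 0) (b 1) (b 2)} := by
        ext e
        constructor
        · rintro ⟨-, h⟩ i
          rw [← h]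
          fin_cases i
          exacts [mem_Bl.1, mem_Bl.2.1, mem_Bl.2.2]
        · intro h
          exact ⟨trivial, P.k1.Bl_eq' (b.injective.ne n01) (b.injective.ne n02) (b.injective.ne n12)
            (e.injective.ne n01) (e.injective.ne n02) (e.injective.ne n12) (h 0) (h 1) (h 2)⟩
      rw [this, ← Nat.card_coe_set_eq]
      erw [Nat.card_congr (Equiv.codRestrict (Fin 3) (H.Bl (b 0) (b 1) (b 2)))]
      rw [Nat.card_eq_fintype_card (α := _ ↪ _), Fintype.card_embedding_eq,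
        ← Nat.card_eq_fintype_card (α := H.Bl (b 0) (b 1) (b 2)),
        Nat.card_coe_set_eq, P.card_Bl (b.injective.ne n01) (b.injective.ne n02)
        (b.injective.ne n12), Fintype.card_fin])
  rw [Set.ncard_univ, Nat.card_eq_fintype_card (α := _ ↪ _), Fintype.card_embedding_eq,
    ← Nat.card_eq_fintype_card (α := Ω), P.card, Fintype.card_fin] at h
  have hq : 0 < Nat.card F := Nat.card_pos
  generalize Nat.card F = q at h hq
  simp only [Nat.descFactorial_succ, Nat.descFactorial_zero] at h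
  rw [show (q + 2 - 2) * ((q + 2 - 1) * ((q + 2 - 0) * 1)) = q * (q + 1) * (q + 2) by
      rw [show q + 2 - 2 = q by omega, show q + 2 - 1 = q + 1 by omega]; simp; ring,
    show (q ^ 2 + q + 2 - 2) * ((q ^ 2 + q + 2 - 1) * ((q ^ 2 + q + 2 - 0) * 1)) =
      q * (q + 1) * ((q ^ 2 + q + 1) * (q ^ 2 + q + 2)) by
      rw [show q ^ 2 + q + 2 - 2 = q ^ 2 + q by omega,
        show q ^ 2 + q + 2 - 1 = q ^ 2 + q + 1 by omega]; simp; ring] at h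
  have h := Nat.dvd_of_mul_dvd_mul_left (by positivity) h
  have : (q ^ 2 + q + 1) * (q ^ 2 + q + 2) + (q + 2) * 5 = (q + 2) * (q ^ 3 + 4 * q) + 12 := by ring
  have h2 := h.add (Nat.dvd_mul_right (q + 2) 5)
  rw [this] at h2
  exact (Nat.dvd_add_right (Nat.dvd_mul_right _ _)).mp h2

theorem Prj.oval (P : H.Prj x ψ ι) : ∃ c : F, c ≠ 0 ∧ H.Bl (ι e0) (ι e1) (ι e2) = ι '' Hc c := by
  have n01 : ι e1 ≠ ι e0 := fun h => by simpa [par_e0] using ((P.eq_iff _ _).mp h).2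
  have n02 : ι e2 ≠ ι e0 := fun h => by simpa [par_e0] using ((P.eq_iff _ _).mp h).2
  have n12 : ι e2 ≠ ι e1 := fun h => by
    obtain ⟨a, ha⟩ := ((P.eq_iff _ _).mp h).2
    simpa using congrFun ha 2
  have nl : ∀ {u v w f : Vec F}, ι u ∈ H.Bl (ι e0) (ι e1) (ι e2) → ι v ∈ H.Bl (ι e0) (ι e1) (ι e2) →
      ι w ∈ H.Bl (ι e0) (ι e1) (ι e2) → ι v ≠ ι u → ι w ≠ ι u → ι w ≠ ι v → f ≠ 0 → f ⬝ᵥ u = 0 →
      f ⬝ᵥ v = 0 → f ⬝ᵥ w ≠ 0 := by
    intro u v w f h1 h2 h3 k1 k2 k3 f0 f1 f2 f3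
    have e := P.k1.Bl_eq' n01 n02 n12 k1 k2 k3 h1 h2 h3
    rw [P.Bl_line k1 k2 k3 f0 f1 f2 f3] at e
    have k : ∀ v, ι v ∈ H.Bl (ι e0) (ι e1) (ι e2) → f ⬝ᵥ v = 0 := by
      intro v hv
      rw [← e] at hv
      obtain ⟨w, hw, k⟩ := hv
      obtain ⟨a, rfl⟩ := ((P.eq_iff _ _).mp k).1
      simp [show f ⬝ᵥ w = 0 from hw]
    have k0 := k _ mem_Bl.1
    have k1 := k _ mem_Bl.2.1
    have k2 := k _ mem_Bl.2.2
    rw [dot3] at k0 k1 k2
    exact f0 (vec_ext (by simpa using k0) (by simpa using k1) (by simpa using k2))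
  have nz : ∀ v, ι v ∈ H.Bl (ι e0) (ι e1) (ι e2) → ι v ≠ ι e0 → ι v ≠ ι e1 → ι v ≠ ι e2 →
      v 0 ≠ 0 ∧ v 1 ≠ 0 ∧ v 2 ≠ 0 := by
    intro v h h0 h1 h2
    refine ⟨?_, ?_, ?_⟩
    · simpa [dot3] using nl mem_Bl.2.1 mem_Bl.2.2 h n12 h1 h2 e0_ne (by simp [dot3]) (by simp [dot3])
    · simpa [dot3] using nl mem_Bl.1 mem_Bl.2.2 h n02 h0 h2 e1_ne (by simp [dot3]) (by simp [dot3])
    · simpa [dot3] using nl mem_Bl.1 mem_Bl.2.1 h n01 h0 h1 e2_ne (by simp [dot3]) (by simp [dot3])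
  have mv : ∀ v w, ι v ∈ H.Bl (ι e0) (ι e1) (ι e2) → v 0 ≠ 0 → v 1 ≠ 0 → v 2 ≠ 0 →
      w 0 * w 1 * w 2 = v 0 * v 1 * v 2 → ι w ∈ H.Bl (ι e0) (ι e1) (ι e2) := by
    intro v w h h0 h1 h2 e
    have d : w 0 / v 0 * (w 1 / v 1) * (w 2 / v 2) = 1 := by field_simp; exact e
    have k : ∀ u : Vec F, u ≠ 0 → Par u (dg _ _ _ d • u) → ψ (dg _ _ _ d) • ι u = ι u :=
      fun u hu hp => by rw [← P.equi, P.eq_of_par (smul_ne_zero' _ hu) hp]
    rw [← conj_Bl (ψ (dg _ _ _ d)),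
      k _ e0_ne ⟨w 0 / v 0, by rw [dg_smul]; apply vec_ext <;> simp⟩,
      k _ e1_ne ⟨w 1 / v 1, by rw [dg_smul]; apply vec_ext <;> simp⟩,
      k _ e2_ne ⟨w 2 / v 2, by rw [dg_smul]; apply vec_ext <;> simp⟩, ← P.equi, dg_smul] at h
    convert h using 2
    apply vec_ext <;> simp [h0, h1, h2]
  obtain ⟨p, hp, hn⟩ : ∃ p ∈ H.Bl (ι e0) (ι e1) (ι e2), p ∉ ({ι e0, ι e1, ι e2} : Set Ω) := by
    refine Set.exists_mem_notMem_of_ncard_lt_ncard ?_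
    rw [P.card_Bl n01 n02 n12]
    have h1 := Set.ncard_insert_le (ι e0) {ι e1, ι e2}
    have h2 := Set.ncard_insert_le (ι e1) {ι e2}
    have h3 : 1 < Nat.card F := Finite.one_lt_card
    rw [Set.ncard_singleton] at h2
    omega
  obtain ⟨v, rfl⟩ := P.surj p
  simp only [Set.mem_insert_iff, Set.mem_singleton_iff, not_or] at hn
  obtain ⟨v0, v1, v2⟩ := nz v hp hn.1 hn.2.1 hn.2.2
  refine ⟨v 0 * v 1 * v 2, by simp [v0, v1, v2], ?_⟩
  ext y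
  constructor
  · intro hy
    obtain ⟨w, rfl⟩ := P.surj y
    by_cases h0 : ι w = ι e0
    · exact ⟨e0, Or.inr ⟨e0_ne, Or.inl (Par.refl _)⟩, h0.symm⟩
    by_cases h1 : ι w = ι e1
    · exact ⟨e1, Or.inr ⟨e1_ne, Or.inr (Or.inl (Par.refl _))⟩, h1.symm⟩
    by_cases h2 : ι w = ι e2
    · exact ⟨e2, Or.inr ⟨e2_ne, Or.inr (Or.inr (Par.refl _))⟩, h2.symm⟩
    obtain ⟨w0, w1, w2⟩ := nz w hy h0 h1 h2
    have e : (![v 0 * v 1 * v 2 / (w 1 * w 2), w 1, w 2] : Vec F) ∈ Hc (v 0 * v 1 * v 2) :=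
      Or.inl (by simp; field_simp)
    by_contra hn
    refine nl mem_Bl.1 hy (mv v ![v 0 * v 1 * v 2 / (w 1 * w 2), w 1, w 2] hp v0 v1 v2
      (by simp; field_simp)) h0 (fun k => ?_) (fun k => hn ⟨_, e, k⟩) (f := ![0, w 2, -w 1])
      (by simp [vec_ne_zero, w1]) (by rw [dot3]; simp) (by rw [dot3]; simp; ring)
      (by rw [dot3]; simp; ring)
    simpa [par_e0, w1] using ((P.eq_iff _ _).mp k).2
  · rintro ⟨w, h | ⟨h, k | k | k⟩, rfl⟩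
    · exact mv v w hp v0 v1 v2 h
    · rw [← P.eq_of_par h k]; exact mem_Bl.1
    · rw [← P.eq_of_par h k]; exact mem_Bl.2.1
    · rw [← P.eq_of_par h k]; exact mem_Bl.2.2

theorem Prj.exists_ext (P : H.Prj x ψ ι) : Nonempty (Ext G Ω F 1) := by
  obtain ⟨c, hc, e⟩ := P.oval
  have n01 : ι e1 ≠ ι e0 := fun h => by simpa [par_e0] using ((P.eq_iff _ _).mp h).2
  have n02 : ι e2 ≠ ι e0 := fun h => by simpa [par_e0] using ((P.eq_iff _ _).mp h).2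
  have n12 : ι e2 ≠ ι e1 := fun h => by
    obtain ⟨a, ha⟩ := ((P.eq_iff _ _).mp h).2
    simpa using congrFun ha 2
  refine ⟨Ext.norm hc ⟨ι, fun B => ∃ x y z, y ≠ x ∧ z ≠ x ∧ z ≠ y ∧ B = H.Bl x y z,
    fun g => ⟨ψ g, P.equi g⟩, P.surj, P.eq_iff, ?_, fun f hf => ?_,
    ⟨_, _, _, n01, n02, n12, e.symm⟩, ?_⟩⟩
  · rintro g _ ⟨x, y, z, h1, h2, h3, rfl⟩
    exact ⟨_, _, _, (MulAction.injective g).ne h1, (MulAction.injective g).ne h2,
      (MulAction.injective g).ne h3, smul_Bl g⟩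
  · obtain ⟨u, u0, u1⟩ := exists_form_ne f
    obtain ⟨v, v1, v2⟩ := exists_ker_not_par hf u0
    have v0 : v ≠ 0 := by rintro rfl; exact v2 ⟨0, by simp⟩
    have h1 : ι u ≠ ι 0 := P.zero ▸ P.ne u0
    have h2 : ι v ≠ ι 0 := P.zero ▸ P.ne v0
    have h3 : ι v ≠ ι u := fun k => v2 ((P.eq_iff _ _).mp k).2
    exact ⟨_, _, _, h1, h2, h3, (P.Bl_line h1 h2 h3 hf (by simp) (by rwa [dotProduct_comm]) v1).symm⟩
  · rintro _ ⟨x, y, z, h1, h2, h3, rfl⟩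
    obtain ⟨u, rfl⟩ := P.surj x
    obtain ⟨v, rfl⟩ := P.surj y
    obtain ⟨w, rfl⟩ := P.surj z
    by_cases h : ∃ f : Vec F, f ≠ 0 ∧ f ⬝ᵥ u = 0 ∧ f ⬝ᵥ v = 0 ∧ f ⬝ᵥ w = 0
    · obtain ⟨f, f0, f1, f2, f3⟩ := h
      exact Or.inl ⟨f, f0, P.Bl_line h1 h2 h3 f0 f1 f2 f3⟩
    obtain ⟨g, a, ha, rfl, rfl, k⟩ := exists_tri (u := u) (v := v) (w := w) fun f f1 f2 f3 => by
      by_contra f0
      exact h ⟨f, f0, f1, f2, f3⟩
    refine Or.inr ⟨g, ?_⟩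
    rw [P.eq_of_par (smul_ne_zero' g e2_ne) ⟨a, k⟩, P.equi, P.equi, P.equi, ← smul_Bl, e]
    ext p
    constructor
    · rintro ⟨_, ⟨v, hv, rfl⟩, rfl⟩
      exact ⟨_, ⟨v, hv, rfl⟩, P.equi ..⟩
    · rintro ⟨_, ⟨v, hv, rfl⟩, rfl⟩
      exact ⟨_, ⟨v, hv, rfl⟩, (P.equi ..).symm⟩

end Hy

end Cfsg.Agent.H2.L3
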