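import Cfsg.Agent.H3.O8Def
import Cfsg.Agent.H3.ST1
import Cfsg.Agent.L0.TI

/-!
# A Brauer--Suzuki type argument for the prime three
-/

set_option autoImplicit false

namespace Cfsg.Agent.H2.O8

open Subgroup Cfsg Cfsg.Agent.H3 Cfsg.Agent.H3.L43 Cfsg.Agent.H9 Cfsg.Agent.L0
open scoped ComplexConjugate

theorem bs_alg {m A B x y : ℂ} (hm : m ≠ 0) (hA : A ≠ 0) (hB : B ≠ 0) (h1 : m + A + B = 0)
    (h2 : m + x + y = 0) (h3 : m + x ^ 2 / A + y ^ 2 / B = 0) : x = A ∧ y = B := by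
  have eB : B = -(m + A) := by linear_combination h1
  have ey : y = -(m + x) := by linear_combination h2
  have h4 : m * A * B + x ^ 2 * B + y ^ 2 * A = 0 := by
    field_simp at h3
    linear_combination h3
  have h5 : m * (A - x) ^ 2 = 0 := by
    rw [eB, ey] at h4
    linear_combination -h4
  have h6 : x = A := (sub_eq_zero.mp (pow_eq_zero_iff two_ne_zero |>.mp
    ((mul_eq_zero.mp h5).resolve_left hm))).symm
  exact ⟨h6, by rw [ey, eB, h6]⟩

theorem bs_core {X : Type*} [Group X] [Fintype X] {θ : X → ℂ} (hθ : IsGeneralizedCharacter X θ)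
    (h03 : ∀ g, θ g = 0 ∨ θ g = 3) (h1 : θ 1 = 0) {u : X} (hu : θ u = 0)
    (hc : ∀ a, IsConj u a → θ (a * u) = 0) :
    ∃ K : Subgroup X, K.Normal ∧ u ∈ K ∧ ∀ x ∈ K, θ x = 0 := by
  classical
  obtain ⟨n, hn⟩ := exists_coeff hθ
  have cf := genChar_isClassFunction hθ
  let e : IrrCharacter X := ⟨1, isIrrCharacter_one'⟩
  let n' : IrrCharacter X → ℤ := fun χ => if χ = e then 0 else n χ
  have s1 : ∀ f : IrrCharacter X → ℂ, ∑ χ, (n χ : ℂ) * f χ =
      n e * f e + ∑ χ, (n' χ : ℂ) * f χ := fun f => by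
    rw [← Finset.add_sum_erase _ _ (Finset.mem_univ e), ← Finset.add_sum_erase _
      (fun χ => (n' χ : ℂ) * f χ) (Finset.mem_univ e)]
    simp only [n', if_true, Int.cast_zero, zero_mul, zero_add]
    congr 1
    exact Finset.sum_congr rfl fun χ hχ => by rw [if_neg (Finset.ne_of_mem_erase hχ)]
  have s2 : ∑ χ, n χ * n χ = 3 * n e := by
    have a1 := classInner_eq_sum_coeff cf hn hn
    have a2 : classInner θ θ = 3 * classInner θ (e : X → ℂ) := by
      unfold classInner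
      rw [mul_left_comm]
      congr 1
      rw [Finset.mul_sum]
      refine Finset.sum_congr rfl fun g _ => ?_
      rcases h03 g with h | h <;> simp [h, e, map_ofNat]
    rw [a2, hn] at a1
    exact_mod_cast a1.symm
  have s3 : ∑ χ, n' χ * n' χ = n e * (3 - n e) := by
    have := s1 fun χ => n' χ
    have a1 : ∑ χ, n χ * n χ = n e * n e + ∑ χ, n' χ * n' χ := by
      rw [← Finset.add_sum_erase _ _ (Finset.mem_univ e), ← Finset.add_sum_erase _
        (fun χ => n' χ * n' χ) (Finset.mem_univ e)]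
      simp only [n', if_true, zero_mul, zero_add]
      congr 1
      exact Finset.sum_congr rfl fun χ hχ => by rw [if_neg (Finset.ne_of_mem_erase hχ)]
    linarith
  have ap : ∀ g, θ g = n e + ∑ χ, (n' χ : ℂ) * (χ : X → ℂ) g := fun g => by
    rw [apply_eq_sum_coeff cf hn g, s1]
    simp [e]
  have nn : 0 ≤ ∑ χ, n' χ * n' χ := Finset.sum_nonneg fun χ _ => mul_self_nonneg _
  by_cases h0 : ∑ χ, n' χ * n' χ = 0
  · have z : ∀ χ, n' χ = 0 := fun χ => mul_self_eq_zero.mp
      ((Finset.sum_eq_zero_iff_of_nonneg fun χ _ => mul_self_nonneg _).mp h0 χ (Finset.mem_univ _))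
    refine ⟨⊤, inferInstance, mem_top _, fun x _ => ?_⟩
    rw [← h1, ap, ap]
    simp [z]
  have h2 : ∑ χ, n' χ * n' χ = 2 := by
    have b1 : 0 < n e * (3 - n e) := s3 ▸ lt_of_le_of_ne nn (Ne.symm h0)
    have b2 : 0 < n e := by nlinarith
    have b3 : n e < 3 := by nlinarith
    rw [s3]
    interval_cases n e <;> rfl
  have m0 : (n e : ℂ) ≠ 0 := fun h => by
    have : n e = 0 := by exact_mod_cast h
    rw [s3, this] at h2
    omega
  obtain ⟨a, b, hab, ha, hb, hr⟩ := exists_of_sum_sq_eq_two h2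
  have s4 : ∀ f : IrrCharacter X → ℂ, ∑ χ, (n' χ : ℂ) * f χ = n' a * f a + n' b * f b := fun f =>
    Finset.sum_eq_add a b hab (fun c _ hc => by rw [hr c hc.1 hc.2]; simp) (by simp) (by simp)
  have sa : (n' a : ℂ) * n' a = 1 := by rcases ha with h | h <;> simp [h]
  have sb : (n' b : ℂ) * n' b = 1 := by rcases hb with h | h <;> simp [h]
  have a0 : (n' a : ℂ) ≠ 0 := left_ne_zero_of_mul_eq_one sa
  have b0 : (n' b : ℂ) ≠ 0 := left_ne_zero_of_mul_eq_one sb
  let f : X → ℂ := fun g => if IsConj u g then 1 else 0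
  have fc : IsClassFunction X f := fun g h => by
    have : IsConj u (h * g * h⁻¹) ↔ IsConj u g :=
      ⟨fun e => e.trans (isConj_iff.mpr ⟨h, rfl⟩).symm, fun e => e.trans (isConj_iff.mpr ⟨h, rfl⟩)⟩
    simp only [f, this]
  have f0 : ∑ g, f g ≠ 0 := by
    simp only [f, Finset.sum_boole]
    exact Nat.cast_ne_zero.mpr (Finset.card_ne_zero.mpr
      ⟨u, Finset.mem_filter.mpr ⟨Finset.mem_univ _, IsConj.refl u⟩⟩)
  have f1 : ∀ χ : IrrCharacter X, ∑ g, f g * (χ : X → ℂ) (g * u) =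
      (∑ g, f g) * ((χ : X → ℂ) u ^ 2 / (χ : X → ℂ) 1) := fun χ => by
    rw [sum_mul_irr χ.2 fc u]
    have : ∑ g, f g * (χ : X → ℂ) g = (∑ g, f g) * (χ : X → ℂ) u := by
      rw [Finset.sum_mul]
      refine Finset.sum_congr rfl fun g _ => ?_
      by_cases h : IsConj u g
      · rw [isClassFunction_isConj (char_isClassFunction (irr_isCharacter χ.2)) h]
      · simp only [f, if_neg h, zero_mul]
    rw [this]
    ring
  have f2 : ∑ g, f g * θ (g * u) = 0 := Finset.sum_eq_zero fun g _ => by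
    by_cases h : IsConj u g
    · rw [hc g h, mul_zero]
    · simp only [f, if_neg h, zero_mul]
  have f3 : ∑ g, f g * θ (g * u) = (∑ g, f g) * (n e + n' a * ((a : X → ℂ) u ^ 2 / (a : X → ℂ) 1)
      + n' b * ((b : X → ℂ) u ^ 2 / (b : X → ℂ) 1)) := by
    simp only [ap, s4]
    rw [mul_add, mul_add, mul_left_comm, ← f1, mul_left_comm _ (n' b : ℂ), ← f1, Finset.sum_mul,
      Finset.mul_sum, Finset.mul_sum, ← Finset.sum_add_distrib, ← Finset.sum_add_distrib]
    exact Finset.sum_congr rfl fun g _ => by ring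
  have a1 := irr_one_ne_zero a.2
  have b1 := irr_one_ne_zero b.2
  obtain ⟨k1, k2⟩ := bs_alg (A := n' a * (a : X → ℂ) 1) (B := n' b * (b : X → ℂ) 1)
    (x := n' a * (a : X → ℂ) u) (y := n' b * (b : X → ℂ) u) m0 (mul_ne_zero a0 a1)
    (mul_ne_zero b0 b1) (by rw [← h1, ap, s4, add_assoc]) (by rw [← hu, ap, s4, add_assoc]) (by
      rw [← (mul_eq_zero.mp (f3.symm.trans f2)).resolve_left f0]
      field_simp)
  refine ⟨charKer (irr_isCharacter a.2) ⊓ charKer (irr_isCharacter b.2), inferInstance,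
    ⟨mul_left_cancel₀ a0 k1, mul_left_cancel₀ b0 k2⟩, fun x hx => ?_⟩
  rw [← h1, ap, ap, s4, s4, (mem_charKer _).mp hx.1, (mem_charKer _).mp hx.2]

variable {G : Type*} [Group G]

theorem bs3 [Finite G] {L P : Subgroup G} (hP : IsSylowIn 3 P L) (lam : G → ZMod 3)
    (hl : ∀ x ∈ P, ∀ y ∈ P, lam (x * y) = lam x + lam y)
    (fus : ∀ x ∈ P, ∀ g ∈ L, cj g x ∈ P → (lam (cj g x) = 0 ↔ lam x = 0)) {u : G} (hu : u ∈ L)
    (u2 : u * u = 1) (ninv : ∀ g ∈ L, ∀ y ∈ P, cj (cj g u) y = y⁻¹ → lam y = 0) :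
    ∃ K ≤ L, L ≤ normalizer (K : Set G) ∧ u ∈ K ∧ ∀ x ∈ P, x ∈ K → lam x = 0 := by
  classical
  have : Fact (Nat.Prime 3) := ⟨Nat.prime_three⟩
  have := Fintype.ofFinite L
  let S : Sylow 3 L := hP.toSylow
  have mS : ∀ x : L, x ∈ S.1 ↔ (x : G) ∈ P := fun x => Iff.rfl
  have l1 : lam 1 = 0 := by simpa using hl 1 (one_mem _) 1 (one_mem _)
  let ψ : S.1 →* ℂ :=
    { toFun := fun x => ZMod.stdAddChar (lam ((x : L) : G))
      map_one' := by simp [l1]
      map_mul' := fun x y => by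
        rw [← AddChar.map_add_eq_mul, ← hl _ ((mS _).mp x.2) _ ((mS _).mp y.2)]
        rfl }
  let F : S.1 → ℂ := fun x => if lam ((x : L) : G) = 0 then 0 else 3
  have hF : IsGeneralizedCharacter S.1 F := by
    have hψ := genChar_of_irr (isIrrCharacter_hom ψ)
    have := genChar_sub (genChar_sub (genChar_of_char (isCharacter_const_nat (G := S.1) 2)) hψ)
      (genChar_mul hψ hψ)
    convert this using 1
    funext x
    have e3 : ψ x ^ 3 = 1 := by
      change ZMod.stdAddChar (lam ((x : L) : G)) ^ 3 = 1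
      rw [← AddChar.map_nsmul_eq_pow, nsmul_eq_mul, show ((3 : ℕ) : ZMod 3) = 0 from rfl, zero_mul,
        AddChar.map_zero_eq_one]
    by_cases h : lam ((x : L) : G) = 0
    · have : ψ x = 1 := by
        change ZMod.stdAddChar (lam ((x : L) : G)) = 1
        rw [h, AddChar.map_zero_eq_one]
      simp [F, h, this]
      norm_num
    · have : ψ x ≠ 1 := fun e => h (ZMod.injective_stdAddChar (by
        rw [AddChar.map_zero_eq_one]; exact e))
      have e4 : (ψ x - 1) * (ψ x * ψ x + ψ x + 1) = 0 := by linear_combination e3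
      have e5 := (mul_eq_zero.mp e4).resolve_left (sub_ne_zero.mpr this)
      simp only [F, h, if_false, Pi.sub_apply, Pi.mul_apply]
      push_cast
      linear_combination e5
  have st : ∀ x y : S.1, IsConj (x : L) y → F x = F y := fun x y e => by
    obtain ⟨g, hg⟩ := isConj_iff.mp e
    have e1 : cj (g : G) ((x : L) : G) = ((y : L) : G) := congrArg Subtype.val hg
    have := fus _ ((mS _).mp x.2) g g.2 (e1 ▸ (mS _).mp y.2)
    rw [e1] at this
    simp only [F, this]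
  have reg : ∀ g : L, IsPReg 3 g → F (sec S g) = 0 := fun g hg => by
    rw [sec_eq_one_iff.mpr hg]
    simp [F, l1]
  let u' : L := ⟨u, hu⟩
  have u2' : u' * u' = 1 := Subtype.ext u2
  obtain ⟨K, hK, uK, hK0⟩ := bs_core (genChar_sec S hF st) (fun g => by
      by_cases h : lam ((sec S g : L) : G) = 0 <;> simp [F, h]) (reg 1 (IsPReg.one 3))
    (u := u') (reg _ (Nat.Coprime.coprime_dvd_left (orderOf_dvd_of_pow_eq_one (n := 2)
      (by rw [pow_two, u2'])) (by norm_num))) (fun a ha => by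
      obtain ⟨c, rfl⟩ := isConj_iff.mp ha
      obtain ⟨k, hk⟩ := exists_pPart_eq_pow 3 (c * u' * c⁻¹ * u')
      obtain ⟨g, hg⟩ := isConj_iff.mp (isConj_sec S (c * u' * c⁻¹ * u'))
      have i1 : u'⁻¹ = u' := inv_eq_of_mul_eq_one_right u2'
      have e1 : u' * (c * u' * c⁻¹ * u') * u'⁻¹ = (c * u' * c⁻¹ * u')⁻¹ := by
        simp only [mul_inv_rev, i1, inv_inv, mul_assoc, u2', mul_one]
      have e2 : cj (cj g u') (sec S (c * u' * c⁻¹ * u') : L) =
          (sec S (c * u' * c⁻¹ * u') : L)⁻¹ := by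
        rw [← hg, hk]
        change cj (cj g u') (cj g _) = (cj g _)⁻¹
        rw [← cj_cj, ← cj_inv, cj_pow, ← inv_pow]
        exact congrArg (fun z => cj g (z ^ k)) e1
      exact if_pos (ninv g g.2 _ (sec S (c * u' * c⁻¹ * u')).2 (congrArg Subtype.val e2)))
  refine ⟨K.map L.subtype, map_subtype_le _, fun g hg => H9.mem_normalizer_of_conj_mem ?_,
    ⟨u', uK, rfl⟩, fun x hx hxK => ?_⟩
  · rintro _ ⟨x, hx, rfl⟩
    exact ⟨_, hK.conj_mem x hx ⟨g, hg⟩, rfl⟩
  · obtain ⟨y, hy, rfl⟩ := hxK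
    have e1 := hK0 y hy
    rw [← st ⟨y, hx⟩ _ (isConj_sec_coe S ⟨y, hx⟩)] at e1
    by_contra h
    have e2 : (3 : ℂ) = 0 := (if_neg h).symm.trans e1
    norm_num at e2

end Cfsg.Agent.H2.O8
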