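import Mathlib
import Cfsg.Prelude.Def_Classical

set_option autoImplicit false

namespace Cfsg.Agent.H2

open Matrix

/-- Isomorphic groups have isomorphic central quotients. -/
def quotCenterCongr {G H : Type*} [Group G] [Group H] (e : G ≃* H) :
    G ⧸ Subgroup.center G ≃* H ⧸ Subgroup.center H :=
  QuotientGroup.congr _ _ e (by
    ext x
    exact Subgroup.mem_map_equiv.trans (MulEquivClass.apply_mem_center_iff e.symm))

/-- Symplectic groups over isomorphic rings. -/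
def spCongr {l R S : Type*} [DecidableEq l] [Fintype l] [CommRing R] [CommRing S] (e : R ≃+* S) :
    symplecticGroup l R ≃* symplecticGroup l S where
  toFun A := ⟨A.1.map e, SymplecticGroup.map_mem A.2 e⟩
  invFun A := ⟨A.1.map e.symm, SymplecticGroup.map_mem A.2 e.symm⟩
  left_inv A := Subtype.ext (by ext i j; simp)
  right_inv A := Subtype.ext (by ext i j; simp)
  map_mul' A B := Subtype.ext (Matrix.map_mul (f := (e : R →+* S)))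

theorem sp_charpoly_reverse {l R : Type*} [DecidableEq l] [Fintype l] [CommRing R]
    (A : symplecticGroup l R) : A.1.charpoly.reverse = A.1.charpoly := by
  have hdet := SymplecticGroup.det_eq_one A.2
  have h1 := Matrix.charpoly_inv A.1 ((Matrix.isUnit_iff_isUnit_det _).2 (by rw [hdet]; simp))
  rw [hdet, ← Matrix.reverse_charpoly, Fintype.card_sum, Even.neg_one_pow (Even.add_self _),
    Ring.inverse_one, map_one, one_mul, one_mul] at h1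
  rw [← h1, SymplecticGroup.inv_eq_symplectic_inv _ A.2, Matrix.charpoly_mul_comm,
    ← Matrix.mul_assoc, Matrix.mul_neg, J_squared, neg_neg, Matrix.one_mul,
    Matrix.charpoly_transpose]

theorem sp6_rel {R : Type*} [CommRing R] [Nontrivial R] (A : symplecticGroup (Fin 3) R) :
    ∃ a b c : R, A.1 ^ 6 = -(1 + a • A.1 + b • A.1 ^ 2 + c • A.1 ^ 3 + b • A.1 ^ 4 + a • A.1 ^ 5) := by
  have hd : A.1.charpoly.natDegree = 6 := by
    rw [Matrix.charpoly_natDegree_eq_dim]; simp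
  have hc : ∀ i ≤ 6, A.1.charpoly.coeff i = A.1.charpoly.coeff (6 - i) := by
    intro i hi
    conv_lhs => rw [← sp_charpoly_reverse A]
    rw [Polynomial.coeff_reverse, hd, Polynomial.revAt_le hi]
  have h6 : A.1.charpoly.coeff 6 = 1 := by
    rw [← hd]; exact (Matrix.charpoly_monic A.1).coeff_natDegree
  have h := Matrix.aeval_self_charpoly A.1
  rw [Polynomial.aeval_eq_sum_range, hd] at h
  simp only [Finset.sum_range_succ, Finset.sum_range_zero, zero_add, pow_zero, pow_one] at h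
  rw [hc 0 (by norm_num), hc 4 (by norm_num), hc 5 (by norm_num), h6, one_smul, one_smul] at h
  exact ⟨_, _, _, eq_neg_of_add_eq_zero_right h⟩

/-- coefficient vectors -/
abbrev V6 := ZMod 3 × ZMod 3 × ZMod 3 × ZMod 3 × ZMod 3 × ZMod 3

/-- multiplication by `X` modulo a palindromic sextic -/
def shift6 (a b c : ZMod 3) (v : V6) : V6 :=
  (-v.2.2.2.2.2, v.1 - a * v.2.2.2.2.2, v.2.1 - b * v.2.2.2.2.2, v.2.2.1 - c * v.2.2.2.2.2,
    v.2.2.2.1 - b * v.2.2.2.2.2, v.2.2.2.2.1 - a * v.2.2.2.2.2)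

/-- iterated shift, with forced evaluation -/
def iter6 (a b c : ZMod 3) : ℕ → V6 → V6
  | 0, v => v
  | n + 1, (v0, v1, v2, v3, v4, v5) => iter6 a b c n (shift6 a b c (v0, v1, v2, v3, v4, v5))

/-- evaluation -/
def ev6 {R : Type*} [Ring R] [Algebra (ZMod 3) R] (y : R) (v : V6) : R :=
  v.1 • 1 + v.2.1 • y + v.2.2.1 • y ^ 2 + v.2.2.2.1 • y ^ 3 + v.2.2.2.2.1 • y ^ 4 +
    v.2.2.2.2.2 • y ^ 5

theorem ev6_iter {R : Type*} [Ring R] [Algebra (ZMod 3) R] (y : R) {a b c : ZMod 3}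
    (h : y ^ 6 = -(1 + a • y + b • y ^ 2 + c • y ^ 3 + b • y ^ 4 + a • y ^ 5)) (n : ℕ) (v : V6) :
    ev6 y (iter6 a b c n v) = y ^ n * ev6 y v := by
  induction n generalizing v with
  | zero => simp [iter6]
  | succ n ih =>
    obtain ⟨v0, v1, v2, v3, v4, v5⟩ := v
    rw [iter6, ih, pow_succ, mul_assoc]
    congr 1
    simp only [ev6, shift6, mul_add, mul_smul_comm, ← pow_succ', mul_one, ← sq, Nat.reduceAdd, h]
    module

instance decEqV6 : DecidableEq V6 := inferInstance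

set_option synthInstance.maxSize 2000 in
theorem iter6_cases : ∀ a b c : ZMod 3,
    iter6 a b c 13 (1, 0, 0, 0, 0, 0) = (1, 0, 0, 0, 0, 0) ∨
    iter6 a b c 13 (1, 0, 0, 0, 0, 0) = (-1, 0, 0, 0, 0, 0) ∨
    iter6 a b c 14 (1, 0, 0, 0, 0, 0) = (1, 0, 0, 0, 0, 0) ∨
    iter6 a b c 14 (1, 0, 0, 0, 0, 0) = (-1, 0, 0, 0, 0, 0) ∨
    iter6 a b c 360 (1, 0, 0, 0, 0, 0) = (1, 0, 0, 0, 0, 0) := by
  decide +kernel

theorem mk_pow_eq_one (A : symplecticGroup (Fin 3) (ZMod 3)) (n : ℕ)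
    (h : (A ^ n).1 = 1 ∨ (A ^ n).1 = -1) : (QuotientGroup.mk A : PSp 3 (ZMod 3)) ^ n = 1 := by
  rw [← QuotientGroup.mk_pow, QuotientGroup.eq_one_iff, Subgroup.mem_center_iff]
  intro g
  apply Subtype.ext
  rcases h with h | h <;> simp [h]

theorem mk_pow_ne_one (A : symplecticGroup (Fin 3) (ZMod 3)) (n : ℕ)
    (h : J (Fin 3) (ZMod 3) * (A ^ n).1 ≠ (A ^ n).1 * J (Fin 3) (ZMod 3)) :
    (QuotientGroup.mk A : PSp 3 (ZMod 3)) ^ n ≠ 1 := by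
  rw [Ne, ← QuotientGroup.mk_pow, QuotientGroup.eq_one_iff, Subgroup.mem_center_iff]
  intro h1
  exact h (congrArg Subtype.val (h1 (SymplecticGroup.symJ _ _)))

theorem orderOf_psp63 (g : PSp 3 (ZMod 3)) :
    orderOf g ∣ 13 ∨ orderOf g ∣ 14 ∨ orderOf g ∣ 360 := by
  obtain ⟨A, rfl⟩ := QuotientGroup.mk_surjective g
  obtain ⟨a, b, c, h⟩ := sp6_rel A
  have key : ∀ n, ev6 A.1 (iter6 a b c n (1, 0, 0, 0, 0, 0)) = (A ^ n).1 := by
    intro n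
    rw [ev6_iter A.1 h]
    simp [ev6]
  simp only [orderOf_dvd_iff_pow_eq_one]
  rcases iter6_cases a b c with h | h | h | h | h
  · exact Or.inl (mk_pow_eq_one _ _ (Or.inl (by rw [← key, h]; simp [ev6])))
  · exact Or.inl (mk_pow_eq_one _ _ (Or.inr (by rw [← key, h]; simp [ev6])))
  · exact Or.inr (Or.inl (mk_pow_eq_one _ _ (Or.inl (by rw [← key, h]; simp [ev6]))))
  · exact Or.inr (Or.inl (mk_pow_eq_one _ _ (Or.inr (by rw [← key, h]; simp [ev6]))))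
  · exact Or.inr (Or.inr (mk_pow_eq_one _ _ (Or.inl (by rw [← key, h]; simp [ev6]))))

/-- explicit matrices -/
def mk6 (l : List (List ℕ)) : Matrix (Fin 3 ⊕ Fin 3) (Fin 3 ⊕ Fin 3) (ZMod 3) :=
  Matrix.of fun i j => (((l.getD (Sum.elim Fin.val (fun k => k.val + 3) i) []).getD
    (Sum.elim Fin.val (fun k => k.val + 3) j) 0 : ℕ) : ZMod 3)

/-- an element of projective order 13 -/
def s13 : symplecticGroup (Fin 3) (ZMod 3) :=
  ⟨mk6 [[2, 1, 1, 1, 2, 0], [2, 0, 2, 2, 0, 1], [0, 2, 0, 1, 0, 2], [2, 0, 0, 0, 1, 2], [1, 2, 2, 0, 1, 1], [1, 0, 2, 2, 0, 0]], SymplecticGroup.mem_iff.2 (by decide +kernel)⟩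

theorem s13_1 : (s13 ^ 1).1 = mk6 [[2, 1, 1, 1, 2, 0], [2, 0, 2, 2, 0, 1], [0, 2, 0, 1, 0, 2], [2, 0, 0, 0, 1, 2], [1, 2, 2, 0, 1, 1], [1, 0, 2, 2, 0, 0]] := by rw [pow_one]; rfl

theorem s13_2 : (s13 ^ 2).1 = mk6 [[1, 2, 2, 2, 1, 1], [0, 0, 1, 0, 0, 2], [2, 0, 2, 2, 1, 1], [1, 1, 2, 0, 2, 1], [2, 1, 0, 0, 0, 1], [0, 2, 1, 0, 1, 2]] := by
  change (s13 ^ (1 + 1)).1 = _
  rw [pow_add, Submonoid.coe_mul, s13_1]
  decide +kernel

theorem s13_3 : (s13 ^ 3).1 = mk6 [[0, 1, 0, 0, 2, 2], [2, 2, 1, 2, 0, 2], [1, 2, 0, 0, 1, 0], [1, 0, 0, 1, 1, 1], [1, 2, 0, 0, 1, 1], [1, 1, 1, 0, 1, 2]] := by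
  change (s13 ^ (2 + 1)).1 = _
  rw [pow_add, Submonoid.coe_mul, s13_2, s13_1]
  decide +kernel

theorem s13_6 : (s13 ^ 6).1 = mk6 [[0, 2, 0, 2, 1, 2], [0, 1, 1, 0, 0, 2], [2, 1, 2, 1, 0, 1], [0, 1, 1, 1, 2, 0], [0, 2, 0, 1, 1, 0], [0, 0, 0, 2, 0, 0]] := by
  change (s13 ^ (3 + 3)).1 = _
  rw [pow_add, Submonoid.coe_mul, s13_3]
  decide +kernel

theorem s13_12 : (s13 ^ 12).1 = mk6 [[0, 0, 1, 1, 2, 1], [2, 2, 0, 2, 0, 0], [1, 2, 0, 0, 1, 2], [2, 1, 1, 1, 1, 0], [0, 2, 0, 2, 0, 1], [0, 2, 2, 2, 1, 0]] := by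
  change (s13 ^ (6 + 6)).1 = _
  rw [pow_add, Submonoid.coe_mul, s13_6]
  decide +kernel

theorem s13_13 : (s13 ^ 13).1 = mk6 [[2, 0, 0, 0, 0, 0], [0, 2, 0, 0, 0, 0], [0, 0, 2, 0, 0, 0], [0, 0, 0, 2, 0, 0], [0, 0, 0, 0, 2, 0], [0, 0, 0, 0, 0, 2]] := by
  change (s13 ^ (12 + 1)).1 = _
  rw [pow_add, Submonoid.coe_mul, s13_12, s13_1]
  decide +kernel

theorem orderOf_s13 : orderOf (QuotientGroup.mk s13 : PSp 3 (ZMod 3)) = 13 := by
  apply orderOf_eq_of_pow_and_pow_div_prime (by norm_num)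
  · exact mk_pow_eq_one _ _ (Or.inr (by rw [s13_13]; decide +kernel))
  · intro p hp hd
    have : p ∈ Nat.primeFactors 13 := Nat.mem_primeFactors.2 ⟨hp, hd, by norm_num⟩
    have e : Nat.primeFactors 13 = {13} := by decide +kernel
    rw [e] at this
    simp only [Finset.mem_insert, Finset.mem_singleton] at this
    rcases this with rfl
    · exact mk_pow_ne_one _ 1 (by rw [s13_1]; decide +kernel)

/-- an element of projective order 14 -/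
def s14 : symplecticGroup (Fin 3) (ZMod 3) :=
  ⟨mk6 [[2, 1, 2, 0, 2, 2], [2, 1, 0, 2, 1, 0], [1, 0, 0, 0, 2, 2], [0, 0, 0, 0, 0, 2], [2, 0, 0, 0, 2, 2], [1, 2, 0, 2, 0, 0]], SymplecticGroup.mem_iff.2 (by decide +kernel)⟩

theorem s14_1 : (s14 ^ 1).1 = mk6 [[2, 1, 2, 0, 2, 2], [2, 1, 0, 2, 1, 0], [1, 0, 0, 0, 2, 2], [0, 0, 0, 0, 0, 2], [2, 0, 0, 0, 2, 2], [1, 2, 0, 2, 0, 0]] := by rw [pow_one]; rfl

theorem s14_2 : (s14 ^ 2).1 = mk6 [[2, 1, 1, 0, 1, 0], [2, 0, 1, 2, 1, 1], [2, 2, 2, 1, 0, 0], [2, 1, 0, 1, 0, 0], [1, 0, 1, 1, 2, 2], [0, 0, 2, 1, 1, 0]] := by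
  change (s14 ^ (1 + 1)).1 = _
  rw [pow_add, Submonoid.coe_mul, s14_1]
  decide +kernel

theorem s14_3 : (s14 ^ 3).1 = mk6 [[0, 0, 1, 2, 0, 2], [2, 1, 1, 2, 2, 0], [1, 1, 1, 1, 1, 1], [0, 0, 1, 2, 2, 0], [0, 2, 2, 1, 2, 1], [1, 0, 0, 0, 0, 2]] := by
  change (s14 ^ (2 + 1)).1 = _
  rw [pow_add, Submonoid.coe_mul, s14_2, s14_1]
  decide +kernel

theorem s14_4 : (s14 ^ 4).1 = mk6 [[0, 1, 0, 1, 2, 0], [2, 0, 1, 2, 2, 2], [2, 1, 2, 1, 1, 2], [2, 0, 0, 0, 0, 1], [2, 1, 0, 0, 1, 1], [1, 2, 2, 1, 2, 2]] := by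
  change (s14 ^ (2 + 2)).1 = _
  rw [pow_add, Submonoid.coe_mul, s14_2]
  decide +kernel

theorem s14_7 : (s14 ^ 7).1 = mk6 [[2, 2, 0, 0, 2, 2], [0, 2, 0, 2, 0, 2], [0, 2, 2, 2, 2, 2], [1, 0, 2, 1, 0, 0], [0, 0, 2, 1, 1, 1], [2, 2, 1, 0, 0, 1]] := by
  change (s14 ^ (4 + 3)).1 = _
  rw [pow_add, Submonoid.coe_mul, s14_4, s14_3]
  decide +kernel

theorem s14_14 : (s14 ^ 14).1 = mk6 [[2, 0, 0, 0, 0, 0], [0, 2, 0, 0, 0, 0], [0, 0, 2, 0, 0, 0], [0, 0, 0, 2, 0, 0], [0, 0, 0, 0, 2, 0], [0, 0, 0, 0, 0, 2]] := by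
  change (s14 ^ (7 + 7)).1 = _
  rw [pow_add, Submonoid.coe_mul, s14_7]
  decide +kernel

theorem orderOf_s14 : orderOf (QuotientGroup.mk s14 : PSp 3 (ZMod 3)) = 14 := by
  apply orderOf_eq_of_pow_and_pow_div_prime (by norm_num)
  · exact mk_pow_eq_one _ _ (Or.inr (by rw [s14_14]; decide +kernel))
  · intro p hp hd
    have : p ∈ Nat.primeFactors 14 := Nat.mem_primeFactors.2 ⟨hp, hd, by norm_num⟩
    have e : Nat.primeFactors 14 = {2, 7} := by decide +kernel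
    rw [e] at this
    simp only [Finset.mem_insert, Finset.mem_singleton] at this
    rcases this with rfl | rfl
    · exact mk_pow_ne_one _ 7 (by rw [s14_7]; decide +kernel)
    · exact mk_pow_ne_one _ 2 (by rw [s14_2]; decide +kernel)

/-- an element of projective order 30 -/
def s30 : symplecticGroup (Fin 3) (ZMod 3) :=
  ⟨mk6 [[1, 1, 1, 1, 1, 2], [1, 0, 0, 1, 2, 1], [0, 1, 0, 2, 2, 0], [1, 0, 1, 2, 2, 0], [0, 1, 0, 0, 2, 2], [0, 2, 2, 0, 2, 1]], SymplecticGroup.mem_iff.2 (by decide +kernel)⟩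

theorem s30_1 : (s30 ^ 1).1 = mk6 [[1, 1, 1, 1, 1, 2], [1, 0, 0, 1, 2, 1], [0, 1, 0, 2, 2, 0], [1, 0, 1, 2, 2, 0], [0, 1, 0, 0, 2, 2], [0, 2, 2, 0, 2, 1]] := by rw [pow_one]; rfl

theorem s30_2 : (s30 ^ 2).1 = mk6 [[0, 1, 0, 0, 1, 1], [2, 2, 1, 0, 0, 1], [0, 2, 2, 2, 1, 2], [0, 1, 0, 1, 2, 0], [1, 0, 1, 1, 1, 1], [2, 0, 2, 0, 2, 1]] := by
  change (s30 ^ (1 + 1)).1 = _
  rw [pow_add, Submonoid.coe_mul, s30_1]
  decide +kernel

theorem s30_3 : (s30 ^ 3).1 = mk6 [[1, 0, 2, 1, 0, 1], [1, 2, 1, 0, 1, 1], [1, 1, 0, 1, 0, 0], [2, 2, 1, 0, 2, 2], [2, 2, 1, 2, 0, 2], [2, 2, 1, 0, 0, 0]] := by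
  change (s30 ^ (2 + 1)).1 = _
  rw [pow_add, Submonoid.coe_mul, s30_2, s30_1]
  decide +kernel

theorem s30_5 : (s30 ^ 5).1 = mk6 [[2, 0, 0, 2, 1, 0], [1, 1, 1, 0, 2, 1], [2, 1, 1, 1, 0, 2], [1, 2, 1, 1, 0, 1], [2, 1, 2, 1, 2, 2], [1, 2, 1, 2, 0, 0]] := by
  change (s30 ^ (3 + 2)).1 = _
  rw [pow_add, Submonoid.coe_mul, s30_3, s30_2]
  decide +kernel

theorem s30_6 : (s30 ^ 6).1 = mk6 [[1, 0, 1, 0, 2, 0], [2, 0, 0, 1, 2, 2], [1, 1, 1, 1, 0, 1], [1, 1, 1, 1, 2, 2], [1, 1, 1, 0, 0, 2], [2, 2, 0, 0, 2, 1]] := by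
  change (s30 ^ (3 + 3)).1 = _
  rw [pow_add, Submonoid.coe_mul, s30_3]
  decide +kernel

theorem s30_10 : (s30 ^ 10).1 = mk6 [[2, 2, 1, 1, 1, 1], [1, 0, 1, 1, 1, 1], [1, 2, 2, 1, 1, 1], [2, 1, 2, 0, 2, 2], [1, 2, 1, 1, 2, 1], [2, 1, 2, 2, 2, 0]] := by
  change (s30 ^ (5 + 5)).1 = _
  rw [pow_add, Submonoid.coe_mul, s30_5]
  decide +kernel

theorem s30_15 : (s30 ^ 15).1 = mk6 [[0, 2, 1, 0, 2, 1], [2, 0, 2, 1, 0, 2], [0, 0, 2, 2, 1, 0], [0, 0, 0, 0, 2, 0], [0, 0, 0, 2, 0, 0], [0, 0, 0, 1, 2, 2]] := by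
  change (s30 ^ (10 + 5)).1 = _
  rw [pow_add, Submonoid.coe_mul, s30_10, s30_5]
  decide +kernel

theorem s30_30 : (s30 ^ 30).1 = mk6 [[1, 0, 0, 0, 0, 0], [0, 1, 0, 0, 0, 0], [0, 0, 1, 0, 0, 0], [0, 0, 0, 1, 0, 0], [0, 0, 0, 0, 1, 0], [0, 0, 0, 0, 0, 1]] := by
  change (s30 ^ (15 + 15)).1 = _
  rw [pow_add, Submonoid.coe_mul, s30_15]
  decide +kernel

theorem orderOf_s30 : orderOf (QuotientGroup.mk s30 : PSp 3 (ZMod 3)) = 30 := by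
  apply orderOf_eq_of_pow_and_pow_div_prime (by norm_num)
  · exact mk_pow_eq_one _ _ (Or.inl (by rw [s30_30]; decide +kernel))
  · intro p hp hd
    have : p ∈ Nat.primeFactors 30 := Nat.mem_primeFactors.2 ⟨hp, hd, by norm_num⟩
    have e : Nat.primeFactors 30 = {2, 3, 5} := by decide +kernel
    rw [e] at this
    simp only [Finset.mem_insert, Finset.mem_singleton] at this
    rcases this with rfl | rfl | rfl
    · exact mk_pow_ne_one _ 15 (by rw [s30_15]; decide +kernel)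
    · exact mk_pow_ne_one _ 10 (by rw [s30_10]; decide +kernel)
    · exact mk_pow_ne_one _ 6 (by rw [s30_6]; decide +kernel)

end Cfsg.Agent.H2
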