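import Mathlib
import Cfsg.Prelude.Def_Classical
import Cfsg.Agent.H2.GF16
import Cfsg.Agent.H2.PSp63
import Cfsg.Agent.H6.PrimeGraph

set_option autoImplicit false

namespace Cfsg.Agent.H2

open Matrix

section general
variable {n : ℕ} {F : Type*} [Field F] {q : ℕ}

theorem mem_SU_iff (g : SpecialLinearGroup (Fin n) F) : g ∈ SU n F q ↔
    ∀ u v, hermForm n F q (g.1 *ᵥ u) (g.1 *ᵥ v) = hermForm n F q u v := Iff.rfl

theorem map_mem_SU {F' : Type*} [Field F'] (e : F ≃+* F') {g : SpecialLinearGroup (Fin n) F}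
    (hg : g ∈ SU n F q) : SpecialLinearGroup.map (e : F →+* F') g ∈ SU n F' q := by
  rw [mem_SU_iff] at hg ⊢
  intro u v
  have h1 : ∀ u v : Fin n → F, hermForm n F' q (e ∘ u) (e ∘ v) = e (hermForm n F q u v) := by
    intro u v; simp [hermForm]
  have h2 : ∀ u : Fin n → F, (SpecialLinearGroup.map (e : F →+* F') g).1 *ᵥ (e ∘ u) =
      e ∘ (g.1 *ᵥ u) := by
    intro u; ext i
    exact (RingHom.map_mulVec (e : F →+* F') g.1 u i).symm
  have hu : u = e ∘ (e.symm ∘ u) := by ext; simp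
  have hv : v = e ∘ (e.symm ∘ v) := by ext; simp
  rw [hu, hv, h2, h2, h1, h1, hg]

/-- Unitary groups over isomorphic fields. -/
def suCongr {F' : Type*} [Field F'] (e : F ≃+* F') : SU n F q ≃* SU n F' q where
  toFun A := ⟨_, map_mem_SU e A.2⟩
  invFun A := ⟨_, map_mem_SU e.symm A.2⟩
  left_inv A := Subtype.ext (by ext i j; exact e.symm_apply_apply _)
  right_inv A := Subtype.ext (by ext i j; exact e.apply_symm_apply _)
  map_mul' A B := Subtype.ext (map_mul _ _ _)

theorem mem_SU_iff' (hq : ∀ x y : F, (x + y) ^ q = x ^ q + y ^ q) (hq0 : q ≠ 0)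
    (g : SpecialLinearGroup (Fin n) F) :
    g ∈ SU n F q ↔ g.1ᵀ * g.1.map (· ^ q) = 1 := by
  let σ : F →+* F :=
    { toFun := (· ^ q), map_one' := one_pow q, map_mul' := fun x y => mul_pow x y q,
      map_zero' := zero_pow hq0, map_add' := hq }
  have h1 : ∀ u v, hermForm n F q u v = u ⬝ᵥ (σ ∘ v) := fun u v => rfl
  have h2 : ∀ u v, hermForm n F q (g.1 *ᵥ u) (g.1 *ᵥ v) =
      u ⬝ᵥ ((g.1ᵀ * g.1.map σ) *ᵥ (σ ∘ v)) := by
    intro u v
    have : σ ∘ (g.1 *ᵥ v) = g.1.map σ *ᵥ (σ ∘ v) := by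
      ext i; exact RingHom.map_mulVec σ g.1 v i
    rw [h1, this, ← Matrix.mulVec_mulVec, Matrix.dotProduct_mulVec u, Matrix.vecMul_transpose]
  rw [mem_SU_iff]
  change _ ↔ g.1ᵀ * g.1.map σ = 1
  constructor
  · intro h
    ext i j
    have := h (Pi.single i 1) (Pi.single j 1)
    have e : σ ∘ (Pi.single j 1 : Fin n → F) = Pi.single j 1 := by
      ext k; by_cases hk : k = j <;> simp [hk]
    rw [h2, h1, e] at this
    simpa [Matrix.one_apply, Pi.single_apply, eq_comm] using this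
  · intro h u v
    rw [h2, h, h1, Matrix.one_mulVec]

theorem sl3_rel {R : Type*} [CommRing R] (M : Matrix (Fin 3) (Fin 3) R) :
    M ^ 3 = M.det • (1 : Matrix (Fin 3) (Fin 3) R) - M.adjugate.trace • M + M.trace • M ^ 2 := by
  ext i j
  fin_cases i <;> fin_cases j <;>
    simp [pow_succ, Matrix.mul_apply, Fin.sum_univ_three, Matrix.det_fin_three,
      Matrix.adjugate_fin_three, Matrix.trace] <;> ring

end general

/-- `SU₃(4)` -/
abbrev K34 : Type := SU 3 GF16 4

theorem GF16.add_pow_four : ∀ x y : GF16, (x + y) ^ 4 = x ^ 4 + y ^ 4 := by decide +kernel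

theorem mem_K34 (g : SpecialLinearGroup (Fin 3) GF16) :
    g ∈ SU 3 GF16 4 ↔ g.1ᵀ * g.1.map (· ^ 4) = 1 :=
  mem_SU_iff' GF16.add_pow_four (by norm_num) g

/-- iterated multiplication by `X` modulo the characteristic polynomial -/
def iter3 (t : GF16) : ℕ → GF16 × GF16 × GF16 → GF16 × GF16 × GF16
  | 0, v => v
  | n + 1, (a, b, c) => iter3 t n (c, a - t ^ 4 * c, b + t * c)

theorem iter3_cases : ∀ t : GF16, iter3 t 13 (1, 0, 0) = (1, 0, 0) ∨
    iter3 t 60 (1, 0, 0) = (1, 0, 0) := by decide +kernel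

theorem orderOf_K34 (g : K34) : orderOf g ∣ 13 ∨ orderOf g ∣ 60 := by
  set M : Matrix (Fin 3) (Fin 3) GF16 := g.1.1 with hM
  have h1 := sl3_rel M
  have h2 : M.adjugate.trace = M.trace ^ 4 := by
    have h3 : Mᵀ * M.map (· ^ 4) = 1 := (mem_K34 _).1 g.2
    have h4 : M.adjugate = (M.map (· ^ 4))ᵀ := by
      have h5 : (M.map (· ^ 4))ᵀ * M = 1 := by
        rw [← transpose_transpose M, ← transpose_mul, transpose_transpose, h3, transpose_one]
      have h6 := Matrix.mul_adjugate M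
      rw [g.1.2, one_smul] at h6
      rw [← Matrix.one_mul M.adjugate, ← h5, Matrix.mul_assoc, h6, Matrix.mul_one]
    rw [h4, trace_transpose]
    simp [Matrix.trace, Fin.sum_univ_three, GF16.add_pow_four]
  rw [h2, g.1.2] at h1
  have key : ∀ (n : ℕ) (v : GF16 × GF16 × GF16),
      (iter3 M.trace n v).1 • (1 : Matrix (Fin 3) (Fin 3) GF16) + (iter3 M.trace n v).2.1 • M +
        (iter3 M.trace n v).2.2 • M ^ 2 = M ^ n * (v.1 • 1 + v.2.1 • M + v.2.2 • M ^ 2) := by
    intro n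
    induction n with
    | zero => intro v; simp [iter3]
    | succ n ih =>
      rintro ⟨a, b, c⟩
      rw [iter3, ih, pow_succ M n, mul_assoc]
      have e : M * (a • 1 + b • M + c • M ^ 2) = a • M + b • M ^ 2 + c • M ^ 3 := by
        simp only [mul_add, mul_smul_comm, mul_one, pow_succ', pow_zero]
      dsimp only
      rw [e, h1]
      congr 1
      module
  have hp : ∀ n, M ^ n = 1 → orderOf g ∣ n := fun n h =>
    orderOf_dvd_of_pow_eq_one (Subtype.ext (Subtype.ext h))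
  rcases iter3_cases M.trace with h | h
  · left; apply hp; simpa [h] using (key 13 (1, 0, 0)).symm
  · right; apply hp; simpa [h] using (key 60 (1, 0, 0)).symm

/-- explicit matrices -/
def mk3 (l : List (List ℕ)) : Matrix (Fin 3) (Fin 3) GF16 :=
  Matrix.of fun i j => GF16.mk ((l.getD i []).getD j 0)

/-- explicit elements -/
def mkK (l : List (List ℕ)) (h : (mk3 l).det = 1 ∧ (mk3 l)ᵀ * (mk3 l).map (· ^ 4) = 1) : K34 :=
  ⟨⟨mk3 l, h.1⟩, (mem_K34 _).2 h.2⟩

theorem mkK_ok (l : List (List ℕ))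
    (h : mk3 l 0 0 * mk3 l 1 1 * mk3 l 2 2 - mk3 l 0 0 * mk3 l 1 2 * mk3 l 2 1 -
      mk3 l 0 1 * mk3 l 1 0 * mk3 l 2 2 + mk3 l 0 1 * mk3 l 1 2 * mk3 l 2 0 +
      mk3 l 0 2 * mk3 l 1 0 * mk3 l 2 1 - mk3 l 0 2 * mk3 l 1 1 * mk3 l 2 0 = 1 ∧
      (mk3 l)ᵀ * (mk3 l).map (· ^ 4) = 1) :
    (mk3 l).det = 1 ∧ (mk3 l)ᵀ * (mk3 l).map (· ^ 4) = 1 :=
  ⟨by rw [Matrix.det_fin_three]; exact h.1, h.2⟩

/-- order 13 -/
def k13 : K34 := mkK [[10, 5, 14], [1, 15, 10], [1, 6, 14]] (mkK_ok _ (by decide +kernel))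
/-- order 15 -/
def k15 : K34 := mkK [[12, 5, 5], [13, 7, 1], [11, 0, 9]] (mkK_ok _ (by decide +kernel))
/-- order 10 -/
def k10 : K34 := mkK [[5, 4, 1], [9, 14, 1], [12, 10, 1]] (mkK_ok _ (by decide +kernel))
/-- a diagonal element -/
def kd : K34 := mkK [[8, 0, 0], [0, 15, 0], [0, 0, 1]] (mkK_ok _ (by decide +kernel))
/-- a permutation matrix -/
def kc : K34 := mkK [[0, 0, 1], [1, 0, 0], [0, 1, 0]] (mkK_ok _ (by decide +kernel))

theorem K34_pow (g : K34) (n : ℕ) : (g ^ n).1.1 = g.1.1 ^ n := rfl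

theorem orderOf_k10 : orderOf k10 = 10 := by
  have h5 : k10.1.1 ^ 5 = mk3 [[6, 9, 15], [14, 0, 13], [8, 11, 7]] := by decide +kernel
  apply orderOf_eq_of_pow_and_pow_div_prime (by norm_num)
  · apply Subtype.ext; apply Subtype.ext
    rw [K34_pow, show 10 = 5 * 2 from rfl, pow_mul, h5]
    decide +kernel
  · intro p hp hd h
    have h := congrArg (fun g : K34 => g.1.1) h
    simp only [K34_pow] at h
    have : p ∈ Nat.primeFactors 10 := Nat.mem_primeFactors.2 ⟨hp, hd, by norm_num⟩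
    have e : Nat.primeFactors 10 = {2, 5} := by decide +kernel
    rw [e] at this
    simp only [Finset.mem_insert, Finset.mem_singleton] at this
    rcases this with rfl | rfl
    · revert h; decide +kernel
    · revert h; decide +kernel

theorem orderOf_k15 : orderOf k15 = 15 := by
  have h5 : k15.1.1 ^ 5 = mk3 [[11, 8, 11], [9, 6, 10], [0, 9, 13]] := by decide +kernel
  apply orderOf_eq_of_pow_and_pow_div_prime (by norm_num)
  · apply Subtype.ext; apply Subtype.ext
    rw [K34_pow, show 15 = 5 * 3 from rfl, pow_mul, h5]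
    decide +kernel
  · intro p hp hd h
    have h := congrArg (fun g : K34 => g.1.1) h
    simp only [K34_pow] at h
    have : p ∈ Nat.primeFactors 15 := Nat.mem_primeFactors.2 ⟨hp, hd, by norm_num⟩
    have e : Nat.primeFactors 15 = {3, 5} := by decide +kernel
    rw [e] at this
    simp only [Finset.mem_insert, Finset.mem_singleton] at this
    rcases this with rfl | rfl
    · revert h; decide +kernel
    · revert h; decide +kernel

theorem orderOf_k13 : orderOf k13 = 13 := by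
  have : Fact (Nat.Prime 13) := ⟨by norm_num⟩
  have h4 : k13.1.1 ^ 4 = mk3 [[4, 8, 14], [14, 11, 0], [15, 13, 2]] := by decide +kernel
  apply orderOf_eq_prime
  · apply Subtype.ext; apply Subtype.ext
    rw [K34_pow, show 13 = 4 * 3 + 1 from rfl, pow_succ, pow_mul, h4]
    decide +kernel
  · intro h
    have h := congrArg (fun g : K34 => g.1.1) h
    revert h; decide +kernel

theorem center_K34 : Subgroup.center K34 = ⊥ := by
  rw [eq_bot_iff]
  intro g hg
  rw [Subgroup.mem_center_iff] at hg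
  have h1 : kd.1.1 * g.1.1 = g.1.1 * kd.1.1 := congrArg (fun g : K34 => g.1.1) (hg kd)
  have h2 : kc.1.1 * g.1.1 = g.1.1 * kc.1.1 := congrArg (fun g : K34 => g.1.1) (hg kc)
  have h3 : g.1.1ᵀ * g.1.1.map (· ^ 4) = 1 := (mem_K34 _).1 g.2
  have h4 := g.1.2
  rw [Subgroup.mem_bot]
  apply Subtype.ext; apply Subtype.ext
  change g.1.1 = 1
  generalize g.1.1 = M at h1 h2 h3 h4
  have ed : kd.1.1 = !![GF16.mk 8, 0, 0; 0, GF16.mk 15, 0; 0, 0, 1] := by decide +kernel
  have ec : kc.1.1 = !![0, 0, 1; 1, 0, 0; 0, 1, 0] := by decide +kernel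
  rw [ed] at h1
  rw [ec] at h2
  have a1 : ∀ x : GF16, GF16.mk 8 * x = x * GF16.mk 15 → x = 0 := by decide +kernel
  have a2 : ∀ x : GF16, GF16.mk 8 * x = x → x = 0 := by decide +kernel
  have a3 : ∀ x : GF16, x * x * x = 1 → x * x ^ 4 = 1 → x = 1 := by decide +kernel
  have e01 : M 0 1 = 0 := a1 _ (by
    simpa [Matrix.mul_apply, Fin.sum_univ_three] using congrFun (congrFun h1 0) 1)
  have e02 : M 0 2 = 0 := a2 _ (by
    simpa [Matrix.mul_apply, Fin.sum_univ_three] using congrFun (congrFun h1 0) 2)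
  have f := fun i j => congrFun (congrFun h2 i) j
  have f00 := f 0 0
  have f01 := f 0 1
  have f02 := f 0 2
  have f10 := f 1 0
  have f11 := f 1 1
  have f12 := f 1 2
  simp [Matrix.mul_apply, Fin.sum_univ_three, e01, e02] at f00 f01 f02 f10 f11 f12
  have e : M 0 0 = 1 := by
    apply a3
    · rw [Matrix.det_fin_three] at h4
      simpa [e01, e02, f00, f01, f02, ← f10, ← f11, ← f12] using h4
    · simpa [Matrix.mul_apply, Fin.sum_univ_three, f00, ← f12] using congrFun (congrFun h3 0) 0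
  ext i j
  fin_cases i <;> fin_cases j <;> simp [e01, e02, f00, f01, f02, ← f10, ← f11, ← f12, e]

theorem not_sq_dvd_card_K34 : ¬ 13 ^ 2 ∣ Nat.card K34 := by
  intro h
  have := Subgroup.card_dvd_of_injective
    ((SpecialLinearGroup.toGL (n := Fin 3) (R := GF16)).comp (SU 3 GF16 4).subtype)
    (SpecialLinearGroup.toGL_injective.comp Subtype.val_injective)
  have h2 := h.trans this
  rw [Matrix.card_GL_field, GF16.card] at h2
  revert h2
  decide +kernel

end Cfsg.Agent.H2
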