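import Cfsg.Agent.H2.SU34

set_option autoImplicit false

namespace Cfsg.Agent.H2

open Matrix

section general

/-- Restriction of an action to an invariant additive subgroup. -/
@[reducible] def subAct {K W : Type*} [Group K] [AddCommGroup W] [DistribMulAction K W]
    (V : AddSubgroup W) (h : ∀ (g : K) (w : W), w ∈ V → g • w ∈ V) : DistribMulAction K V where
  smul g w := ⟨g • w.1, h g w.1 w.2⟩
  one_smul w := Subtype.ext (one_smul K w.1)
  mul_smul a b w := Subtype.ext (mul_smul a b w.1)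
  smul_zero g := Subtype.ext (smul_zero g)
  smul_add g v w := Subtype.ext (smul_add g v.1 w.1)

/-- Elements of prime order `p` are conjugate up to powers when `p²` does not divide the order. -/
theorem exists_conj_zpowers {G : Type*} [Group G] [Finite G] {p : ℕ} (hp : p.Prime)
    (h : ¬ p ^ 2 ∣ Nat.card G) {a b : G} (ha : orderOf a = p) (hb : orderOf b = p) :
    ∃ g : G, ∃ n : ℕ, b = g * a ^ n * g⁻¹ := by
  have : Fact p.Prime := ⟨hp⟩
  have key : ∀ a : G, orderOf a = p → ∃ P : Sylow p G, (P : Subgroup G) = Subgroup.zpowers a := by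
    intro a ha
    have h1 : IsPGroup p (Subgroup.zpowers a) :=
      IsPGroup.of_card (n := 1) (by rw [Nat.card_zpowers, ha, pow_one])
    obtain ⟨P, hP⟩ := h1.exists_le_sylow
    refine ⟨P, (Subgroup.eq_of_le_of_card_ge hP ?_).symm⟩
    obtain ⟨n, hn⟩ := P.2.exists_card_eq
    rw [Nat.card_zpowers, ha, hn]
    have h2 : p ^ n ∣ Nat.card G := hn ▸ Subgroup.card_subgroup_dvd_card _
    have h3 : n ≤ 1 := by
      by_contra h4
      exact h ((pow_dvd_pow p (by omega)).trans h2)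
    calc p ^ n ≤ p ^ 1 := Nat.pow_le_pow_right hp.pos h3
      _ = p := pow_one p
  obtain ⟨P, hP⟩ := key a ha
  obtain ⟨Q, hQ⟩ := key b hb
  obtain ⟨g, hg⟩ := MulAction.exists_smul_eq G P Q
  have hb' : b ∈ (Q : Subgroup G) := hQ ▸ Subgroup.mem_zpowers b
  rw [← hg, Sylow.coe_subgroup_smul, Subgroup.mem_pointwise_smul_iff_inv_smul_mem, hP,
    ← mem_powers_iff_mem_zpowers] at hb'
  obtain ⟨n, hn⟩ := hb'
  refine ⟨g, n, ?_⟩
  simp only at hn
  rw [hn]
  simp [mul_assoc]

end general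

namespace U34

/-- vectors -/
abbrev Vec : Type := Fin 3 → GF16

/-- the form -/
abbrev hf (u v : Vec) : GF16 := hermForm 3 GF16 4 u v

/-- discrete logarithm mod 5 -/
def lg (x : GF16) : ZMod 5 :=
  (([0, 0, 1, 4, 2, 3, 0, 0, 3, 4, 4, 2, 1, 3, 1, 2] : List ℕ).getD x.toNat 0 : ℕ)

theorem lg_mul : ∀ x y : GF16, x ≠ 0 → y ≠ 0 → lg (x * y) = lg x + lg y := by decide +kernel
theorem lg_pow : ∀ x : GF16, lg (x ^ 4) = - lg x := by decide +kernel
theorem lg_inv : ∀ x : GF16, lg x⁻¹ = - lg x := by decide +kernel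
theorem lg_zero : lg 0 = 0 := by decide +kernel

/-- the action on vectors -/
def act (g : K34) (v : Vec) : Vec := g.1.1 *ᵥ v

theorem act_mul (g h : K34) (v : Vec) : act (g * h) v = act g (act h v) := by
  simp [act]

theorem act_one (v : Vec) : act 1 v = v := by simp [act]

theorem act_smul (g : K34) (c : GF16) (v : Vec) : act g (c • v) = c • act g v :=
  Matrix.mulVec_smul _ _ _

theorem act_inj (g : K34) : Function.Injective (act g) := fun u v h => by
  have := congrArg (act g⁻¹) h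
  rwa [← act_mul, ← act_mul, inv_mul_cancel, act_one, act_one] at this

theorem hf_act (g : K34) (u v : Vec) : hf (act g u) (act g v) = hf u v := g.2 u v

theorem hf_smul (a b : GF16) (u v : Vec) : hf (a • u) (b • v) = a * b ^ 4 * hf u v := by
  simp only [hf, hermForm, Pi.smul_apply, smul_eq_mul, Finset.mul_sum]
  exact Finset.sum_congr rfl fun i _ => by ring

/-- nonzero isotropic vectors -/
def Iso (v : Vec) : Prop := v ≠ 0 ∧ hf v v = 0

theorem iso_act (g : K34) (v : Vec) : Iso (act g v) ↔ Iso v := by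
  have h0 : act g 0 = 0 := by simp [act]
  unfold Iso
  rw [hf_act, ← h0, (act_inj g).ne_iff, h0]

/-- the invariant kernel -/
def Mk (u v : Vec) : ZMod 5 :=
  if hf u v = 0 then ∑ c : GF16, if u = c • v then lg c else 0 else lg (hf u v)

theorem Mk_act (g : K34) (u v : Vec) : Mk (act g u) (act g v) = Mk u v := by
  unfold Mk
  simp only [hf_act, ← act_smul, (act_inj g).eq_iff]

theorem Mk_smul_self {v : Vec} (hv : Iso v) (c : GF16) : Mk (c • v) v = lg c := by
  have h1 : hf (c • v) v = 0 := by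
    have := hf_smul c 1 v v
    rw [one_smul, hv.2, mul_zero] at this
    exact this
  unfold Mk
  rw [if_pos h1, Finset.sum_eq_single c]
  · simp
  · intro b _ hb
    rw [if_neg]
    intro h
    exact hb (smul_left_injective GF16 hv.1 h).symm
  · simp

/-- table of orbit representatives -/
def tbl : List (List (List ℕ)) :=
 [[[0,1,1],[11,5,8],[9,2,15],[10,8,0],[6,11,15],[13,9,12],[4,2,10],[2,1,14],[9,11,15],[1,6,3],[6,8,7],[11,4,15],[0,14,5]],
  [[0,1,8],[12,0,15],[4,0,9],[9,1,3],[1,11,14],[0,4,5],[4,13,8],[11,12,5],[8,7,6],[5,10,11],[8,11,4],[3,5,10],[9,13,8]],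
  [[0,1,10],[3,7,0],[5,8,2],[5,3,15],[14,11,10],[1,5,7],[4,4,0],[9,13,15],[12,2,4],[6,15,13],[5,7,8],[5,1,13],[11,1,9]],
  [[1,0,1],[4,11,15],[10,11,14],[2,15,14],[10,14,13],[1,4,2],[2,15,5],[2,12,5],[13,14,15],[13,4,10],[10,12,0],[1,2,4],[13,2,0]],
  [[1,0,8],[3,14,8],[7,9,8],[1,6,13],[13,14,12],[12,9,11],[2,0,7],[11,1,14],[12,2,6],[9,8,2],[4,15,3],[9,3,1],[4,1,13]]]

/-- orbit points -/
def P (i : Fin 5) (k : ZMod 13) : Vec :=
  fun j => GF16.mk (((tbl.getD i []).getD k.val []).getD j 0)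

/-- potentials -/
def pot (i : Fin 5) : ZMod 5 := (([0, 3, 3, 0, 3] : List ℕ).getD i 0 : ℕ)

theorem act_P : ∀ i k, act k13 (P i k) = P i (k + 1) := by decide +kernel

theorem P_iso : ∀ i k, P i k ≠ 0 ∧ hf (P i k) (P i k) = 0 := by decide +kernel

theorem P_ne : ∀ i k j l, (i = j ∧ k = l) ∨ hf (P i k) (P j l) ≠ 0 := by decide +kernel

theorem P_sum : ∀ i j l, ∑ k, lg (hf (P i k) (P j l)) = pot i - pot j := by decide +kernel

theorem P_cover1 : ∀ y z : GF16, hf ![1, y, z] ![1, y, z] = 0 →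
    ∃ i k, P i k 0 • ![1, y, z] = P i k ∧ P i k 0 ≠ 0 := by decide +kernel

theorem P_cover2 : ∀ z : GF16, hf ![0, 1, z] ![0, 1, z] = 0 →
    ∃ i k, P i k 1 • ![0, 1, z] = P i k ∧ P i k 1 ≠ 0 := by decide +kernel

theorem P_cover {v : Vec} (hv : Iso v) : ∃ i k, ∃ c : GF16, c ≠ 0 ∧ v = c • P i k := by
  have hs : ∀ c : GF16, hf (c • v) (c • v) = 0 := fun c => by rw [hf_smul, hv.2, mul_zero]
  by_cases h0 : v 0 = 0
  · by_cases h1 : v 1 = 0
    · exfalso
      have h2 := hv.2
      simp only [hf, hermForm, Fin.sum_univ_three, h0, h1, zero_mul, zero_add, mul_eq_zero,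
        pow_eq_zero_iff, ne_eq, OfNat.ofNat_ne_zero, not_false_eq_true, or_self] at h2
      apply hv.1
      ext i; fin_cases i <;> simp [h0, h1, h2]
    · have e : (v 1)⁻¹ • v = ![0, 1, (v 1)⁻¹ * v 2] := by
        ext i; fin_cases i <;> simp [h0, h1]
      obtain ⟨i, k, h3, h4⟩ := P_cover2 _ (e ▸ hs _)
      refine ⟨i, k, v 1 * (P i k 1)⁻¹, mul_ne_zero h1 (inv_ne_zero h4), ?_⟩
      conv_rhs => rw [mul_smul]; arg 2; arg 2; rw [← h3, ← e]
      rw [inv_smul_smul₀ h4, smul_inv_smul₀ h1]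
  · have e : (v 0)⁻¹ • v = ![1, (v 0)⁻¹ * v 1, (v 0)⁻¹ * v 2] := by
      ext i; fin_cases i <;> simp [h0]
    obtain ⟨i, k, h3, h4⟩ := P_cover1 _ _ (e ▸ hs _)
    refine ⟨i, k, v 0 * (P i k 0)⁻¹, mul_ne_zero h0 (inv_ne_zero h4), ?_⟩
    conv_rhs => rw [mul_smul]; arg 2; arg 2; rw [← h3, ← e]
    rw [inv_smul_smul₀ h4, smul_inv_smul₀ h0]

theorem Mk_P (i j : Fin 5) (k l : ZMod 13) {a b : GF16} (ha : a ≠ 0) (hb : b ≠ 0) :
    Mk (a • P i k) (b • P j l) = lg a - lg b + lg (hf (P i k) (P j l)) := by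
  rcases P_ne i k j l with ⟨rfl, rfl⟩ | h
  · have h1 : Iso (b • P i k) :=
      ⟨smul_ne_zero hb (P_iso i k).1, by rw [hf_smul, (P_iso i k).2, mul_zero]⟩
    have h2 : a • P i k = (a * b⁻¹) • b • P i k := by
      rw [smul_smul, inv_mul_cancel_right₀ hb]
    rw [h2, Mk_smul_self h1, (P_iso i k).2, lg_zero, lg_mul _ _ ha (inv_ne_zero hb), lg_inv]
    ring
  · unfold Mk
    have h1 : a * b ^ 4 ≠ 0 := mul_ne_zero ha (pow_ne_zero _ hb)
    rw [hf_smul, if_neg (mul_ne_zero h1 h), lg_mul _ _ h1 h, lg_mul _ _ ha (pow_ne_zero _ hb),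
      lg_pow]
    ring

theorem act_pow_P (i : Fin 5) (k : ZMod 13) (n : ℕ) :
    act (k13 ^ n) (P i k) = P i (k + n) := by
  induction n with
  | zero => simp [act_one]
  | succ n ih => rw [pow_succ', act_mul, ih, act_P]; congr 1; push_cast; ring

theorem sum_Mk (i j : Fin 5) (k l : ZMod 13) {a b : GF16} (ha : a ≠ 0) (hb : b ≠ 0) :
    ∑ m : ZMod 13, Mk (act (k13 ^ m.val) (a • P i k)) (b • P j l) =
      (3 * lg a + pot i) - (3 * lg b + pot j) := by
  simp only [act_smul, act_pow_P, ZMod.natCast_zmod_val, Mk_P _ _ _ _ ha hb,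
    Finset.sum_add_distrib]
  have h1 := Equiv.sum_comp (Equiv.addLeft k) (fun m => lg (hf (P i m) (P j l)))
  simp only [Equiv.coe_addLeft] at h1
  rw [h1, P_sum, Finset.sum_const, Finset.card_univ, ZMod.card]
  have : ∀ x : ZMod 5, 13 • x = 3 * x := by decide
  rw [this]; ring

/-- functions on pairs -/
def W : Type := Vec × Vec → ZMod 5

instance instAddCommGroupW : AddCommGroup W := inferInstanceAs (AddCommGroup (Vec × Vec → ZMod 5))
instance instFiniteW : Finite W := inferInstanceAs (Finite (Vec × Vec → ZMod 5))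

instance instActW : DistribMulAction K34 W where
  smul g f := fun x => f (act g⁻¹ x.1, act g⁻¹ x.2)
  one_smul f := funext fun x => by
    change f (act 1⁻¹ x.1, act 1⁻¹ x.2) = f x
    rw [inv_one, act_one, act_one]
  mul_smul a b f := funext fun x => by
    change f (act (a * b)⁻¹ x.1, act (a * b)⁻¹ x.2) = f (act b⁻¹ (act a⁻¹ x.1), act b⁻¹ (act a⁻¹ x.2))
    rw [_root_.mul_inv_rev, act_mul, act_mul]
  smul_zero g := rfl
  smul_add g v w := rfl

theorem smul_apply (g : K34) (f : W) (x : Vec × Vec) :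
    (g • f) x = f (act g⁻¹ x.1, act g⁻¹ x.2) := rfl

open Classical in
/-- generators -/
noncomputable def Fn (p q : Vec) : W := fun x =>
  if Iso x.1 ∧ Iso x.2 then Mk p x.1 - Mk p x.2 - Mk q x.1 + Mk q x.2 else 0

theorem smul_Fn (g : K34) (p q : Vec) : g • Fn p q = Fn (act g p) (act g q) := by
  funext x
  have h : ∀ u v, Mk u (act g⁻¹ v) = Mk (act g u) v := fun u v => by
    rw [← Mk_act g, ← act_mul, mul_inv_cancel, act_one]
  rw [smul_apply]
  simp only [Fn, h]
  by_cases hx : Iso x.1 ∧ Iso x.2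
  · rw [if_pos hx, if_pos (by rwa [iso_act, iso_act])]
  · rw [if_neg hx, if_neg (by rwa [iso_act, iso_act])]

/-- the module -/
def V : AddSubgroup W := AddSubgroup.closure {f | ∃ p q, Iso p ∧ Iso q ∧ f = Fn p q}

theorem smul_mem_V (g : K34) (w : W) (hw : w ∈ V) : g • w ∈ V := by
  induction hw using AddSubgroup.closure_induction with
  | mem x hx =>
    obtain ⟨p, q, hp, hq, rfl⟩ := hx
    exact AddSubgroup.subset_closure
      ⟨_, _, (iso_act g p).2 hp, (iso_act g q).2 hq, smul_Fn g p q⟩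
  | zero => rw [smul_zero]; exact V.zero_mem
  | add x y _ _ hx hy => rw [smul_add]; exact V.add_mem hx hy
  | neg x _ hx => rw [smul_neg]; exact V.neg_mem hx

theorem norm_V (w : W) (hw : w ∈ V) : ∑ m : ZMod 13, k13 ^ m.val • w = 0 := by
  induction hw using AddSubgroup.closure_induction with
  | mem x hx =>
    obtain ⟨p, q, hp, hq, rfl⟩ := hx
    funext x
    have e : (∑ m : ZMod 13, k13 ^ m.val • Fn p q) x =
        ∑ m : ZMod 13, (k13 ^ m.val • Fn p q) x := Finset.sum_apply _ _ _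
    rw [e]
    change _ = (0 : ZMod 5)
    simp only [smul_Fn, Fn]
    by_cases hx : Iso x.1 ∧ Iso x.2
    · simp only [hx, and_self, if_true, Finset.sum_add_distrib, Finset.sum_sub_distrib]
      obtain ⟨i1, k1, c1, h1, rfl⟩ := P_cover hp
      obtain ⟨i2, k2, c2, h2, rfl⟩ := P_cover hq
      obtain ⟨i3, k3, c3, h3, e3⟩ := P_cover hx.1
      obtain ⟨i4, k4, c4, h4, e4⟩ := P_cover hx.2
      rw [e3, e4, sum_Mk _ _ _ _ h1 h3, sum_Mk _ _ _ _ h1 h4, sum_Mk _ _ _ _ h2 h3,
        sum_Mk _ _ _ _ h2 h4]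
      ring
    · simp [hx]
  | zero => simp
  | add x y _ _ hx hy => simp only [smul_add, Finset.sum_add_distrib, hx, hy, add_zero]
  | neg x _ hx => simp only [smul_neg, Finset.sum_neg_distrib, hx, neg_zero]

theorem five_W (w : W) : 5 • w = 0 := by
  funext x
  change 5 • w x = 0
  generalize w x = y
  revert y; decide

theorem fpf_k13 (w : W) (hw : w ∈ V) (h : k13 • w = w) : w = 0 := by
  have h1 := norm_V w hw
  have h2 : ∀ n : ℕ, k13 ^ n • w = w := fun n => by
    induction n with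
    | zero => simp
    | succ n ih => rw [pow_succ, mul_smul, h, ih]
  simp only [h2, Finset.sum_const, Finset.card_univ, ZMod.card] at h1
  have h3 : w = 2 • (13 • w) - 5 • (5 • w) := by abel
  rw [h3, h1, five_W, smul_zero, sub_zero]

theorem fpf (k : K34) (hk : orderOf k = 13) (w : W) (hw : w ∈ V) (h : k • w = w) : w = 0 := by
  obtain ⟨g, n, hg⟩ := exists_conj_zpowers (by norm_num) not_sq_dvd_card_K34 hk orderOf_k13
  have h2 : ∀ n : ℕ, k ^ n • w = w := fun n => by
    induction n with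
    | zero => simp
    | succ n ih => rw [pow_succ, mul_smul, h, ih]
  have := fpf_k13 (g • w) (smul_mem_V g w hw) (by
    rw [hg, mul_smul, inv_smul_smul, mul_smul, h2])
  rw [← inv_smul_smul g w, this, smul_zero]

theorem Fn_ne : Fn (P 0 0) (P 0 1) ≠ 0 := by
  intro h
  have h1 := congrFun h (P 0 2, P 0 4)
  have h2 : Iso (P 0 2) ∧ Iso (P 0 4) := ⟨P_iso _ _, P_iso _ _⟩
  simp only [Fn, h2, and_self, if_true] at h1
  have h3 : ∀ k l, Mk (P 0 k) (P 0 l) = lg (hf (P 0 k) (P 0 l)) := fun k l => by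
    simpa using Mk_P 0 0 k l one_ne_zero one_ne_zero
  rw [h3, h3, h3, h3] at h1
  change _ = (0 : ZMod 5) at h1
  revert h1
  decide +kernel

instance instActV : DistribMulAction K34 V := subAct V smul_mem_V

instance instNontrivialV : Nontrivial V :=
  ⟨⟨⟨Fn (P 0 0) (P 0 1), AddSubgroup.subset_closure ⟨_, _, P_iso _ _, P_iso _ _, rfl⟩⟩, 0,
    fun h => Fn_ne (congrArg Subtype.val h)⟩⟩

theorem main {L : Type*} [Group L] (e : L ≃* K34) (N : ℕ) :
    ∃ (H : Type) (_ : Group H) (_ : Finite H), N < Nat.card H ∧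
      ((∀ p : ℕ, p.Prime → (p ∣ Nat.card L ↔ p ∣ Nat.card H)) ∧
      (∀ p q : ℕ, p.Prime → q.Prime → p ≠ q →
        ((∃ g : L, orderOf g = p * q) ↔ (∃ g : H, orderOf g = p * q)))) := by
  have : Finite L := Finite.of_equiv _ e.symm.toEquiv
  have hs := H6.spec_eq_of_mulEquiv e
  refine H6.primeGraph_large_of_aff (V := V) (K := K34) (r := 5) (by norm_num)
    (fun v => Subtype.ext (five_W v.1)) ⟨k10 ^ 2, by rw [orderOf_pow, orderOf_k10]; rfl⟩ ?_
    (fun p _ => by rw [hs]) (fun p q _ _ _ => by rw [hs]) N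
  intro k hk hk5
  rcases orderOf_K34 k with h | h
  · right
    intro w hw
    exact Subtype.ext (fpf k ((Nat.prime_dvd_prime_iff_eq hk (by norm_num)).1 h) w.1 w.2
      (congrArg Subtype.val hw))
  · left
    have : orderOf k ∈ Nat.primeFactors 60 := Nat.mem_primeFactors.2 ⟨hk, h, by norm_num⟩
    have e : Nat.primeFactors 60 = {2, 3, 5} := by decide +kernel
    rw [e] at this
    simp only [Finset.mem_insert, Finset.mem_singleton] at this
    rcases this with h | h | h
    · rw [h]; exact ⟨k10, orderOf_k10⟩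
    · rw [h]; exact ⟨k15, orderOf_k15⟩
    · exact absurd h hk5

end U34

theorem psu34_equiv {F : Type*} [Field F] [Fintype F] (hF : Fintype.card F = 16) :
    Nonempty (PSU 3 F 4 ≃* K34) :=
  ⟨(quotCenterCongr (suCongr (FiniteField.ringEquivOfCardEq (hF.trans GF16.card.symm)))).trans
    ((QuotientGroup.quotientMulEquivOfEq center_K34).trans QuotientGroup.quotientBot)⟩

end Cfsg.Agent.H2
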