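import Cfsg.Agent.H2.SySt2

/-! S3580, piece ST: the inductive step outside the geometric configuration. -/

set_option autoImplicit false
set_option linter.unusedSectionVars false
set_option linter.unusedVariables false

namespace Cfsg.Agent.L0.Sy

open Finset Pn
open scoped Pointwise

variable {G : Type} [Group G] [Finite G] {Ω : Type} [Fintype Ω] [DecidableEq Ω] [MulAction G Ω]
  {T : Type} [Fintype T] [DecidableEq T] [MulAction G T]
  {p : ℕ} [hp : Fact p.Prime] {P : Sylow p G} {K X Y H : Subgroup G} {O W Λ : Finset Ω} {n : ℕ}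

namespace St

theorem mod_le (m : ℕ) : ((m % p : ℕ) : ℚ) ≤ (p : ℚ) - 1 := by
  have : m % p + 1 ≤ p := Nat.mod_lt m hp.out.pos
  have h : ((m % p + 1 : ℕ) : ℚ) ≤ p := by exact_mod_cast this
  push_cast at h
  linarith

theorem le_mv (hI : Inv (P : Subgroup G) W) (hm : Mv (P : Subgroup G) W) :
    p ≤ (mv (P : Subgroup G) W).card := by
  obtain ⟨x, hx, h⟩ := hm
  exact Nat.le_of_dvd (card_pos.2 ⟨x, mem_mv.2 ⟨hx, h⟩⟩) (dvd_card_mv hI)

/-- a block of maximal size has a primitive block system -/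
theorem exists_max (hO : Orb H O) (h : ¬ Prim H O) : ∃ B : Finset Ω, B ⊆ O ∧ Blk H B ∧ 2 ≤ B.card ∧
    B ≠ O ∧ Prim H (orb H B) := by
  classical
  unfold Prim at h
  push Not at h
  obtain ⟨B0, h1, h2, h3, h4⟩ := h
  obtain ⟨B, hB, hmax⟩ := exists_max_image
    (univ.filter fun B : Finset Ω => B ⊆ O ∧ Blk H B ∧ 2 ≤ B.card ∧ B ≠ O) card
    ⟨B0, mem_filter.2 ⟨mem_univ _, h1, h2, h3, h4⟩⟩
  obtain ⟨-, hBO, hb, h2B, hne⟩ := mem_filter.1 hB
  refine ⟨B, hBO, hb, h2B, hne, fun S hS hSb => ?_⟩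
  by_contra hc
  push Not at hc
  have hcard : (S.biUnion id).card = S.card * B.card := by
    rw [card_biUnion ((blk_disj hb).subset hS), sum_congr rfl fun C hC => (card_mem (hS hC) : (id C).card = B.card)]
    simp
  have hI := (orb_orb H B).inv
  have := hmax (S.biUnion id) (mem_filter.2 ⟨mem_univ _, biUnion_subset.2 fun C hC =>
    sub_of_mem hO hBO (hS hC), ?_, by rw [hcard]; nlinarith [hc.1], fun e => hc.2 ?_⟩)
  · rw [hcard] at this
    nlinarith [hc.1]
  · intro g hg x hx hx' y hy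
    obtain ⟨C, hC, hxC⟩ := mem_biUnion.1 hx
    obtain ⟨C', hC', hxC'⟩ := mem_biUnion.1 hx'
    obtain ⟨D, hD, hyD⟩ := mem_biUnion.1 hy
    have e : g • C = C' := hb.eq_of_mem (hI g hg C (hS hC)) (hS hC') (smul_mem_smul_finset hxC) hxC'
    exact mem_biUnion.2 ⟨g • D, hSb g hg C hC (e ▸ hC') D hD, smul_mem_smul_finset hyD⟩
  · refine Subset.antisymm hS fun C hC => ?_
    obtain ⟨x, hx⟩ : C.Nonempty := card_pos.1 (by rw [card_mem hC]; omega)
    obtain ⟨C', hC', hx'⟩ := mem_biUnion.1 (e ▸ sub_of_mem hO hBO hC hx : x ∈ S.biUnion id)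
    rw [hb.eq_of_mem hC (hS hC') hx hx']; exact hC'

theorem exists_pi {B : Finset Ω} (hO : Orb H O) (hB : Blk H B) (hBO : B ⊆ O) (hne : B.Nonempty) :
    ∃ π : Ω → Finset Ω, (∀ x ∈ O, π x ∈ orb H B ∧ x ∈ π x) ∧ O.image π = orb H B ∧
      ∀ u ∈ H, ∀ x ∈ O, π (u • x) = u • π x := by
  obtain ⟨a, ha⟩ := hne
  have : ∀ x ∈ O, ∃ C ∈ orb H B, x ∈ C := fun x hx => by
    rw [Blk.cover hO ha hBO] at hx
    exact mem_biUnion.1 hx
  choose! π h1 h2 using this
  refine ⟨π, fun x hx => ⟨h1 x hx, h2 x hx⟩, Subset.antisymm (fun C hC => ?_) fun C hC => ?_,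
    fun u hu x hx => ?_⟩
  · obtain ⟨x, hx, rfl⟩ := mem_image.1 hC
    exact h1 x hx
  · obtain ⟨x, hx⟩ : C.Nonempty := card_pos.1 (by rw [card_mem hC]; exact card_pos.2 ⟨a, ha⟩)
    have hxO := sub_of_mem hO hBO hC hx
    exact mem_image.2 ⟨x, hxO, hB.eq_of_mem (h1 x hxO) hC (h2 x hxO) hx⟩
  · exact hB.eq_of_mem (h1 _ (hO.inv u hu x hx)) ((orb_orb H B).inv u hu _ (h1 x hx))
      (h2 _ (hO.inv u hu x hx)) (smul_mem_smul_finset (h2 x hx))

theorem card_sys_lt {B : Finset Ω} (hO : Orb H O) (hB : Blk H B) (hBO : B ⊆ O) (h2 : 2 ≤ B.card) :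
    (orb H B).card < O.card := by
  rw [card_blk hO hB hBO (card_pos.1 (by omega))]
  have : 0 < (orb H B).card := card_pos.2 ⟨B, self_mem_orb H B⟩
  nlinarith

theorem g2_of (hT : TT p n) {a c : Ω} (ha : Fx (P : Subgroup G) a) (hca : c ≠ a)
    (hn : (orb (NN p G a) c).card < n) (hm : Mv (P : Subgroup G) (orb (NN p G a) c))
    (hlt : dl p (P : Subgroup G) (orb (NN p G a) c) < 2 * ((p : ℚ) - 1))
    (hI : ¬ II p (P : Subgroup G) a c) :
    Prim (NN p G a) (orb (NN p G a) c) ∧ (p : ℚ) - 1 ≤ dl p (P : Subgroup G) (orb (NN p G a) c) ∧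
      ((mv (P : Subgroup G) (orb (NN p G a) c)).card = p → (orb (NN p G a) c).card = p) := by
  classical
  have hP := le_NN ha
  have hO : Orb (NN p G a) (orb (NN p G a) c) := orb_orb _ c
  have hp0 := p_pos (p := p)
  have hp2 := p_two (p := p)
  by_cases hpr : Prim (NN p G a) (orb (NN p G a) c)
  · have h3 : (mv (P : Subgroup G) (orb (NN p G a) c)).card = p →
        (fx (P : Subgroup G) (orb (NN p G a) c)).card = 0 := fun hc => by
      by_contra h0
      obtain ⟨c0, hc0⟩ := card_pos.1 (Nat.pos_of_ne_zero h0)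
      have h1 := lt_of_mv hP hO hc
      have h2 := card_fx_mv (P : Subgroup G) (orb (NN p G a) c)
      refine hI (I_of ha hca id (fun _ _ _ _ => rfl) ?_ (mem_fx.1 hc0).1 (mem_fx.1 hc0).2
        fun _ _ _ _ e => e)
      rw [image_id]
      exact ⟨hP, hO, hc, by omega⟩
    refine ⟨hpr, ?_, fun hc => ?_⟩
    · rcases (hT G Ω P _ _ hP hO hn hm).2 hpr with hc | h
      · rw [dl_of_mv (Inv.mono hO.inv hP) hc, h3 hc]; simp
      · linarith [mod_le (p := p) (fx (P : Subgroup G) (orb (NN p G a) c)).card]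
    · have h2 := card_fx_mv (P : Subgroup G) (orb (NN p G a) c)
      rw [h3 hc, hc] at h2
      omega
  exfalso
  obtain ⟨B, hBO, hB, h2, hne, hS⟩ := exists_max hO hpr
  have hBn : B.Nonempty := card_pos.1 (by omega)
  have h2' : (2 : ℚ) ≤ B.card := by exact_mod_cast h2
  have hSO : Orb (NN p G a) (orb (NN p G a) B) := orb_orb _ B
  have hSI := Inv.mono hSO.inv hP
  have hmS : Mv (P : Subgroup G) (orb (NN p G a) B) := by
    obtain ⟨x, hx, hxB⟩ := exists_of_ssubset (Finset.ssubset_iff_subset_ne.2 ⟨hBO, hne⟩)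
    obtain ⟨b, hb⟩ := hBn
    obtain ⟨u, hu, rfl⟩ := hO.tr b (hBO hb) x hx
    exact mv_orb (le_fix1 ha) hu fun e => hxB (e ▸ smul_mem_smul_finset hb)
  have hle : (p : ℚ) ≤ (mv (P : Subgroup G) (orb (NN p G a) B)).card := by
    exact_mod_cast le_mv hSI hmS
  have hR := hT G (Finset Ω) P _ _ hP hSO ((card_sys_lt hO hB hBO h2).trans hn) hmS
  rcases blk hT hP hO hB hBO hBn ((card_le_card hBO).trans_lt hn) with h | ⟨h4, h5, h6⟩
  · have e : (p : ℚ) * (((p : ℚ) - 1) / p) = p - 1 := by field_simp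
    have h7 : 2 * (p : ℚ) ≤ B.card * (mv (P : Subgroup G) (orb (NN p G a) B)).card := by nlinarith
    have h8 := mul_le_mul_of_nonneg_right h7 (frac_pos (p := p))
    rw [mul_assoc, e] at h8
    linarith
  have h7 : dl p (P : Subgroup G) (orb (NN p G a) B) < p - 1 := by
    by_contra h
    push Not at h
    nlinarith
  have hc : (mv (P : Subgroup G) (orb (NN p G a) B)).card = p := (hR.2 hS).resolve_right fun h => by
    linarith [mod_le (p := p) (fx (P : Subgroup G) (orb (NN p G a) B)).card]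
  obtain ⟨C, hC⟩ : (fx (P : Subgroup G) (orb (NN p G a) B)).Nonempty := by
    rw [dl_of_mv hSI hc] at h7
    exact card_pos.1 (by exact_mod_cast (by linarith :
      (0 : ℚ) < (fx (P : Subgroup G) (orb (NN p G a) B)).card))
  obtain ⟨π, p1, p2, p3⟩ := exists_pi hO hB hBO hBn
  obtain ⟨c0, hc0, e0⟩ := mem_image.1 (p2 ▸ (mem_fx.1 hC).1 : C ∈ (orb (NN p G a) c).image π)
  have h1 := lt_of_mv hP hSO hc
  have h3 := card_fx_mv (P : Subgroup G) (orb (NN p G a) B)
  refine hI (I_of ha hca π p3 (p2 ▸ ⟨hP, hSO, hc, by omega⟩) hc0 (e0 ▸ (mem_fx.1 hC).2)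
    fun y hy x hx e => ?_)
  by_contra hyx
  have h8 := h6 hc y hy _ (p1 x hx).1 e x (p1 x hx).2 hyx
  have h9 := mul_nonneg (Nat.cast_nonneg (α := ℚ) B.card) hR.1
  linarith

theorem not_dvd (htr : Orb (⊤ : Subgroup G) (univ : Finset Ω)) {a : Ω} (ha : Fx (P : Subgroup G) a) :
    ¬ p ∣ Fintype.card Ω := by
  haveI : MulAction.IsPretransitive G Ω := ⟨fun x y => by
    obtain ⟨h, -, e⟩ := htr.tr x (mem_univ _) y (mem_univ _)
    exact ⟨h, e⟩⟩
  intro h
  have h1 : (P : Subgroup G) ≤ MulAction.stabilizer G a := fun k hk => ha k hk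
  have h2 := Subgroup.index_dvd_of_le h1
  rw [MulAction.index_stabilizer_of_transitive, Nat.card_eq_fintype_card] at h2
  exact P.not_dvd_index (h.trans h2)

theorem prim_case (hT : TT p n) (hn : Fintype.card Ω = n)
    (htr : Orb (⊤ : Subgroup G) (univ : Finset Ω)) (hm : Mv (P : Subgroup G) (univ : Finset Ω))
    (hG : ¬ Geo p (P : Subgroup G) Ω) (hpr : Prim (⊤ : Subgroup G) (univ : Finset Ω)) :
    (mv (P : Subgroup G) (univ : Finset Ω)).card = p ∨ 2 * ((p : ℚ) - 1) ≤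
      dl p (P : Subgroup G) (univ : Finset Ω) +
        (((fx (P : Subgroup G) (univ : Finset Ω)).card % p : ℕ) : ℚ) := by
  classical
  by_contra hc
  push Not at hc
  obtain ⟨hc1, hc2⟩ := hc
  have hp0 := p_pos (p := p)
  have hp2 := p_two (p := p)
  have hI : Inv (P : Subgroup G) (univ : Finset Ω) := fun _ _ _ _ => mem_univ _
  obtain ⟨k, hk⟩ := dvd_card_mv hI
  have hk1 := le_mv hI hm
  have hsum := card_fx_mv (P : Subgroup G) (univ : Finset Ω)
  rw [card_univ] at hsum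
  set f := (fx (P : Subgroup G) (univ : Finset Ω)).card with hf
  by_cases hfp : f < p
  · have h1 := dl_ge (p := p) (K := (P : Subgroup G)) (univ : Finset Ω)
    have hk2 : 2 ≤ k := by
      rcases k with _ | _ | k
      · have := hp.out.pos; omega
      · exact absurd (by simpa using hk) hc1
      · omega
    have hk3 : (2 : ℚ) ≤ k := by exact_mod_cast hk2
    have e : ((p * k : ℕ) : ℚ) * (((p : ℚ) - 1) / p) = k * (p - 1) := by push_cast; field_simp
    rw [hk, e, ← hf] at h1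
    rw [Nat.mod_eq_of_lt hfp] at hc2
    nlinarith
  push Not at hfp
  obtain ⟨a0, ha0⟩ : (fx (P : Subgroup G) (univ : Finset Ω)).Nonempty :=
    card_pos.1 (hp.out.pos.trans_le hfp)
  have hnd := not_dvd htr (mem_fx.1 ha0).2
  have hρ : f % p ≠ 0 := fun e => hnd (by
    rw [← hsum, hk]; exact dvd_add (Nat.dvd_of_mod_eq_zero e) (dvd_mul_right p k))
  have hρ' : (1 : ℚ) ≤ ((f % p : ℕ) : ℚ) := by exact_mod_cast Nat.pos_of_ne_zero hρ
  have hbig : p + 1 ≤ f := by
    rcases hfp.eq_or_lt with e | e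
    · exact absurd (by rw [← e, Nat.mod_self]) hρ
    · exact e
  have hnot : ∀ a c : Ω, c ≠ a → a ∉ orb (NN p G a) c := fun a c hca h => by
    obtain ⟨u, hu, e⟩ := mem_orb.1 h
    exact hca (smul_left_cancel u (e.trans (NN_fix hu).symm))
  have hcard : ∀ (a : Ω) (S : Finset Ω), a ∉ S → S.card < n := fun a S h =>
    hn ▸ card_lt_univ_of_notMem h
  have hS : ∀ a : Ω, Fx (P : Subgroup G) a → dl p (P : Subgroup G) (univ \ {a}) =
      dl p (P : Subgroup G) (univ : Finset Ω) + 1 := fun a ha => by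
    rw [dl_sdiff (subset_univ {a})]
    simp [dl, wt_fx ha]
  have hpos : ∀ a : Ω, Fx (P : Subgroup G) a → ∀ S : Finset Ω, Inv (NN p G a) S → a ∉ S →
      0 ≤ dl p (P : Subgroup G) S := fun a ha S hS haS =>
    nonneg_of_orbs hS fun x hx => by
      have hxa : x ≠ a := fun e => haS (e ▸ hx)
      exact (hT G Ω P _ _ (le_NN ha) (orb_orb _ x) (hcard a _ (hnot a x hxa))
        (mvN htr hpr hm ha hxa)).1
  have hinv : ∀ a : Ω, Inv (NN p G a) (univ \ {a}) := fun a u hu x hx => by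
    simp only [mem_sdiff, mem_univ, mem_singleton, true_and] at hx ⊢
    exact fun e => hx (smul_left_cancel u (e.trans (NN_fix hu).symm))
  have g1 : ∀ a : Ω, Fx (P : Subgroup G) a → ∀ S : Finset Ω, Inv (NN p G a) S → a ∉ S →
      0 ≤ dl p (P : Subgroup G) S ∧ dl p (P : Subgroup G) S < 2 * ((p : ℚ) - 1) := fun a ha S h1 h2 => by
    refine ⟨hpos a ha S h1 h2, ?_⟩
    have h3 : S ⊆ univ \ {a} := fun x hx => by
      simp only [mem_sdiff, mem_univ, mem_singleton, true_and]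
      exact fun e => h2 (e ▸ hx)
    have h4 := dl_sdiff (p := p) (K := (P : Subgroup G)) h3
    have h5 := hpos a ha _ ((hinv a).sdiff h1) (by simp)
    have h6 := hS a ha
    linarith
  have g2 : ∀ a : Ω, Fx (P : Subgroup G) a → ∀ c ∈ EE p (P : Subgroup G) a,
      Prim (NN p G a) (orb (NN p G a) c) ∧ (p : ℚ) - 1 ≤ dl p (P : Subgroup G) (orb (NN p G a) c) ∧
      ((mv (P : Subgroup G) (orb (NN p G a) c)).card = p → (orb (NN p G a) c).card = p) :=
    fun a ha c hc => by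
      obtain ⟨h1, h2⟩ := mem_EE.1 hc
      exact g2_of hT ha h1 (hcard a _ (hnot a c h1)) (mvN htr hpr hm ha h1)
        (g1 a ha _ (orb_orb _ c).inv (hnot a c h1)).2 h2
  refine hG ⟨htr, hpr, hbig, g1, g2, ?_⟩
  by_contra hno
  push Not at hno
  have ha := (mem_fx.1 ha0).2
  obtain ⟨c, -, hcm⟩ := id hm
  have hca : c ≠ a0 := fun e => hcm (e ▸ ha)
  have hE : ∀ x, x ≠ a0 → x ∈ EE p (P : Subgroup G) a0 := fun x hx => mem_EE.2 ⟨hx, hno a0 x⟩
  have hΓ : orb (NN p G a0) c = univ \ {a0} := by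
    refine Subset.antisymm (orb_subset (hinv a0) (by simpa using hca)) fun d hd => ?_
    by_contra hdc
    have hda : d ≠ a0 := by simpa using hd
    have hsub : orb (NN p G a0) d ⊆ (univ \ {a0}) \ orb (NN p G a0) c :=
      orb_subset ((hinv a0).sdiff (orb_orb _ c).inv) (mem_sdiff.2 ⟨hd, hdc⟩)
    have h1 := dl_sdiff (p := p) (K := (P : Subgroup G)) hsub
    have h2 := dl_sdiff (p := p) (K := (P : Subgroup G))
      (orb_subset (hinv a0) (by simpa using hca : c ∈ univ \ {a0}))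
    have h3 := hpos a0 ha _ (((hinv a0).sdiff (orb_orb _ c).inv).sdiff (orb_orb _ d).inv) (by simp)
    have h4 := (g2 a0 ha c (hE c hca)).2.1
    have h5 := (g2 a0 ha d (hE d hda)).2.1
    have h6 := (g1 a0 ha _ (hinv a0) (by simp)).2
    linarith
  have hR := (hT G Ω P _ _ (le_NN ha) (orb_orb _ c) (hcard a0 _ (hnot a0 c hca))
    (mvN htr hpr hm ha hca)).2 (g2 a0 ha c (hE c hca)).1
  rw [hΓ] at hR
  have e1 : mv (P : Subgroup G) (univ \ {a0}) = mv (P : Subgroup G) (univ : Finset Ω) := by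
    ext x
    simp only [mem_mv, mem_sdiff, mem_univ, mem_singleton, true_and]
    exact ⟨fun h => h.2, fun h => ⟨fun e => h (e ▸ ha), h⟩⟩
  have e2 : (fx (P : Subgroup G) (univ \ {a0})).card + 1 = f := by
    have h1 := card_fx_mv (P : Subgroup G) (univ \ {a0})
    rw [e1, card_univ_diff, card_singleton] at h1
    omega
  rw [e1, hS a0 ha] at hR
  refine hR.elim hc1 fun h => ?_
  have e3 : (fx (P : Subgroup G) (univ \ {a0})).card % p + 1 = f % p := by
    rw [← e2] at hρ ⊢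
    have h1 := Nat.mod_lt (fx (P : Subgroup G) (univ \ {a0})).card hp.out.pos
    rw [Nat.add_mod, Nat.mod_eq_of_lt hp.out.one_lt] at hρ ⊢
    rcases (Nat.succ_le_of_lt h1).eq_or_lt with e | e
    · exact absurd (by rw [show _ % p + 1 = p from e, Nat.mod_self]) hρ
    · exact (Nat.mod_eq_of_lt e).symm
  rw [← e3] at hc2
  push_cast at hc2
  linarith

end St

open St in
theorem step_univ (hp2 : p ≠ 2) (hT : TT p n) (hn : Fintype.card Ω = n)
    (htr : Orb (⊤ : Subgroup G) (univ : Finset Ω)) (hm : Mv (P : Subgroup G) (univ : Finset Ω))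
    (hG : ¬ Geo p (P : Subgroup G) Ω) : Res p (P : Subgroup G) ⊤ (univ : Finset Ω) := by
  classical
  refine ⟨?_, prim_case hT hn htr hm hG⟩
  by_cases hpr : Prim (⊤ : Subgroup G) (univ : Finset Ω)
  · rcases prim_case hT hn htr hm hG hpr with h | h
    · rw [dl_of_mv (fun _ _ _ _ => mem_univ _) h]
      have h1 : ((fx (P : Subgroup G) (univ : Finset Ω)).card + 1 : ℚ) ≤ p := by
        exact_mod_cast lt_of_mv le_top htr h
      linarith
    · linarith [mod_le (p := p) (fx (P : Subgroup G) (univ : Finset Ω)).card, p_two (p := p)]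
  obtain ⟨B, hBO, hB, h2, hne, -⟩ := exists_max htr hpr
  have hBn : B.Nonempty := card_pos.1 (by omega)
  have hlt : B.card < n := hn ▸ card_lt_card (Finset.ssubset_iff_subset_ne.2 ⟨hBO, hne⟩)
  rcases blk (P := P) hT le_top htr hB hBO hBn hlt with h | ⟨h4, h5, -⟩
  · exact le_trans (mul_nonneg (by positivity) frac_pos) h
  · refine le_trans (mul_nonneg (Nat.cast_nonneg _) ?_) h5
    refine (hT G (Finset Ω) P ⊤ _ le_top (orb_orb _ B) (hn ▸ card_sys_lt htr hB hBO h2) ?_).1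
    obtain ⟨x, -, hx⟩ := hm
    obtain ⟨π, p1, -, -⟩ := exists_pi htr hB hBO hBn
    exact ⟨π x, (p1 x (mem_univ x)).1, fun h => hx (h4 _ (p1 x (mem_univ x)).1 h x (p1 x (mem_univ x)).2)⟩

end Cfsg.Agent.L0.Sy
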