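import Cfsg.Agent.L0.SyA

/-! S3580, piece ST (part 1): the block lemma. -/

set_option autoImplicit false
set_option linter.unusedSectionVars false
set_option linter.unusedVariables false

namespace Cfsg.Agent.L0.Sy.St

open Finset Pn
open scoped Pointwise

variable {G : Type} [Group G] [Finite G] {Ω : Type} [Fintype Ω] [DecidableEq Ω] [MulAction G Ω]
  {T : Type} [Fintype T] [DecidableEq T] [MulAction G T]
  {p : ℕ} [hp : Fact p.Prime] {P : Sylow p G} {K X Y H : Subgroup G} {O W Λ : Finset Ω} {n : ℕ}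

theorem dl_sdiff {A U : Finset Ω} (h : A ⊆ U) : dl p K U = dl p K (U \ A) + dl p K A := by
  unfold dl; rw [sum_sdiff h]

theorem p_pos : (0 : ℚ) < p := by exact_mod_cast hp.out.pos

theorem p_two : (2 : ℚ) ≤ p := by exact_mod_cast hp.out.two_le

theorem frac_pos : (0 : ℚ) ≤ ((p : ℚ) - 1) / p :=
  div_nonneg (by linarith [p_two (p := p)]) p_pos.le

theorem wt_fx {x : Ω} (h : Fx K x) : wt p K x = -1 := by simp [wt, h]

theorem wt_le (x : Ω) : wt p K x ≤ ((p : ℚ) ^ 2 + p - 1) / (p : ℚ) ^ 2 := by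
  have h := p_pos (p := p)
  have h2 := p_two (p := p)
  unfold wt
  split_ifs
  · have : (0 : ℚ) ≤ ((p : ℚ) ^ 2 + p - 1) / (p : ℚ) ^ 2 := div_nonneg (by nlinarith) (by positivity)
    linarith
  · rw [div_le_div_iff₀ h (by positivity)]; nlinarith [mul_pos h h, mul_pos h (mul_pos h h)]
  · exact le_rfl

theorem nonneg_of_orbs {U : Finset Ω} (hU : Inv H U) (h : ∀ x ∈ U, 0 ≤ dl p K (orb H x)) :
    0 ≤ dl p K U := by
  induction U using Finset.strongInduction with
  | H U ih =>
    rcases U.eq_empty_or_nonempty with rfl | ⟨x, hx⟩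
    · simp [dl]
    have hs := orb_subset hU hx
    have h2 := ih (U \ orb H x) (sdiff_ssubset hs ⟨x, self_mem_orb H x⟩) (hU.sdiff (orb_orb H x).inv)
      (fun y hy => h y (mem_sdiff.1 hy).1)
    rw [dl_sdiff hs]
    exact add_nonneg h2 (h x hx)

theorem orb_subset_mv (hI : Inv K W) {x : Ω} (hx : x ∈ W) (h : ¬ Fx K x) : orb K x ⊆ mv K W := by
  intro y hy
  refine mem_mv.2 ⟨orb_subset hI hx hy, fun hf => h ?_⟩
  obtain ⟨g, hg, rfl⟩ := mem_orb.1 hy
  have e := hf g⁻¹ (K.inv_mem hg)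
  rw [inv_smul_smul] at e
  rw [e]; exact hf

theorem card_orb_of_mv (hI : Inv (P : Subgroup G) W) (hc : (mv (P : Subgroup G) W).card = p) {x : Ω}
    (hx : x ∈ W) (h : ¬ Fx (P : Subgroup G) x) : (orb (P : Subgroup G) x).card = p :=
  le_antisymm ((card_le_card (orb_subset_mv hI hx h)).trans hc.le)
    (Nat.le_of_dvd (card_pos.2 ⟨x, self_mem_orb _ x⟩) (dvd_card_orb h))

theorem dl_of_mv (hI : Inv (P : Subgroup G) W) (hc : (mv (P : Subgroup G) W).card = p) :
    dl p (P : Subgroup G) W = (p : ℚ) - 1 - (fx (P : Subgroup G) W).card := by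
  rw [dl_eq fun x hx h => card_orb_of_mv hI hc hx h, hc]
  have := p_pos (p := p)
  field_simp

theorem Inv.mono (h : Inv H W) (hK : K ≤ H) : Inv K W := fun k hk => h k (hK hk)

theorem lt_of_mv (hP : (P : Subgroup G) ≤ H) (hO : Orb H O) (hc : (mv (P : Subgroup G) O).card = p) :
    (fx (P : Subgroup G) O).card < p := by
  have hm : Mv (P : Subgroup G) O := by
    obtain ⟨x, hx⟩ := card_pos.1 (hp.out.pos.trans_eq hc.symm)
    exact ⟨x, (mem_mv.1 hx).1, (mem_mv.1 hx).2⟩
  have h1 := pp pro_syl (O.card + 1) Ω H O hP hO (Nat.lt_succ_self _) hm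
  have h2 := card_fx_mv (P : Subgroup G) O
  unfold del at h1
  omega

section Blk
variable {B : Finset Ω}

theorem blk_disj (hB : Blk H B) : ((orb H B : Finset (Finset Ω)) : Set (Finset Ω)).PairwiseDisjoint id := by
  intro C hC C' hC' hne
  exact disjoint_left.2 fun x hx hx' => hne (hB.eq_of_mem hC hC' hx hx')

theorem card_mem (hC : W ∈ orb H B) : W.card = B.card := by
  obtain ⟨g, -, rfl⟩ := mem_orb.1 hC
  exact card_smul_finset g B

theorem sum_blk {M : Type} [AddCommMonoid M] (hO : Orb H O) (hB : Blk H B) (hBO : B ⊆ O)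
    (hne : B.Nonempty) (f : Ω → M) : ∑ x ∈ O, f x = ∑ C ∈ orb H B, ∑ x ∈ C, f x := by
  obtain ⟨a, ha⟩ := hne
  conv_lhs => rw [Blk.cover hO ha hBO]
  exact sum_biUnion (blk_disj hB)

theorem card_blk (hO : Orb H O) (hB : Blk H B) (hBO : B ⊆ O) (hne : B.Nonempty) :
    O.card = (orb H B).card * B.card := by
  rw [card_eq_sum_ones, sum_blk hO hB hBO hne, sum_congr rfl fun C hC => by
    rw [← card_eq_sum_ones, card_mem hC]]
  simp

theorem blk_of_mem (hB : Blk H B) (hC : W ∈ orb H B) : Blk H W := by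
  intro h hh x hx hx' y hy
  have e : h • W = W := hB.eq_of_mem ((orb_orb H B).inv h hh W hC) hC (smul_mem_smul_finset hx) hx'
  exact e ▸ smul_mem_smul_finset hy

theorem sub_of_mem (hO : Orb H O) (hBO : B ⊆ O) (hC : W ∈ orb H B) : W ⊆ O := by
  obtain ⟨g, hg, rfl⟩ := mem_orb.1 hC
  intro x hx
  obtain ⟨y, hy, rfl⟩ := mem_smul_finset.1 hx
  exact hO.inv g hg y (hBO hy)

/-- the orbit of a block is dominated by the orbit of a point -/
theorem card_orb_le (hB : Blk H B) (hK : K ≤ H) (hC : W ∈ orb H B) {x : Ω} (hx : x ∈ W) (S : Finset Ω)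
    (hS : ∀ k ∈ K, ∃ z ∈ S, z ∈ k • W) : (orb K W).card ≤ S.card := by
  classical
  haveI : Nonempty Ω := ⟨x⟩
  have : ∀ D ∈ orb K W, ∃ z ∈ S, z ∈ D := fun D hD => by
    obtain ⟨k, hk, rfl⟩ := mem_orb.1 hD
    exact hS k hk
  choose! φ h1 h2 using this
  have hm : ∀ D ∈ orb K W, D ∈ orb H B := fun D hD => by
    obtain ⟨k, hk, rfl⟩ := mem_orb.1 hD
    exact (orb_orb H B).inv k (hK hk) W hC
  exact card_le_card_of_injOn φ h1 fun D hD D' hD' e =>
    hB.eq_of_mem (hm D hD) (hm D' hD') (h2 D hD) (e ▸ h2 D' hD')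

theorem not_fx (hB : Blk H B) (hK : K ≤ H) (hC : W ∈ orb H B) (h : ¬ Fx K W) {x : Ω} (hx : x ∈ W) :
    ¬ Fx K x := fun hf => h (hB.fx hK hC (mem_fx.2 ⟨hx, hf⟩))

theorem wt_blk (hB : Blk H B) (hK : (P : Subgroup G) ≤ H) (hC : W ∈ orb H B)
    (h : ¬ Fx (P : Subgroup G) W) {x : Ω} (hx : x ∈ W) :
    wt p (P : Subgroup G) W ≤ wt p (P : Subgroup G) x := by
  have h1 := not_fx hB hK hC h hx
  by_cases h2 : (orb (P : Subgroup G) x).card = p
  · have h3 : (orb (P : Subgroup G) W).card = p := by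
      refine le_antisymm ((card_orb_le hB hK hC hx _ fun k hk => ?_).trans h2.le)
        (Nat.le_of_dvd (card_pos.2 ⟨W, self_mem_orb _ W⟩) (dvd_card_orb h))
      exact ⟨k • x, mem_orb.2 ⟨k, hk, rfl⟩, smul_mem_smul_finset hx⟩
    simp [wt, h, h1, h2, h3]
  · have : wt p (P : Subgroup G) x = ((p : ℚ) ^ 2 + p - 1) / (p : ℚ) ^ 2 := by simp [wt, h1, h2]
    rw [this]; exact wt_le W

theorem dl_blk (hB : Blk H B) (hK : (P : Subgroup G) ≤ H) (hC : W ∈ orb H B)
    (h : ¬ Fx (P : Subgroup G) W) : (B.card : ℚ) * wt p (P : Subgroup G) W ≤ dl p (P : Subgroup G) W := by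
  rw [← card_mem hC, ← nsmul_eq_mul, ← sum_const]
  exact sum_le_sum fun x hx => wt_blk hB hK hC h hx

theorem blk (hT : TT p n) (hK : (P : Subgroup G) ≤ H) (hO : Orb H O) (hB : Blk H B) (hBO : B ⊆ O)
    (hne : B.Nonempty) (hn : B.card < n) :
    (B.card : ℚ) * (mv (P : Subgroup G) (orb H B)).card * (((p : ℚ) - 1) / p) ≤ dl p (P : Subgroup G) O ∨
    ((∀ C ∈ orb H B, Fx (P : Subgroup G) C → ∀ x ∈ C, Fx (P : Subgroup G) x) ∧
      (B.card : ℚ) * dl p (P : Subgroup G) (orb H B) ≤ dl p (P : Subgroup G) O ∧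
      ((mv (P : Subgroup G) (orb H B)).card = p → ∀ y ∈ (P : Subgroup G), ∀ C ∈ orb H B, y • C = C →
        ∀ x ∈ C, y • x ≠ x →
        (B.card : ℚ) * dl p (P : Subgroup G) (orb H B) + (2 * p - 1) ≤ dl p (P : Subgroup G) O)) := by
  classical
  have hs : dl p (P : Subgroup G) O = ∑ C ∈ orb H B, dl p (P : Subgroup G) C := sum_blk hO hB hBO hne _
  by_cases hA : ∀ C ∈ orb H B, Fx (P : Subgroup G) C → ∀ x ∈ C, Fx (P : Subgroup G) x
  · right
    refine ⟨hA, ?_, fun hc y hy C hC hyC x hx hyx => ?_⟩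
    · rw [hs, dl, mul_sum]
      refine sum_le_sum fun C hC => ?_
      by_cases h : Fx (P : Subgroup G) C
      · rw [wt_fx h, dl, sum_congr rfl fun x hx => wt_fx (hA C hC h x hx), sum_const, card_mem hC]
        simp
      · exact dl_blk hB hK hC h
    · have hx1 : ¬ Fx (P : Subgroup G) x := fun h => hyx (h y hy)
      have hC1 : ¬ Fx (P : Subgroup G) C := fun h => hx1 (hA C hC h x hx)
      have hI : Inv (P : Subgroup G) (orb H B) := Inv.mono (orb_orb H B).inv hK
      have h1 := card_orb_of_mv hI hc hC hC1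
      have h2 : (orb (P : Subgroup G) x).card ≠ p := fun e => by
        have h3 := card_orb_le hB hK hC hx ((orb (P : Subgroup G) x).erase x) fun k hk => by
          by_cases h4 : k • x = x
          · refine ⟨y • x, mem_erase.2 ⟨hyx, mem_orb.2 ⟨y, hy, rfl⟩⟩, ?_⟩
            have e1 : k • C = C := hB.eq_of_mem ((orb_orb H B).inv k (hK hk) C hC) hC
              (h4 ▸ smul_mem_smul_finset hx) hx
            rw [e1, ← hyC]; exact smul_mem_smul_finset hx
          · exact ⟨k • x, mem_erase.2 ⟨h4, mem_orb.2 ⟨k, hk, rfl⟩⟩, smul_mem_smul_finset hx⟩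
        rw [card_erase_of_mem (self_mem_orb _ x), e, h1] at h3
        have := hp.out.pos
        omega
      have h3 := dl_ge_big (Inv.mono hO.inv hK) (sub_of_mem hO hBO hC hx) hx1 h2
      have h4 : (fx (P : Subgroup G) O).card = (fx (P : Subgroup G) (orb H B)).card * B.card := by
        unfold fx
        rw [card_filter, sum_blk hO hB hBO hne, card_filter, sum_mul]
        refine sum_congr rfl fun D hD => ?_
        by_cases h : Fx (P : Subgroup G) D
        · rw [if_pos h, sum_congr rfl fun z hz => if_pos (hA D hD h z hz), ← card_mem hD]; simp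
        · rw [if_neg h, sum_congr rfl fun z hz => if_neg (not_fx hB hK hD h hz)]; simp
      have h5 : (mv (P : Subgroup G) O).card = p * B.card := by
        have e1 := card_fx_mv (P : Subgroup G) O
        have e2 := card_fx_mv (P : Subgroup G) (orb H B)
        rw [card_blk hO hB hBO hne, ← e2, h4, hc, add_mul] at e1
        omega
      rw [h4, h5] at h3
      rw [dl_of_mv hI hc]
      have h6 : ((p * B.card : ℕ) : ℚ) * (((p : ℚ) - 1) / p) = B.card * ((p : ℚ) - 1) := by
        have := p_pos (p := p)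
        push_cast; field_simp
      rw [h6] at h3
      push_cast at h3
      linarith
  · left
    push Not at hA
    obtain ⟨C0, hC0, hf0, x0, hx0, hm0⟩ := hA
    have hall : ∀ C ∈ orb H B, Fx (P : Subgroup G) C → 0 ≤ dl p (P : Subgroup G) C := fun C hC hf => by
      obtain ⟨g, hg, e⟩ := (orb_orb H B).tr C0 hC0 C hC
      obtain ⟨m, hm, e1, e2⟩ := witt (D := {C0}) pro_syl hK hg (by simpa using hf0)
        (by simpa [e] using hf)
      have e3 : m • C0 = C := (e2 C0 (mem_singleton_self _)).trans e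
      have hm1 : ¬ Fx (P : Subgroup G) (m • x0) := fun h => hm0 fun k hk => by
        have := (e1 {x0}).1 (fun k hk => by
          rw [smul_finset_singleton, smul_finset_singleton, h k hk]) k hk
        rw [smul_finset_singleton] at this
        exact singleton_injective this
      exact (hT G Ω P (H ⊓ MulAction.stabilizer G C) C (fun k hk => ⟨hK hk, hf k hk⟩)
        ((blk_of_mem hB hC).orb hO (sub_of_mem hO hBO hC)) (card_mem hC ▸ hn)
        ⟨m • x0, e3 ▸ smul_mem_smul_finset hx0, hm1⟩).1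
    rw [hs]
    unfold mv
    rw [card_filter, Nat.cast_sum, mul_sum, sum_mul]
    refine sum_le_sum fun C hC => ?_
    by_cases h : Fx (P : Subgroup G) C
    · rw [if_neg (not_not.2 h)]; simpa using hall C hC h
    · rw [if_pos h]
      refine le_trans ?_ (dl_blk hB hK hC h)
      rw [Nat.cast_one, mul_one]
      exact mul_le_mul_of_nonneg_left (wt_ge h) (Nat.cast_nonneg _)

end Blk

end Cfsg.Agent.L0.Sy.St
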