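import Cfsg.Agent.H2.SySt1

/-! S3580, piece ST (part 2): recognising collinear pairs. -/

set_option autoImplicit false
set_option linter.unusedSectionVars false
set_option linter.unusedVariables false

namespace Cfsg.Agent.L0.Sy.St

open Finset Pn
open scoped Pointwise

variable {G : Type} [Group G] [Finite G] {Ω : Type} [Fintype Ω] [DecidableEq Ω] [MulAction G Ω]
  {T : Type} [Fintype T] [DecidableEq T] [MulAction G T]
  {p : ℕ} [hp : Fact p.Prime] {P : Sylow p G} {K X Y H : Subgroup G} {O W Λ : Finset Ω} {n : ℕ}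

theorem card_image_le' {α β γ : Type} [DecidableEq β] [DecidableEq γ] (s : Finset α) (f : α → β)
    (g : α → γ) (h : ∀ x ∈ s, ∀ y ∈ s, g x = g y → f x = f y) :
    (s.image f).card ≤ (s.image g).card := by
  classical
  rcases s.eq_empty_or_nonempty with rfl | ⟨a, ha⟩
  · simp
  haveI : Nonempty α := ⟨a⟩
  have : ∀ b ∈ s.image f, ∃ x ∈ s, f x = b := fun b hb => mem_image.1 hb
  choose! σ h1 h2 using this
  exact card_le_card_of_injOn (fun b => g (σ b)) (fun b hb => mem_image_of_mem g (h1 b hb))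
    fun b hb b' hb' e => by
      rw [← h2 b hb, ← h2 b' hb']; exact h _ (h1 b hb) _ (h1 b' hb') e

theorem card_image_congr {α β γ : Type} [DecidableEq β] [DecidableEq γ] (s : Finset α) (f : α → β)
    (g : α → γ) (h : ∀ x ∈ s, ∀ y ∈ s, f x = f y ↔ g x = g y) :
    (s.image f).card = (s.image g).card :=
  le_antisymm (card_image_le' s f g fun x hx y hy => (h x hx y hy).2)
    (card_image_le' s g f fun x hx y hy => (h x hx y hy).1)

theorem mv_image (K : Subgroup G) (s : Finset Ω) (f : Ω → T) :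
    mv K (s.image f) = (s.filter fun x => f x ∈ mv K (s.image f)).image f := by
  ext b
  simp only [mem_image, mem_filter]
  constructor
  · intro hb
    obtain ⟨x, hx, rfl⟩ := mem_image.1 (mem_mv.1 hb).1
    exact ⟨x, ⟨hx, hb⟩, rfl⟩
  · rintro ⟨x, ⟨-, hx⟩, rfl⟩
    exact hx

theorem le_fix1 {a : Ω} (ha : Fx K a) : K ≤ fixS ⊤ {a} :=
  le_fixS le_top (by simpa using ha)

theorem mem_NN {a : Ω} {y : G} (h : pe p y) (ha : y • a = a) : y ∈ NN p G a :=
  mem_Op (mem_fixS.2 ⟨trivial, by simpa using ha⟩) h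

theorem I_of {a c : Ω} (ha : Fx (P : Subgroup G) a) (hca : c ≠ a) (π : Ω → T)
    (heq : ∀ u ∈ NN p G a, ∀ x ∈ orb (NN p G a) c, π (u • x) = u • π x)
    (hc : Cyc p (P : Subgroup G) (NN p G a) ((orb (NN p G a) c).image π))
    {c0 : Ω} (hc0 : c0 ∈ orb (NN p G a) c) (hf : Fx (P : Subgroup G) (π c0))
    (hbt : ∀ y ∈ (P : Subgroup G), ∀ x ∈ orb (NN p G a) c, y • π x = π x → y • x = x) :
    II p (P : Subgroup G) a c := by
  classical
  set Γ := orb (NN p G a) c with hΓ
  have hI : Orb (NN p G a) Γ := orb_orb _ c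
  have BT : ∀ y : G, pe p y → y • a = a → ∀ x ∈ Γ, y • π x = π x → y • x = x := by
    intro y hy hya x hx e
    obtain ⟨g, hg, h1⟩ := syl (le_fix1 ha) (mem_fixS.2 ⟨trivial, by simpa using hya⟩) hy
    have hg' : g⁻¹ ∈ NN p G a := inv_mem hg
    have h2 := hbt _ h1 (g⁻¹ • x) (hI.inv _ hg' x hx) (by
      rw [heq _ hg' x hx, mul_smul, mul_smul, smul_inv_smul, e])
    rw [mul_smul, mul_smul, smul_inv_smul] at h2
    exact smul_left_cancel _ h2
  have hU : ∀ x ∈ Γ, UU p G a x = Op p (fixS (NN p G a) {π x}) := fun x hx => by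
    refine le_antisymm (Op_le_of fun y hy hy' => ?_) (Op_le_of fun y hy hy' => ?_)
    · have h1 : y • a = a := (mem_fixS.1 hy).2 a (by simp)
      have h2 : y • x = x := (mem_fixS.1 hy).2 x (by simp)
      refine mem_Op (mem_fixS.2 ⟨mem_NN hy' h1, fun d hd => ?_⟩) hy'
      rw [mem_singleton.1 hd, ← heq y (mem_NN hy' h1) x hx, h2]
    · have h1 : y • a = a := NN_fix (mem_fixS.1 hy).1
      exact mem_UU hy' h1 (BT y hy' h1 x hx ((mem_fixS.1 hy).2 _ (mem_singleton_self _)))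
  have h0 : ∀ x ∈ Γ, x ∈ ln p G a c0 → π x = π c0 := fun x hx hl => by
    by_contra hne
    have hC := C1 hc (mem_image_of_mem π hc0) hf
    have h1 : π x ∈ Γ.image π \ {π c0} := mem_sdiff.2 ⟨mem_image_of_mem π hx, by simpa using hne⟩
    have h2 : ∀ z ∈ Γ.image π \ {π c0}, z = π x := fun z hz => by
      obtain ⟨u, hu, e⟩ := hC.orb.tr _ h1 z hz
      rw [← hU c0 hc0] at hu
      rw [← e, ← heq u (UU_le a c0 hu) x hx, mem_ln.1 hl u hu]
    have h3 : (mv (P : Subgroup G) (Γ.image π \ {π c0})).card ≤ 1 :=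
      card_le_one.2 fun z hz z' hz' => by rw [h2 z (mem_mv.1 hz).1, h2 z' (mem_mv.1 hz').1]
    have := hC.mvc
    have := hp.out.two_le
    omega
  have hl : ∀ x ∈ Γ, ∀ x' ∈ Γ, ln p G a x = ln p G a x' ↔ π x = π x' := fun x hx x' hx' => by
    constructor
    · intro e
      obtain ⟨u, hu, rfl⟩ := hI.tr c0 hc0 x' hx'
      have h1 : x ∈ u • ln p G a c0 := by
        rw [← ln_smul, NN_fix hu, ← e]; exact right_mem_ln a x
      have hu' := inv_mem hu
      have h2 := h0 _ (hI.inv _ hu' x hx) (inv_smul_mem_iff.2 h1)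
      rw [heq _ hu' x hx, inv_smul_eq_iff] at h2
      rw [h2, heq u hu c0 hc0]
    · intro e
      unfold ln
      rw [hU x hx, hU x' hx', e]
  have hcls : ∀ x ∈ Γ, cls p G a x = Γ.image (ln p G a) := fun x hx => by
    ext m
    rw [mem_cls, mem_image]
    constructor
    · rintro ⟨h, hh, rfl⟩
      exact ⟨h • x, hI.inv h hh x hx, rfl⟩
    · rintro ⟨z, hz, rfl⟩
      obtain ⟨h, hh, rfl⟩ := hI.tr x hx z hz
      exact ⟨h, hh, rfl⟩
  have hP := le_NN ha
  have hfx : ∀ x ∈ Γ, Fx (P : Subgroup G) (ln p G a x) ↔ Fx (P : Subgroup G) (π x) := fun x hx => by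
    refine forall₂_congr fun y hy => ?_
    rw [← ln_smul, ha y hy, hl _ (hI.inv y (hP hy) x hx) x hx, heq y (hP hy) x hx]
  have hcΓ : c ∈ Γ := self_mem_orb _ c
  refine ⟨hca, ?_, ?_, fun y hy hya e => ?_⟩
  · obtain ⟨g, hg, e⟩ := hI.tr c hcΓ c0 hc0
    refine ⟨g, by rw [NN_fix hg]; exact ha, by rw [e]; exact fun y hy => hbt y hy c0 hc0 (hf y hy), ?_⟩
    rw [NN_fix hg, e, hcls c0 hc0]
    refine Eq.trans ?_ hc.mvc
    rw [mv_image, mv_image _ Γ π]
    have e1 : (Γ.filter fun x => ln p G a x ∈ mv (P : Subgroup G) (Γ.image (ln p G a))) =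
        Γ.filter fun x => π x ∈ mv (P : Subgroup G) (Γ.image π) := filter_congr fun x hx => by
      rw [mem_mv, mem_mv, hfx x hx]
      simp only [mem_image_of_mem _ hx, true_and]
    rw [e1]
    exact card_image_congr _ _ _ fun x hx y hy => hl x (mem_filter.1 hx).1 y (mem_filter.1 hy).1
  · unfold deg
    rw [hcls c hcΓ, card_image_congr _ _ _ hl]
    exact hc.lt
  · have hyN := mem_NN hy hya
    rw [← ln_smul, hya, hl _ (hI.inv y hyN c hcΓ) c hcΓ, heq y hyN c hcΓ] at e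
    exact BT y hy hya c hcΓ e

end Cfsg.Agent.L0.Sy.St
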