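import Cfsg.Agent.H2.SySt
import Cfsg.Agent.H9.SyR2

/-! S3580, piece TR: transfer to subgroups and the final reduction. -/

set_option autoImplicit false
set_option linter.unusedSectionVars false
set_option linter.unusedVariables false

namespace Cfsg.Agent.L0.Sy

open Finset Pn
open scoped Pointwise

variable {p : ℕ} [hp : Fact p.Prime] {n : ℕ}

/-- the action of `H` on an invariant set -/
@[reducible] def St.act {G : Type} [Group G] {Ω : Type} [MulAction G Ω] {H : Subgroup G} {O : Finset Ω}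
    (hO : Inv H O) : MulAction H O where
  smul h x := ⟨h.1 • x.1, hO h.1 h.2 x.1 x.2⟩
  one_smul x := Subtype.ext (one_smul G x.1)
  mul_smul a b x := Subtype.ext (mul_smul a.1 b.1 x.1)

theorem transfer' (hT : TT p n)
    (h : ∀ (G : Type) [Group G] [Finite G] (Ω : Type) [Fintype Ω] [DecidableEq Ω] [MulAction G Ω]
      (P : Sylow p G), Fintype.card Ω = n → Orb (⊤ : Subgroup G) (univ : Finset Ω) →
      Mv (P : Subgroup G) (univ : Finset Ω) → Res p (P : Subgroup G) ⊤ (univ : Finset Ω)) :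
    TT p (n + 1) := by
  intro G _ _ Ω _ _ _ P H O hle hO hn hm
  rcases (Nat.le_of_lt_succ hn).eq_or_lt with e | e
  swap
  · exact hT G Ω P H O hle hO e hm
  classical
  letI : MulAction H O := St.act hO.inv
  have hs : ∀ (k : H) (x : O), ((k • x : O) : Ω) = (k : G) • (x : Ω) := fun _ _ => rfl
  have hmem : ∀ k : H, k ∈ (P.subtype hle : Subgroup H) ↔ (k : G) ∈ (P : Subgroup G) := fun k => by
    rw [Sylow.coe_subtype, Subgroup.mem_subgroupOf]
  have hfx : ∀ x : O, Fx (P.subtype hle : Subgroup H) x ↔ Fx (P : Subgroup G) (x : Ω) := fun x =>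
    ⟨fun hf k hk => congrArg Subtype.val (hf ⟨k, hle hk⟩ ((hmem _).2 hk)),
      fun hf k hk => Subtype.ext (hf k ((hmem k).1 hk))⟩
  have horb : ∀ x : O, (orb (P.subtype hle : Subgroup H) x).card = (orb (P : Subgroup G) (x : Ω)).card :=
    fun x => by
      rw [← card_map (Function.Embedding.subtype _)]
      congr 1
      ext y
      simp only [mem_map, mem_orb, Function.Embedding.coe_subtype]
      constructor
      · rintro ⟨_, ⟨k, hk, rfl⟩, rfl⟩
        exact ⟨k, (hmem k).1 hk, rfl⟩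
      · rintro ⟨k, hk, rfl⟩
        exact ⟨_, ⟨⟨k, hle hk⟩, (hmem _).2 hk, rfl⟩, rfl⟩
  have hwt : ∀ x : O, wt p (P.subtype hle : Subgroup H) x = wt p (P : Subgroup G) (x : Ω) := fun x => by
    unfold wt
    rw [horb x]
    by_cases hx : Fx (P : Subgroup G) (x : Ω)
    · rw [if_pos hx, if_pos ((hfx x).2 hx)]
    · rw [if_neg hx, if_neg (fun h => hx ((hfx x).1 h))]
  have hdl : dl p (P.subtype hle : Subgroup H) (univ : Finset O) = dl p (P : Subgroup G) O := by
    unfold dl
    rw [sum_congr rfl fun x _ => hwt x]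
    exact sum_coe_sort O _
  have hf : (fx (P.subtype hle : Subgroup H) (univ : Finset O)).card = (fx (P : Subgroup G) O).card := by
    rw [← card_map (Function.Embedding.subtype _)]
    congr 1
    ext y
    simp only [mem_map, mem_fx, mem_univ, true_and, Function.Embedding.coe_subtype]
    exact ⟨fun ⟨x, h1, h2⟩ => h2 ▸ ⟨x.2, (hfx x).1 h1⟩, fun h1 => ⟨⟨y, h1.1⟩, (hfx _).2 h1.2, rfl⟩⟩
  have hv : (mv (P.subtype hle : Subgroup H) (univ : Finset O)).card = (mv (P : Subgroup G) O).card := by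
    have h1 := card_fx_mv (P.subtype hle : Subgroup H) (univ : Finset O)
    have h2 := card_fx_mv (P : Subgroup G) O
    rw [card_univ, Fintype.card_coe, hf] at h1
    omega
  obtain ⟨x, hx, hx'⟩ := hm
  have R := h H O (P.subtype hle) (by rw [Fintype.card_coe, e])
    ⟨fun _ _ _ _ => mem_univ _, fun a _ b _ => by
      obtain ⟨g, hg, e⟩ := hO.tr a a.2 b b.2
      exact ⟨⟨g, hg⟩, trivial, Subtype.ext e⟩⟩
    ⟨⟨x, hx⟩, mem_univ _, fun h1 => hx' ((hfx _).1 h1)⟩
  refine ⟨hdl ▸ R.1, fun hpr => ?_⟩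
  rw [← hdl, ← hf, ← hv]
  refine R.2 fun B _ hB => ?_
  rcases hpr (B.map (Function.Embedding.subtype _)) (fun y hy => by
      obtain ⟨z, -, rfl⟩ := mem_map.1 hy
      exact z.2) (fun g hg y hy hy' z hz => by
      obtain ⟨y1, hy1, rfl⟩ := mem_map.1 hy
      obtain ⟨y2, hy2, e2⟩ := mem_map.1 hy'
      obtain ⟨z1, hz1, rfl⟩ := mem_map.1 hz
      have e3 : (⟨g, hg⟩ : H) • y1 = y2 := Subtype.ext e2.symm
      exact mem_map.2 ⟨_, hB ⟨g, hg⟩ trivial y1 hy1 (e3 ▸ hy2) z1 hz1, rfl⟩) with h1 | h1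
  · left; rwa [card_map] at h1
  · right
    refine eq_univ_of_card B ?_
    rw [Fintype.card_coe, ← card_map (Function.Embedding.subtype _), h1]

theorem core_of (hT : ∀ n, TT p n) : H9.SyR.Core p := by
  intro G _ _ Ω _ _ _ g hg h2 htr hm
  classical
  have hz : IsPGroup p (Subgroup.zpowers g) := IsPGroup.of_card (n := 1) (by
    rw [Nat.card_zpowers, hg, pow_one])
  obtain ⟨P, hP⟩ := hz.exists_le_sylow
  have hc : Nat.card (P : Subgroup G) = p := by
    obtain ⟨k, hk⟩ := IsPGroup.iff_card.1 P.isPGroup'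
    have h1 := Subgroup.card_dvd_of_le hP
    have h3 := Subgroup.card_subgroup_dvd_card (P : Subgroup G)
    rw [Nat.card_zpowers, hg, hk] at h1
    rw [hk] at h3 ⊢
    rcases k with _ | _ | k
    · exact absurd (Nat.dvd_one.1 h1) hp.out.ne_one
    · simp
    · exact absurd ((pow_dvd_pow p (by omega)).trans h3) h2
  have e : Subgroup.zpowers g = (P : Subgroup G) :=
    Subgroup.eq_of_le_of_card_ge hP (by rw [hc, Nat.card_zpowers, hg])
  have hfx : ∀ x : Ω, Fx (P : Subgroup G) x ↔ g • x = x := fun x =>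
    ⟨fun h => h g (hP (Subgroup.mem_zpowers g)), fun h k hk => by
      rw [← e] at hk
      exact (Subgroup.zpowers_le.2 (MulAction.mem_stabilizer_iff.2 h) hk : k ∈ MulAction.stabilizer G x)⟩
  obtain ⟨x, hx⟩ := hm
  have R := (hT (Fintype.card Ω + 1) G Ω P ⊤ univ le_top ⟨fun _ _ _ _ => mem_univ _, fun a _ b _ => by
    obtain ⟨h, e⟩ := htr a b
    exact ⟨h, trivial, e⟩⟩ (Nat.lt_succ_self _) ⟨x, mem_univ _, fun h => hx ((hfx x).1 h)⟩).1
  rw [dl_eq fun y _ hy => le_antisymm ?_ (Nat.le_of_dvd (card_pos.2 ⟨y, self_mem_orb _ y⟩)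
    (dvd_card_orb hy))] at R
  · have h1 := card_fx_mv (P : Subgroup G) (univ : Finset Ω)
    have h3 : (univ.filter fun x : Ω => g • x = x) = fx (P : Subgroup G) univ := by
      ext y; simp [hfx]
    rw [h3, ← card_univ, ← h1]
    have h4 := St.p_pos (p := p)
    rw [sub_nonneg, mul_div_assoc', le_div_iff₀ h4] at R
    have h5 := hp.out.pos
    have h6 : ((2 * p - 1 : ℕ) : ℚ) = 2 * p - 1 := by
      rw [Nat.cast_sub (by omega)]; simp
    have h7 : ((p - 1 : ℕ) : ℚ) = p - 1 := by rw [Nat.cast_sub h5]; simp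
    rw [← Nat.cast_le (α := ℚ)]
    push_cast [h6, h7]
    linarith
  · haveI : Fintype (P : Subgroup G) := Fintype.ofFinite _
    have h1 : orb (P : Subgroup G) y ⊆ univ.image fun k : (P : Subgroup G) => (k : G) • y := fun z hz => by
      obtain ⟨k, hk, rfl⟩ := mem_orb.1 hz
      exact mem_image.2 ⟨⟨k, hk⟩, mem_univ _, rfl⟩
    refine (card_le_card h1).trans (card_image_le.trans ?_)
    rw [card_univ, ← Nat.card_eq_fintype_card, hc]

theorem final' (hT : ∀ n, TT p n) {G Ω : Type*} [Group G] [Finite G] [MulAction G Ω] [FaithfulSMul G Ω]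
    [Finite Ω] (htrans : MulAction.IsPretransitive G Ω) (hpG : p ∣ Nat.card G) (P : Sylow p G) :
    (2 * p - 1) * Nat.card (MulAction.orbitRel.Quotient ↥(P : Subgroup G) Ω) ≤ p * Nat.card Ω :=
  H9.SyR.red htrans p (core_of hT) hpG P

/-- S3580 from the impossibility of the geometric configuration -/
theorem tt_of (hp2 : p ≠ 2)
    (hG : ∀ (G : Type) [Group G] [Finite G] (Ω : Type) [Fintype Ω] [DecidableEq Ω] [MulAction G Ω]
      (P : Sylow p G), ¬ Geo p (P : Subgroup G) Ω) (n : ℕ) : TT p n := by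
  induction n with
  | zero => intro G _ _ Ω _ _ _ P H O _ _ h; omega
  | succ n ih =>
    exact transfer' ih fun G _ _ Ω _ _ _ P h1 h2 h3 => step_univ hp2 ih h1 h2 h3 (hG G Ω P)

end Cfsg.Agent.L0.Sy
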