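import Mathlib
import Cfsg.Agent.H2.SzCent
import Cfsg.Agent.H2.SzLie
import Cfsg.Agent.H6.Basic

set_option autoImplicit false

namespace Cfsg.Agent.H2

open Projectivization Matrix

section
variable {F : Type*} [Field F] (m : ℕ) [Fintype F] [hF : SzField F m]
include hF

theorem fpf_of_odd_prime {g : Sz F m} {r : ℕ} (hr : r.Prime) (hr2 : r ≠ 2) (hg : orderOf g = r)
    {v : Fin 4 → F} (hv : mat m g *ᵥ v = v) : v = 0 := by
  have hg1 : g ≠ 1 := by
    rintro rfl; rw [orderOf_one] at hg; exact hr.one_lt.ne hg
  rcases conj_cases m g with h1 | ⟨k, a, b, h1⟩ | ⟨k, t, ht, h1⟩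
  · refine no_fixed_vector hr hr2 (prime_dvd_of_Der m h1 hr hg) (mat m g) ?_ ?_ v hv
    · rw [← mat_pow, ← hg, pow_orderOf_eq_one, mat_one]
    · exact fun h => hg1 (mat_injective m h)
  · exfalso
    have h4 : g ^ 4 = 1 := by
      have := T_pow_four m a b
      rw [← h1, conj_pow] at this
      simpa using this
    have : r ∣ 2 ^ 2 := hg ▸ orderOf_dvd_of_pow_eq_one h4
    exact hr2 ((Nat.prime_dvd_prime_iff_eq hr Nat.prime_two).1 (hr.dvd_of_dvd_pow this))
  · have h2 : mat m (D m t) *ᵥ (mat m k *ᵥ v) = mat m k *ᵥ v := by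
      rw [← h1, Matrix.mulVec_mulVec, ← mat_mul, inv_mul_cancel_right, mat_mul,
        ← Matrix.mulVec_mulVec, hv]
    have h3 : mat m k *ᵥ v = 0 := by
      generalize mat m k *ᵥ v = w at h2
      have ht0 := t.ne_zero
      have ht1 : (t : F) ≠ 1 := fun h => ht (Units.ext h)
      have ht2 : (t : F) * th m (t : F) ≠ 1 := fun h => ht1 (eq_one_of_mul_th m h)
      have e0 := congrFun h2 0
      have e1 := congrFun h2 1
      have e2 := congrFun h2 2
      have e3 := congrFun h2 3
      simp only [mat_D, Matrix.mulVec, dotProduct, Fin.sum_univ_four, of_apply, cons_val',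
        cons_val_zero, cons_val_one, cons_val, cons_val_fin_one, zero_mul, add_zero, zero_add]
        at e0 e1 e2 e3
      ext i
      fin_cases i
      · by_contra h; exact ht2 (mul_right_cancel₀ h (e0.trans (one_mul _).symm))
      · by_contra h; exact ht1 (mul_right_cancel₀ h (e1.trans (one_mul _).symm))
      · by_contra h
        exact ht1 (inv_eq_one.1 (mul_right_cancel₀ h (e2.trans (one_mul _).symm)))
      · by_contra h
        exact ht2 (inv_eq_one.1 (mul_right_cancel₀ h (e3.trans (one_mul _).symm)))
    by_contra h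
    exact (smul_ne_zero_iff_ne (k : SpecialLinearGroup (Fin 4) F)).mpr h h3

omit [Fintype F] hF in
variable (F) in
/-- The action on the natural module, multiplicatively. -/
def natAct : Sz F m →* MulAut (Multiplicative (Fin 4 → F)) where
  toFun g := AddEquiv.toMultiplicative (DistribMulAction.toAddEquiv (Fin 4 → F) g)
  map_one' := by ext v; simp
  map_mul' g h := by ext v; simp [mul_smul]

omit [Fintype F] hF in
theorem natAct_apply (g : Sz F m) (v : Multiplicative (Fin 4 → F)) :
    (natAct F m g v).toAdd = mat m g *ᵥ v.toAdd := rfl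

theorem exists_large_same_prime_graph (N : ℕ) :
    ∃ (H : Type) (_ : Group H) (_ : Finite H), N < Nat.card H ∧
      ((∀ p : ℕ, p.Prime → (p ∣ Nat.card (Sz F m) ↔ p ∣ Nat.card H)) ∧
      (∀ p q : ℕ, p.Prime → q.Prime → p ≠ q →
        ((∃ g : Sz F m, orderOf g = p * q) ↔ (∃ g : H, orderOf g = p * q)))) := by
  let G := Multiplicative (Fin 4 → F) ⋊[natAct F m] Sz F m
  have : Finite G := Finite.of_equiv _ SemidirectProduct.equivProd.symm
  let π : G →* Sz F m := SemidirectProduct.rightHom
  have hker : ∀ x : G, π x = 1 → ∃ v, x = SemidirectProduct.inl v := by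
    intro x hx
    have : x ∈ (SemidirectProduct.inl : _ →* G).range := by
      rw [SemidirectProduct.range_inl_eq_ker_rightHom]; exact hx
    obtain ⟨v, hv⟩ := this
    exact ⟨v, hv.symm⟩
  have hk : ∀ x : G, π x = 1 → x ^ 2 = 1 := by
    intro x hx
    obtain ⟨v, rfl⟩ := hker x hx
    rw [← map_pow]
    have : v ^ 2 = 1 := by
      apply Multiplicative.toAdd.injective
      ext i
      simp [two_eq_zero F m]
    rw [this, map_one]
  have hsub : Set.range (orderOf : Sz F m → ℕ) ⊆ Set.range (orderOf : G → ℕ) :=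
    H6.spec_subset_of_injective SemidirectProduct.inr SemidirectProduct.inr_injective
  have h2 : 2 ∈ Set.range (orderOf : Sz F m → ℕ) :=
    ⟨T m 0 1, orderOf_eq_prime (by rw [T_sq]; simp) (by simp [T_eq_one])⟩
  apply H6.primeGraph_large_of (G := G)
  · intro N
    refine H6.exists_large_isospectral_of_ker π Nat.prime_two hk
      (x := SemidirectProduct.inl (Multiplicative.ofAdd 1)) (SemidirectProduct.rightHom_inl _) ?_ N
    intro h
    have := SemidirectProduct.inl_injective (h.trans (map_one _).symm)
    have := congrFun (congrArg Multiplicative.toAdd this) 0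
    simp at this
  · intro p hp
    refine ⟨fun h => hsub h, ?_⟩
    rintro ⟨g, hg⟩
    rcases H6.orderOf_eq_or_of_ker_exp π Nat.prime_two hk g with h | h
    · exact ⟨π g, h ▸ hg⟩
    · have : 2 ∣ p := by rw [← hg, h]; exact Dvd.intro_left _ rfl
      rw [(Nat.prime_dvd_prime_iff_eq Nat.prime_two hp)] at this
      exact this ▸ h2
  · intro p q hp hq hpq
    refine ⟨fun h => hsub h, ?_⟩
    rintro ⟨g, hg⟩
    rcases H6.orderOf_eq_or_of_ker_exp π Nat.prime_two hk g with h | h
    · exact ⟨π g, h ▸ hg⟩
    · exfalso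
      obtain ⟨r, hr, hr2, hgr⟩ : ∃ r, r.Prime ∧ r ≠ 2 ∧ orderOf (π g) = r := by
        have : 2 ∣ p * q := by rw [← hg, h]; exact Dvd.intro_left _ rfl
        rcases (Nat.Prime.dvd_mul Nat.prime_two).1 this with h3 | h3
        · rw [(Nat.prime_dvd_prime_iff_eq Nat.prime_two hp)] at h3
          subst h3
          exact ⟨q, hq, hpq.symm, by omega⟩
        · rw [(Nat.prime_dvd_prime_iff_eq Nat.prime_two hq)] at h3
          subst h3
          exact ⟨p, hp, hpq, by omega⟩
      obtain ⟨v, hv⟩ := hker (g ^ r) (by rw [map_pow, ← hgr, pow_orderOf_eq_one])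
      have h3 : g * SemidirectProduct.inl v = SemidirectProduct.inl v * g := by
        rw [← hv]; exact (Commute.self_pow g r).eq
      have h4 : natAct F m g.right v = v := by
        have : g.left * natAct F m g.right v = v * natAct F m 1 g.left :=
          congrArg SemidirectProduct.left h3
        rw [map_one, MulAut.one_apply, mul_comm v] at this
        exact mul_left_cancel this
      have h5 : v.toAdd = 0 :=
        fpf_of_odd_prime m hr hr2 hgr (by rw [← natAct_apply]; exact congrArg _ h4)
      have h6 : g ^ r = 1 := by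
        rw [hv, show v = 1 from h5, map_one]
      have h7 := orderOf_dvd_of_pow_eq_one h6
      rw [h, hgr] at h7
      have := Nat.le_of_dvd hr.pos h7
      have := hr.pos
      omega

end

end Cfsg.Agent.H2
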