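import Mathlib
import Cfsg.Agent.H2.SzExc
import Cfsg.Agent.H2.SzLie

set_option autoImplicit false

namespace Cfsg.Agent.H2

open Projectivization Matrix MulAction

theorem index_le_two_of_fixity {G Ω : Type*} [Group G] [MulAction G Ω] [Finite Ω] {x : G}
    (hx : Nat.card (fixedBy Ω x) ≤ 2) (K : Subgroup G) (α : Ω)
    (h : ∀ k ∈ K, x • k • α = k • α) : ((stabilizer G α).subgroupOf K).index ≤ 2 := by
  have e : (stabilizer G α).subgroupOf K = stabilizer K α := rfl
  rw [e, index_stabilizer]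
  refine le_trans (Set.ncard_le_ncard (t := fixedBy Ω x) ?_) hx
  rintro _ ⟨k, rfl⟩
  exact h k k.2

theorem sq_mem_of_fixity {G Ω : Type*} [Group G] [MulAction G Ω] [Finite Ω] [Finite G] {x : G}
    (hx : Nat.card (fixedBy Ω x) ≤ 2) (K : Subgroup G) (α : Ω)
    (h : ∀ k ∈ K, x • k • α = k • α) {k : G} (hk : k ∈ K) : k ^ 2 ∈ stabilizer G α := by
  have h1 := index_le_two_of_fixity hx K α h
  have h0 : ((stabilizer G α).subgroupOf K).index ≠ 0 := Subgroup.index_ne_zero_of_finite
  have : (⟨k, hk⟩ : K) ^ 2 ∈ (stabilizer G α).subgroupOf K := by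
    rcases (by omega : ((stabilizer G α).subgroupOf K).index = 1 ∨
      ((stabilizer G α).subgroupOf K).index = 2) with h2 | h2
    · rw [Subgroup.index_eq_one] at h2
      rw [h2]; trivial
    · exact Subgroup.sq_mem_of_index_two h2 _
  exact this

theorem mem_of_sq_mem_of_odd {G : Type*} [Group G] {H : Subgroup G} {k : G} (ho : Odd (orderOf k))
    (h : k ^ 2 ∈ H) : k ∈ H := by
  obtain ⟨n, hn⟩ := ho
  have : k = (k ^ 2) ^ (n + 1) := by
    rw [← pow_mul, show 2 * (n + 1) = orderOf k + 1 by omega, pow_succ, pow_orderOf_eq_one, one_mul]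
  rw [this]
  exact H.pow_mem h _

section
variable {F : Type*} [Field F] (m : ℕ) [Fintype F] [hF : SzField F m]
variable {Ω : Type*} [Finite Ω] [MulAction (Sz F m) Ω]
include hF

theorem Bor_le_of_involution (hfix : ∀ g : Sz F m, g ≠ 1 → Nat.card (fixedBy Ω g) ≤ 2) (α : Ω)
    {b : F} (hb : b ≠ 0) (h : T m 0 b • α = α) : Bor F m ≤ stabilizer (Sz F m) α := by
  have h1 : T m 0 b ≠ 1 := by simp [T_eq_one, hb]
  have hZ : ∀ c, T m 0 c ∈ stabilizer (Sz F m) α := by
    intro c
    obtain ⟨a, rfl⟩ := mul_th_surjective m c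
    simp only
    rw [← T_sq m a 0]
    apply sq_mem_of_fixity (hfix _ h1) (Uni F m) α _ (T_mem_Uni m a 0)
    rintro _ ⟨c, d, rfl⟩
    rw [← mul_smul, (T_commute_iff m _ _ _ _).2 (by simp), mul_smul, h]
  have hB : ∀ k ∈ Bor F m, k ^ 2 ∈ stabilizer (Sz F m) α := by
    intro k hk
    apply sq_mem_of_fixity (hfix _ h1) (Bor F m) α _ hk
    intro k hk
    obtain ⟨c, d, t, rfl⟩ := (mem_Bor_iff m k).1 hk
    have : T m 0 b * D m t = D m t * T m 0 (b / (t ^ 2 * th m (t : F))) := by
      have h1 := t.ne_zero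
      have h2 := th_ne_zero m h1
      rw [D_mul_T]; congr 2
      · simp
      · field_simp
    rw [← mul_smul, ← mul_assoc, (T_commute_iff m _ _ _ _).2 (by simp), mul_assoc, this,
      ← mul_assoc, mul_smul, hZ]
  have hD : ∀ s, D m s ∈ stabilizer (Sz F m) α := by
    intro s
    obtain ⟨r, hr⟩ := sq_surjective m (s : F)
    simp only at hr
    have hr0 : r ≠ 0 := by
      rintro rfl
      exact s.ne_zero (by rw [← hr]; simp)
    have := hB _ (D_mem_Bor m (Units.mk0 r hr0))
    rw [sq, D_mul_D] at this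
    convert this using 2
    ext; simp [← hr, sq]
  have hT : ∀ a c, T m a c ∈ stabilizer (Sz F m) α := by
    intro a c
    obtain ⟨x, hx0, hx1⟩ := exists_ne_zero_ne_one F m
    let t : Fˣ := Units.mk0 x hx0
    have h1 : 1 + th m x ≠ 0 := by
      rw [Ne, add_eq_zero_iff' m]
      exact fun h => hx1 (eq_one_of_th m h.symm)
    have h2 := hB _ ((Bor F m).mul_mem (T_mem_Bor m (a / (1 + th m x)) 0) (D_mem_Bor m t))
    rw [sq, TD_mul_TD] at h2
    have h3 := (Subgroup.mul_mem_cancel_right _ (hD _)).1 h2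
    have e : a / (1 + th m x) + th m (t : F) * (a / (1 + th m x)) = a := by
      simp [t]; field_simp
    rw [e] at h3
    generalize 0 + (t : F) ^ 2 * th m (t : F) * 0 +
      th m (a / (1 + th m x)) * (th m (t : F) * (a / (1 + th m x))) = d at h3
    have h4 := (stabilizer (Sz F m) α).mul_mem (hZ (c + d)) h3
    rw [T_mul_T] at h4
    have h0 := two_eq_zero F m
    convert h4 using 2
    · simp
    · simp only [th_zero]; grind
  intro k hk
  obtain ⟨c, d, t, rfl⟩ := (mem_Bor_iff m k).1 hk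
  exact (stabilizer (Sz F m) α).mul_mem (hT _ _) (hD _)

theorem eq_Bor_or_top {H : Subgroup (Sz F m)} (h : Bor F m ≤ H) : H = Bor F m ∨ H = ⊤ := by
  by_cases h1 : H ≤ Bor F m
  · exact Or.inl (le_antisymm h1 h)
  right
  obtain ⟨g, hg, hg'⟩ := SetLike.not_le_iff_exists.1 h1
  apply eq_top_of_gens m H (fun a b => h (T_mem_Bor m a b)) (fun t => h (D_mem_Bor m t))
  rcases bruhat m g with h2 | ⟨c, d, a, b, t, rfl⟩
  · exact absurd ((mem_Bor_iff m g).2 h2) hg'
  · rwa [H.mul_mem_cancel_right (h ((mem_Bor_iff m _).2 ⟨_, _, _, rfl⟩)),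
      H.mul_mem_cancel_left (h (T_mem_Bor m c d))] at hg

theorem two_trans_of_stab [IsPretransitive (Sz F m) Ω] {α : Ω}
    (h : stabilizer (Sz F m) α = Bor F m) : IsMultiplyPretransitive (Sz F m) Ω 2 := by
  have key : ∀ a b : Ω, a ≠ b → ∃ g : Sz F m, g • a = α ∧ g • b = W F m • α := by
    intro a b hab
    obtain ⟨g, hg⟩ := exists_smul_eq (Sz F m) a α
    obtain ⟨k, hk⟩ := exists_smul_eq (Sz F m) α (g • b)
    have hB : ∀ x ∈ Bor F m, x • α = α := fun x hx => by rw [← h] at hx; exact hx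
    rcases bruhat m k with h2 | ⟨c, d, a', b', t, rfl⟩
    · rw [hB _ ((mem_Bor_iff m k).2 h2), ← hg] at hk
      exact absurd (MulAction.injective g hk) hab
    · refine ⟨(T m c d)⁻¹ * g, ?_, ?_⟩
      · rw [mul_smul, hg, inv_smul_eq_iff, hB _ (T_mem_Bor m c d)]
      · rw [mul_smul, ← hk, inv_smul_eq_iff, mul_smul,
          hB _ ((mem_Bor_iff m _).2 ⟨_, _, _, rfl⟩), mul_smul]
  rw [MulAction.is_two_pretransitive_iff]
  intro a b c d hab hcd
  obtain ⟨g, h1, h2⟩ := key a b hab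
  obtain ⟨g', h3, h4⟩ := key c d hcd
  exact ⟨g'⁻¹ * g, by rw [mul_smul, h1, inv_smul_eq_iff, h3],
    by rw [mul_smul, h2, inv_smul_eq_iff, h4]⟩

theorem exists_conj_of_involution {g : Sz F m} (hg : orderOf g = 2) :
    ∃ k b, b ≠ 0 ∧ k * g * k⁻¹ = T m 0 b := by
  have hg1 : g ≠ 1 := by rintro rfl; simp at hg
  rcases conj_cases m g with h1 | ⟨k, a, b, h1⟩ | ⟨k, t, ht, h1⟩
  · exact absurd rfl (ne_two_of_dvd m (prime_dvd_of_Der m h1 Nat.prime_two hg))
  · have h2 : T m a b ^ 2 = 1 := by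
      rw [← h1, conj_pow, ← hg, pow_orderOf_eq_one]; simp
    rw [T_sq, T_eq_one] at h2
    have ha : a = 0 := by simpa using h2.2
    subst ha
    refine ⟨k, b, ?_, h1⟩
    rintro rfl
    rw [T_zero] at h1
    exact hg1 (by simpa using h1)
  · exfalso
    have h2 : D m t ^ 2 = 1 := by
      rw [← h1, conj_pow, ← hg, pow_orderOf_eq_one]; simp
    rw [sq, D_mul_D, D_eq_one] at h2
    apply ht
    apply Units.ext
    apply eq_one_of_sq m
    rw [sq, ← Units.val_mul, h2, Units.val_one]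

theorem odd_of_dvd_sq_add_one {n : ℕ} (h : n ∣ Fintype.card F ^ 2 + 1) : Odd n :=
  Odd.of_dvd_nat ((even_card F m).pow_of_ne_zero two_ne_zero).add_one h

theorem even_stab_of_Der (hfix : ∀ g : Sz F m, g ≠ 1 → Nat.card (fixedBy Ω g) ≤ 2) (α : Ω)
    {x : Sz F m} (hx : Der m x) (h : x • α = α) : 2 ∣ Nat.card (stabilizer (Sz F m) α) := by
  have hA : Cen m x ≤ stabilizer (Sz F m) α := by
    intro k hk
    apply mem_of_sq_mem_of_odd (odd_of_dvd_sq_add_one m
      ((Subgroup.orderOf_dvd_natCard _ hk).trans (card_cent_dvd m hx)))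
    apply sq_mem_of_fixity (hfix _ (hx.ne_one m)) (Cen m x) α _ hk
    intro k hk
    rw [← mul_smul, ← (mem_Cen m).1 hk, mul_smul, h]
  obtain ⟨y, hy, hN, g, hg⟩ : ∃ y, Der m y ∧
      Nat.card (Subgroup.normalizer (Cen m y : Set (Sz F m))) = 4 * Nat.card (Cen m y) ∧
      ∃ g, g * x * g⁻¹ ∈ Cen m y := by
    obtain ⟨y, z, hy, hz, -, -, h3, h4, h5⟩ := exists_two_classes (F := F) m
    rcases h5 x hx with h6 | h6
    · exact ⟨y, hy, h3, h6.2⟩
    · exact ⟨z, hz, h4, h6.2⟩
  have e := Cen_eq m hy _ hg (by simpa using hx.ne_one m)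
  set N := Subgroup.normalizer (Cen m y : Set (Sz F m))
  have h1 := index_le_two_of_fixity (hfix _ (hx.conj m g).ne_one) N (g • α) (by
    intro k hk
    have h2 : k⁻¹ * (g * x * g⁻¹) * k⁻¹⁻¹ ∈ Cen m y :=
      (Subgroup.mem_set_normalizer_iff.1 (N.inv_mem hk) _).1 hg
    rw [← e] at h2
    have h3 : g⁻¹ * (k⁻¹ * (g * x * g⁻¹) * k⁻¹⁻¹) * g ∈ Cen m x := by
      rw [← conj_mem_centralizer_iff g]
      convert h2 using 1
      group
    have h4 : (g⁻¹ * (k⁻¹ * (g * x * g⁻¹) * k⁻¹⁻¹) * g) • α = α := hA h3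
    rw [mul_smul, mul_smul, inv_smul_eq_iff, mul_smul, mul_smul, inv_smul_eq_iff, inv_inv] at h4
    exact h4)
  have h2 := ((stabilizer (Sz F m) (g • α)).subgroupOf N).card_mul_index
  have h0 : ((stabilizer (Sz F m) (g • α)).subgroupOf N).index ≠ 0 :=
    Subgroup.index_ne_zero_of_finite
  have h3 : 2 ∣ Nat.card ((stabilizer (Sz F m) (g • α)).subgroupOf N) := by
    rw [hN] at h2
    rcases (by omega : ((stabilizer (Sz F m) (g • α)).subgroupOf N).index = 1 ∨
      ((stabilizer (Sz F m) (g • α)).subgroupOf N).index = 2) with h3 | h3 <;>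
    rw [h3] at h2 <;> omega
  have h4 : Nat.card (stabilizer (Sz F m) (g • α)) = Nat.card (stabilizer (Sz F m) α) :=
    Nat.card_congr (stabilizerEquivStabilizer (g := g) rfl).symm.toEquiv
  rw [← h4]
  refine h3.trans ?_
  rw [← Subgroup.inf_subgroupOf_right,
    Nat.card_congr (Subgroup.subgroupOfEquivOfLe inf_le_right).toEquiv]
  exact Subgroup.card_dvd_of_le inf_le_left

theorem fixity_two [IsPretransitive (Sz F m) Ω]
    (hfix : ∀ g : Sz F m, g ≠ 1 → Nat.card (fixedBy Ω g) ≤ 2)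
    (hex : ∃ g : Sz F m, g ≠ 1 ∧ Nat.card (fixedBy Ω g) = 2) :
    (Nat.card Ω = Fintype.card F ^ 2 + 1 ∧ IsMultiplyPretransitive (Sz F m) Ω 2) ∨
    (Nat.card Ω = Fintype.card F ^ 2 * (Fintype.card F ^ 2 + 1) ∧
      ∀ α : Ω, Nat.card (stabilizer (Sz F m) α) = Fintype.card F - 1) := by
  obtain ⟨g, hg1, hg⟩ := hex
  have hcard : ∀ α β : Ω, Nat.card (stabilizer (Sz F m) α) = Nat.card (stabilizer (Sz F m) β) := by
    intro α β
    obtain ⟨k, rfl⟩ := exists_smul_eq (Sz F m) β α
    exact Nat.card_congr (stabilizerEquivStabilizer (g := k) rfl).symm.toEquiv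
  have hne : Nonempty (fixedBy Ω g) := (Nat.card_ne_zero.1 (by omega)).1
  obtain ⟨⟨α, hα⟩⟩ := hne
  rw [mem_fixedBy] at hα
  have hconj : ∀ (k x : Sz F m) (β : Ω), x • β = β → (k * x * k⁻¹) • k • β = k • β := by
    intro k x β h
    rw [mul_smul, mul_smul, inv_smul_smul, h]
  by_cases h2 : 2 ∣ Nat.card (stabilizer (Sz F m) α)
  · left
    obtain ⟨⟨t, ht⟩, ht2⟩ := exists_prime_orderOf_dvd_card' 2 h2
    rw [Subgroup.orderOf_mk] at ht2
    obtain ⟨k, b, hb, h3⟩ := exists_conj_of_involution m ht2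
    rcases eq_Bor_or_top m (Bor_le_of_involution m hfix (k • α) hb
      (by rw [← h3]; exact hconj k t α ht)) with h4 | h4
    · refine ⟨?_, two_trans_of_stab m h4⟩
      rw [← index_stabilizer_of_transitive (Sz F m) (k • α), h4, index_Bor]
    · exfalso
      have h5 := index_stabilizer_of_transitive (Sz F m) (k • α)
      rw [h4, Subgroup.index_top] at h5
      have : Nat.card (fixedBy Ω g) ≤ Nat.card Ω :=
        Nat.card_le_card_of_injective (Subtype.val : fixedBy Ω g → Ω) Subtype.val_injective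
      omega
  · right
    have hD : ∀ (β : Ω) (x : Sz F m), x ≠ 1 → x • β = β → ∃ k t, t ≠ 1 ∧ k * x * k⁻¹ = D m t := by
      intro β x hx1 hx
      rcases conj_cases m x with h1 | ⟨k, a, b, h1⟩ | h1
      · exact absurd (hcard β α ▸ even_stab_of_Der m hfix β h1 hx) h2
      · exfalso
        apply h2
        have h4 : x ^ 4 = 1 := by
          have := T_pow_four m a b
          rw [← h1, conj_pow] at this
          simpa using this
        have h5 : orderOf x ∣ 2 ^ 2 := orderOf_dvd_of_pow_eq_one h4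
        obtain ⟨i, hi, h6⟩ := (Nat.dvd_prime_pow Nat.prime_two).1 h5
        have h7 := Subgroup.orderOf_dvd_natCard (stabilizer (Sz F m) β) hx
        rw [hcard β α] at h7
        refine Dvd.dvd.trans ?_ h7
        rw [h6]
        apply dvd_pow_self
        rintro rfl
        exact hx1 (orderOf_eq_one_iff.1 h6)
      · exact h1
    have hodd : Odd (Fintype.card F - 1) :=
      Nat.Even.sub_odd Fintype.card_pos (even_card F m) odd_one
    obtain ⟨k, t, ht, h3⟩ := hD α g hg1 hα
    have h4 : D m t • k • α = k • α := by rw [← h3]; exact hconj k g α hα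
    have hT : Tor F m ≤ stabilizer (Sz F m) (k • α) := by
      intro s hs
      apply mem_of_sq_mem_of_odd (Odd.of_dvd_nat hodd
        (card_Tor (F := F) m ▸ Subgroup.orderOf_dvd_natCard _ hs))
      apply sq_mem_of_fixity (hfix (D m t) (by rwa [Ne, D_eq_one])) (Tor F m) (k • α) _ hs
      rintro _ ⟨r, rfl⟩
      rw [Dhom_apply, ← mul_smul, D_mul_D, mul_comm, ← D_mul_D, mul_smul, h4]
    have h5 : Nat.card (stabilizer (Sz F m) (k • α)) = Fintype.card F - 1 := by
      apply Nat.dvd_antisymm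
      · have h6 := Subgroup.card_subgroup_dvd_card (stabilizer (Sz F m) (k • α))
        rw [card_Sz] at h6
        refine Nat.Coprime.dvd_of_dvd_mul_left ?_ h6
        rw [Nat.coprime_iff_gcd_eq_one]
        by_contra h7
        obtain ⟨p, hp, hd⟩ := Nat.exists_prime_and_dvd h7
        have := Fact.mk hp
        obtain ⟨⟨x, hx⟩, hx2⟩ := exists_prime_orderOf_dvd_card' p (hd.trans (Nat.gcd_dvd_left _ _))
        rw [Subgroup.orderOf_mk] at hx2
        have hx1 : x ≠ 1 := by rintro rfl; rw [orderOf_one] at hx2; exact hp.one_lt.ne hx2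
        obtain ⟨l, s, -, h8⟩ := hD _ x hx1 hx
        have h9 : p ∣ Fintype.card F - 1 := by
          rw [← card_Tor (F := F) m, ← hx2, ← MulEquiv.orderOf_eq (MulAut.conj l), MulAut.conj_apply,
            h8]
          exact Subgroup.orderOf_dvd_natCard _ ⟨s, rfl⟩
        rcases (Nat.Prime.dvd_mul hp).1 (hd.trans (Nat.gcd_dvd_right _ _)) with h | h
        · have h10 := hp.dvd_of_dvd_pow h
          have := (Nat.dvd_sub_iff_right Fintype.card_pos h10).1 h9
          exact hp.one_lt.ne' (Nat.dvd_one.1 this)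
        · exact hp.one_lt.ne' (Nat.eq_one_of_dvd_coprimes (coprime_Bor m) h (h9.mul_left _))
      · rw [← card_Tor (F := F) m]; exact Subgroup.card_dvd_of_le hT
    refine ⟨?_, fun β => (hcard β _).trans h5⟩
    have h6 := (stabilizer (Sz F m) (k • α)).card_mul_index
    rw [index_stabilizer_of_transitive, h5, card_Sz, mul_comm] at h6
    have h8 := eight_le_card F m
    exact Nat.eq_of_mul_eq_mul_right (by omega) h6

end

end Cfsg.Agent.H2
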